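import Mathlib

set_option autoImplicit false
set_option linter.style.haveILetI false

namespace Cfsg.Agent.H73.A44

abbrev A := ↥(alternatingGroup (Fin 4))
set_option maxRecDepth 100000 in
theorem D1 : ∀ x : A, x ^ 2 = 1 ∨ x ^ 3 = 1 := by decide +kernel
set_option maxRecDepth 100000 in
theorem D3 : ∀ c v : A, c ≠ 1 → c ^ 3 = 1 → v ≠ 1 → v * v = 1 → c * v * c⁻¹ ≠ v := by decide +kernel
set_option maxRecDepth 100000 in
theorem D4 : ∀ c v : A, c ≠ 1 → c ^ 3 = 1 → v ≠ 1 → v * v = 1 → c * (c * v * c⁻¹) * c⁻¹ = v * (c * v * c⁻¹) := by decide +kernel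
set_option maxRecDepth 100000 in
set_option synthInstance.maxHeartbeats 200000 in
set_option synthInstance.maxSize 1000 in
theorem D5 : ∀ c v w : A, (c ≠ 1 ∧ c ^ 3 = 1 ∧ v ≠ 1 ∧ v * v = 1 ∧ w * w = 1) → (w = 1 ∨ w = v ∨ w = c * v * c⁻¹ ∨ w = v * (c * v * c⁻¹)) := by decide +kernel
set_option maxRecDepth 100000 in
theorem D6 : Nat.card A = 12 := by
  rw [Nat.card_eq_fintype_card]; decide +kernel
set_option maxRecDepth 100000 in
theorem D7 : Nat.card {x : A // x * x = 1} = 4 := by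
  rw [Nat.card_eq_fintype_card]; decide +kernel

theorem three_grp (T : Subgroup A) (hT : IsPGroup 3 T) : Nat.card T ≤ 3 := by
  haveI : Fact (Nat.Prime 3) := ⟨Nat.prime_three⟩
  obtain ⟨n, hn⟩ := IsPGroup.iff_card.mp hT
  have h1 : Nat.card T ∣ 12 := by rw [← D6]; exact Subgroup.card_subgroup_dvd_card T
  rw [hn] at h1
  have h2 : n ≤ 1 := by
    by_contra h
    push Not at h
    have h9 : 3 ^ 2 ∣ 3 ^ n := pow_dvd_pow 3 h
    have := h9.trans h1
    omega
  rw [hn]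
  calc 3 ^ n ≤ 3 ^ 1 := Nat.pow_le_pow_right (by norm_num) h2
    _ = 3 := by norm_num

theorem cardQ (Q : Sylow 3 (A × A)) : Nat.card (Q : Subgroup (A × A)) = 9 := by
  haveI : Fact (Nat.Prime 3) := ⟨Nat.prime_three⟩
  have h1 := Q.card_eq_multiplicity
  have h2 : Nat.card (A × A) = 144 := by rw [Nat.card_prod, D6]
  rw [h2] at h1
  have h3 : (Nat.factorization 144) 3 = 2 := by
    have : (144 : ℕ) = 3 ^ 2 * 16 := by norm_num
    rw [Nat.factorization_def _ Nat.prime_three]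
    rw [this]
    rw [padicValNat.mul (by norm_num) (by norm_num), padicValNat.prime_pow]
    have : padicValNat 3 16 = 0 := padicValNat.eq_zero_of_not_dvd (by norm_num)
    rw [this]
  rw [h3] at h1
  exact h1

theorem exists_snd (Q : Sylow 3 (A × A)) : ∃ d : A, d ≠ 1 ∧ ((1 : A), d) ∈ (Q : Subgroup (A × A)) := by
  by_contra hcon
  push Not at hcon
  have hinj : Function.Injective ((MonoidHom.fst A A).comp (Q : Subgroup (A × A)).subtype) := by
    rw [injective_iff_map_eq_one]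
    rintro ⟨⟨a, d⟩, h⟩ ha
    have ha' : a = 1 := ha
    subst ha'
    by_cases hd : d = 1
    · subst hd; rfl
    · exact absurd h (hcon d hd)
  have h1 : Nat.card ((MonoidHom.fst A A).comp (Q : Subgroup (A × A)).subtype).range ≤ 3 := by
    apply three_grp
    have h2 : IsPGroup 3 ↥(Q : Subgroup (A × A)) := Q.isPGroup'
    exact h2.of_surjective _ (MonoidHom.rangeRestrict_surjective _)
  have h3 : Nat.card ((MonoidHom.fst A A).comp (Q : Subgroup (A × A)).subtype).range = 9 := by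
    rw [← cardQ Q]
    exact (Nat.card_congr (MonoidHom.ofInjective hinj).toEquiv).symm
  omega

theorem exists_fst (Q : Sylow 3 (A × A)) : ∃ d : A, d ≠ 1 ∧ (d, (1 : A)) ∈ (Q : Subgroup (A × A)) := by
  by_contra hcon
  push Not at hcon
  have hinj : Function.Injective ((MonoidHom.snd A A).comp (Q : Subgroup (A × A)).subtype) := by
    rw [injective_iff_map_eq_one]
    rintro ⟨⟨d, a⟩, h⟩ ha
    have ha' : a = 1 := ha
    subst ha'
    by_cases hd : d = 1
    · subst hd; rfl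
    · exact absurd h (hcon d hd)
  have h1 : Nat.card ((MonoidHom.snd A A).comp (Q : Subgroup (A × A)).subtype).range ≤ 3 := by
    apply three_grp
    have h2 : IsPGroup 3 ↥(Q : Subgroup (A × A)) := Q.isPGroup'
    exact h2.of_surjective _ (MonoidHom.rangeRestrict_surjective _)
  have h3 : Nat.card ((MonoidHom.snd A A).comp (Q : Subgroup (A × A)).subtype).range = 9 := by
    rw [← cardQ Q]
    exact (Nat.card_congr (MonoidHom.ofInjective hinj).toEquiv).symm
  omega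

theorem cube_of_mem (Q : Sylow 3 (A × A)) {x : A × A} (hx : x ∈ (Q : Subgroup (A × A))) : x.1 ^ 3 = 1 ∧ x.2 ^ 3 = 1 := by
  have h9 : x ^ 9 = 1 := by
    have := pow_card_eq_one' (G := (Q : Subgroup (A × A))) (x := ⟨x, hx⟩)
    rw [cardQ] at this
    simpa using congrArg Subtype.val this
  have key : ∀ a : A, a ^ 9 = 1 → a ^ 3 = 1 := by
    intro a ha
    rcases D1 a with h | h
    · have h2 : a ^ 9 = (a ^ 2) ^ 4 * a := by rw [← pow_mul, ← pow_succ]
      rw [h, one_pow, one_mul] at h2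
      rw [← h2, ha, one_pow]
    · exact h
  exact ⟨key _ (congrArg Prod.fst h9), key _ (congrArg Prod.snd h9)⟩

theorem sq_of_mem (X : Sylow 2 (A × A)) {x : A × A} (hx : x ∈ (X : Subgroup (A × A))) : x.1 * x.1 = 1 ∧ x.2 * x.2 = 1 := by
  obtain ⟨k, hk⟩ := X.isPGroup' ⟨x, hx⟩
  have h9 : x ^ 2 ^ k = 1 := by simpa using congrArg Subtype.val hk
  have key : ∀ a : A, a ^ 2 ^ k = 1 → a * a = 1 := by
    intro a ha
    rcases D1 a with h | h
    · rw [← pow_two]; exact h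
    · have h1 : orderOf a ∣ 2 ^ k := orderOf_dvd_of_pow_eq_one ha
      have h2 : orderOf a ∣ 3 := orderOf_dvd_of_pow_eq_one h
      have h3 : orderOf a ∣ 1 := by
        have : Nat.Coprime (2 ^ k) 3 := Nat.Coprime.pow_left k (by norm_num)
        rw [← this]
        exact Nat.dvd_gcd h1 h2
      rw [Nat.dvd_one, orderOf_eq_one_iff] at h3
      rw [h3, one_mul]
  exact ⟨key _ (congrArg Prod.fst h9), key _ (congrArg Prod.snd h9)⟩

theorem conj3 {G : Type*} [Group G] (g x : G) : g * (g * (g * x * g⁻¹) * g⁻¹) * g⁻¹ = g ^ 3 * x * (g ^ 3)⁻¹ := by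
  simp only [pow_succ, pow_zero, one_mul, mul_inv_rev, mul_assoc]

theorem main (X : Sylow 2 (A × A)) (Q : Sylow 3 (A × A)) (B : Subgroup (A × A)) (hBX : B ≤ (X : Subgroup _)) (hB4 : Nat.card ↥B = 4)
    (hB1 : B ⊓ ((X : Subgroup _) ⊓ Subgroup.prod ⊤ ⊥) = ⊥) (hB2 : B ⊓ ((X : Subgroup _) ⊓ Subgroup.prod ⊥ ⊤) = ⊥) :
      ∃ R : Subgroup (A × A), R ≤ (Q : Subgroup _) ∧ Nat.card ↥R = 3 ∧
        R ≠ (Q : Subgroup _) ⊓ Subgroup.prod ⊤ ⊥ ∧ R ≠ (Q : Subgroup _) ⊓ Subgroup.prod ⊥ ⊤ ∧ R ≤ Subgroup.normalizer (B : Set _) := by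
  have hb1 : ∀ b ∈ B, b.2 = 1 → b = 1 := by
    intro b hb h
    have : b ∈ B ⊓ ((X : Subgroup _) ⊓ Subgroup.prod ⊤ ⊥) :=
      ⟨hb, hBX hb, Subgroup.mem_top _, (by rw [h]; exact one_mem _ : b.2 ∈ (⊥ : Subgroup A))⟩
    rw [hB1] at this
    exact this
  have hb2 : ∀ b ∈ B, b.1 = 1 → b = 1 := by
    intro b hb h
    have : b ∈ B ⊓ ((X : Subgroup _) ⊓ Subgroup.prod ⊥ ⊤) :=
      ⟨hb, hBX hb, (by rw [h]; exact one_mem _ : b.1 ∈ (⊥ : Subgroup A)), Subgroup.mem_top _⟩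
    rw [hB2] at this
    exact this
  have hinj : ∀ a ∈ B, ∀ b ∈ B, a.1 = b.1 → a = b := by
    intro a ha b hb h
    have : a * b⁻¹ = 1 := hb2 _ (mul_mem ha (inv_mem hb)) (by
      show a.1 * b.1⁻¹ = 1
      rw [h, mul_inv_cancel])
    exact mul_inv_eq_one.mp this
  have hinj2 : ∀ a ∈ B, ∀ b ∈ B, a.2 = b.2 → a = b := by
    intro a ha b hb h
    have : a * b⁻¹ = 1 := hb1 _ (mul_mem ha (inv_mem hb)) (by
      show a.2 * b.2⁻¹ = 1
      rw [h, mul_inv_cancel])
    exact mul_inv_eq_one.mp this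
  have hsurj : ∀ x : A, x * x = 1 → ∃ b ∈ B, b.1 = x := by
    let f : B → {x : A // x * x = 1} := fun b => ⟨b.1.1, (sq_of_mem X (hBX b.2)).1⟩
    have hf : Function.Injective f := by
      intro a b h
      have := congrArg Subtype.val h
      exact Subtype.ext (hinj a a.2 b b.2 this)
    have hbij := hf.bijective_of_nat_card_le (by rw [D7, hB4])
    intro x hx
    obtain ⟨b, hb⟩ := hbij.2 ⟨x, hx⟩
    exact ⟨b, b.2, congrArg Subtype.val hb⟩
  obtain ⟨c, hc1, hcQ⟩ := exists_fst Q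
  obtain ⟨d, hd1, hdQ⟩ := exists_snd Q
  have hc3 : c ^ 3 = 1 := (cube_of_mem Q hcQ).1
  have hd3 : d ^ 3 = 1 := (cube_of_mem Q hdQ).2
  obtain ⟨v, hvB, hv1⟩ : ∃ b ∈ B, b ≠ 1 := by
    by_contra hcon
    push Not at hcon
    have : B = ⊥ := eq_bot_iff.mpr fun b hb => hcon b hb
    rw [this, Subgroup.card_bot] at hB4
    omega
  have hv11 : v.1 ≠ 1 := fun h => hv1 (hb2 v hvB h)
  have hv21 : v.2 ≠ 1 := fun h => hv1 (hb1 v hvB h)
  have hvv := sq_of_mem X (hBX hvB)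
  obtain ⟨u, huB, hu⟩ := hsurj (c * v.1 * c⁻¹) (by
    have : c * v.1 * c⁻¹ * (c * v.1 * c⁻¹) = c * (v.1 * v.1) * c⁻¹ := by group
    rw [this, hvv.1]; group)
  have huu := sq_of_mem X (hBX huB)
  have hu1 : u.1 ≠ 1 := by
    rw [hu]
    intro h
    apply hv11
    have : v.1 = c⁻¹ * (c * v.1 * c⁻¹) * c := by group
    rw [this, h]; group
  have huv : u ≠ v := by
    intro h
    rw [h] at hu
    exact D3 c v.1 hc1 hc3 hv11 hvv.1 hu.symm
  have hu2 : u.2 ≠ v.2 := fun h => huv (hinj2 u huB v hvB h)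
  have hu21 : u.2 ≠ 1 := fun h => hu1 (by rw [hb1 u huB h]; rfl)
  obtain ⟨e, he1, he3, heQ, heu⟩ : ∃ e : A, e ≠ 1 ∧ e ^ 3 = 1 ∧ ((1 : A), e) ∈ (Q : Subgroup (A × A)) ∧ e * v.2 * e⁻¹ = u.2 := by
    rcases D5 d v.2 u.2 ⟨hd1, hd3, hv21, hvv.2, huu.2⟩ with h | h | h | h
    · exact absurd h hu21
    · exact absurd h hu2
    · exact ⟨d, hd1, hd3, hdQ, h.symm⟩
    · refine ⟨d⁻¹, inv_ne_one.mpr hd1, by rw [inv_pow, hd3, inv_one], ?_, ?_⟩
      · have := inv_mem hdQ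
        simpa using this
      · have h2 : d * (d * (d * v.2 * d⁻¹) * d⁻¹) * d⁻¹ = v.2 := by
          have : d * (d * (d * v.2 * d⁻¹) * d⁻¹) * d⁻¹ = d ^ 3 * v.2 * (d ^ 3)⁻¹ := conj3 _ _
          rw [this, hd3]; group
        rw [D4 d v.2 hd1 hd3 hv21 hvv.2, ← h] at h2
        rw [← h2]; group
  have he4 := D4 e v.2 he1 he3 hv21 hvv.2
  have hc4 := D4 c v.1 hc1 hc3 hv11 hvv.1
  set r : A × A := (c, e) with hr
  have hrQ : r ∈ (Q : Subgroup (A × A)) := by
    have : r = (c, 1) * (1, e) := by rw [Prod.mk_mul_mk, mul_one, one_mul]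
    rw [this]
    exact mul_mem hcQ heQ
  have hrv : r * v * r⁻¹ = u := Prod.ext hu.symm heu
  have hru : r * u * r⁻¹ = v * u := by
    apply Prod.ext
    · show c * u.1 * c⁻¹ = v.1 * u.1
      rw [hu]; exact hc4
    · show e * u.2 * e⁻¹ = v.2 * u.2
      rw [← heu]; exact he4
  have hform : ∀ b ∈ B, b = 1 ∨ b = v ∨ b = u ∨ b = v * u := by
    intro b hb
    rcases D5 c v.1 b.1 ⟨hc1, hc3, hv11, hvv.1, (sq_of_mem X (hBX hb)).1⟩ with h | h | h | h
    · left; exact hb2 b hb h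
    · right; left; exact hinj b hb v hvB h
    · right; right; left; exact hinj b hb u huB (h.trans hu.symm)
    · right; right; right
      refine hinj b hb (v * u) (mul_mem hvB huB) ?_
      rw [h, ← hu]; rfl
  have hnorm : r ∈ Subgroup.normalizer (B : Set (A × A)) := by
    have hsub : ∀ b ∈ B, r * b * r⁻¹ ∈ B := by
      intro b hb
      rcases hform b hb with rfl | rfl | rfl | rfl
      · simp
      · rw [hrv]; exact huB
      · rw [hru]; exact mul_mem hvB huB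
      · have : r * (v * u) * r⁻¹ = (r * v * r⁻¹) * (r * u * r⁻¹) := by group
        rw [this, hrv, hru]
        exact mul_mem huB (mul_mem hvB huB)
    rw [Subgroup.mem_normalizer_iff]
    intro b
    refine ⟨hsub b, fun h => ?_⟩
    have hr3 : r ^ 3 = 1 := Prod.ext hc3 he3
    have h2 := hsub _ (hsub _ h)
    have : r * (r * (r * b * r⁻¹) * r⁻¹) * r⁻¹ = r ^ 3 * b * (r ^ 3)⁻¹ := conj3 _ _
    rw [this, hr3, one_mul, inv_one, mul_one] at h2
    exact h2
  refine ⟨Subgroup.zpowers r, ?_, ?_, ?_, ?_, ?_⟩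
  · rw [Subgroup.zpowers_le]; exact hrQ
  · rw [Nat.card_zpowers]
    haveI : Fact (Nat.Prime 3) := ⟨Nat.prime_three⟩
    exact orderOf_eq_prime (Prod.ext hc3 he3) (fun h => hc1 (congrArg Prod.fst h))
  · intro h
    have h1 : r ∈ Subgroup.zpowers r := Subgroup.mem_zpowers r
    rw [h] at h1
    exact he1 h1.2.2
  · intro h
    have h1 : r ∈ Subgroup.zpowers r := Subgroup.mem_zpowers r
    rw [h] at h1
    exact hc1 h1.2.1
  · rw [Subgroup.zpowers_le]; exact hnorm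

end Cfsg.Agent.H73.A44
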