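import Mathlib

/-!
Groups with an abelian non-normal Sylow 2-subgroup: a real element of odd order `x` such that the number
of 2-elements `u` with `u * x` of odd order is odd.
-/

set_option autoImplicit false
set_option linter.unusedSectionVars false

namespace Cfsg.Agent.H73.AbSyl2

open Subgroup
open scoped Pointwise

section basic

variable {G : Type*} [Group G]

/-- two-elements -/
def Two (g : G) : Prop := ∃ j : ℕ, g ^ 2 ^ j = 1

theorem Two.one : Two (1 : G) := ⟨0, by simp⟩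

theorem Two.inv {g : G} (h : Two g) : Two g⁻¹ := by
  obtain ⟨j, hj⟩ := h
  exact ⟨j, by rw [inv_pow, hj, inv_one]⟩

theorem Two.pow {g : G} (h : Two g) (n : ℕ) : Two (g ^ n) := by
  obtain ⟨j, hj⟩ := h
  exact ⟨j, by rw [← pow_mul, mul_comm, pow_mul, hj, one_pow]⟩

theorem Two.conj {g : G} (h : Two g) (x : G) : Two (x * g * x⁻¹) := by
  obtain ⟨j, hj⟩ := h
  exact ⟨j, by rw [conj_pow, hj]; simp⟩

theorem Two.mul {g h : G} (hg : Two g) (hh : Two h) (hc : Commute g h) : Two (g * h) := by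
  obtain ⟨i, hi⟩ := hg
  obtain ⟨j, hj⟩ := hh
  refine ⟨i + j, ?_⟩
  rw [hc.mul_pow, pow_add, pow_mul, hi, one_pow, one_mul, mul_comm, pow_mul, hj, one_pow]

theorem Two.of_sq {g : G} (h : Two (g ^ 2)) : Two g := by
  obtain ⟨j, hj⟩ := h
  exact ⟨j + 1, by rw [pow_succ', pow_mul, hj]⟩

theorem two_of_mem {P : Subgroup G} (hP : IsPGroup 2 P) {g : G} (hg : g ∈ P) : Two g := by
  obtain ⟨j, hj⟩ := hP ⟨g, hg⟩
  exact ⟨j, by simpa using congrArg Subtype.val hj⟩

theorem isPGroup_of_two {A : Subgroup G} (h : ∀ a ∈ A, Two a) : IsPGroup 2 A := by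
  rintro ⟨a, ha⟩
  obtain ⟨j, hj⟩ := h a ha
  exact ⟨j, Subtype.ext (by simpa using hj)⟩

theorem isPGroup_zpowers {g : G} (h : Two g) : IsPGroup 2 (zpowers g) := by
  apply isPGroup_of_two
  rintro _ ⟨k, rfl⟩
  obtain ⟨j, hj⟩ := h
  refine ⟨j, ?_⟩
  show (g ^ k) ^ 2 ^ j = 1
  rw [← zpow_natCast, ← zpow_mul, mul_comm, zpow_mul, zpow_natCast, hj, one_zpow]

theorem eq_one_of_two_odd {g : G} (h : Two g) (ho : Odd (orderOf g)) : g = 1 := by
  obtain ⟨j, hj⟩ := h
  rw [← orderOf_eq_one_iff]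
  have h1 := orderOf_dvd_of_pow_eq_one hj
  exact Nat.eq_one_of_dvd_coprimes (Nat.Coprime.pow_right j (Nat.coprime_two_right.mpr ho)) dvd_rfl h1

theorem orderOf_conj_eq (x g : G) : orderOf (x * g * x⁻¹) = orderOf g := by
  have := orderOf_injective (MulAut.conj x).toMonoidHom (MulAut.conj x).injective g
  simpa using this

/-- 2-part and 2'-part -/
theorem exists_parts [Finite G] (g : G) : ∃ a b : G, a * b = g ∧ Commute a b ∧ Two a ∧ Odd (orderOf b) ∧
    (∃ r : ℕ, a = g ^ r) := by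
  obtain ⟨j, m, hm, h⟩ := Nat.exists_eq_two_pow_mul_odd (orderOf_pos g).ne'
  have hcop : Nat.Coprime (2 ^ j) m := Nat.Coprime.pow_left _ (Nat.coprime_two_left.mpr hm)
  obtain ⟨r, hr1, hr2⟩ := Nat.chineseRemainder hcop 1 0
  obtain ⟨s, hs1, hs2⟩ := Nat.chineseRemainder hcop 0 1
  refine ⟨g ^ r, g ^ s, ?_, ?_, ?_, ?_, r, rfl⟩
  · rw [← pow_add]
    have : g ^ (r + s) = g ^ 1 := by
      rw [pow_eq_pow_iff_modEq, h]
      rw [← Nat.modEq_and_modEq_iff_modEq_mul hcop]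
      exact ⟨hr1.add hs1, hr2.add hs2⟩
    rw [this, pow_one]
  · exact (Commute.refl g).pow_pow r s
  · refine ⟨j, ?_⟩
    rw [← pow_mul, ← orderOf_dvd_iff_pow_eq_one, h, mul_comm]
    exact Nat.mul_dvd_mul (Nat.modEq_zero_iff_dvd.mp hr2) dvd_rfl
  · have h1 : (g ^ s) ^ m = 1 := by
      rw [← pow_mul, ← orderOf_dvd_iff_pow_eq_one, h]
      exact Nat.mul_dvd_mul (Nat.modEq_zero_iff_dvd.mp hs1) dvd_rfl
    exact Odd.of_dvd_nat hm (orderOf_dvd_of_pow_eq_one h1)

end basic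

section main

variable {G : Type*} [Group G] [Finite G] (P : Sylow 2 G) (hab : ∀ a ∈ (P : Subgroup G), ∀ b ∈ (P : Subgroup G), a * b = b * a)

include hab in
theorem syl_comm (S : Sylow 2 G) {a b : G} (ha : a ∈ (S : Subgroup G)) (hb : b ∈ (S : Subgroup G)) : a * b = b * a := by
  obtain ⟨g, rfl⟩ := MulAction.exists_smul_eq G P S
  change a ∈ MulAut.conj g • (P : Subgroup G) at ha
  change b ∈ MulAut.conj g • (P : Subgroup G) at hb
  rw [Subgroup.mem_pointwise_smul_iff_inv_smul_mem] at ha hb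
  have h := hab _ ha _ hb
  rw [← smul_mul', ← smul_mul'] at h
  exact smul_left_cancel _ h

include hab in
/-- 2-elements generating a 2-group commute -/
theorem comm_of_isPGroup {A : Subgroup G} (hA : IsPGroup 2 A) {a b : G} (ha : a ∈ A) (hb : b ∈ A) : a * b = b * a := by
  obtain ⟨S, hS⟩ := hA.exists_le_sylow
  exact syl_comm P hab S (hS ha) (hS hb)

include hab in
/-- if the 2-element `v` normalizes the 2-subgroup `A` then it centralizes it -/
theorem comm_of_normalize {A : Subgroup G} (hA : IsPGroup 2 A) {v a : G} (hv : Two v)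
    (hn : ∀ x ∈ A, v * x * v⁻¹ ∈ A) (ha : a ∈ A) : v * a = a * v := by
  have hvn : v ∈ normalizer (A : Set G) := by
    rw [Subgroup.mem_normalizer_iff]
    have hle : A.map (MulAut.conj v).toMonoidHom ≤ A := by
      rintro _ ⟨x, hx, rfl⟩
      exact hn x hx
    have heq : A.map (MulAut.conj v).toMonoidHom = A := by
      apply Subgroup.eq_of_le_of_card_ge hle
      rw [Nat.card_congr (Subgroup.equivMapOfInjective A _ (MulAut.conj v).injective).toEquiv.symm]
    intro h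
    constructor
    · exact hn h
    · intro hh
      rw [← heq] at hh
      obtain ⟨y, hy, hyh⟩ := hh
      have : y = h := by
        have h2 : v * y * v⁻¹ = v * h * v⁻¹ := hyh
        exact mul_left_cancel (mul_right_cancel h2)
      exact this ▸ hy
  have hsup : IsPGroup 2 ((zpowers v ⊔ A : Subgroup G)) :=
    IsPGroup.to_sup_of_normal_right' (isPGroup_zpowers hv) hA (by rw [zpowers_le]; exact hvn)
  exact comm_of_isPGroup P hab hsup (mem_sup_left (mem_zpowers v)) (mem_sup_right ha)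

/-- the situation: `Q` maximal with `P` not normal in `C_G(Q)` -/
structure Setup (Q : Subgroup G) : Prop where
  hab : ∀ a ∈ (P : Subgroup G), ∀ b ∈ (P : Subgroup G), a * b = b * a
  le : Q ≤ P
  notn : ¬ centralizer (Q : Set G) ≤ normalizer ((P : Subgroup G) : Set G)
  max : ∀ Q' : Subgroup G, Q' ≤ P → Q ≤ Q' → Q' ≠ Q → centralizer (Q' : Set G) ≤ normalizer ((P : Subgroup G) : Set G)

theorem exists_setup (hab : ∀ a ∈ (P : Subgroup G), ∀ b ∈ (P : Subgroup G), a * b = b * a)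
    (hn : ¬ (P : Subgroup G).Normal) : ∃ Q : Subgroup G, Setup P Q := by
  let S : Set (Subgroup G) := {Q | Q ≤ P ∧ ¬ centralizer (Q : Set G) ≤ normalizer ((P : Subgroup G) : Set G)}
  have hS : S.Nonempty := by
    refine ⟨⊥, bot_le, fun h => hn ?_⟩
    rw [← Subgroup.normalizer_eq_top_iff, eq_top_iff]
    refine le_trans ?_ h
    intro g _
    rw [Subgroup.mem_centralizer_iff]
    intro k hk
    have : k = 1 := by simpa using hk
    rw [this]; simp
  obtain ⟨Q, hQ⟩ := (Set.toFinite S).exists_maximal hS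
  refine ⟨Q, hab, hQ.prop.1, hQ.prop.2, fun Q' h1 h2 h3 => ?_⟩
  by_contra h4
  exact h3 (le_antisymm (hQ.le_of_ge ⟨h1, h4⟩ h2) h2)

variable {P} {Q : Subgroup G}

theorem Setup.central (_h : Setup P Q) {l q : G} (hl : l ∈ centralizer (Q : Set G)) (hq : q ∈ Q) : l * q = q * l :=
  ((Subgroup.mem_centralizer_iff.mp hl) q hq).symm

theorem Setup.P_le (h : Setup P Q) : (P : Subgroup G) ≤ centralizer (Q : Set G) := by
  intro g hg
  rw [Subgroup.mem_centralizer_iff]
  intro q hq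
  exact h.hab q (h.le hq) g hg

theorem Setup.Q_le (h : Setup P Q) : Q ≤ centralizer (Q : Set G) := h.le.trans h.P_le

/-- a 2-element of `L = C_G(Q)` lies in a Sylow 2-subgroup of `G` contained in `L` -/
theorem Setup.exists_conj (h : Setup P Q) {u : G} (hu : u ∈ centralizer (Q : Set G)) (h2 : Two u) :
    ∃ l ∈ centralizer (Q : Set G), l * u * l⁻¹ ∈ (P : Subgroup G) := by
  let L := centralizer (Q : Set G)
  -- `P` is Sylow in `L`
  let PL : Sylow 2 L := P.subtype h.P_le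
  let u' : L := ⟨u, hu⟩
  have hu2 : IsPGroup 2 (zpowers u') := by
    apply isPGroup_zpowers
    obtain ⟨j, hj⟩ := h2
    exact ⟨j, Subtype.ext hj⟩
  obtain ⟨S, hS⟩ := hu2.exists_le_sylow
  obtain ⟨l, hl⟩ := MulAction.exists_smul_eq L S PL
  refine ⟨l, l.2, ?_⟩
  have h0 : u' ∈ (S : Subgroup L) := hS (mem_zpowers u')
  have h1 : MulAut.conj l u' ∈ (PL : Subgroup L) := by
    rw [← hl]
    exact Subgroup.smul_mem_pointwise_smul _ (MulAut.conj l) (S : Subgroup L) h0
  exact h1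

/-- the Sylow subgroups of `L` are trivial intersection modulo `Q` -/
theorem Setup.mem_of_comm (h : Setup P Q) {P1 : Sylow 2 G} (hP1 : (P1 : Subgroup G) ≤ centralizer (Q : Set G))
    {u v : G} (hu : u ∈ (P1 : Subgroup G)) (huQ : u ∉ Q) (hv : v ∈ centralizer (Q : Set G)) (hv2 : Two v)
    (hc : v * u = u * v) : v ∈ (P1 : Subgroup G) := by
  obtain ⟨l, hl, hlu⟩ := h.exists_conj (hP1 hu) (two_of_mem P1.isPGroup' hu)
  -- conjugate everything by `l`
  set u' := l * u * l⁻¹ with hu'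
  have hu'Q : u' ∉ Q := by
    intro h1
    apply huQ
    have h2 : l⁻¹ * u' * l ∈ Q := by
      have h3 := h.central (inv_mem hl) h1
      rw [h3]; simpa using h1
    have h4 : l⁻¹ * u' * l = u := by rw [hu']; group
    rwa [h4] at h2
  have hmax : centralizer ((Q ⊔ zpowers u' : Subgroup G) : Set G) ≤ normalizer ((P : Subgroup G) : Set G) := by
    apply h.max _ (sup_le h.le (by rw [zpowers_le]; exact hlu)) le_sup_left
    intro h1
    apply hu'Q
    rw [← h1]
    exact mem_sup_right (mem_zpowers u')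
  have hcent : ∀ c ∈ centralizer (Q : Set G), c * u' = u' * c → c ∈ normalizer ((P : Subgroup G) : Set G) := by
    intro c hc1 hc2
    apply hmax
    have h1 : Q ⊔ zpowers u' ≤ centralizer ({c} : Set G) := by
      rw [sup_le_iff]
      constructor
      · intro q hq
        rw [Subgroup.mem_centralizer_singleton_iff]
        exact (h.central hc1 hq).symm
      · rw [zpowers_le, Subgroup.mem_centralizer_singleton_iff]
        exact hc2.symm
    rw [Subgroup.mem_centralizer_iff]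
    intro k hk
    exact Subgroup.mem_centralizer_singleton_iff.mp (h1 hk)
  -- a 2-element normalizing `P` lies in `P`
  have hmemP : ∀ c, Two c → c ∈ normalizer ((P : Subgroup G) : Set G) → c ∈ (P : Subgroup G) := by
    intro c hc hcn
    have hsup : IsPGroup 2 ((zpowers c ⊔ P : Subgroup G)) :=
      IsPGroup.to_sup_of_normal_right' (isPGroup_zpowers hc) P.isPGroup' (by rw [zpowers_le]; exact hcn)
    have := P.is_maximal' hsup le_sup_right
    rw [← this]
    exact mem_sup_left (mem_zpowers c)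
  have hconj : ∀ c ∈ centralizer (Q : Set G), Two c → c * u = u * c → l * c * l⁻¹ ∈ (P : Subgroup G) := by
    intro c hc1 hc2 hc3
    apply hmemP _ (hc2.conj l)
    apply hcent
    · exact mul_mem (mul_mem hl hc1) (inv_mem hl)
    · rw [hu']
      have : l * c * l⁻¹ * (l * u * l⁻¹) = l * (c * u) * l⁻¹ := by group
      rw [this, hc3]; group
  -- `P1` is the conjugate of `P`
  have hP1l : ∀ c ∈ (P1 : Subgroup G), l * c * l⁻¹ ∈ (P : Subgroup G) := by
    intro c hc
    exact hconj c (hP1 hc) (two_of_mem P1.isPGroup' hc) (syl_comm P h.hab P1 hc hu)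
  have hmap : (P1 : Subgroup G).map (MulAut.conj l).toMonoidHom = P := by
    apply Subgroup.eq_of_le_of_card_ge
    · rintro _ ⟨c, hc, rfl⟩
      exact hP1l c hc
    · rw [← Nat.card_congr (Subgroup.equivMapOfInjective (P1 : Subgroup G) _ (MulAut.conj l).injective).toEquiv,
        Sylow.card_eq_multiplicity, Sylow.card_eq_multiplicity]
  have h5 := hconj v hv hv2 hc
  rw [← hmap] at h5
  obtain ⟨y, hy, hy2⟩ := h5
  have : y = v := by
    have h6 : l * y * l⁻¹ = l * v * l⁻¹ := hy2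
    exact mul_left_cancel (mul_right_cancel h6)
  rwa [this] at hy

theorem Setup.exists_syl (h : Setup P Q) {u : G} (hu : u ∈ centralizer (Q : Set G)) (h2 : Two u) :
    ∃ P3 : Sylow 2 G, (P3 : Subgroup G) ≤ centralizer (Q : Set G) ∧ u ∈ (P3 : Subgroup G) := by
  obtain ⟨l, hl, hlu⟩ := h.exists_conj hu h2
  refine ⟨l⁻¹ • P, ?_, ?_⟩
  · intro c hc
    change c ∈ MulAut.conj l⁻¹ • (P : Subgroup G) at hc
    rw [Subgroup.mem_pointwise_smul_iff_inv_smul_mem] at hc
    have h1 : l * c * l⁻¹ ∈ (P : Subgroup G) := by simpa using hc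
    have h2 := mul_mem (mul_mem (inv_mem hl) (h.P_le h1)) hl
    have h3 : l⁻¹ * (l * c * l⁻¹) * l = c := by group
    rwa [h3] at h2
  · change u ∈ MulAut.conj l⁻¹ • (P : Subgroup G)
    rw [Subgroup.mem_pointwise_smul_iff_inv_smul_mem]
    simpa using hlu

theorem Setup.exists_second (h : Setup P Q) :
    ∃ P2 : Sylow 2 G, (P2 : Subgroup G) ≤ centralizer (Q : Set G) ∧ P ≠ P2 := by
  have h1 := h.notn
  rw [SetLike.not_le_iff_exists] at h1
  obtain ⟨g, hg, hgn⟩ := h1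
  refine ⟨g • P, ?_, ?_⟩
  · intro c hc
    change c ∈ MulAut.conj g • (P : Subgroup G) at hc
    rw [Subgroup.mem_pointwise_smul_iff_inv_smul_mem] at hc
    have h1 : g⁻¹ * c * g ∈ (P : Subgroup G) := by simpa using hc
    have h2 := mul_mem (mul_mem hg (h.P_le h1)) (inv_mem hg)
    have h3 : g * (g⁻¹ * c * g) * g⁻¹ = c := by group
    rwa [h3] at h2
  · intro heq
    apply hgn
    exact Sylow.smul_eq_iff_mem_normalizer.mp heq.symm

theorem Setup.inter (h : Setup P Q) {P1 P2 : Sylow 2 G} (h1 : (P1 : Subgroup G) ≤ centralizer (Q : Set G))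
    (h2 : (P2 : Subgroup G) ≤ centralizer (Q : Set G)) {u : G} (hu1 : u ∈ (P1 : Subgroup G))
    (hu2 : u ∈ (P2 : Subgroup G)) (huQ : u ∉ Q) : P1 = P2 := by
  have hle : (P2 : Subgroup G) ≤ P1 := by
    intro c hc
    exact h.mem_of_comm h1 hu1 huQ (h2 hc) (two_of_mem P2.isPGroup' hc) (syl_comm P h.hab P2 hc hu2)
  exact Sylow.ext (P2.is_maximal' P1.isPGroup' hle)

theorem Setup.Q_le_syl (h : Setup P Q) {P1 : Sylow 2 G} (h1 : (P1 : Subgroup G) ≤ centralizer (Q : Set G)) :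
    Q ≤ P1 := by
  have hQ : IsPGroup 2 Q := P.isPGroup'.to_le h.le
  have hn : (P1 : Subgroup G) ≤ normalizer (Q : Set G) := h1.trans (Subgroup.centralizer_le_normalizer (Q : Set G))
  have hsup : IsPGroup 2 ((P1 ⊔ Q : Subgroup G)) := IsPGroup.to_sup_of_normal_right' P1.isPGroup' hQ hn
  have := P1.is_maximal' hsup le_sup_left
  rw [← this]
  exact le_sup_right

theorem Setup.exists_sq (_h : Setup P Q) {P1 : Sylow 2 G} {u : G} (hu : u ∈ (P1 : Subgroup G)) (huQ : u ∉ Q) :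
    ∃ t ∈ (P1 : Subgroup G), t ∉ Q ∧ t ^ 2 ∈ Q := by
  classical
  have hex : ∃ j : ℕ, u ^ 2 ^ j ∈ Q := by
    obtain ⟨j, hj⟩ := two_of_mem P1.isPGroup' hu
    exact ⟨j, by rw [hj]; exact one_mem _⟩
  have hmin := Nat.find_spec hex
  have hpos : Nat.find hex ≠ 0 := by
    intro h0
    rw [h0] at hmin
    exact huQ (by simpa using hmin)
  obtain ⟨j, hj⟩ := Nat.exists_eq_succ_of_ne_zero hpos
  refine ⟨u ^ 2 ^ j, pow_mem hu _, ?_, ?_⟩
  · exact Nat.find_min hex (by omega)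
  · rw [← pow_mul, ← pow_succ]
    rw [hj] at hmin
    exact hmin

theorem eq_one_of_odd_mul {q b : G} (hq : Two q) (hc : Commute q b) (hb : Odd (orderOf b))
    (hqb : Odd (orderOf (q * b))) : q = 1 := by
  apply eq_one_of_two_odd hq
  have h1 : q ^ (orderOf (q * b) * orderOf b) = 1 := by
    have h2 : (q * b) ^ (orderOf (q * b) * orderOf b) = 1 := by rw [pow_mul, pow_orderOf_eq_one, one_pow]
    rw [hc.mul_pow, mul_comm (orderOf (q * b)) (orderOf b), pow_mul b, pow_orderOf_eq_one, one_pow, mul_one,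
      mul_comm (orderOf b)] at h2
    exact h2
  exact Odd.of_dvd_nat (hqb.mul hb) (orderOf_dvd_of_pow_eq_one h1)

theorem Setup.parts (h : Setup P Q) {P1 P2 : Sylow 2 G} (h1 : (P1 : Subgroup G) ≤ centralizer (Q : Set G))
    (h2 : (P2 : Subgroup G) ≤ centralizer (Q : Set G)) (hne : P1 ≠ P2) {v w : G}
    (hv : v ∈ (P1 : Subgroup G)) (hvQ : v ∉ Q) (hv2 : v ^ 2 ∈ Q)
    (hw : w ∈ (P2 : Subgroup G)) (hwQ : w ∉ Q) (hw2 : w ^ 2 ∈ Q) :
    ∃ a ∈ Q, ∃ b : G, a * b = v * w ∧ Odd (orderOf b) ∧ v⁻¹ * b * v = b⁻¹ ∧ (w * a⁻¹) ^ 2 * v ^ 2 = 1 := by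
  have hvL := h1 hv
  have hwL := h2 hw
  have hvT := two_of_mem P1.isPGroup' hv
  have hwT := two_of_mem P2.isPGroup' hw
  have hQ : IsPGroup 2 Q := P.isPGroup'.to_le h.le
  obtain ⟨a, b, hab, hcab, haT, hbo, r, har⟩ := exists_parts (v * w)
  have haL : a ∈ centralizer (Q : Set G) := by rw [har]; exact pow_mem (mul_mem hvL hwL) _
  have haQ : a ∈ Q := by
    by_contra haQ
    -- the relation
    set z0 := w ^ 2 * v ^ 2 with hz0
    have hz0Q : z0 ∈ Q := mul_mem hw2 hv2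
    have hrel : v⁻¹ * (v * w) * v = (v * w)⁻¹ * z0 := by
      have e1 : (v * w)⁻¹ * z0 = w⁻¹ * (v⁻¹ * w ^ 2) * v ^ 2 := by rw [hz0]; group
      have e2 : v⁻¹ * w ^ 2 = w ^ 2 * v⁻¹ := h.central (inv_mem hvL) hw2
      rw [e1, e2]; group
    have hcz : Commute (v * w)⁻¹ z0 := h.central (inv_mem (mul_mem hvL hwL)) hz0Q
    have hva : v⁻¹ * a * v = a⁻¹ * z0 ^ r := by
      have e1 : v⁻¹ * a * v = (v⁻¹ * (v * w) * v) ^ r := by
        rw [har]
        have := conj_pow (a := v⁻¹) (b := v * w) (i := r)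
        simp only [inv_inv] at this
        rw [this]
      rw [e1, hrel, hcz.mul_pow, inv_pow, ← har]
    have hA : IsPGroup 2 ((zpowers a ⊔ Q : Subgroup G)) := by
      apply IsPGroup.to_sup_of_normal_right' (isPGroup_zpowers haT) hQ
      rw [zpowers_le]
      exact Subgroup.centralizer_le_normalizer (Q : Set G) haL
    have hle : (zpowers a ⊔ Q : Subgroup G) ≤ (zpowers a ⊔ Q : Subgroup G).comap (MulAut.conj v⁻¹).toMonoidHom := by
      rw [sup_le_iff]
      constructor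
      · rw [zpowers_le, mem_comap]
        have : (MulAut.conj v⁻¹).toMonoidHom a = a⁻¹ * z0 ^ r := by
          rw [← hva]; simp
        rw [this]
        exact mul_mem (inv_mem (mem_sup_left (mem_zpowers a))) (pow_mem (mem_sup_right hz0Q) _)
      · intro q hq
        rw [mem_comap]
        have : (MulAut.conj v⁻¹).toMonoidHom q = q := by
          have e := h.central (inv_mem hvL) hq
          show v⁻¹ * q * (v⁻¹)⁻¹ = q
          rw [e]; group
        rw [this]
        exact mem_sup_right hq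
    have hva2 : v⁻¹ * a = a * v⁻¹ := comm_of_normalize P h.hab hA hvT.inv (fun x hx => hle hx)
      (mem_sup_left (mem_zpowers a))
    have hvc : v * a = a * v := by
      have := congrArg (fun y => v * y * v) hva2
      simp only [mul_assoc, mul_inv_cancel_left, inv_mul_cancel, mul_one] at this
      exact this.symm
    have hga : (v * w) * a = a * (v * w) := by rw [har]; exact (Commute.self_pow (v * w) r)
    have hwc : w * a = a * w := by
      have e1 : v * (w * a) = v * (a * w) := by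
        rw [← mul_assoc, hga, ← mul_assoc, ← mul_assoc, hvc]
      exact mul_left_cancel e1
    obtain ⟨P3, hP3, haP3⟩ := h.exists_syl haL haT
    have hv3 := h.mem_of_comm hP3 haP3 haQ hvL hvT hvc
    have hw3 := h.mem_of_comm hP3 haP3 haQ hwL hwT hwc
    have e1 := h.inter h1 hP3 hv hv3 hvQ
    have e2 := h.inter h2 hP3 hw hw3 hwQ
    exact hne (e1.trans e2.symm)
  have hbL : b ∈ centralizer (Q : Set G) := by
    have : b = a⁻¹ * (v * w) := by rw [← hab]; group
    rw [this]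
    exact mul_mem (inv_mem haL) (mul_mem hvL hwL)
  have hac : ∀ g ∈ centralizer (Q : Set G), g * a⁻¹ = a⁻¹ * g := fun g hg => h.central hg (inv_mem haQ)
  set w1 := w * a⁻¹ with hw1
  have hvw1 : v * w1 = b := by
    rw [hw1, ← mul_assoc, hac _ (mul_mem hvL hwL), ← hab]; group
  have hw1L : w1 ∈ centralizer (Q : Set G) := mul_mem hwL (inv_mem haL)
  have hw1Q : w1 ^ 2 ∈ Q := by
    have hcwa : Commute w a⁻¹ := hac w hwL
    rw [hw1, hcwa.mul_pow]
    exact mul_mem hw2 (pow_mem (inv_mem haQ) _)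
  set z := w1 ^ 2 * v ^ 2 with hz
  have hzQ : z ∈ Q := mul_mem hw1Q hv2
  have hrel : v⁻¹ * b * v = b⁻¹ * z := by
    have e1 : b⁻¹ * z = w1⁻¹ * (v⁻¹ * w1 ^ 2) * v ^ 2 := by rw [hz, ← hvw1]; group
    have e2 : v⁻¹ * w1 ^ 2 = w1 ^ 2 * v⁻¹ := h.central (inv_mem hvL) hw1Q
    rw [e1, e2, ← hvw1]; group
  have hz1 : z = 1 := by
    have hcz : Commute b⁻¹ z := h.central (inv_mem hbL) hzQ
    apply eq_one_of_odd_mul (two_of_mem hQ hzQ) hcz.symm
    · rwa [orderOf_inv]
    · rw [← hcz.eq, ← hrel]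
      have := orderOf_conj_eq v⁻¹ b
      rw [inv_inv] at this
      rwa [this]
  refine ⟨a, haQ, b, hab, hbo, ?_, hz1⟩
  rw [hrel, hz1, mul_one]

/-- the counting set -/
def U (x : G) : Set G := {u | Two u ∧ Odd (orderOf (u * x))}

/-- first reduction: fixed points of `Q` -/
theorem Setup.card_U (h : Setup P Q) {x : G} (hx : x ∈ centralizer (Q : Set G)) :
    Nat.card (U x) ≡ Nat.card {u : G // u ∈ U x ∧ u ∈ centralizer (Q : Set G)} [MOD 2] := by
  have hQ : IsPGroup 2 Q := P.isPGroup'.to_le h.le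
  have : Fact (Nat.Prime 2) := ⟨Nat.prime_two⟩
  have hmem : ∀ (q : Q) (u : U x), (q : G) * u * (q : G)⁻¹ ∈ U x := by
    rintro ⟨q, hq⟩ ⟨u, hu1, hu2⟩
    refine ⟨hu1.conj q, ?_⟩
    have e1 : q * u * q⁻¹ * x = q * (u * x) * q⁻¹ := by
      have e2 : q⁻¹ * x = x * q⁻¹ := (h.central hx (inv_mem hq)).symm
      simp only [mul_assoc]
      rw [e2]
    show Odd (orderOf (q * u * q⁻¹ * x))
    rw [e1, orderOf_conj_eq]
    exact hu2
  let _ : MulAction Q (U x) :=
    { smul := fun q u => ⟨(q : G) * u * (q : G)⁻¹, hmem q u⟩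
      one_smul := fun u => Subtype.ext (by show ((1 : Q) : G) * u * ((1 : Q) : G)⁻¹ = u; simp)
      mul_smul := fun a b u => Subtype.ext (by
        show ((a * b : Q) : G) * u * ((a * b : Q) : G)⁻¹ = (a : G) * ((b : G) * u * (b : G)⁻¹) * (a : G)⁻¹
        push_cast; group) }
  have h1 := hQ.card_modEq_card_fixedPoints (U x)
  refine h1.trans ?_
  rw [Nat.card_congr (β := {u : G // u ∈ U x ∧ u ∈ centralizer (Q : Set G)})]
  refine ⟨fun u => ⟨u.1.1, u.1.2, ?_⟩, fun u => ⟨⟨u.1, u.2.1⟩, ?_⟩, fun u => rfl, fun u => rfl⟩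
  · rw [Subgroup.mem_centralizer_iff]
    intro q hq
    have h2 := u.2 ⟨q, hq⟩
    have h3 : q * (u.1.1 : G) * q⁻¹ = u.1.1 := congrArg Subtype.val h2
    rw [mul_inv_eq_iff_eq_mul] at h3
    exact h3
  · intro q
    apply Subtype.ext
    show (q : G) * u.1 * (q : G)⁻¹ = u.1
    rw [mul_inv_eq_iff_eq_mul]
    exact (Subgroup.mem_centralizer_iff.mp u.2.2) q q.2

/-- parity of the number of elements in terms of an involution -/
theorem card_modEq_of_invol {X : Type*} [Finite X] (f : X → X) (hf : ∀ x, f (f x) = x) :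
    Nat.card X ≡ Nat.card {x : X // f x = x} [MOD 2] := by
  classical
  have : Fintype X := Fintype.ofFinite X
  have : Fact (Nat.Prime 2) := ⟨Nat.prime_two⟩
  let e : Function.End X := f
  have he : e ^ 2 ^ 1 = 1 := by
    rw [pow_one, pow_two]
    funext x
    exact hf x
  have h := Equiv.Perm.card_fixedPoints_modEq (p := 2) he
  rw [Nat.card_eq_fintype_card]
  refine h.trans ?_
  rw [← Nat.card_eq_fintype_card]
  rfl

theorem exists_odd_count (P : Sylow 2 G) (hab : ∀ a ∈ (P : Subgroup G), ∀ b ∈ (P : Subgroup G), a * b = b * a)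
    (hn : ¬ (P : Subgroup G).Normal) :
    ∃ x t : G, x ≠ 1 ∧ Odd (orderOf x) ∧ t⁻¹ * x * t = x⁻¹ ∧ Odd (Nat.card (U x)) := by
  classical
  obtain ⟨Q, h⟩ := exists_setup P hab hn
  obtain ⟨P2, hP2, hne⟩ := h.exists_second
  have hP1 := h.P_le
  have hQ : IsPGroup 2 Q := P.isPGroup'.to_le h.le
  -- the element `t`
  have hPQ : ∃ u ∈ (P : Subgroup G), u ∉ Q := by
    by_contra hcon
    push Not at hcon
    have h1 : (P : Subgroup G) ≤ P2 := fun u hu => (h.Q_le_syl hP2) (hcon u hu)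
    exact hne (Sylow.ext (P.is_maximal' P2.isPGroup' h1).symm)
  have hP2Q : ∃ u ∈ (P2 : Subgroup G), u ∉ Q := by
    by_contra hcon
    push Not at hcon
    have h1 : (P2 : Subgroup G) ≤ P := fun u hu => h.le (hcon u hu)
    exact hne (Sylow.ext (P2.is_maximal' P.isPGroup' h1))
  have ht : ∃ t ∈ (P : Subgroup G), t ∉ Q ∧ t ^ 2 ∈ Q ∧ (t ^ 2 = 1 ∨ ∀ u ∈ (P : Subgroup G), u ^ 2 = 1 → u ∈ Q) := by
    by_cases hc : ∃ u ∈ (P : Subgroup G), u ^ 2 = 1 ∧ u ∉ Q
    · obtain ⟨u, hu, hu2, huQ⟩ := hc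
      exact ⟨u, hu, huQ, by rw [hu2]; exact one_mem _, Or.inl hu2⟩
    · push Not at hc
      obtain ⟨u, hu, huQ⟩ := hPQ
      obtain ⟨t, ht1, ht2, ht3⟩ := h.exists_sq hu huQ
      exact ⟨t, ht1, ht2, ht3, Or.inr hc⟩
  obtain ⟨t, ht1, htQ, ht2, htc⟩ := ht
  obtain ⟨w', hw'1, hw'Q, hw'2⟩ : ∃ w ∈ (P2 : Subgroup G), w ∉ Q ∧ w ^ 2 ∈ Q := by
    obtain ⟨u, hu, huQ⟩ := hP2Q
    exact h.exists_sq hu huQ
  obtain ⟨a0, ha0, x, hx, hxo, htx, hwt⟩ := h.parts hP1 hP2 hne ht1 htQ ht2 hw'1 hw'Q hw'2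
  have htL := hP1 ht1
  have hw'L := hP2 hw'1
  have ha0L := h.Q_le ha0
  set w := w' * a0⁻¹ with hw
  have hwL : w ∈ centralizer (Q : Set G) := mul_mem hw'L (inv_mem ha0L)
  have hQ2 := h.Q_le_syl hP2
  have hw1 : w ∈ (P2 : Subgroup G) := mul_mem hw'1 (inv_mem (hQ2 ha0))
  have hwQ : w ∉ Q := by
    intro hcon
    apply hw'Q
    have : w' = w * a0 := by rw [hw]; group
    rw [this]; exact mul_mem hcon ha0
  have hw2 : w ^ 2 ∈ Q := by
    have : w ^ 2 = (t ^ 2)⁻¹ := by rw [eq_inv_iff_mul_eq_one]; exact hwt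
    rw [this]; exact inv_mem ht2
  have htw : t * w = x := by
    rw [hw, ← mul_assoc, h.central (mul_mem htL hw'L) (inv_mem ha0), ← hx]; group
  have hxL : x ∈ centralizer (Q : Set G) := by rw [← htw]; exact mul_mem htL hwL
  have hx1 : x ≠ 1 := by
    intro hcon
    rw [hcon] at htw
    have h1 : t = w⁻¹ := by rw [eq_inv_iff_mul_eq_one]; exact htw
    have h2 : t ∈ (P2 : Subgroup G) := by rw [h1]; exact inv_mem hw1
    exact hne (h.inter hP1 hP2 ht1 h2 htQ)
  refine ⟨x, t, hx1, hxo, htx, ?_⟩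
  have hxt : t⁻¹ * x = x⁻¹ * t⁻¹ := by rw [← htx]; group
  -- second reduction
  let Y := {u : G // u ∈ U x ∧ u ∈ centralizer (Q : Set G)}
  have hτ : ∀ u : Y, t * (u : G)⁻¹ * t⁻¹ ∈ U x ∧ t * (u : G)⁻¹ * t⁻¹ ∈ centralizer (Q : Set G) := by
    rintro ⟨u, ⟨hu1, hu2⟩, hu3⟩
    refine ⟨⟨hu1.inv.conj t, ?_⟩, mul_mem (mul_mem htL (inv_mem hu3)) (inv_mem htL)⟩
    have e1 : t * u⁻¹ * t⁻¹ * x = t * (u⁻¹ * x⁻¹) * t⁻¹ := by
      rw [mul_assoc (t * u⁻¹), hxt]; group
    show Odd (orderOf (t * u⁻¹ * t⁻¹ * x))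
    rw [e1, orderOf_conj_eq]
    have e2 : u⁻¹ * x⁻¹ = u⁻¹ * (u * x)⁻¹ * (u⁻¹)⁻¹ := by group
    rw [e2, orderOf_conj_eq, orderOf_inv]
    exact hu2
  let τ : Y → Y := fun u => ⟨t * (u : G)⁻¹ * t⁻¹, hτ u⟩
  have hττ : ∀ u, τ (τ u) = u := by
    rintro ⟨u, hu, hu3⟩
    apply Subtype.ext
    show t * (t * u⁻¹ * t⁻¹)⁻¹ * t⁻¹ = u
    have e1 : t * (t * u⁻¹ * t⁻¹)⁻¹ * t⁻¹ = t ^ 2 * u * (t ^ 2)⁻¹ := by rw [pow_two]; group
    rw [e1, mul_inv_eq_iff_eq_mul]
    exact (h.central hu3 ht2).symm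
  have hcard1 := (h.card_U hxL).trans (card_modEq_of_invol τ hττ)
  -- the fixed points
  let F := {u : G // u ∈ (P : Subgroup G) ∧ u ^ 2 = 1 ∧ Odd (orderOf (u * x))}
  have hFcard : Nat.card {u : Y // τ u = u} = Nat.card F := by
    apply Nat.card_congr
    refine ⟨fun u => ⟨u.1.1, ?_⟩, fun u => ⟨⟨u.1, ?_⟩, ?_⟩, fun u => rfl, fun u => rfl⟩
    · obtain ⟨⟨u, ⟨hu1, hu2⟩, hu3⟩, hu4⟩ := u
      have h1 : t * u⁻¹ * t⁻¹ = u := congrArg Subtype.val hu4
      have h1' : t * u * t⁻¹ = u⁻¹ := by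
        have := congrArg (fun y => y⁻¹) h1
        simp only [mul_inv_rev, inv_inv, ← mul_assoc] at this
        exact this
      have h2 : IsPGroup 2 (zpowers u) := isPGroup_zpowers hu1
      have h3 : t * u = u * t := by
        apply comm_of_normalize P h.hab h2 (two_of_mem P.isPGroup' ht1) _ (mem_zpowers u)
        rintro _ ⟨k, rfl⟩
        show t * u ^ k * t⁻¹ ∈ zpowers u
        rw [← conj_zpow, h1']
        exact zpow_mem (inv_mem (mem_zpowers u)) k
      have h4 : u⁻¹ = u := by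
        rw [← h1', h3]; group
      refine ⟨?_, ?_, hu2⟩
      · exact h.mem_of_comm hP1 ht1 htQ hu3 hu1 h3.symm
      · show u ^ 2 = 1
        rw [inv_eq_iff_mul_eq_one, ← pow_two] at h4
        exact h4
    · obtain ⟨u, hu1, hu2, hu3⟩ := u
      exact ⟨⟨⟨1, by simpa using hu2⟩, hu3⟩, hP1 hu1⟩
    · obtain ⟨u, hu1, hu2, hu3⟩ := u
      apply Subtype.ext
      show t * u⁻¹ * t⁻¹ = u
      have h4 : u⁻¹ = u := by
        rw [inv_eq_iff_mul_eq_one, ← pow_two]; exact hu2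
      rw [h4, mul_inv_eq_iff_eq_mul]
      exact h.hab t ht1 u hu1
  rw [hFcard] at hcard1
  suffices hF : Odd (Nat.card F) by
    rw [Nat.odd_iff] at hF ⊢
    rw [← hF]; exact hcard1
  have hQ1 : ∀ u : F, (u : G) ∈ Q → (u : G) = 1 := by
    rintro ⟨u, hu1, hu2, hu3⟩ huQ
    exact eq_one_of_odd_mul (two_of_mem hQ huQ) (h.central hxL huQ).symm hxo hu3
  rcases htc with ht0 | hall
  swap
  · have : Nat.card F = 1 := by
      rw [Nat.card_eq_one_iff_unique]
      refine ⟨⟨fun u v => ?_⟩, ⟨⟨1, one_mem _, one_pow 2, by rw [one_mul]; exact hxo⟩⟩⟩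
      apply Subtype.ext
      rw [hQ1 u (hall u u.2.1 u.2.2.1), hQ1 v (hall v v.2.1 v.2.2.1)]
    rw [this]; exact odd_one
  -- the main case
  have hw0 : w ^ 2 = 1 := by rw [ht0, mul_one] at hwt; exact hwt
  let S : Set G := {u | u ∈ (P : Subgroup G) ∧ u ^ 2 = 1 ∧ Odd (orderOf (u * x))}
  have h1S : (1 : G) ∈ S := ⟨one_mem _, one_pow 2, by rw [one_mul]; exact hxo⟩
  have hSF : Nat.card F = S.ncard := rfl
  rw [hSF, ← Set.ncard_sdiff_singleton_add_one h1S]
  apply Even.add_one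
  let S' : Set G := S \ {1}
  have huQ : ∀ u ∈ S', u ∉ Q := fun u hu hcon => hu.2 (hQ1 ⟨u, hu.1⟩ hcon)
  have hpar : ∀ u : S', ∃ a ∈ Q, Odd (orderOf (a⁻¹ * ((u : G) * w))) ∧ a ^ 2 = 1 := by
    rintro ⟨u, hu⟩
    obtain ⟨a, ha, b, hab', hbo, -, hrel⟩ := h.parts hP1 hP2 hne hu.1.1 (huQ u hu)
      (by rw [hu.1.2.1]; exact one_mem _) hw1 hwQ hw2
    refine ⟨a, ha, ?_, ?_⟩
    · show Odd (orderOf (a⁻¹ * (u * w)))
      rw [← hab', inv_mul_cancel_left]; exact hbo
    · have hc : Commute w a⁻¹ := h.central hwL (inv_mem ha)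
      rw [hu.1.2.1, mul_one, hc.mul_pow, hw0, one_mul, inv_pow, inv_eq_one] at hrel
      exact hrel
  choose a haQ hao ha2 using hpar
  have huniq : ∀ g ∈ centralizer (Q : Set G), ∀ c ∈ Q, ∀ d ∈ Q, Odd (orderOf (c⁻¹ * g)) →
      Odd (orderOf (d⁻¹ * g)) → c = d := by
    intro g hg c hc d hd hco hdo
    have hdg : d⁻¹ * g ∈ centralizer (Q : Set G) := mul_mem (h.Q_le (inv_mem hd)) hg
    have h1 : c⁻¹ * d = 1 := by
      apply eq_one_of_odd_mul (two_of_mem hQ (mul_mem (inv_mem hc) hd)) (h.central hdg (mul_mem (inv_mem hc) hd)).symm hdo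
      have : c⁻¹ * d * (d⁻¹ * g) = c⁻¹ * g := by group
      rw [this]; exact hco
    rw [inv_mul_eq_one] at h1
    exact h1
  have hcomm := h.hab
  have hinv : ∀ c : G, c ^ 2 = 1 → c⁻¹ = c := by
    intro c hc
    rw [inv_eq_iff_mul_eq_one, ← pow_two]; exact hc
  have hνx : ∀ u : S', (u : G) * t * a u * x = (a u)⁻¹ * ((u : G) * w) := by
    intro u
    have haP := h.le (haQ u)
    have huP := u.2.1.1
    rw [hinv _ (ha2 u), ← htw]
    calc (u : G) * t * a u * (t * w) = (u : G) * (t * a u) * (t * w) := by group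
      _ = (u : G) * (a u * t) * (t * w) := by rw [hcomm t ht1 _ haP]
      _ = ((u : G) * a u) * (t ^ 2) * w := by rw [pow_two]; group
      _ = a u * ((u : G) * w) := by rw [ht0, mul_one, hcomm _ huP _ haP]; group
  have hν : ∀ u : S', (u : G) * t * a u ∈ S' := by
    intro u
    have haP := h.le (haQ u)
    have huP := u.2.1.1
    refine ⟨⟨mul_mem (mul_mem huP ht1) haP, ?_, ?_⟩, ?_⟩
    · have hc1 : Commute ((u : G) * t) (a u) := hcomm _ (mul_mem huP ht1) _ haP
      have hc2 : Commute (u : G) t := hcomm _ huP _ ht1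
      rw [hc1.mul_pow, hc2.mul_pow, u.2.1.2.1, ht0, ha2]; simp
    · rw [hνx]; exact hao u
    · intro hcon
      rw [Set.mem_singleton_iff] at hcon
      have h1 : (u : G) * t = (a u)⁻¹ := by rw [eq_inv_iff_mul_eq_one]; exact hcon
      have h2 : (u : G) * x = (a u)⁻¹ * w := by rw [← htw, ← mul_assoc, h1]
      have h3 : (u : G) * x ∈ (P2 : Subgroup G) := by
        rw [h2]; exact mul_mem (inv_mem (hQ2 (haQ u))) hw1
      have h4 := eq_one_of_two_odd (two_of_mem P2.isPGroup' h3) u.2.1.2.2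
      rw [h2, inv_mul_eq_one] at h4
      exact hwQ (h4 ▸ haQ u)
  let ν : S' → S' := fun u => ⟨(u : G) * t * a u, hν u⟩
  have haν : ∀ u, a (ν u) = a u := by
    intro u
    have haP := h.le (haQ u)
    have huP := u.2.1.1
    apply huniq ((ν u : G) * w) (mul_mem (hP1 (ν u).2.1.1) hwL) _ (haQ _) _ (haQ _) (hao (ν u))
    have : (a u)⁻¹ * ((ν u : G) * w) = (u : G) * x := by
      show (a u)⁻¹ * ((u : G) * t * a u * w) = (u : G) * x
      rw [hcomm _ (mul_mem huP ht1) _ haP, ← htw]; group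
    rw [this]
    exact u.2.1.2.2
  have hνν : ∀ u, ν (ν u) = u := by
    intro u
    have haP := h.le (haQ u)
    apply Subtype.ext
    show (u : G) * t * a u * t * a (ν u) = u
    rw [haν, mul_assoc, mul_assoc, ← mul_assoc (a u) t (a u), hcomm _ haP _ ht1, mul_assoc t, ← pow_two, ha2, mul_one,
      mul_assoc, ← pow_two, ht0, mul_one]
  have hfix := card_modEq_of_invol ν hνν
  have hempty : IsEmpty {u : S' // ν u = u} := by
    constructor
    rintro ⟨u, hu⟩
    have h1 : (u : G) * t * a u = u := congrArg Subtype.val hu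
    rw [mul_assoc, mul_eq_left] at h1
    have h2 : t = (a u)⁻¹ := by rw [eq_inv_iff_mul_eq_one]; exact h1
    exact htQ (by rw [h2]; exact inv_mem (haQ u))
  rw [Nat.card_eq_zero.mpr (Or.inl hempty)] at hfix
  rw [even_iff_two_dvd]
  exact (Nat.modEq_zero_iff_dvd).mp hfix

end main

end Cfsg.Agent.H73.AbSyl2
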