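import Cfsg.Agent.H73.DihAut

set_option autoImplicit false

/-! # Three commuting involutory automorphisms of a `p`-group (helper73) -/

namespace Cfsg.Agent.H73.Broad

open Subgroup

section basic

variable {P : Type*} [Group P] [Finite P]

/-- an involutory automorphism without fixed points on an invariant subgroup inverts it -/
theorem inv_on (φ : P →* P) (h2 : ∀ x, φ (φ x) = x) (R : Subgroup P) (hR : ∀ x ∈ R, φ x ∈ R)
    (hf : ∀ x ∈ R, φ x = x → x = 1) : (∀ x ∈ R, φ x = x⁻¹) ∧ ∀ x ∈ R, ∀ y ∈ R, x * y = y * x := by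
  let ψ : R →* R := (φ.comp R.subtype).codRestrict R (fun x => hR x x.2)
  have hψ : MonoidHom.FixedPointFree ψ := by
    intro x hx
    exact Subtype.ext (hf x x.2 (congrArg Subtype.val hx))
  have hi : Function.Involutive ψ := fun x => Subtype.ext (h2 x)
  refine ⟨fun x hx => ?_, fun x hx y hy => ?_⟩
  · have := congrFun (hψ.coe_eq_inv_of_involutive hi) ⟨x, hx⟩
    exact congrArg Subtype.val this
  · exact congrArg Subtype.val (hψ.commute_all_of_involutive hi ⟨x, hx⟩ ⟨y, hy⟩).eq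

/-- a four-group acting on a nontrivial subgroup: some involution has a nontrivial fixed point -/
theorem exists_fixed (φ ψ : P →* P) (hφ : ∀ x, φ (φ x) = x) (hψ : ∀ x, ψ (ψ x) = x) (R : Subgroup P)
    (hR : R ≠ ⊥) (hRφ : ∀ x ∈ R, φ x ∈ R) (hRψ : ∀ x ∈ R, ψ x ∈ R) :
    ∃ x ∈ R, x ≠ 1 ∧ (φ x = x ∨ ψ x = x ∨ φ (ψ x) = x) := by
  by_contra hcon
  push Not at hcon
  have h1 := (inv_on φ hφ R hRφ (fun x hx h => by
    by_contra h1; exact (hcon x hx h1).1 h)).1
  have h2 := (inv_on ψ hψ R hRψ (fun x hx h => by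
    by_contra h1; exact (hcon x hx h1).2.1 h)).1
  obtain ⟨⟨x, hx⟩, hx1⟩ := ne_bot_iff_exists_ne_one.1 hR
  have hx1' : x ≠ 1 := fun h => hx1 (Subtype.ext h)
  refine (hcon x hx hx1').2.2 ?_
  rw [h2 x hx, map_inv, h1 x hx, inv_inv]

end basic

section comm

variable {P : Type*} [CommGroup P]

theorem four_decomp (φ ψ : P →* P) (hφ : ∀ x, φ (φ x) = x) (hψ : ∀ x, ψ (ψ x) = x)
    (hc : ∀ x, φ (ψ x) = ψ (φ x)) (x : P) :
    ∃ a b c : P, φ a = a ∧ ψ b = b ∧ φ (ψ c) = c ∧ x ^ 4 = a * b * c := by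
  refine ⟨(x * φ x) ^ 2, (x * (φ x)⁻¹) * ψ (x * (φ x)⁻¹), (x * (φ x)⁻¹) * (ψ (x * (φ x)⁻¹))⁻¹, ?_, ?_, ?_, ?_⟩
  · rw [map_pow, map_mul, hφ, mul_comm]
  · rw [map_mul, hψ, mul_comm]
  · simp only [map_mul, map_inv, hφ, hψ, hc, mul_inv, inv_inv]
    ac_rfl
  · have : (x * φ x) ^ 2 * ((x * (φ x)⁻¹) * ψ (x * (φ x)⁻¹)) * ((x * (φ x)⁻¹) * (ψ (x * (φ x)⁻¹))⁻¹) =
        (x * φ x) ^ 2 * (x * (φ x)⁻¹) ^ 2 * (ψ (x * (φ x)⁻¹) * (ψ (x * (φ x)⁻¹))⁻¹) := by
      rw [pow_two (x * (φ x)⁻¹)]; ac_rfl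
    rw [this, mul_inv_cancel, mul_one, ← mul_pow]
    have h2 : x * φ x * (x * (φ x)⁻¹) = x ^ 2 * (φ x * (φ x)⁻¹) := by rw [pow_two]; ac_rfl
    rw [h2, mul_inv_cancel, mul_one, ← pow_mul]

theorem card_omega_le [Finite P] {p : ℕ} (hp : 0 < p) {a b : P} (h : closure {a, b} = ⊤) :
    Nat.card {x : P // x ^ p = 1} ≤ p ^ 2 := by
  classical
  have h1 : Nat.card (powMonoidHom p : P →* P).ker = (powMonoidHom p : P →* P).range.index := by
    have h2 := (powMonoidHom p : P →* P).range.index_mul_card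
    have h3 : Nat.card (powMonoidHom p : P →* P).ker * Nat.card (powMonoidHom p : P →* P).range = Nat.card P := by
      rw [← Subgroup.index_ker, Subgroup.card_mul_index]
    have h4 : 0 < Nat.card (powMonoidHom p : P →* P).range := Nat.card_pos
    exact Nat.eq_of_mul_eq_mul_right h4 (h3.trans h2.symm)
  have h2 : Nat.card {x : P // x ^ p = 1} = Nat.card (powMonoidHom p : P →* P).ker :=
    Nat.card_congr (Equiv.subtypeEquivRight fun x => by rw [MonoidHom.mem_ker, powMonoidHom_apply])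
  rw [h2, h1, Subgroup.index]
  set R := (powMonoidHom p : P →* P).range
  have hR : ∀ x : P, (QuotientGroup.mk x : P ⧸ R) ^ p = 1 := by
    intro x
    rw [← QuotientGroup.mk_pow, QuotientGroup.eq_one_iff]
    exact ⟨x, rfl⟩
  have hz : ∀ (x : P ⧸ R) (m : ℤ), x ^ p = 1 → ∃ i : Fin p, x ^ m = x ^ (i : ℕ) := by
    intro x m hx
    have h0 : (0 : ℤ) < p := by exact_mod_cast hp
    have hm := Int.emod_nonneg m h0.ne'
    have hm' := Int.emod_lt_of_pos m h0
    refine ⟨⟨(m % p).toNat, by omega⟩, ?_⟩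
    have h5 : x ^ m = x ^ (m % p) := by
      conv_lhs => rw [← Int.mul_ediv_add_emod m p]
      rw [zpow_add, zpow_mul, zpow_natCast, hx, one_zpow, one_mul]
    rw [h5]
    change _ = x ^ ((m % p).toNat)
    rw [← zpow_natCast, Int.toNat_of_nonneg hm]
  have hsurj : Function.Surjective (fun ij : Fin p × Fin p =>
      (QuotientGroup.mk a : P ⧸ R) ^ (ij.1 : ℕ) * (QuotientGroup.mk b : P ⧸ R) ^ (ij.2 : ℕ)) := by
    intro x
    obtain ⟨x, rfl⟩ := QuotientGroup.mk_surjective x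
    have hx : x ∈ closure {a, b} := by rw [h]; trivial
    obtain ⟨m, n, rfl⟩ := Subgroup.mem_closure_pair.1 hx
    obtain ⟨i, hi⟩ := hz (QuotientGroup.mk a) m (hR a)
    obtain ⟨j, hj⟩ := hz (QuotientGroup.mk b) n (hR b)
    refine ⟨(i, j), ?_⟩
    change (QuotientGroup.mk a : P ⧸ R) ^ (i : ℕ) * (QuotientGroup.mk b : P ⧸ R) ^ (j : ℕ) = _
    rw [← hi, ← hj, QuotientGroup.mk_mul, QuotientGroup.mk_zpow, QuotientGroup.mk_zpow]
  have := Nat.card_le_card_of_surjective _ hsurj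
  rw [Nat.card_prod, Nat.card_fin, ← pow_two] at this
  exact this

theorem pow_card_le [Finite P] {p : ℕ} (hp : p.Prime) (hp2 : p ≠ 2) (T : Fin 3 → (P →* P)) (y : Fin 3 → P)
    (hy : ∀ i, orderOf (y i) = p) (hinv : ∀ i, T i (y i) = (y i)⁻¹) (hcom : ∀ i j, i ≠ j → T j (y i) = y i) :
    p ^ 3 ≤ Nat.card {x : P // x ^ p = 1} := by
  classical
  have hodd : Odd p := hp.odd_of_ne_two hp2
  have hyp : ∀ i, y i ^ p = 1 := fun i => by rw [← hy i]; exact pow_orderOf_eq_one _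
  have key : ∀ (e : Fin 3 → ℤ), (∏ i, y i ^ e i) = 1 → ∀ i, (p : ℤ) ∣ e i := by
    intro e he i
    have h1 : T i (∏ j, y j ^ e j) = (y i ^ e i)⁻¹ * ∏ j ∈ Finset.univ.erase i, y j ^ e j := by
      rw [← Finset.mul_prod_erase Finset.univ _ (Finset.mem_univ i), map_mul, map_zpow, hinv, inv_zpow, map_prod]
      congr 1
      refine Finset.prod_congr rfl fun j hj => ?_
      rw [map_zpow, hcom j i (Finset.ne_of_mem_erase hj)]
    rw [he, map_one] at h1
    rw [← Finset.mul_prod_erase Finset.univ _ (Finset.mem_univ i)] at he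
    have h2 : y i ^ e i = (y i ^ e i)⁻¹ := by
      have h3 : (y i ^ e i)⁻¹ = ∏ j ∈ Finset.univ.erase i, y j ^ e j := (eq_inv_of_mul_eq_one_right he).symm
      rw [← h3] at h1
      have h4 : (y i ^ e i)⁻¹ * (y i ^ e i)⁻¹ = 1 := h1.symm
      have h5 := eq_inv_of_mul_eq_one_left h4
      rw [inv_inv] at h5
      exact h5.symm
    have h6 : y i ^ e i = 1 := by
      refine DihEl.eq_one_of_inv h2 (Odd.of_dvd_nat (n := orderOf (y i)) (by rw [hy]; exact hodd) ?_)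
      exact orderOf_dvd_of_mem_zpowers ⟨e i, rfl⟩
    rw [← hy i]
    exact orderOf_dvd_iff_zpow_eq_one.2 h6
  let f : (Fin 3 → Fin p) → {x : P // x ^ p = 1} := fun e => ⟨∏ i, y i ^ (e i : ℕ), by
    rw [← Finset.prod_pow]
    refine Finset.prod_eq_one fun i _ => ?_
    rw [← pow_mul, mul_comm, pow_mul, hyp, one_pow]⟩
  have hf : Function.Injective f := by
    intro e e' hee
    have h1 : (∏ i, y i ^ (e i : ℕ)) = ∏ i, y i ^ (e' i : ℕ) := congrArg Subtype.val hee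
    have h2 : (∏ i, y i ^ (((e i : ℕ) : ℤ) - ((e' i : ℕ) : ℤ))) = 1 := by
      have : ∀ i, y i ^ (((e i : ℕ) : ℤ) - ((e' i : ℕ) : ℤ)) = y i ^ (e i : ℕ) * (y i ^ (e' i : ℕ))⁻¹ := fun i => by
        rw [zpow_sub, zpow_natCast, zpow_natCast]
      simp only [this]
      rw [Finset.prod_mul_distrib, Finset.prod_inv_distrib, h1, mul_inv_cancel]
    funext i
    have h3 := key _ h2 i
    apply Fin.ext
    have h4 := (e i).2
    have h5 := (e' i).2
    obtain ⟨c, hc⟩ := h3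
    have hc0 : c = 0 := by
      by_contra hc0
      rcases lt_or_gt_of_ne hc0 with h | h
      · have : (p : ℤ) * c ≤ -(p : ℤ) := by nlinarith [(Nat.cast_nonneg p : (0 : ℤ) ≤ p)]
        omega
      · have : (p : ℤ) ≤ (p : ℤ) * c := by nlinarith [(Nat.cast_nonneg p : (0 : ℤ) ≤ p)]
        omega
    rw [hc0, mul_zero] at hc
    omega
  have := Nat.card_le_card_of_injective f hf
  rw [Nat.card_pi] at this
  simpa using this

end comm

end Cfsg.Agent.H73.Broad
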