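import Mathlib

set_option autoImplicit false

namespace Cfsg.Agent.H73.CZ

open Equiv
open scoped commutatorElement

universe u
variable {Ω : Type u}

/-- two-transitivity -/
def Two (G : Subgroup (Perm Ω)) : Prop :=
  ∀ a b c d : Ω, a ≠ b → c ≠ d → ∃ g ∈ G, g a = c ∧ g b = d

/-- point stabilizer -/
def St (G : Subgroup (Perm Ω)) (a : Ω) : Subgroup (Perm Ω) :=
  G ⊓ MulAction.stabilizer (Perm Ω) a

/-- two-point stabilizer -/
def St2 (G : Subgroup (Perm Ω)) (a b : Ω) : Subgroup (Perm Ω) :=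
  St G a ⊓ MulAction.stabilizer (Perm Ω) b

/-- all point stabilizers are Z-groups -/
def ZS (G : Subgroup (Perm Ω)) : Prop := ∀ a, IsZGroup ↥(St G a)

theorem mem_St {G : Subgroup (Perm Ω)} {a : Ω} {g : Perm Ω} :
    g ∈ St G a ↔ g ∈ G ∧ g a = a := by
  unfold St
  rw [Subgroup.mem_inf, MulAction.mem_stabilizer_iff]
  rfl

theorem mem_St2 {G : Subgroup (Perm Ω)} {a b : Ω} {g : Perm Ω} :
    g ∈ St2 G a b ↔ g ∈ G ∧ g a = a ∧ g b = b := by
  unfold St2
  rw [Subgroup.mem_inf, mem_St, MulAction.mem_stabilizer_iff]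
  constructor
  · rintro ⟨⟨h1, h2⟩, h3⟩; exact ⟨h1, h2, h3⟩
  · rintro ⟨h1, h2, h3⟩; exact ⟨⟨h1, h2⟩, h3⟩

theorem St2_le (G : Subgroup (Perm Ω)) (a b : Ω) : St2 G a b ≤ St G a := inf_le_left

theorem cyc_conj {H : Type*} [Group H] (W : Subgroup H) [hn : W.Normal] (hW : IsCyclic ↥W) {x : H}
    (hx : x ∈ W) (g : H) : g * x * g⁻¹ ∈ Subgroup.zpowers x := by
  haveI := hW
  obtain ⟨m, hm⟩ := (MulAut.conjNormal g : MulAut ↥W).toMonoidHom.map_cyclic
  have h := hm ⟨x, hx⟩
  have h2 := congrArg Subtype.val h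
  rw [Subgroup.mem_zpowers_iff]
  refine ⟨m, ?_⟩
  have h3 : ((MulAut.conjNormal g : MulAut ↥W) ⟨x, hx⟩ : H) = g * x * g⁻¹ :=
    MulAut.conjNormal_apply g ⟨x, hx⟩
  rw [← h3]
  simpa using h2.symm

theorem cyc_invol {D : Type*} [Group D] [Finite D] (h : IsCyclic D) {x y : D}
    (hx : x ^ 2 = 1) (hy : y ^ 2 = 1) (hx1 : x ≠ 1) (hy1 : y ≠ 1) : x = y := by
  classical
  haveI := h
  haveI := Fintype.ofFinite D
  by_contra hne
  have h1 := IsCyclic.card_pow_eq_one_le (α := D) (n := 2) (by norm_num)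
  have h2 : ({1, x, y} : Finset D) ⊆ Finset.univ.filter (fun a : D => a ^ 2 = 1) := by
    intro z hz
    simp only [Finset.mem_insert, Finset.mem_singleton] at hz
    simp only [Finset.mem_filter, Finset.mem_univ, true_and]
    rcases hz with rfl | rfl | rfl
    · simp
    · exact hx
    · exact hy
  have h3 := Finset.card_le_card h2
  have h4 : ({1, x, y} : Finset D).card = 3 := by
    rw [Finset.card_insert_of_notMem, Finset.card_insert_of_notMem, Finset.card_singleton]
    · simpa using hne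
    · simp only [Finset.mem_insert, Finset.mem_singleton, not_or]
      exact ⟨fun h => hx1 h.symm, fun h => hy1 h.symm⟩
  omega

/-- in a Z-group, commuting involutions are equal -/
theorem z_invol {H : Type*} [Group H] [Finite H] (h : IsZGroup H) {x y : H}
    (hx : x ^ 2 = 1) (hy : y ^ 2 = 1) (hx1 : x ≠ 1) (hy1 : y ≠ 1) (hxy : x * y = y * x) : x = y := by
  classical
  haveI := h
  haveI : Fact (Nat.Prime 2) := ⟨Nat.prime_two⟩
  have hcomm : ∀ a ∈ ({x, y} : Set H), ∀ b ∈ ({x, y} : Set H), a * b = b * a := by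
    intro a ha b hb
    simp only [Set.mem_insert_iff, Set.mem_singleton_iff] at ha hb
    rcases ha with rfl | rfl <;> rcases hb with rfl | rfl
    · rfl
    · exact hxy
    · exact hxy.symm
    · rfl
  letI : CommGroup ↥(Subgroup.closure ({x, y} : Set H)) := Subgroup.closureCommGroupOfComm hcomm
  have hP : IsPGroup 2 ↥(Subgroup.closure ({x, y} : Set H)) := by
    intro g
    refine ⟨1, ?_⟩
    apply Subtype.ext
    have : ∀ z ∈ Subgroup.closure ({x, y} : Set H), z ^ 2 = 1 := by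
      intro z hz
      induction hz using Subgroup.closure_induction with
      | mem z hz =>
        simp only [Set.mem_insert_iff, Set.mem_singleton_iff] at hz
        rcases hz with rfl | rfl
        · exact hx
        · exact hy
      | one => simp
      | mul a b ha hb iha ihb =>
        have hab : a * b = b * a := by
          have := mul_comm (⟨a, ha⟩ : ↥(Subgroup.closure ({x, y} : Set H))) ⟨b, hb⟩
          exact congrArg Subtype.val this
        have : (a * b) ^ 2 = a ^ 2 * b ^ 2 := (show Commute a b from hab).mul_pow 2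
        rw [this, iha, ihb, one_mul]
      | inv a ha iha => rw [inv_pow, iha, inv_one]
    simpa using this g g.2
  have hcyc : IsCyclic ↥(Subgroup.closure ({x, y} : Set H)) := hP.isCyclic_of_isZGroup
  have hxm : x ∈ Subgroup.closure ({x, y} : Set H) := Subgroup.subset_closure (by simp)
  have hym : y ∈ Subgroup.closure ({x, y} : Set H) := Subgroup.subset_closure (by simp)
  have := cyc_invol hcyc (x := ⟨x, hxm⟩) (y := ⟨y, hym⟩) (Subtype.ext (by simpa using hx))
    (Subtype.ext (by simpa using hy)) (fun h => hx1 (congrArg Subtype.val h))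
    (fun h => hy1 (congrArg Subtype.val h))
  exact congrArg Subtype.val this

/-- the commutator subgroup of a point stabilizer -/
theorem Wex [Finite Ω] {G : Subgroup (Perm Ω)} (h2 : Two G) (hz : ZS G) (a : Ω) :
    ∃ W : Subgroup (Perm Ω), W ≤ St G a ∧ IsCyclic ↥W ∧
      (∀ h ∈ St G a, ∀ x ∈ W, h * x * h⁻¹ ∈ W) ∧
      (∀ h ∈ St G a, ∀ k ∈ St G a, h * k * h⁻¹ * k⁻¹ ∈ W) ∧
      (∀ x ∈ W, ∀ b, b ≠ a → x b = b → x = 1) ∧
      (∀ D : Subgroup (Perm Ω), D ≤ St G a → (∀ x ∈ D, x ∈ W → x = 1) → IsCyclic ↥D) ∧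
      (∃ k, Nat.card ↥(St G a) = Nat.card ↥W * k ∧ (Nat.card ↥W).Coprime k) := by
  haveI : IsZGroup ↥(St G a) := hz a
  set W0 : Subgroup ↥(St G a) := commutator ↥(St G a) with hW0
  have hcyc : IsCyclic ↥W0 := IsZGroup.isCyclic_commutator _
  have hmem : ∀ x : Perm Ω, x ∈ W0.map (St G a).subtype ↔ ∃ h : x ∈ St G a, (⟨x, h⟩ : ↥(St G a)) ∈ W0 := by
    intro x
    constructor
    · rintro ⟨y, hy, rfl⟩
      exact ⟨y.2, by simpa using hy⟩
    · rintro ⟨h, hx⟩
      exact ⟨⟨x, h⟩, hx, rfl⟩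
  refine ⟨W0.map (St G a).subtype, ?_, ?_, ?_, ?_, ?_, ?_, ?_⟩
  · exact Subgroup.map_subtype_le W0
  · exact isCyclic_of_surjective _
      (Subgroup.equivMapOfInjective W0 _ (St G a).subtype_injective).surjective
  · intro h hh x hx
    rw [hmem] at hx ⊢
    obtain ⟨hx1, hx2⟩ := hx
    refine ⟨(St G a).mul_mem ((St G a).mul_mem hh hx1) ((St G a).inv_mem hh), ?_⟩
    have := (inferInstance : W0.Normal).conj_mem _ hx2 ⟨h, hh⟩
    exact this
  · intro h hh k hk
    rw [hmem]
    refine ⟨(St G a).mul_mem ((St G a).mul_mem ((St G a).mul_mem hh hk) ((St G a).inv_mem hh))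
      ((St G a).inv_mem hk), ?_⟩
    have : ⁅(⟨h, hh⟩ : ↥(St G a)), ⟨k, hk⟩⁆ ∈ W0 :=
      Subgroup.commutator_mem_commutator (Subgroup.mem_top _) (Subgroup.mem_top _)
    exact this
  · intro x hx b hb hxb
    rw [hmem] at hx
    obtain ⟨hx1, hx2⟩ := hx
    ext c
    by_cases hc : c = a
    · rw [hc]
      simpa using (mem_St.1 hx1).2
    · obtain ⟨g, hg, hga, hgb⟩ := h2 a b a c (Ne.symm hb) (Ne.symm hc)
      have hgS : g ∈ St G a := mem_St.2 ⟨hg, hga⟩
      have h3 := cyc_conj W0 hcyc hx2 (⟨g, hgS⟩⁻¹ : ↥(St G a))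
      rw [Subgroup.mem_zpowers_iff] at h3
      obtain ⟨m, hm⟩ := h3
      have h4 := congrArg Subtype.val hm
      simp only [inv_inv] at h4
      have h5 : x ^ m = g⁻¹ * x * g := h4
      have h6 : (x ^ m) b = b := by
        have : x ∈ MulAction.stabilizer (Perm Ω) b := hxb
        exact (MulAction.stabilizer (Perm Ω) b).zpow_mem this m
      rw [h5] at h6
      have h7 : x (g b) = g b := by
        have := congrArg g h6
        simpa [Perm.mul_apply] using this
      rw [hgb] at h7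
      simpa using h7
  · intro D hD hDW
    have hinj : Function.Injective ((QuotientGroup.mk' W0).comp (Subgroup.inclusion hD)) := by
      rw [injective_iff_map_eq_one]
      intro d hd
      have h1 : (Subgroup.inclusion hD d) ∈ W0 := by
        rw [← QuotientGroup.eq_one_iff]
        exact hd
      have h2 : (d : Perm Ω) = 1 := hDW d d.2 ((hmem _).2 ⟨hD d.2, h1⟩)
      exact Subtype.ext h2
    haveI : IsCyclic (↥(St G a) ⧸ W0) := (IsZGroup.isCyclic_abelianization : IsCyclic (Abelianization ↥(St G a)))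
    exact isCyclic_of_injective _ hinj
  · refine ⟨W0.index, ?_, ?_⟩
    · rw [Subgroup.card_map_of_injective (St G a).subtype_injective, Subgroup.card_mul_index]
    · rw [Subgroup.card_map_of_injective (St G a).subtype_injective]
      exact IsZGroup.coprime_commutator_index _

/-- two-point stabilizers are cyclic -/
theorem cycD [Finite Ω] {G : Subgroup (Perm Ω)} (h2 : Two G) (hz : ZS G) {a b : Ω} (hab : a ≠ b) :
    IsCyclic ↥(St2 G a b) := by
  obtain ⟨W, -, -, -, -, hW5, hW6, -⟩ := Wex h2 hz a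
  refine hW6 (St2 G a b) (St2_le G a b) ?_
  intro x hx hxW
  exact hW5 x hxW b (Ne.symm hab) (mem_St2.1 hx).2.2

theorem commD [Finite Ω] {G : Subgroup (Perm Ω)} (h2 : Two G) (hz : ZS G) {a b : Ω} (hab : a ≠ b)
    {x y : Perm Ω} (hx : x ∈ St2 G a b) (hy : y ∈ St2 G a b) : x * y = y * x := by
  haveI := cycD h2 hz hab
  letI : CommGroup ↥(St2 G a b) := IsCyclic.commGroup
  have := mul_comm (⟨x, hx⟩ : ↥(St2 G a b)) ⟨y, hy⟩
  exact congrArg Subtype.val this

theorem uniqD [Finite Ω] {G : Subgroup (Perm Ω)} (h2 : Two G) (hz : ZS G) {a b : Ω} (hab : a ≠ b)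
    {x y : Perm Ω} (hx : x ∈ St2 G a b) (hy : y ∈ St2 G a b) (hx2 : x ^ 2 = 1) (hy2 : y ^ 2 = 1)
    (hx1 : x ≠ 1) (hy1 : y ≠ 1) : x = y := by
  have := cyc_invol (cycD h2 hz hab) (x := ⟨x, hx⟩) (y := ⟨y, hy⟩) (Subtype.ext (by simpa using hx2))
    (Subtype.ext (by simpa using hy2)) (fun h => hx1 (congrArg Subtype.val h))
    (fun h => hy1 (congrArg Subtype.val h))
  exact congrArg Subtype.val this

/-- orbit-stabilizer for a subgroup of permutations -/
theorem card_St [Finite Ω] (S : Subgroup (Perm Ω)) (a : Ω) :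
    Nat.card ↥(MulAction.orbit ↥S a) * Nat.card ↥(St S a) = Nat.card ↥S := by
  classical
  rw [← Nat.card_prod]
  haveI := Fintype.ofFinite Ω
  have h1 : Nat.card ↥(St S a) = Nat.card ↥(MulAction.stabilizer ↥S a) := by
    refine Nat.card_congr ⟨fun x => ⟨⟨x, (mem_St.1 x.2).1⟩, (mem_St.1 x.2).2⟩,
      fun x => ⟨x.1.1, mem_St.2 ⟨x.1.2, x.2⟩⟩, fun x => rfl, fun x => rfl⟩
  rw [Nat.card_prod, h1, ← Nat.card_prod]
  exact Nat.card_congr (MulAction.orbitProdStabilizerEquivGroup ↥S a)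

end Cfsg.Agent.H73.CZ
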