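import Cfsg.Agent.H73.CZ1

set_option autoImplicit false

namespace Cfsg.Agent.H73.CZ

open Equiv

universe u
variable {Ω : Type u}

/-- properties of `PGL₂(p)` on the projective line, for a group acting on a subset -/
structure Good (C : Subgroup (Perm Ω)) (Δ : Set Ω) : Prop where
  tri : ∀ a ∈ Δ, ∀ b ∈ Δ, ∀ x ∈ Δ, ∀ y ∈ Δ, a ≠ b → x ≠ a → x ≠ b → y ≠ a → y ≠ b →
    ∃ c ∈ C, c a = a ∧ c b = b ∧ c x = y
  sharp : ∀ c ∈ C, ∀ a ∈ Δ, ∀ b ∈ Δ, ∀ x ∈ Δ, a ≠ b → x ≠ a → x ≠ b → c a = a → c b = b →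
    c x = x → ∀ y ∈ Δ, c y = y
  inv : ∀ w ∈ C, ∀ a ∈ Δ, ∀ b ∈ Δ, a ≠ b → w a = b → w b = a → ∀ d ∈ C, d a = a → d b = b →
    ∀ y ∈ Δ, w (d (w⁻¹ (d y))) = y
  conj : ∀ u ∈ C, ∀ w ∈ C, ∀ a ∈ Δ, ∀ b ∈ Δ, a ≠ b → u a = b → u b = a → w a = b → w b = a →
    (∀ y ∈ Δ, u (u y) = y ∧ u y ≠ y) → (∀ y ∈ Δ, w (w y) = y ∧ w y ≠ y) →
    ∃ d ∈ C, d a = a ∧ d b = b ∧ ∀ y ∈ Δ, u y = d (w (d⁻¹ y))
  sq : ∀ x ∈ C, ∀ y ∈ C, (∀ z ∈ Δ, x (x z) = y (y z)) → (∃ z ∈ Δ, x (x z) ≠ z) →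
    ∀ z ∈ Δ, x (y z) = y (x z)

structure Ctx (G A : Subgroup (Perm Ω)) (α : Ω) (i t : Perm Ω) : Prop where
  two : Two G
  zs : ZS G
  AG : A ≤ G
  Acyc : IsCyclic ↥A
  Atr : ∀ a b : Ω, ∃ x ∈ A, x a = b
  iA : i ∈ A
  i2 : i ^ 2 = 1
  i1 : i ≠ 1
  tG : t ∈ G
  ta : t α = α
  tb : t (i α) = i α
  t2 : t ^ 2 = 1
  t1 : t ≠ 1

/-- centralizer in `G` -/
def Cn (G : Subgroup (Perm Ω)) (t : Perm Ω) : Subgroup (Perm Ω) := G ⊓ Subgroup.centralizer {t}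

theorem mem_Cn {G : Subgroup (Perm Ω)} {t g : Perm Ω} : g ∈ Cn G t ↔ g ∈ G ∧ g * t = t * g := by
  unfold Cn
  rw [Subgroup.mem_inf, Subgroup.mem_centralizer_singleton_iff]

/-- fixed points -/
def Fx (t : Perm Ω) : Set Ω := {x | t x = x}

theorem mem_Fx {t : Perm Ω} {x : Ω} : x ∈ Fx t ↔ t x = x := Iff.rfl

theorem Fx_inv {G : Subgroup (Perm Ω)} {t g : Perm Ω} (hg : g ∈ Cn G t) {x : Ω} (hx : x ∈ Fx t) :
    g x ∈ Fx t := by
  rw [mem_Fx] at hx ⊢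
  have h := (mem_Cn.1 hg).2
  calc t (g x) = (t * g) x := rfl
    _ = (g * t) x := by rw [h]
    _ = g (t x) := rfl
    _ = g x := by rw [hx]

theorem ias (f : Perm Ω) (x : Ω) : f⁻¹ (f x) = x := Equiv.symm_apply_apply f x

theorem sq_app {t : Perm Ω} (h : t ^ 2 = 1) (x : Ω) : t (t x) = x := by
  have : (t ^ 2) x = x := by rw [h]; rfl
  rwa [pow_two] at this

theorem inv_eq_of_sq {t : Perm Ω} (h : t ^ 2 = 1) : t⁻¹ = t := by
  rw [pow_two] at h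
  exact inv_eq_of_mul_eq_one_left h

section
variable {G A : Subgroup (Perm Ω)} {α : Ω} {i t : Perm Ω}

theorem Ctx.Acomm (h : Ctx G A α i t) {x y : Perm Ω} (hx : x ∈ A) (hy : y ∈ A) : x * y = y * x := by
  have := h.Acyc
  letI : CommGroup ↥A := IsCyclic.commGroup
  have := mul_comm (⟨x, hx⟩ : ↥A) ⟨y, hy⟩
  exact congrArg Subtype.val this

theorem Ctx.Afree (h : Ctx G A α i t) {x : Perm Ω} (hx : x ∈ A) {a : Ω} (hxa : x a = a) : x = 1 := by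
  ext b
  obtain ⟨y, hy, hyb⟩ := h.Atr a b
  have h1 := h.Acomm hx hy
  calc x b = x (y a) := by rw [hyb]
    _ = (x * y) a := rfl
    _ = (y * x) a := by rw [h1]
    _ = y (x a) := rfl
    _ = b := by rw [hxa, hyb]

theorem Ctx.ifree (h : Ctx G A α i t) (x : Ω) : i x ≠ x := fun hx => h.i1 (h.Afree h.iA hx)

theorem Ctx.iinv (h : Ctx G A α i t) : i⁻¹ = i := inv_eq_of_sq h.i2

theorem Ctx.tinv (h : Ctx G A α i t) : t⁻¹ = t := inv_eq_of_sq h.t2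

theorem Ctx.iG (h : Ctx G A α i t) : i ∈ G := h.AG h.iA

theorem Ctx.ab (h : Ctx G A α i t) : α ≠ i α := (h.ifree α).symm

theorem Ctx.tD (h : Ctx G A α i t) : t ∈ St2 G α (i α) := mem_St2.2 ⟨h.tG, h.ta, h.tb⟩

variable [Finite Ω]

theorem Ctx.it (h : Ctx G A α i t) : i * t = t * i := by
  have h1 : i * t * i⁻¹ ∈ St2 G α (i α) := by
    refine mem_St2.2 ⟨G.mul_mem (G.mul_mem h.iG h.tG) (G.inv_mem h.iG), ?_, ?_⟩
    · rw [h.iinv]
      show i (t (i α)) = α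
      rw [h.tb, sq_app h.i2]
    · rw [h.iinv]
      show i (t (i (i α))) = i α
      rw [sq_app h.i2, h.ta]
  have h2 := uniqD h.two h.zs h.ab h1 h.tD (by rw [conj_pow, h.t2]; group) h.t2
    (by intro h3; exact h.t1 (by rwa [conj_eq_one_iff] at h3)) h.t1
  calc i * t = (i * t * i⁻¹) * i := by group
    _ = t * i := by rw [h2]

theorem Ctx.iC (h : Ctx G A α i t) : i ∈ Cn G t := mem_Cn.2 ⟨h.iG, h.it⟩

theorem Ctx.aF (h : Ctx G A α i t) : α ∈ Fx t := h.ta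
theorem Ctx.bF (h : Ctx G A α i t) : i α ∈ Fx t := h.tb

theorem Ctx.Areg (h : Ctx G A α i t) {a : Perm Ω} (ha : a ∈ A) (hy : a α ∈ Fx t) : a ∈ Cn G t := by
  have hi := Fx_inv h.iC hy
  have hne : a α ≠ i (a α) := (h.ifree _).symm
  have h0 : t ∈ St2 G (a α) (i (a α)) := mem_St2.2 ⟨h.tG, hy, hi⟩
  have h1 : a * t * a⁻¹ ∈ St2 G (a α) (i (a α)) := by
    refine mem_St2.2 ⟨G.mul_mem (G.mul_mem (h.AG ha) h.tG) (G.inv_mem (h.AG ha)), ?_, ?_⟩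
    · show a (t (a⁻¹ (a α))) = a α
      rw [ias, h.ta]
    · have h2 : i (a α) = a (i α) := by
        have := h.Acomm h.iA ha
        exact congrArg (fun f : Perm Ω => f α) this
      rw [h2]
      show a (t (a⁻¹ (a (i α)))) = a (i α)
      rw [ias, h.tb]
  have h2 := uniqD h.two h.zs hne h1 h0 (by rw [conj_pow, h.t2]; group) h.t2
    (by intro h3; exact h.t1 (by rwa [conj_eq_one_iff] at h3)) h.t1
  refine mem_Cn.2 ⟨h.AG ha, ?_⟩
  calc a * t = (a * t * a⁻¹) * a := by group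
    _ = t * a := by rw [h2]

end

theorem pick [Finite Ω] {Δ : Set Ω} (h4 : 4 ≤ Nat.card ↥Δ) (a b c : Ω) :
    ∃ x ∈ Δ, x ≠ a ∧ x ≠ b ∧ x ≠ c := by
  classical
  by_contra hcon
  push Not at hcon
  have h1 : Δ ⊆ ({a, b, c} : Set Ω) := by
    intro x hx
    by_cases hxa : x = a
    · simp [hxa]
    · by_cases hxb : x = b
      · simp [hxb]
      · have := hcon x hx hxa hxb
        simp [this]
  have h2 : Nat.card ↥Δ ≤ Nat.card ↥({a, b, c} : Set Ω) := Nat.card_mono (Set.toFinite _) h1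
  have h3 : Nat.card ↥({a, b, c} : Set Ω) ≤ 3 := by
    rw [Nat.card_coe_set_eq]
    calc Set.ncard ({a, b, c} : Set Ω) ≤ Set.ncard ({b, c} : Set Ω) + 1 := Set.ncard_insert_le _ _
      _ ≤ (Set.ncard ({c} : Set Ω) + 1) + 1 := by gcongr; exact Set.ncard_insert_le _ _
      _ = 3 := by rw [Set.ncard_singleton]
  omega

section
variable {G A : Subgroup (Perm Ω)} {α : Ω} {i t : Perm Ω} [Finite Ω]

/-- the kernel on the fixed points is central -/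
theorem Ctx.centK (h : Ctx G A α i t) (hg : Good (Cn G t) (Fx t)) (h4 : 4 ≤ Nat.card ↥(Fx t))
    {k c : Perm Ω} (hk : k ∈ Cn G t) (hkF : ∀ x ∈ Fx t, k x = x) (hc : c ∈ Cn G t) :
    k * c = c * k := by
  have hR : ∀ γ ∈ Fx t, ∀ γ' ∈ Fx t, γ ≠ γ' → ∀ r ∈ Cn G t, r γ = γ → r γ' = γ' →
      k * r = r * k := by
    intro γ hγ γ' hγ' hne r hr h1 h2
    exact commD h.two h.zs hne (mem_St2.2 ⟨(mem_Cn.1 hk).1, hkF _ hγ, hkF _ hγ'⟩)
      (mem_St2.2 ⟨(mem_Cn.1 hr).1, h1, h2⟩)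
  obtain ⟨r1, hr1, hr1k, hr1a⟩ : ∃ r ∈ Cn G t, k * r = r * k ∧ r (c α) = α := by
    by_cases hca : c α = α
    · exact ⟨1, one_mem _, by simp, by simpa using hca⟩
    · obtain ⟨γ, hγ, hγ1, hγ2, -⟩ := pick h4 α (c α) α
      obtain ⟨γ', hγ', hγ'1, hγ'2, hγ'3⟩ := pick h4 α (c α) γ
      obtain ⟨r, hr, hr1, hr2, hr3⟩ := hg.tri γ hγ γ' hγ' (c α) (Fx_inv hc h.aF) α h.aF
        (Ne.symm hγ'3) (Ne.symm hγ2) (Ne.symm hγ'2) (Ne.symm hγ1) (Ne.symm hγ'1)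
      exact ⟨r, hr, hR γ hγ γ' hγ' (Ne.symm hγ'3) r hr hr1 hr2, hr3⟩
  have hc2 : r1 * c ∈ Cn G t := mul_mem hr1 hc
  have hc2a : (r1 * c) α = α := hr1a
  obtain ⟨r2, hr2, hr2k, hr2a, hr2b⟩ : ∃ r ∈ Cn G t, k * r = r * k ∧ r α = α ∧
      r ((r1 * c) (i α)) = i α := by
    by_cases hcb : (r1 * c) (i α) = i α
    · exact ⟨1, one_mem _, by simp, rfl, by simpa using hcb⟩
    · obtain ⟨γ, hγ, hγ1, hγ2, hγ3⟩ := pick h4 α (i α) ((r1 * c) (i α))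
      have hna : (r1 * c) (i α) ≠ α := by
        intro h5
        rw [← hc2a] at h5
        have h6 := (r1 * c).injective h5
        rw [hc2a] at h6
        exact h.ifree α h6
      obtain ⟨r, hr, hr1, hr2, hr3⟩ := hg.tri α h.aF γ hγ ((r1 * c) (i α)) (Fx_inv hc2 h.bF) (i α)
        h.bF (Ne.symm hγ1) hna (Ne.symm hγ3) (h.ifree α) (Ne.symm hγ2)
      exact ⟨r, hr, hR α h.aF γ hγ (Ne.symm hγ1) r hr hr1 hr2, hr1, hr3⟩
  have h5 : k * (r2 * (r1 * c)) = (r2 * (r1 * c)) * k := by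
    refine hR α h.aF (i α) h.bF h.ab _ (mul_mem hr2 hc2) ?_ hr2b
    show r2 ((r1 * c) α) = α
    rw [hc2a, hr2a]
  have e1 : Commute k r1 := hr1k
  have e2 : Commute k r2 := hr2k
  have e3 : Commute k (r2 * (r1 * c)) := h5
  have e4 : Commute k (r1⁻¹ * (r2⁻¹ * (r2 * (r1 * c)))) :=
    (e1.inv_right).mul_right ((e2.inv_right).mul_right e3)
  have e5 : r1⁻¹ * (r2⁻¹ * (r2 * (r1 * c))) = c := by group
  rw [e5] at e4
  exact e4

theorem Ctx.conj_it (h : Ctx G A α i t) (hg : Good (Cn G t) (Fx t)) (h4 : 4 ≤ Nat.card ↥(Fx t)) :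
    ∃ g ∈ G, i * t = g * t * g⁻¹ := by
  obtain ⟨x, hx⟩ : ∃ x, t x ≠ x := by
    by_contra hcon
    push Not at hcon
    exact h.t1 (by ext x; simpa using hcon x)
  obtain ⟨g, hgG, hg1, hg2⟩ := h.two x (t x) α (i α) (Ne.symm hx) h.ab
  have hginv1 : g⁻¹ α = x := by rw [← hg1]; simp
  have hginv2 : g⁻¹ (i α) = t x := by rw [← hg2]; simp
  set u := g * t * g⁻¹ with hu
  have huG : u ∈ G := G.mul_mem (G.mul_mem hgG h.tG) (G.inv_mem hgG)
  have hu2 : u ^ 2 = 1 := by rw [hu, conj_pow, h.t2]; group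
  have hu1 : u ≠ 1 := by intro h3; rw [hu, conj_eq_one_iff] at h3; exact h.t1 h3
  have hua : u α = i α := by
    show g (t (g⁻¹ α)) = i α
    rw [hginv1, hg2]
  have hub : u (i α) = α := by
    show g (t (g⁻¹ (i α))) = α
    rw [hginv2, sq_app h.t2, hg1]
  have huinv : u⁻¹ = u := inv_eq_of_sq hu2
  have huC : u ∈ Cn G t := by
    have h1 : u * t * u⁻¹ ∈ St2 G α (i α) := by
      refine mem_St2.2 ⟨G.mul_mem (G.mul_mem huG h.tG) (G.inv_mem huG), ?_, ?_⟩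
      · rw [huinv]
        show u (t (u α)) = α
        rw [hua, h.tb, hub]
      · rw [huinv]
        show u (t (u (i α))) = i α
        rw [hub, h.ta, hua]
    have h2 := uniqD h.two h.zs h.ab h1 h.tD (by rw [conj_pow, h.t2]; group) h.t2
      (by intro h3; exact h.t1 (by rwa [conj_eq_one_iff] at h3)) h.t1
    refine mem_Cn.2 ⟨huG, ?_⟩
    calc u * t = (u * t * u⁻¹) * u := by group
      _ = t * u := by rw [h2]
  have hufree : ∀ y ∈ Fx t, u y ≠ y := by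
    intro y hy huy
    have h1 : u ∈ St G y := mem_St.2 ⟨huG, huy⟩
    have h2 : t ∈ St G y := mem_St.2 ⟨h.tG, hy⟩
    have h3 := z_invol (h.zs y) (x := ⟨u, h1⟩) (y := ⟨t, h2⟩) (Subtype.ext (by simpa using hu2))
      (Subtype.ext (by simpa using h.t2)) (fun h3 => hu1 (congrArg Subtype.val h3))
      (fun h3 => h.t1 (congrArg Subtype.val h3)) (Subtype.ext (mem_Cn.1 huC).2)
    have h4 : u = t := congrArg Subtype.val h3
    rw [h4, h.ta] at hua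
    exact h.ab hua
  obtain ⟨d, hd, hd1, hd2, hd3⟩ := hg.conj u huC i h.iC α h.aF (i α) h.bF h.ab hua hub rfl
    (sq_app h.i2 α) (fun y hy => ⟨sq_app hu2 y, hufree y hy⟩)
    (fun y _ => ⟨sq_app h.i2 y, h.ifree y⟩)
  set k := (d * i * d⁻¹)⁻¹ * u with hk
  have hkC : k ∈ Cn G t := mul_mem (inv_mem (mul_mem (mul_mem hd h.iC) (inv_mem hd))) huC
  have hkF : ∀ x ∈ Fx t, k x = x := by
    intro x hx
    show (d * i * d⁻¹)⁻¹ (u x) = x
    rw [hd3 x hx]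
    exact ias (d * i * d⁻¹) x
  have huk : u = (d * i * d⁻¹) * k := by rw [hk]; group
  have hkc := h.centK hg h4 hkC hkF (mul_mem (mul_mem hd h.iC) (inv_mem hd))
  have hk2 : k ^ 2 = 1 := by
    have h5 : u ^ 2 = (d * i * d⁻¹) ^ 2 * k ^ 2 := by
      rw [huk]
      exact (show Commute (d * i * d⁻¹) k from hkc.symm).mul_pow 2
    rw [hu2, conj_pow, h.i2] at h5
    have h6 : d * 1 * d⁻¹ * k ^ 2 = k ^ 2 := by group
    rw [h6] at h5
    exact h5.symm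
  have hdt := (mem_Cn.1 hd).2
  by_cases hk1 : k = 1
  · exfalso
    rw [hk1, mul_one] at huk
    have h5 : u (g α) = g α := by
      show g (t (g⁻¹ (g α))) = g α
      rw [ias, h.ta]
    rw [huk] at h5
    have h6 : d (i (d⁻¹ (g α))) = g α := h5
    have h7 : i (d⁻¹ (g α)) = d⁻¹ (g α) := by
      have := congrArg (fun z => d⁻¹ z) h6
      simpa using this
    exact h.ifree _ h7
  · have h5 : k = t := by
      refine uniqD h.two h.zs h.ab (mem_St2.2 ⟨(mem_Cn.1 hkC).1, hkF _ h.aF, hkF _ h.bF⟩) h.tD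
        hk2 h.t2 hk1 h.t1
    refine ⟨d⁻¹ * g, G.mul_mem (G.inv_mem (mem_Cn.1 hd).1) hgG, ?_⟩
    have h6 : d⁻¹ * g * t * (d⁻¹ * g)⁻¹ = d⁻¹ * u * d := by rw [hu]; group
    rw [h6, huk, h5]
    have hdt' : t * d = d * t := hdt.symm
    calc i * t = i * (d⁻¹ * (d * t)) := by group
      _ = i * (d⁻¹ * (t * d)) := by rw [hdt']
      _ = d⁻¹ * (d * i * d⁻¹ * t) * d := by group

/-- no conjugate of `i` by an element of `G` is `i * t` -/
theorem Ctx.no_conj (h : Ctx G A α i t) (hg : Good (Cn G t) (Fx t)) (h4 : 4 ≤ Nat.card ↥(Fx t))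
    {d : Perm Ω} (hd : d * i * d⁻¹ = i * t) : False := by
  obtain ⟨g, hgG, hgg⟩ := h.conj_it hg h4
  rw [hgg] at hd
  have h5 : (g * t * g⁻¹) (g α) = g α := by
    show g (t (g⁻¹ (g α))) = g α
    rw [ias, h.ta]
  rw [← hd] at h5
  have h6 : d (i (d⁻¹ (g α))) = g α := h5
  have h7 : i (d⁻¹ (g α)) = d⁻¹ (g α) := by
    have := congrArg (fun z => d⁻¹ z) h6
    simpa using this
  exact h.ifree _ h7

theorem Ctx.comm2 (h : Ctx G A α i t) (hg : Good (Cn G t) (Fx t)) (h4 : 4 ≤ Nat.card ↥(Fx t))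
    {s : Perm Ω} (hs : s ∈ St2 G α (i α)) {m : ℕ} (hm : s ^ (2 ^ m) = 1) : i * s = s * i := by
  classical
  by_contra hcon
  have his : i * s * i⁻¹ ∈ St2 G α (i α) := by
    obtain ⟨h1, h2, h3⟩ := mem_St2.1 hs
    refine mem_St2.2 ⟨G.mul_mem (G.mul_mem h.iG h1) (G.inv_mem h.iG), ?_, ?_⟩
    · rw [h.iinv]
      show i (s (i α)) = α
      rw [h3, sq_app h.i2]
    · rw [h.iinv]
      show i (s (i (i α))) = i α
      rw [sq_app h.i2, h2]
  have hcm : Commute (i * s * i⁻¹) s⁻¹ := by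
    have := commD h.two h.zs h.ab his (inv_mem hs)
    exact this
  have hN : ∀ N : ℕ, (i * s * i⁻¹ * s⁻¹) ^ N = i * s ^ N * i⁻¹ * (s ^ N)⁻¹ := by
    intro N
    rw [hcm.mul_pow, conj_pow, inv_pow]
  have hex : ∃ j, (i * s * i⁻¹ * s⁻¹) ^ (2 ^ j) = 1 := ⟨m, by rw [hN, hm]; group⟩
  have h1 := Nat.find_spec hex
  have h0 : Nat.find hex ≠ 0 := by
    intro h0
    rw [h0] at h1
    simp only [pow_zero, pow_one] at h1
    apply hcon
    calc i * s = (i * s * i⁻¹ * s⁻¹) * (s * i) := by group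
      _ = s * i := by rw [h1, one_mul]
  obtain ⟨j, hj⟩ := Nat.exists_eq_succ_of_ne_zero h0
  have h2 : (i * s * i⁻¹ * s⁻¹) ^ (2 ^ j) ≠ 1 := Nat.find_min hex (by omega)
  rw [hj, Nat.succ_eq_add_one, pow_succ, pow_mul] at h1
  have hD : (i * s * i⁻¹ * s⁻¹) ^ (2 ^ j) ∈ St2 G α (i α) := pow_mem (mul_mem his (inv_mem hs)) _
  have h3 := uniqD h.two h.zs h.ab hD h.tD h1 h.t2 h2 h.t1
  rw [hN] at h3
  set d := s ^ (2 ^ j) with hd
  have h5 : d * i * d⁻¹ = i * t := by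
    have h6 : i * d * i⁻¹ = t * d := by
      calc i * d * i⁻¹ = (i * d * i⁻¹ * d⁻¹) * d := by group
        _ = t * d := by rw [h3]
    have h7 : i * d⁻¹ * i⁻¹ = d⁻¹ * t := by
      have h8 : (i * d * i⁻¹)⁻¹ = (t * d)⁻¹ := by rw [h6]
      have h9 : (t * d)⁻¹ = d⁻¹ * t := by rw [mul_inv_rev, h.tinv]
      rw [← h9, ← h8]; group
    calc d * i * d⁻¹ = d * i * d⁻¹ * i⁻¹ * i := by group
      _ = d * (i * d⁻¹ * i⁻¹) * i := by group
      _ = d * (d⁻¹ * t) * i := by rw [h7]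
      _ = t * i := by group
      _ = i * t := h.it.symm
  exact h.no_conj hg h4 h5

end

end Cfsg.Agent.H73.CZ
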