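import Cfsg.Agent.H73.CZ2

set_option autoImplicit false

namespace Cfsg.Agent.H73.CZ

open Equiv

universe u

theorem syl_conj {Γ : Type*} [Group Γ] [Finite Γ] (C Q1 Q2 : Subgroup Γ) (h1 : Q1 ≤ C) (h2 : Q2 ≤ C)
    (c1 : Nat.card ↥Q1 = 2 ^ (Nat.card ↥C).factorization 2)
    (c2 : Nat.card ↥Q2 = 2 ^ (Nat.card ↥C).factorization 2) :
    ∃ c ∈ C, ∀ x ∈ Q1, c * x * c⁻¹ ∈ Q2 := by
  haveI : Fact (Nat.Prime 2) := ⟨Nat.prime_two⟩
  have e1 : Nat.card ↥(Q1.subgroupOf C) = 2 ^ (Nat.card ↥C).factorization 2 := by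
    rw [← c1]; exact Nat.card_congr (Subgroup.subgroupOfEquivOfLe h1).toEquiv
  have e2 : Nat.card ↥(Q2.subgroupOf C) = 2 ^ (Nat.card ↥C).factorization 2 := by
    rw [← c2]; exact Nat.card_congr (Subgroup.subgroupOfEquivOfLe h2).toEquiv
  obtain ⟨c, hc⟩ := MulAction.exists_smul_eq ↥C (Sylow.ofCard (Q1.subgroupOf C) e1)
    (Sylow.ofCard (Q2.subgroupOf C) e2)
  refine ⟨c, c.2, ?_⟩
  intro x hx
  have hx1 : (⟨x, h1 hx⟩ : ↥C) ∈ (Sylow.ofCard (Q1.subgroupOf C) e1 : Sylow 2 ↥C) := by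
    show (⟨x, h1 hx⟩ : ↥C) ∈ Q1.subgroupOf C
    rw [Subgroup.mem_subgroupOf]
    exact hx
  have hx2 : c * ⟨x, h1 hx⟩ * c⁻¹ ∈ (c • Sylow.ofCard (Q1.subgroupOf C) e1 : Sylow 2 ↥C) := by
    have := Subgroup.smul_mem_pointwise_smul (⟨x, h1 hx⟩ : ↥C) (MulAut.conj c)
      ((Sylow.ofCard (Q1.subgroupOf C) e1 : Sylow 2 ↥C) : Subgroup ↥C) hx1
    exact this
  rw [hc] at hx2
  have hx3 : c * ⟨x, h1 hx⟩ * c⁻¹ ∈ Q2.subgroupOf C := hx2
  rw [Subgroup.mem_subgroupOf] at hx3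
  exact hx3

theorem syl_ex {Γ : Type*} [Group Γ] [Finite Γ] (C : Subgroup Γ) {s : Γ} (hs : s ∈ C) {m : ℕ}
    (hm : s ^ (2 ^ m) = 1) :
    ∃ Q : Subgroup Γ, Q ≤ C ∧ s ∈ Q ∧ Nat.card ↥Q = 2 ^ (Nat.card ↥C).factorization 2 := by
  haveI : Fact (Nat.Prime 2) := ⟨Nat.prime_two⟩
  have hP : IsPGroup 2 ↥(Subgroup.zpowers (⟨s, hs⟩ : ↥C)) := by
    rw [IsPGroup.iff_card]
    rw [Nat.card_zpowers]
    have h1 : orderOf (⟨s, hs⟩ : ↥C) ∣ 2 ^ m := by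
      rw [orderOf_dvd_iff_pow_eq_one]
      exact Subtype.ext (by simpa using hm)
    obtain ⟨k, -, hk⟩ := (Nat.dvd_prime_pow Nat.prime_two).1 h1
    exact ⟨k, hk⟩
  obtain ⟨P, hPP⟩ := hP.exists_le_sylow
  refine ⟨(P : Subgroup ↥C).map C.subtype, Subgroup.map_subtype_le _, ?_, ?_⟩
  · exact ⟨⟨s, hs⟩, hPP (Subgroup.mem_zpowers _), rfl⟩
  · rw [Subgroup.card_map_of_injective C.subtype_injective]
    exact P.card_eq_multiplicity

variable {Ω : Type u}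
variable {G A : Subgroup (Perm Ω)} {α : Ω} {i t : Perm Ω} [Finite Ω]

theorem Ctx.D_le (h : Ctx G A α i t) : St2 G α (i α) ≤ Cn G t := by
  intro x hx
  exact mem_Cn.2 ⟨(mem_St2.1 hx).1, commD h.two h.zs h.ab hx h.tD⟩

theorem Ctx.arith (h : Ctx G A α i t) (hg : Good (Cn G t) (Fx t)) (h4 : 4 ≤ Nat.card ↥(Fx t))
    (hev : Even (Nat.card ↥(Fx t))) :
    ∃ s ∈ St2 G α (i α), ∃ b m : ℕ, Nat.card ↥(St2 G α (i α)) = 2 ^ b * m ∧ Odd m ∧
      orderOf s = 2 ^ b ∧ (∃ x ∈ Fx t, s x ≠ x) ∧ (∃ e : ℕ, (s ^ e) ^ 2 = t) ∧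
      4 ∣ Nat.card ↥(Fx t) ∧ i * s = s * i := by
  classical
  set D := St2 G α (i α) with hD
  obtain ⟨γ, hγ, hγ1, hγ2, -⟩ := pick h4 α (i α) α
  -- orbit
  have horb : (MulAction.orbit ↥D γ : Set Ω) = Fx t \ {α, i α} := by
    ext x
    constructor
    · rintro ⟨d, rfl⟩
      have hd := mem_St2.1 d.2
      refine ⟨Fx_inv (h.D_le d.2) hγ, ?_⟩
      simp only [Set.mem_insert_iff, Set.mem_singleton_iff, not_or]
      constructor
      · intro h1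
        have h2 : (d : Perm Ω) γ = (d : Perm Ω) α := by rw [hd.2.1]; exact h1
        exact hγ1 ((d : Perm Ω).injective h2)
      · intro h1
        have h2 : (d : Perm Ω) γ = (d : Perm Ω) (i α) := by rw [hd.2.2]; exact h1
        exact hγ2 ((d : Perm Ω).injective h2)
    · rintro ⟨hx, hx2⟩
      simp only [Set.mem_insert_iff, Set.mem_singleton_iff, not_or] at hx2
      obtain ⟨c, hc, hc1, hc2, hc3⟩ := hg.tri α h.aF (i α) h.bF γ hγ x hx h.ab hγ1 hγ2 hx2.1 hx2.2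
      exact ⟨⟨c, mem_St2.2 ⟨(mem_Cn.1 hc).1, hc1, hc2⟩⟩, hc3⟩
  have hcardorb : Nat.card ↥(MulAction.orbit ↥D γ) = Nat.card ↥(Fx t) - 2 := by
    rw [horb, Nat.card_coe_set_eq, Nat.card_coe_set_eq]
    rw [Set.ncard_sdiff (by
      intro x hx
      simp only [Set.mem_insert_iff, Set.mem_singleton_iff] at hx
      rcases hx with rfl | rfl
      · exact h.aF
      · exact h.bF), Set.ncard_pair h.ab]
  have hcard := card_St D γ
  rw [hcardorb] at hcard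
  set q := Nat.card ↥(Fx t) - 2 with hq
  set κ := Nat.card ↥(St D γ) with hκ
  have hqe : Even q := by
    obtain ⟨r, hr⟩ := hev; exact ⟨r - 1, by omega⟩
  have hD0 : Nat.card ↥D ≠ 0 := Nat.card_pos.ne'
  obtain ⟨b, m, hm, hbm⟩ := Nat.exists_eq_two_pow_mul_odd hD0
  haveI := cycD h.two h.zs h.ab
  obtain ⟨d0, hd0⟩ := IsCyclic.exists_generator (α := ↥D)
  have hord : orderOf (d0 : Perm Ω) = Nat.card ↥D := by
    rw [Subgroup.orderOf_coe]
    exact orderOf_eq_card_of_forall_mem_zpowers hd0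
  have hm0 : m ≠ 0 := by rintro rfl; simp at hm
  set s : Perm Ω := (d0 : Perm Ω) ^ m with hs
  have hsD : s ∈ D := pow_mem d0.2 m
  have hsord : orderOf s = 2 ^ b := by
    rw [hs, orderOf_pow_of_dvd hm0 (by rw [hord, hbm]; exact Dvd.intro_left _ rfl), hord, hbm]
    exact Nat.mul_div_cancel _ (Nat.pos_of_ne_zero hm0)
  have hnodd : ∀ k, 2 ^ (k + 1) ∣ Nat.card ↥D → k + 1 ≤ b := by
    intro k hk
    rw [hbm] at hk
    have h1 : (2 ^ (k + 1)).Coprime m := (Nat.coprime_pow_left_iff (by omega) 2 m).2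
      (Nat.coprime_two_left.2 hm)
    have h2 := h1.dvd_of_dvd_mul_right hk
    exact (Nat.pow_dvd_pow_iff_le_right (by norm_num)).1 h2
  have hdvd : ∀ x : Perm Ω, x ∈ D → (∀ y ∈ Fx t, x y = y) → orderOf x ∣ κ := by
    intro x hx hxf
    have hxm : x ∈ St D γ := mem_St.2 ⟨hx, hxf γ hγ⟩
    have := orderOf_dvd_natCard (⟨x, hxm⟩ : ↥(St D γ))
    rwa [Subgroup.orderOf_mk] at this
  have hsK : ∃ x ∈ Fx t, s x ≠ x := by
    by_contra hcon
    push Not at hcon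
    have h1 := hdvd s hsD hcon
    rw [hsord] at h1
    obtain ⟨q', hq'⟩ := hqe
    have h2 : 2 ^ (b + 1) ∣ Nat.card ↥D := by
      rw [← hcard, pow_succ, hq', ← two_mul]
      obtain ⟨c, hc⟩ := h1
      exact ⟨q' * c, by rw [hc]; ring⟩
    have := hnodd b h2
    omega
  have hs2b : s ^ (2 ^ b) = 1 := by rw [← hsord]; exact pow_orderOf_eq_one s
  have his : i * s = s * i := h.comm2 hg h4 hsD hs2b
  have hss : ∀ y ∈ Fx t, (s ^ 2) y = y := by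
    intro y hy
    have h1 := hg.inv i h.iC α h.aF (i α) h.bF h.ab rfl (sq_app h.i2 α) s (h.D_le hsD)
      (mem_St2.1 hsD).2.1 (mem_St2.1 hsD).2.2 y hy
    have h2 : i * s * i⁻¹ * s = s ^ 2 := by
      rw [his, mul_inv_cancel_right, pow_two]
    rw [← h2]
    exact h1
  have ht2 : orderOf t = 2 := orderOf_eq_prime h.t2 h.t1
  have htK := hdvd t h.tD (fun y hy => hy)
  rw [ht2] at htK
  have hb2 : 2 ≤ b := by
    refine hnodd 1 ?_
    rw [← hcard]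
    obtain ⟨q', hq'⟩ := hqe
    obtain ⟨c, hc⟩ := htK
    exact ⟨q' * c, by rw [hq', hc]; ring⟩
  have hs2ord : orderOf (s ^ 2) = 2 ^ (b - 1) := by
    rw [orderOf_pow_of_dvd (by norm_num) (by rw [hsord]; exact dvd_pow_self 2 (by omega)), hsord]
    obtain ⟨b', rfl⟩ : ∃ b', b = b' + 1 := ⟨b - 1, by omega⟩
    rw [pow_succ, Nat.mul_div_cancel _ (by norm_num)]
    simp
  have hs2K := hdvd (s ^ 2) (pow_mem hsD 2) hss
  rw [hs2ord] at hs2K
  have hq4 : ¬ 4 ∣ q := by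
    rintro ⟨q', hq'⟩
    have h2 : 2 ^ (b + 1) ∣ Nat.card ↥D := by
      rw [← hcard]
      obtain ⟨c, hc⟩ := hs2K
      obtain ⟨b', rfl⟩ : ∃ b', b = b' + 1 := ⟨b - 1, by omega⟩
      refine ⟨q' * c, ?_⟩
      rw [hc, hq']
      simp only [Nat.add_sub_cancel]
      ring
    have := hnodd b h2
    omega
  refine ⟨s, hsD, b, m, hbm, hm, hsord, hsK, ⟨2 ^ (b - 2), ?_⟩, ?_, his⟩
  · have h1 : (s ^ 2 ^ (b - 2)) ^ 2 = s ^ (2 ^ (b - 1)) := by
      rw [← pow_mul, ← pow_succ]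
      congr 2
      omega
    rw [h1]
    refine uniqD h.two h.zs h.ab (pow_mem hsD _) h.tD ?_ h.t2 ?_ h.t1
    · rw [← pow_mul, ← pow_succ]
      have : b - 1 + 1 = b := by omega
      rw [this, hs2b]
    · intro h2
      have h3 := orderOf_dvd_of_pow_eq_one h2
      rw [hsord] at h3
      have h4 := (Nat.pow_dvd_pow_iff_le_right (by norm_num)).1 h3
      omega
  · obtain ⟨q', hq'⟩ := hqe
    obtain ⟨r, hr⟩ := hev
    omega

end Cfsg.Agent.H73.CZ
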