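import Cfsg.Agent.H73.CZ3

set_option autoImplicit false

namespace Cfsg.Agent.H73.CZ

open Equiv

universe u
variable {Ω : Type u}
variable {G A : Subgroup (Perm Ω)} {α : Ω} {i t : Perm Ω} [Finite Ω]

theorem fact_le_of_dvd {a b : ℕ} (hb : b ≠ 0) (h : a ∣ b) : a.factorization 2 ≤ b.factorization 2 :=
  ((Nat.factorization_le_iff_dvd (fun h0 => hb (by rw [h0] at h; exact Nat.eq_zero_of_zero_dvd h)) hb).2 h) 2

/-- the centralizer of `i` in `C(t)` has odd index -/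
theorem Ctx.fact_eq (h : Ctx G A α i t) (hg : Good (Cn G t) (Fx t)) (h4 : 4 ≤ Nat.card ↥(Fx t))
    (hev : Even (Nat.card ↥(Fx t))) {s : Perm Ω} (hs : s ∈ St2 G α (i α)) {b m : ℕ}
    (hbm : Nat.card ↥(St2 G α (i α)) = 2 ^ b * m) (hm : Odd m) (hsb : orderOf s = 2 ^ b)
    (his : i * s = s * i) :
    (Nat.card ↥(Cn (Cn G t) i)).factorization 2 = (Nat.card ↥(Cn G t)).factorization 2 := by
  classical
  set C := Cn G t with hC
  have horbA : ∀ S : Subgroup (Perm Ω), S ≤ C → (∀ a ∈ A, a ∈ C → a ∈ S) →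
      (MulAction.orbit ↥S α : Set Ω) = Fx t := by
    intro S hS hAS
    ext x
    constructor
    · rintro ⟨d, rfl⟩
      exact Fx_inv (hS d.2) h.aF
    · intro hx
      obtain ⟨a, ha, hax⟩ := h.Atr α x
      have haC : a ∈ C := h.Areg ha (by rw [hax]; exact hx)
      exact ⟨⟨a, hAS a ha haC⟩, hax⟩
  have hCi : Cn C i ≤ C := by intro x hx; exact (mem_Cn.1 hx).1
  have o1 := horbA C le_rfl (fun a _ ha => ha)
  have o2 := horbA (Cn C i) hCi (fun a ha hac => mem_Cn.2 ⟨hac, h.Acomm ha h.iA⟩)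
  have c1 := card_St C α
  have c2 := card_St (Cn C i) α
  rw [o1] at c1
  rw [o2] at c2
  have o3 : (MulAction.orbit ↥(St C α) (i α) : Set Ω) = Fx t \ {α} := by
    ext x
    constructor
    · rintro ⟨d, rfl⟩
      have hd := mem_St.1 d.2
      refine ⟨Fx_inv hd.1 h.bF, ?_⟩
      intro h1
      have h2 : (d : Perm Ω) (i α) = (d : Perm Ω) α := by rw [hd.2]; exact h1
      exact h.ifree α ((d : Perm Ω).injective h2)
    · rintro ⟨hx, hx2⟩
      have hxa : x ≠ α := hx2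
      obtain ⟨γ, hγ, hγ1, hγ2, hγ3⟩ := pick h4 α (i α) x
      obtain ⟨c, hc, hc1, hc2, hc3⟩ := hg.tri α h.aF γ hγ (i α) h.bF x hx (Ne.symm hγ1) (h.ifree α)
        (Ne.symm hγ2) hxa (Ne.symm hγ3)
      exact ⟨⟨c, mem_St.2 ⟨hc, hc1⟩⟩, hc3⟩
  have c3 := card_St (St C α) (i α)
  rw [o3] at c3
  have hc3' : Nat.card ↥(Fx t \ {α} : Set Ω) = Nat.card ↥(Fx t) - 1 := by
    rw [Nat.card_coe_set_eq, Nat.card_coe_set_eq, Set.ncard_diff_singleton_of_mem h.aF]
  rw [hc3'] at c3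
  have hDD : Nat.card ↥(St (St C α) (i α)) = Nat.card ↥(St2 G α (i α)) := by
    congr 1
    have : St (St C α) (i α) = St2 G α (i α) := by
      ext x
      rw [mem_St, mem_St, mem_St2]
      constructor
      · rintro ⟨⟨h1, h2⟩, h3⟩; exact ⟨(mem_Cn.1 h1).1, h2, h3⟩
      · rintro ⟨h1, h2, h3⟩; exact ⟨⟨h.D_le (mem_St2.2 ⟨h1, h2, h3⟩), h2⟩, h3⟩
    rw [this]
  rw [hDD, hbm] at c3
  -- lower bound
  have hsS : s ∈ St (Cn C i) α :=
    mem_St.2 ⟨mem_Cn.2 ⟨h.D_le hs, his.symm⟩, (mem_St2.1 hs).2.1⟩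
  have hdv : 2 ^ b ∣ Nat.card ↥(St (Cn C i) α) := by
    have := orderOf_dvd_natCard (⟨s, hsS⟩ : ↥(St (Cn C i) α))
    rwa [Subgroup.orderOf_mk, hsb] at this
  have hF0 : Nat.card ↥(Fx t) ≠ 0 := by omega
  have hodd1 : Odd (Nat.card ↥(Fx t) - 1) := by
    obtain ⟨r, hr⟩ := hev
    exact ⟨r - 1, by omega⟩
  have hup : Nat.card ↥(Cn C i) ∣ Nat.card ↥C := Subgroup.card_dvd_of_le hCi
  apply le_antisymm
  · exact fact_le_of_dvd Nat.card_pos.ne' hup
  · rw [← c1, ← c2, ← c3]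
    rw [Nat.factorization_mul hF0 (by
        have : 0 < 2 ^ b * m := Nat.mul_pos (by positivity) hm.pos
        have h7 : 0 < Nat.card ↥(Fx t) - 1 := by omega
        exact (Nat.mul_pos h7 this).ne'),
      Nat.factorization_mul hF0 Nat.card_pos.ne']
    simp only [Finsupp.add_apply]
    gcongr
    rw [Nat.factorization_mul (by omega) (Nat.mul_pos (by positivity) hm.pos).ne',
      Nat.factorization_mul (by positivity) hm.pos.ne']
    simp only [Finsupp.add_apply]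
    rw [Nat.factorization_eq_zero_of_not_dvd (n := Nat.card ↥(Fx t) - 1)
      (fun hd => (Nat.not_even_iff_odd.2 hodd1) (even_iff_two_dvd.2 hd)),
      Nat.factorization_eq_zero_of_not_dvd (n := m)
      (fun hd => (Nat.not_even_iff_odd.2 hm) (even_iff_two_dvd.2 hd))]
    have := fact_le_of_dvd (Nat.card_pos (α := ↥(St (Cn C i) α))).ne' hdv
    omega

theorem Cn_conj (G : Subgroup (Perm Ω)) {g : Perm Ω} (hg : g ∈ G) (t : Perm Ω) {x : Perm Ω} :
    x ∈ Cn G t ↔ g * x * g⁻¹ ∈ Cn G (g * t * g⁻¹) := by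
  rw [mem_Cn, mem_Cn]
  constructor
  · rintro ⟨h1, h2⟩
    refine ⟨G.mul_mem (G.mul_mem hg h1) (G.inv_mem hg), ?_⟩
    calc g * x * g⁻¹ * (g * t * g⁻¹) = g * (x * t) * g⁻¹ := by group
      _ = g * (t * x) * g⁻¹ := by rw [h2]
      _ = g * t * g⁻¹ * (g * x * g⁻¹) := by group
  · rintro ⟨h1, h2⟩
    constructor
    · have := G.mul_mem (G.mul_mem (G.inv_mem hg) h1) hg
      have e : g⁻¹ * (g * x * g⁻¹) * g = x := by group
      rwa [e] at this
    · calc x * t = g⁻¹ * (g * x * g⁻¹ * (g * t * g⁻¹)) * g := by group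
        _ = g⁻¹ * (g * t * g⁻¹ * (g * x * g⁻¹)) * g := by rw [h2]
        _ = t * x := by group

theorem Ctx.exists_h (h : Ctx G A α i t) (hg : Good (Cn G t) (Fx t)) (h4 : 4 ≤ Nat.card ↥(Fx t))
    (hev : Even (Nat.card ↥(Fx t))) {s : Perm Ω} (hs : s ∈ St2 G α (i α)) {b m : ℕ}
    (hbm : Nat.card ↥(St2 G α (i α)) = 2 ^ b * m) (hm : Odd m) (hsb : orderOf s = 2 ^ b)
    (his : i * s = s * i) :
    ∃ Q : Subgroup (Perm Ω), Q ≤ Cn G t ∧ s ∈ Q ∧ ∃ k ∈ G, k * t * k⁻¹ = i * t ∧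
      (∀ x ∈ Q, k * x * k⁻¹ ∈ Q) ∧ (∀ x ∈ Q, ∃ y ∈ Q, k * y * k⁻¹ = x) := by
  classical
  have hf := h.fact_eq hg h4 hev hs hbm hm hsb his
  have hsC : s ∈ Cn (Cn G t) i := mem_Cn.2 ⟨h.D_le hs, his.symm⟩
  obtain ⟨Q, hQ, hsQ, hQc⟩ := syl_ex (Cn (Cn G t) i) hsC (m := b)
    (by rw [← hsb]; exact pow_orderOf_eq_one s)
  rw [hf] at hQc
  obtain ⟨g, hgG, hgg⟩ := h.conj_it hg h4
  have hcard : Nat.card ↥(Cn G (i * t)) = Nat.card ↥(Cn G t) := by
    rw [hgg]
    have : Cn G (g * t * g⁻¹) = (Cn G t).map (MulAut.conj g).toMonoidHom := by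
      ext x
      constructor
      · intro hx
        refine ⟨g⁻¹ * x * g, ?_, ?_⟩
        · rw [SetLike.mem_coe, Cn_conj G hgG t]
          have e : g * (g⁻¹ * x * g) * g⁻¹ = x := by group
          rwa [e]
        · show g * (g⁻¹ * x * g) * g⁻¹ = x
          group
      · rintro ⟨y, hy, rfl⟩
        exact (Cn_conj G hgG t).1 hy
    rw [this]
    exact Subgroup.card_map_of_injective (MulAut.conj g).injective
  have hQC : Q ≤ Cn G t := fun x hx => (mem_Cn.1 (hQ hx)).1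
  have hQ' : Q ≤ Cn G (i * t) := by
    intro x hx
    have h1 := mem_Cn.1 (hQ hx)
    have h2 := mem_Cn.1 h1.1
    refine mem_Cn.2 ⟨h2.1, ?_⟩
    have e1 : Commute x i := h1.2
    have e2 : Commute x t := h2.2
    exact e1.mul_right e2
  have hQ2 : Q.map (MulAut.conj g).toMonoidHom ≤ Cn G (i * t) := by
    rintro _ ⟨y, hy, rfl⟩
    rw [hgg]
    exact (Cn_conj G hgG t).1 (hQC hy)
  obtain ⟨c, hc, hcc⟩ := syl_conj (Cn G (i * t)) (Q.map (MulAut.conj g).toMonoidHom) Q hQ2 hQ'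
    (by rw [Subgroup.card_map_of_injective (MulAut.conj g).injective, hQc, hcard])
    (by rw [hQc, hcard])
  have hmap : ∀ x ∈ Q, c * g * x * (c * g)⁻¹ ∈ Q := by
    intro x hx
    have := hcc (g * x * g⁻¹) ⟨x, hx, rfl⟩
    have e : c * g * x * (c * g)⁻¹ = c * (g * x * g⁻¹) * c⁻¹ := by group
    rw [e]; exact this
  refine ⟨Q, hQC, hsQ, c * g, G.mul_mem (mem_Cn.1 hc).1 hgG, ?_, hmap, ?_⟩
  · have h1 := (mem_Cn.1 hc).2
    calc c * g * t * (c * g)⁻¹ = c * (g * t * g⁻¹) * c⁻¹ := by group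
      _ = c * (i * t) * c⁻¹ := by rw [← hgg]
      _ = (i * t) * c * c⁻¹ := by rw [h1]
      _ = i * t := by group
  · have hinj : Function.Injective (fun x : ↥Q => (⟨c * g * x * (c * g)⁻¹, hmap x x.2⟩ : ↥Q)) := by
      intro x y hxy
      have := congrArg Subtype.val hxy
      simp only at this
      apply Subtype.ext
      exact mul_left_cancel (mul_right_cancel this)
    have hsurj := Finite.surjective_of_injective hinj
    intro x hx
    obtain ⟨y, hy⟩ := hsurj ⟨x, hx⟩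
    exact ⟨y, y.2, congrArg Subtype.val hy⟩

theorem Ctx.no_big (h : Ctx G A α i t) (hg : Good (Cn G t) (Fx t)) (h4 : 4 ≤ Nat.card ↥(Fx t))
    (hev : Even (Nat.card ↥(Fx t))) : False := by
  classical
  obtain ⟨s, hs, b, m, hbm, hm, hsb, hsK, ⟨e, he⟩, h4d, his⟩ := h.arith hg h4 hev
  obtain ⟨Q, hQ, hsQ, k, hkG, hkt, hkQ, hkQ'⟩ := h.exists_h hg h4 hev hs hbm hm hsb his
  have hsab := mem_St2.1 hs
  have hsC := h.D_le hs
  have htQ : t ∈ Q := by rw [← he]; exact pow_mem (pow_mem hsQ e) 2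
  -- no central square root of t
  have hno : ∀ z ∈ Cn G t, (∀ x ∈ Fx t, z x = x) → z ^ 2 = t → False := by
    intro z hz hzF hz2
    have hcen : ∀ x ∈ Q, k * z * k⁻¹ * x = x * (k * z * k⁻¹) := by
      intro x hx
      obtain ⟨y, hy, hyx⟩ := hkQ' x hx
      have h1 := h.centK hg h4 hz hzF (hQ hy)
      rw [← hyx]
      calc k * z * k⁻¹ * (k * y * k⁻¹) = k * (z * y) * k⁻¹ := by group
        _ = k * (y * z) * k⁻¹ := by rw [h1]
        _ = k * y * k⁻¹ * (k * z * k⁻¹) := by group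
    set w := k * z * k⁻¹ with hw
    have hwG : w ∈ G := G.mul_mem (G.mul_mem hkG (mem_Cn.1 hz).1) (G.inv_mem hkG)
    have hwC : w ∈ Cn G t := mem_Cn.2 ⟨hwG, hcen t htQ⟩
    have hw2 : w ^ 2 = i * t := by rw [hw, conj_pow, hz2, hkt]
    have hws := hcen s hsQ
    have hfix : ∀ x, s x = x → s (w x) = w x := by
      intro x hx
      calc s (w x) = (s * w) x := rfl
        _ = (w * s) x := by rw [hws]
        _ = w (s x) := rfl
        _ = w x := by rw [hx]
    have hmem : ∀ x ∈ Fx t, s x = x → x = α ∨ x = i α := by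
      intro x hx hsx
      by_contra hcon
      push Not at hcon
      obtain ⟨y, hy, hsy⟩ := hsK
      exact hsy (hg.sharp s hsC α h.aF (i α) h.bF x hx h.ab hcon.1 hcon.2 hsab.2.1 hsab.2.2 hsx y hy)
    have hwa := hmem (w α) (Fx_inv hwC h.aF) (hfix α hsab.2.1)
    have hwb := hmem (w (i α)) (Fx_inv hwC h.bF) (hfix (i α) hsab.2.2)
    have hw2a : w (w α) = i α := by
      have : (w ^ 2) α = (i * t) α := by rw [hw2]
      rw [pow_two] at this
      calc w (w α) = (i * t) α := this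
        _ = i (t α) := rfl
        _ = i α := by rw [h.ta]
    rcases hwa with h1 | h1
    · rw [h1, h1] at hw2a
      exact h.ab hw2a
    · rw [h1] at hw2a
      have h3 : w (i α) = w α := by rw [hw2a, h1]
      exact h.ifree α (w.injective h3)
  -- the element y
  have hAC : ∃ y ∈ A, y ∈ Cn G t ∧ y ^ 2 = i := by
    set AC := Cn A t with hAC
    have horb : (MulAction.orbit ↥AC α : Set Ω) = Fx t := by
      ext x
      constructor
      · rintro ⟨d, rfl⟩
        have hd := mem_Cn.1 d.2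
        exact Fx_inv (mem_Cn.2 ⟨h.AG hd.1, hd.2⟩) h.aF
      · intro hx
        obtain ⟨a, ha, hax⟩ := h.Atr α x
        have haC := h.Areg ha (by rw [hax]; exact hx)
        exact ⟨⟨a, mem_Cn.2 ⟨ha, (mem_Cn.1 haC).2⟩⟩, hax⟩
    have hst : Nat.card ↥(St AC α) = 1 := by
      rw [Subgroup.card_eq_one, Subgroup.eq_bot_iff_forall]
      intro x hx
      have h1 := mem_St.1 hx
      exact h.Afree (mem_Cn.1 h1.1).1 h1.2
    have hc := card_St AC α
    rw [horb, hst, mul_one] at hc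
    rw [hc] at h4d
    haveI := h.Acyc
    haveI : IsCyclic ↥AC := Subgroup.isCyclic_of_le (show AC ≤ A from fun x hx => (mem_Cn.1 hx).1)
    obtain ⟨a0, ha0⟩ := IsCyclic.exists_generator (α := ↥AC)
    have hord : orderOf (a0 : Perm Ω) = Nat.card ↥AC := by
      rw [Subgroup.orderOf_coe]
      exact orderOf_eq_card_of_forall_mem_zpowers ha0
    obtain ⟨l, hl⟩ := h4d
    have hl0 : 0 < l := by
      rcases Nat.eq_zero_or_pos l with h0 | h0
      · rw [h0] at hl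
        exact absurd hl (by have := Nat.card_pos (α := ↥AC); omega)
      · exact h0
    have ha0m := mem_Cn.1 a0.2
    refine ⟨(a0 : Perm Ω) ^ l, pow_mem ha0m.1 l,
      pow_mem (mem_Cn.2 ⟨h.AG ha0m.1, ha0m.2⟩) l, ?_⟩
    have hz2 : (((a0 : Perm Ω) ^ l) ^ 2) ^ 2 = 1 := by
      rw [← pow_mul, ← pow_mul]
      have : l * (2 * 2) = Nat.card ↥AC := by rw [hl]; ring
      rw [this, ← hord]
      exact pow_orderOf_eq_one _
    have hz1 : ((a0 : Perm Ω) ^ l) ^ 2 ≠ 1 := by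
      rw [← pow_mul]
      intro h1
      have h2 := orderOf_dvd_of_pow_eq_one h1
      rw [hord, hl] at h2
      have := Nat.le_of_dvd (by positivity) h2
      omega
    have := cyc_invol h.Acyc (x := ⟨((a0 : Perm Ω) ^ l) ^ 2, pow_mem (pow_mem ha0m.1 l) 2⟩)
      (y := ⟨i, h.iA⟩) (Subtype.ext (by simpa using hz2)) (Subtype.ext (by simpa using h.i2))
      (fun h3 => hz1 (congrArg Subtype.val h3)) (fun h3 => h.i1 (congrArg Subtype.val h3))
    exact congrArg Subtype.val this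
  obtain ⟨y, hyA, hyC, hy2⟩ := hAC
  have hyy : ∀ z, y (y z) = i z := by
    intro z
    have : (y ^ 2) z = i z := by rw [hy2]
    rwa [pow_two] at this
  set x := k * s ^ e * k⁻¹ with hx
  have hxC : x ∈ Cn G t := hQ (hkQ _ (pow_mem hsQ e))
  have hx2 : x ^ 2 = i * t := by rw [hx, conj_pow, he, hkt]
  have hxx : ∀ z ∈ Fx t, x (x z) = i z := by
    intro z hz
    have : (x ^ 2) z = (i * t) z := by rw [hx2]
    rw [pow_two] at this
    calc x (x z) = (i * t) z := this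
      _ = i (t z) := rfl
      _ = i z := by rw [mem_Fx.1 hz]
  have hxy := hg.sq x hxC y hyC (fun z hz => by rw [hxx z hz, hyy z])
    ⟨α, h.aF, by rw [hxx α h.aF]; exact h.ifree α⟩
  obtain ⟨a, haA, hax⟩ := h.Atr α (x α)
  have haC := h.Areg haA (by rw [hax]; exact Fx_inv hxC h.aF)
  have hai : ∀ z, a⁻¹ (y (a z)) = y z := by
    intro z
    have h1 := h.Acomm (inv_mem haA) hyA
    calc a⁻¹ (y (a z)) = (a⁻¹ * y) (a z) := rfl
      _ = (y * a⁻¹) (a z) := by rw [h1]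
      _ = y (a⁻¹ (a z)) := rfl
      _ = y z := by rw [ias]
  set T := a⁻¹ * x with hT
  have hTC : T ∈ Cn G t := mul_mem (inv_mem haC) hxC
  have hTa : T α = α := by
    show a⁻¹ (x α) = α
    rw [← hax, ias]
  have hyF : y α ∈ Fx t := Fx_inv hyC h.aF
  have hTy : T (y α) = y α := by
    show a⁻¹ (x (y α)) = y α
    rw [hxy α h.aF, ← hax, hai]
  have hTi : T (i α) = i α := by
    show a⁻¹ (x (i α)) = i α
    rw [← hyy α, hxy (y α) hyF, hxy α h.aF, ← hax]
    have h1 : a⁻¹ (y (y (a α))) = y (y α) := by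
      have h2 : y (a α) = a (y α) := by
        have := h.Acomm hyA haA
        exact congrArg (fun f : Perm Ω => f α) this
      rw [h2, hai]
    exact h1
  have hyα : y α ≠ α := by
    intro h1
    have h2 := h.Afree hyA h1
    rw [h2] at hy2
    exact h.i1 (by rw [← hy2]; simp)
  have hyiα : y α ≠ i α := by
    intro h1
    rw [← hyy α] at h1
    exact hyα (y.injective h1).symm
  have hTF := hg.sharp T hTC α h.aF (i α) h.bF (y α) hyF h.ab hyα hyiα hTa hTi hTy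
  have hTc := h.centK hg h4 hTC hTF haC
  have hxT : x = a * T := by rw [hT]; group
  have hx2' : a ^ 2 * T ^ 2 = i * t := by
    rw [← hx2, hxT]
    exact ((show Commute a T from hTc.symm).mul_pow 2).symm
  have hT2 : T ^ 2 = (a ^ 2)⁻¹ * i * t := by
    calc T ^ 2 = (a ^ 2)⁻¹ * (a ^ 2 * T ^ 2) := by group
      _ = (a ^ 2)⁻¹ * i * t := by rw [hx2']; group
  have hai1 : (a ^ 2)⁻¹ * i = 1 := by
    refine h.Afree (mul_mem (inv_mem (pow_mem haA 2)) h.iA) (a := α) ?_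
    have h1 : (T ^ 2) α = α := by
      rw [pow_two]
      show T (T α) = α
      rw [hTa, hTa]
    rw [hT2] at h1
    have h2 : ((a ^ 2)⁻¹ * i) (t α) = α := h1
    rwa [h.ta] at h2
  rw [hai1, one_mul] at hT2
  exact hno T hTC hTF hT2

end Cfsg.Agent.H73.CZ
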