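import Cfsg.Agent.H73.CZ4

set_option autoImplicit false

namespace Cfsg.Agent.H73.CZ

open Equiv

universe u
variable {Ω : Type u}

structure C2 (G : Subgroup (Perm Ω)) : Prop where
  two : Two G
  zs : ZS G
  fix2 : ∀ a b : Ω, a ≠ b → ∃ u ∈ St2 G a b, u ^ 2 = 1 ∧ u ≠ 1 ∧ ∀ x, u x = x → x = a ∨ x = b

structure WD (G : Subgroup (Perm Ω)) (γ : Ω) (W : Subgroup (Perm Ω)) : Prop where
  le : W ≤ St G γ
  cyc : IsCyclic ↥W
  norm : ∀ h ∈ St G γ, ∀ x ∈ W, h * x * h⁻¹ ∈ W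
  com : ∀ h ∈ St G γ, ∀ k ∈ St G γ, h * k * h⁻¹ * k⁻¹ ∈ W
  semi : ∀ x ∈ W, ∀ b, b ≠ γ → x b = b → x = 1
  cop : ∃ k, Nat.card ↥(St G γ) = Nat.card ↥W * k ∧ (Nat.card ↥W).Coprime k

variable {G : Subgroup (Perm Ω)}

theorem exWD [Finite Ω] (h2 : Two G) (hz : ZS G) (γ : Ω) : ∃ W, WD G γ W := by
  obtain ⟨W, h1, h3, h4, h5, h6, -, h7⟩ := Wex h2 hz γ
  exact ⟨W, h1, h3, h4, h5, h6, h7⟩

theorem WD.comm {γ : Ω} {W : Subgroup (Perm Ω)} (hW : WD G γ W) {x y : Perm Ω} (hx : x ∈ W)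
    (hy : y ∈ W) : x * y = y * x := by
  have := hW.cyc
  letI : CommGroup ↥W := IsCyclic.commGroup
  have := mul_comm (⟨x, hx⟩ : ↥W) ⟨y, hy⟩
  exact congrArg Subtype.val this

section
variable [Finite Ω]

/-- fixed points of an involution -/
theorem C2.fix (h : C2 G) {a b : Ω} (hab : a ≠ b) {u : Perm Ω} (hu : u ∈ St2 G a b)
    (hu2 : u ^ 2 = 1) (hu1 : u ≠ 1) {x : Ω} (hx : u x = x) : x = a ∨ x = b := by
  obtain ⟨v, hv, hv2, hv1, hvf⟩ := h.fix2 a b hab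
  have := uniqD h.two h.zs hab hu hv hu2 hv2 hu1 hv1
  rw [this] at hx
  exact hvf x hx

theorem C2.cent (h : C2 G) {γ γ' : Ω} (hne : γ ≠ γ') {W : Subgroup (Perm Ω)} (hW : WD G γ W)
    {u : Perm Ω} (hu : u ∈ St2 G γ γ') (hu2 : u ^ 2 = 1) (hu1 : u ≠ 1) {w : Perm Ω} (hw : w ∈ W)
    (hc : u * w = w * u) : w = 1 := by
  have h1 : u (w γ') = w γ' := by
    calc u (w γ') = (u * w) γ' := rfl
      _ = (w * u) γ' := by rw [hc]
      _ = w (u γ') := rfl
      _ = w γ' := by rw [(mem_St2.1 hu).2.2]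
  rcases h.fix hne hu hu2 hu1 h1 with h2 | h2
  · exfalso
    have h3 : w γ = γ := (mem_St.1 (hW.le hw)).2
    rw [← h3] at h2
    exact hne (w.injective h2).symm
  · exact hW.semi w hw γ' (Ne.symm hne) h2

theorem C2.invert (h : C2 G) {γ γ' : Ω} (hne : γ ≠ γ') {W : Subgroup (Perm Ω)} (hW : WD G γ W)
    {u : Perm Ω} (hu : u ∈ St2 G γ γ') (hu2 : u ^ 2 = 1) (hu1 : u ≠ 1) {w : Perm Ω} (hw : w ∈ W) :
    u * w * u⁻¹ = w⁻¹ := by
  have hui : u⁻¹ = u := inv_eq_of_sq hu2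
  have hw' : u * w * u⁻¹ ∈ W := hW.norm u (St2_le _ _ _ hu) w hw
  have hcm := hW.comm hw hw'
  have h1 : w * (u * w * u⁻¹) = 1 := by
    refine h.cent hne hW hu hu2 hu1 (mul_mem hw hw') ?_
    have huu : u * u = 1 := by rw [← pow_two, hu2]
    calc u * (w * (u * w * u⁻¹)) = (u * w * u⁻¹) * (u * u) * w * u⁻¹ := by group
      _ = (u * w * u⁻¹) * w * u⁻¹ := by rw [huu, mul_one]
      _ = (w * (u * w * u⁻¹)) * u⁻¹ := by rw [hcm]
      _ = (w * (u * w * u⁻¹)) * u := by rw [hui]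
  exact (inv_eq_of_mul_eq_one_right h1).symm

theorem C2.sqrt (h : C2 G) {γ γ' : Ω} (hne : γ ≠ γ') {W : Subgroup (Perm Ω)} (hW : WD G γ W)
    {w : Perm Ω} (hw : w ∈ W) : ∃ v ∈ W, v * v = w := by
  have hodd : Odd (Nat.card ↥W) := by
    by_contra hcon
    rw [Nat.not_odd_iff_even] at hcon
    haveI : Fact (Nat.Prime 2) := ⟨Nat.prime_two⟩
    obtain ⟨z, hz⟩ := exists_prime_orderOf_dvd_card' (G := ↥W) 2 (even_iff_two_dvd.1 hcon)
    obtain ⟨u, hu, hu2, hu1, -⟩ := h.fix2 γ γ' hne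
    have hz2 : (z : Perm Ω) ^ 2 = 1 := by
      have := pow_orderOf_eq_one z
      rw [hz] at this
      exact congrArg Subtype.val this
    have h1 := h.invert hne hW hu hu2 hu1 z.2
    rw [inv_eq_of_sq hz2] at h1
    have h2 : u * (z : Perm Ω) = z * u := by
      calc u * (z : Perm Ω) = (u * z * u⁻¹) * u := by group
        _ = z * u := by rw [h1]
    have h3 := h.cent hne hW hu hu2 hu1 z.2 h2
    have h4 : z = 1 := Subtype.ext h3
    rw [h4, orderOf_one] at hz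
    omega
  obtain ⟨r, hr⟩ := hodd
  refine ⟨w ^ (r + 1), pow_mem hw _, ?_⟩
  have h1 : w ^ Nat.card ↥W = 1 := by
    have := pow_card_eq_one' (G := ↥W) (x := ⟨w, hw⟩)
    exact congrArg Subtype.val this
  rw [← pow_add]
  have : r + 1 + (r + 1) = Nat.card ↥W + 1 := by omega
  rw [this, pow_succ, h1, one_mul]

theorem C2.Wtr (h : C2 G) {γ b c : Ω} (hb : γ ≠ b) (hc : γ ≠ c) {W : Subgroup (Perm Ω)}
    (hW : WD G γ W) : ∃ w ∈ W, w b = c := by
  obtain ⟨k, hkG, hk1, hk2⟩ := h.two γ b γ c hb hc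
  obtain ⟨u, hu, hu2, hu1, -⟩ := h.fix2 γ b hb
  have hkS : k ∈ St G γ := mem_St.2 ⟨hkG, hk1⟩
  obtain ⟨v, hv, hvv⟩ := h.sqrt hb hW (hW.com k hkS u (St2_le _ _ _ hu))
  have hin := h.invert hb hW hu hu2 hu1 (inv_mem hv)
  rw [inv_inv] at hin
  have h1 : v * u * v⁻¹ = k * u * k⁻¹ := by
    calc v * u * v⁻¹ = v * (u * v⁻¹ * u⁻¹) * u := by group
      _ = v * v * u := by rw [hin]
      _ = k * u * k⁻¹ := by rw [hvv]; group
  have h2 : u * (v⁻¹ * k) = (v⁻¹ * k) * u := by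
    calc u * (v⁻¹ * k) = v⁻¹ * (v * u * v⁻¹) * k := by group
      _ = v⁻¹ * (k * u * k⁻¹) * k := by rw [h1]
      _ = (v⁻¹ * k) * u := by group
  have h3 : u ((v⁻¹ * k) b) = (v⁻¹ * k) b := by
    calc u ((v⁻¹ * k) b) = (u * (v⁻¹ * k)) b := rfl
      _ = ((v⁻¹ * k) * u) b := by rw [h2]
      _ = (v⁻¹ * k) (u b) := rfl
      _ = (v⁻¹ * k) b := by rw [(mem_St2.1 hu).2.2]
  rcases h.fix hb hu hu2 hu1 h3 with h4 | h4
  · exfalso
    have h5 : (v⁻¹ * k) γ = γ := by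
      show v⁻¹ (k γ) = γ
      rw [hk1]
      exact (mem_St.1 (hW.le (inv_mem hv))).2
    rw [← h5] at h4
    have h6 : (v⁻¹ * k) b = (v⁻¹ * k) γ := by rw [h4, h5]
    exact hb ((v⁻¹ * k).injective h6).symm
  · refine ⟨v, hv, ?_⟩
    have h5 : v⁻¹ (k b) = b := h4
    rw [hk2] at h5
    have := congrArg v h5
    simpa using this.symm

/-- the involution fixing `γ` and swapping `a`, `b` -/
theorem C2.exu (h : C2 G) {γ a b : Ω} (ha : γ ≠ a) (hb : γ ≠ b) (hab : a ≠ b) :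
    ∃ u ∈ G, u γ = γ ∧ u ^ 2 = 1 ∧ u a = b := by
  obtain ⟨W, hW⟩ := exWD h.two h.zs γ
  obtain ⟨w, hw, hwa⟩ := h.Wtr ha hb hW
  obtain ⟨v, hv, hvv⟩ := h.sqrt ha hW hw
  have hvγ : v γ = γ := (mem_St.1 (hW.le hv)).2
  have hne : γ ≠ v a := by
    intro h1
    have h2 : v γ = v a := by rw [hvγ]; exact h1
    exact ha (v.injective h2)
  obtain ⟨u, hu, hu2, hu1, -⟩ := h.fix2 γ (v a) hne
  refine ⟨u, (mem_St2.1 hu).1, (mem_St2.1 hu).2.1, hu2, ?_⟩
  have hin := h.invert hne hW hu hu2 hu1 (inv_mem hv)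
  rw [inv_inv] at hin
  have h1 : u * v⁻¹ = v * u := by
    calc u * v⁻¹ = (u * v⁻¹ * u⁻¹) * u := by group
      _ = v * u := by rw [hin]
  calc u a = (u * v⁻¹) (v a) := by show u a = u (v⁻¹ (v a)); rw [ias]
    _ = (v * u) (v a) := by rw [h1]
    _ = v (u (v a)) := rfl
    _ = v (v a) := by rw [(mem_St2.1 hu).2.2]
    _ = (v * v) a := rfl
    _ = b := by rw [hvv, hwa]

/-- elements of `D` inverted by `j` -/
def EI (D : Subgroup (Perm Ω)) (hD : ∀ x ∈ D, ∀ y ∈ D, x * y = y * x) (j : Perm Ω) :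
    Subgroup (Perm Ω) where
  carrier := {d | d ∈ D ∧ j * d * j⁻¹ = d⁻¹}
  mul_mem' := by
    rintro x y ⟨hx, hx2⟩ ⟨hy, hy2⟩
    refine ⟨mul_mem hx hy, ?_⟩
    calc j * (x * y) * j⁻¹ = (j * x * j⁻¹) * (j * y * j⁻¹) := by group
      _ = x⁻¹ * y⁻¹ := by rw [hx2, hy2]
      _ = y⁻¹ * x⁻¹ := hD _ (inv_mem hx) _ (inv_mem hy)
      _ = (x * y)⁻¹ := (mul_inv_rev x y).symm
  one_mem' := ⟨one_mem _, by group⟩
  inv_mem' := by
    rintro x ⟨hx, hx2⟩
    refine ⟨inv_mem hx, ?_⟩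
    have : j * x⁻¹ * j⁻¹ = (j * x * j⁻¹)⁻¹ := by group
    rw [this, hx2]

theorem C2.count (h : C2 G) {a b : Ω} (hab : a ≠ b) {j : Perm Ω} (hj : j ∈ G) (hja : j a = b)
    (hjb : j b = a) (hj2 : j ^ 2 = 1) (hjf : ∀ x, j x ≠ x) :
    Nat.card Ω ≤ 2 * Nat.card ↥(EI (St2 G a b) (fun _ hx _ hy => commD h.two h.zs hab hx hy) j) := by
  classical
  haveI := Fintype.ofFinite Ω
  set E := EI (St2 G a b) (fun _ hx _ hy => commD h.two h.zs hab hx hy) j with hE
  have hji : j⁻¹ = j := inv_eq_of_sq hj2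
  have hjj : j * j = 1 := by rw [← pow_two, hj2]
  have hex : ∀ γ : Ω, ∃ u : Perm Ω, (γ ≠ a ∧ γ ≠ b) → (u ∈ G ∧ u γ = γ ∧ u ^ 2 = 1 ∧ u a = b) := by
    intro γ
    by_cases hγ : γ ≠ a ∧ γ ≠ b
    · obtain ⟨u, h1, h3, h4, h5⟩ := h.exu hγ.1 hγ.2 hab
      exact ⟨u, fun _ => ⟨h1, h3, h4, h5⟩⟩
    · exact ⟨1, fun h1 => absurd h1 hγ⟩
  choose f hf using hex
  set S : Finset Ω := Finset.univ.filter (fun γ => γ ≠ a ∧ γ ≠ b) with hS
  have hScard : S.card + 2 = Fintype.card Ω := by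
    have h1 : S = (Finset.univ \ {a, b}) := by
      ext x
      simp [hS]
    rw [h1, Finset.card_sdiff_of_subset (Finset.subset_univ _), Finset.card_univ, Finset.card_pair hab]
    have : 2 ≤ Fintype.card Ω := by
      rw [← Finset.card_pair hab]
      exact Finset.card_le_univ _
    omega
  have hmem : ∀ γ ∈ S, γ ≠ a ∧ γ ≠ b := fun γ hγ => (Finset.mem_filter.1 hγ).2
  have h1 : S.card ≤ 2 * (S.image f).card := by
    apply Finset.card_le_mul_card_image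
    intro u hu
    obtain ⟨γ, hγ, rfl⟩ := Finset.mem_image.1 hu
    have hγ' := hmem γ hγ
    obtain ⟨u1, u2, u3, u4⟩ := hf γ hγ'
    have hu1 : f γ ≠ 1 := by
      intro h1; rw [h1] at u4; exact hab u4
    -- pick second fixed point by parity : use fix2 structure
    by_cases hss : ∃ γ' ∈ S, γ' ≠ γ ∧ f γ' = f γ
    · obtain ⟨γ', hγ'S, hne, hff⟩ := hss
      have v2 : f γ γ' = γ' := by rw [← hff]; exact (hf γ' (hmem γ' hγ'S)).2.1
      have hsub : S.filter (fun x => f x = f γ) ⊆ {γ, γ'} := by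
        intro x hx
        rw [Finset.mem_filter] at hx
        have hxf : f γ x = x := by
          rw [← hx.2]; exact (hf x (hmem x hx.1)).2.1
        have := h.fix (Ne.symm hne) (mem_St2.2 ⟨u1, u2, v2⟩) u3 hu1 hxf
        simpa using this
      exact (Finset.card_le_card hsub).trans (Finset.card_le_two)
    · push Not at hss
      have hsub : S.filter (fun x => f x = f γ) ⊆ {γ} := by
        intro x hx
        rw [Finset.mem_filter] at hx
        rw [Finset.mem_singleton]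
        by_contra hne
        exact hss x hx.1 hne hx.2
      have := Finset.card_le_card hsub
      rw [Finset.card_singleton] at this
      omega
  -- image injects in E minus 1
  have h2 : (S.image f).card + 1 ≤ Nat.card ↥E := by
    have h3 : (insert (1 : Perm Ω) ((S.image f).image (fun u => u * j))).card ≤ Nat.card ↥E := by
      have hE2 : Nat.card ↥E = Set.ncard (E : Set (Perm Ω)) := Nat.card_coe_set_eq (E : Set (Perm Ω))
      rw [hE2, ← Set.ncard_coe_finset]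
      apply Set.ncard_le_ncard _ (Set.toFinite _)
      intro x hx
      rw [Finset.mem_coe, Finset.mem_insert] at hx
      rcases hx with rfl | hx
      · exact one_mem E
      · obtain ⟨u, hu, rfl⟩ := Finset.mem_image.1 hx
        obtain ⟨γ, hγ, rfl⟩ := Finset.mem_image.1 hu
        obtain ⟨u1, u2, u3, u4⟩ := hf γ (hmem γ hγ)
        have u5 : f γ b = a := by rw [← u4]; exact sq_app u3 a
        have huu : f γ * f γ = 1 := by rw [← pow_two, u3]
        refine ⟨mem_St2.2 ⟨mul_mem u1 hj, ?_, ?_⟩, ?_⟩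
        · show f γ (j a) = a
          rw [hja, u5]
        · show f γ (j b) = b
          rw [hjb, u4]
        · have e1 : (f γ * j)⁻¹ = j * f γ := by
            rw [mul_inv_rev, hji, inv_eq_of_sq u3]
          rw [e1, hji]
          calc j * (f γ * j) * j = j * f γ * (j * j) := by group
            _ = j * f γ := by rw [hjj, mul_one]
    rw [Finset.card_insert_of_notMem, Finset.card_image_of_injective _ (mul_left_injective j)] at h3
    · exact h3
    · intro h4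
      obtain ⟨u, hu, hu4⟩ := Finset.mem_image.1 h4
      obtain ⟨γ, hγ, rfl⟩ := Finset.mem_image.1 hu
      obtain ⟨u1, u2, u3, u4⟩ := hf γ (hmem γ hγ)
      have h5 : f γ = j := by
        have : f γ * j = 1 := hu4
        rw [← hji]
        exact eq_inv_of_mul_eq_one_left this
      rw [h5] at u2
      exact hjf γ u2
  rw [Nat.card_eq_fintype_card (α := Ω)]
  omega

end

end Cfsg.Agent.H73.CZ
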