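import Cfsg.Agent.H73.CZ5

set_option autoImplicit false

namespace Cfsg.Agent.H73.CZ

open Equiv

universe u
variable {Ω : Type u} {G : Subgroup (Perm Ω)} [Finite Ω]

theorem card_compl (a : Ω) : Nat.card ↥(({a} : Set Ω)ᶜ) = Nat.card Ω - 1 := by
  rw [Nat.card_coe_set_eq, Set.ncard_compl, Set.ncard_singleton]

theorem card_compl2 {a b : Ω} (hab : a ≠ b) : Nat.card ↥(({a, b} : Set Ω)ᶜ) = Nat.card Ω - 2 := by
  rw [Nat.card_coe_set_eq, Set.ncard_compl, Set.ncard_pair hab]

theorem C2.cardW (h : C2 G) {a b : Ω} (hab : a ≠ b) {W : Subgroup (Perm Ω)} (hW : WD G a W) :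
    Nat.card ↥W = Nat.card Ω - 1 := by
  have h1 := card_St W b
  have horb : (MulAction.orbit ↥W b : Set Ω) = {a}ᶜ := by
    ext x
    constructor
    · rintro ⟨w, rfl⟩
      intro hx
      have hwa : (w : Perm Ω) a = a := (mem_St.1 (hW.le w.2)).2
      have h2 : (w : Perm Ω) b = (w : Perm Ω) a := by rw [hwa]; exact hx
      exact hab ((w : Perm Ω).injective h2).symm
    · intro hx
      have hxa : a ≠ x := fun h2 => hx h2.symm
      obtain ⟨w, hw, hwx⟩ := h.Wtr hab hxa hW
      exact ⟨⟨w, hw⟩, hwx⟩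
  have hst : Nat.card ↥(St W b) = 1 := by
    rw [Subgroup.card_eq_one, Subgroup.eq_bot_iff_forall]
    intro x hx
    exact hW.semi x (mem_St.1 hx).1 b (Ne.symm hab) (mem_St.1 hx).2
  rw [horb, hst, mul_one, card_compl] at h1
  exact h1.symm

theorem C2.cardSt (h : C2 G) {a b : Ω} (hab : a ≠ b) :
    (Nat.card Ω - 1) * Nat.card ↥(St2 G a b) = Nat.card ↥(St G a) := by
  have h1 := card_St (St G a) b
  have horb : (MulAction.orbit ↥(St G a) b : Set Ω) = {a}ᶜ := by
    ext x
    constructor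
    · rintro ⟨w, rfl⟩
      intro hx
      have hwa : (w : Perm Ω) a = a := (mem_St.1 w.2).2
      have h2 : (w : Perm Ω) b = (w : Perm Ω) a := by rw [hwa]; exact hx
      exact hab ((w : Perm Ω).injective h2).symm
    · intro hx
      have hxa : a ≠ x := fun h2 => hx h2.symm
      obtain ⟨g, hg, hg1, hg2⟩ := h.two a b a x hab hxa
      exact ⟨⟨g, mem_St.2 ⟨hg, hg1⟩⟩, hg2⟩
  rw [horb, card_compl] at h1
  exact h1

/-- an element of `D` commuting with `W` is trivial -/
theorem C2.faith (h : C2 G) {a b : Ω} (hab : a ≠ b) {W : Subgroup (Perm Ω)} (hW : WD G a W)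
    {d : Perm Ω} (hd : d ∈ St2 G a b) (hc : ∀ w ∈ W, d * w = w * d) : d = 1 := by
  ext x
  by_cases hx : x = a
  · rw [hx]; simpa using (mem_St2.1 hd).2.1
  · obtain ⟨w, hw, hwx⟩ := h.Wtr hab (Ne.symm hx) hW
    calc d x = (d * w) b := by rw [← hwx]; rfl
      _ = (w * d) b := by rw [hc w hw]
      _ = w (d b) := rfl
      _ = x := by rw [(mem_St2.1 hd).2.2, hwx]
      _ = (1 : Perm Ω) x := rfl

theorem C2.num (h : C2 G) (hev : Even (Nat.card Ω)) (hn : 2 < Nat.card Ω) {a b : Ω} (hab : a ≠ b)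
    (hj : ∃ j ∈ G, j a = b ∧ j b = a ∧ j ^ 2 = 1 ∧ ∀ x, j x ≠ x) :
    (Nat.card Ω - 1).Prime ∧ Nat.card ↥(St2 G a b) = Nat.card Ω - 2 := by
  classical
  obtain ⟨W, hW⟩ := exWD h.two h.zs a
  have hWc := h.cardW hab hW
  set n := Nat.card Ω with hnn
  set D := St2 G a b with hD
  have hDn : D ≤ Subgroup.normalizer (W : Set (Perm Ω)) := by
    intro d hd
    rw [Subgroup.mem_normalizer_iff]
    intro x
    constructor
    · intro hx; exact hW.norm d (St2_le _ _ _ hd) x hx
    · intro hx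
      have := hW.norm d⁻¹ (inv_mem (St2_le _ _ _ hd)) _ hx
      have e : d⁻¹ * (d * x * d⁻¹) * d⁻¹⁻¹ = x := by group
      rwa [e] at this
  set φ : ↥D →* MulAut ↥W := (W.normalizerMonoidHom).comp (Subgroup.inclusion hDn) with hφ
  have hinj : Function.Injective φ := by
    rw [injective_iff_map_eq_one]
    intro d hd
    have h1 : ∀ w ∈ W, (d : Perm Ω) * w = w * d := by
      intro w hw
      have h2 := congrArg (fun f : MulAut ↥W => ((f ⟨w, hw⟩ : ↥W) : Perm Ω)) hd
      have h3 : (d : Perm Ω) * w * (d : Perm Ω)⁻¹ = w := h2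
      calc (d : Perm Ω) * w = ((d : Perm Ω) * w * (d : Perm Ω)⁻¹) * d := by group
        _ = w * d := by rw [h3]
    exact Subtype.ext (h.faith hab hW d.2 h1)
  haveI := hW.cyc
  have hcardA : Nat.card (MulAut ↥W) = Nat.totient (n - 1) := by
    rw [IsCyclic.card_mulAut, hWc]
  have hdvd : Nat.card ↥D ∣ Nat.totient (n - 1) := by
    rw [← hcardA]; exact Subgroup.card_dvd_of_injective φ hinj
  obtain ⟨j, hjG, hja, hjb, hj2, hjf⟩ := hj
  have hcount := h.count hab hjG hja hjb hj2 hjf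
  have hEle : Nat.card ↥(EI (St2 G a b) (fun _ hx _ hy => commD h.two h.zs hab hx hy) j) ≤
      Nat.card ↥D := by
    apply Nat.card_mono (Set.toFinite _)
    intro x hx
    exact hx.1
  have htot : Nat.totient (n - 1) < n - 1 := Nat.totient_lt _ (by omega)
  have htot0 : 0 < Nat.totient (n - 1) := Nat.totient_pos.2 (by omega)
  have hDt : Nat.card ↥D = Nat.totient (n - 1) := by
    obtain ⟨c, hc⟩ := hdvd
    have hc1 : c = 1 := by
      rcases Nat.lt_or_ge c 1 with h1 | h1
      · have : c = 0 := by omega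
        rw [this] at hc; omega
      · rcases Nat.lt_or_ge 1 c with h2 | h2
        · exfalso
          have h3 : Nat.card ↥D * 2 ≤ Nat.card ↥D * c := Nat.mul_le_mul_left _ h2
          omega
        · omega
    rw [hc1, mul_one] at hc
    exact hc.symm
  have hbij : Function.Bijective φ := by
    rw [Nat.bijective_iff_injective_and_card]
    exact ⟨hinj, by rw [hcardA]; exact hDt⟩
  have hcycD : IsCyclic ↥D := cycD h.two h.zs hab
  have hcycU : IsCyclic (ZMod (n - 1))ˣ := by
    rw [← hWc]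
    exact isCyclic_of_surjective ((IsCyclic.mulAutMulEquiv ↥W).toMonoidHom.comp φ)
      ((IsCyclic.mulAutMulEquiv ↥W).surjective.comp hbij.2)
  have hodd : Odd (n - 1) := by
    obtain ⟨r, hr⟩ := hev
    exact ⟨r - 1, by omega⟩
  rw [ZMod.isCyclic_units_iff_of_odd hodd] at hcycU
  obtain ⟨p, m, hp, -, hpm⟩ := hcycU
  have hcop : (n - 1).Coprime (Nat.card ↥D) := by
    obtain ⟨k, hk, hk2⟩ := hW.cop
    rw [← h.cardSt hab, hWc] at hk
    have : Nat.card ↥D = k := Nat.eq_of_mul_eq_mul_left (by omega) hk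
    rw [hWc] at hk2
    rw [this]; exact hk2
  have hm : m = 1 := by
    rcases Nat.lt_or_ge m 1 with h1 | h1
    · exfalso
      have : m = 0 := by omega
      rw [this, pow_zero] at hpm
      omega
    · rcases Nat.lt_or_ge 1 m with h2 | h2
      · exfalso
        have h3 : p ∣ n - 1 := by rw [hpm]; exact dvd_pow_self p (by omega)
        have h4 : p ∣ Nat.card ↥D := by
          rw [hDt, hpm, Nat.totient_prime_pow hp (by omega)]
          exact Dvd.dvd.mul_right (dvd_pow_self p (by omega)) _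
        have := Nat.eq_one_of_dvd_coprimes hcop h3 h4
        exact hp.one_lt.ne' this
      · omega
  rw [hm, pow_one] at hpm
  refine ⟨by rw [hpm]; exact hp, ?_⟩
  rw [hDt, hpm, Nat.totient_prime hp]
  omega

end Cfsg.Agent.H73.CZ
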