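import Mathlib

set_option autoImplicit false

namespace Cfsg.Agent.H73.CZ

open Matrix

theorem mat_comm {F : Type*} [Field F] {X Y N : Matrix (Fin 2) (Fin 2) F} (hX : X * N = N * X)
    (hY : Y * N = N * Y) (hN : ¬ (N 0 1 = 0 ∧ N 1 0 = 0 ∧ N 0 0 = N 1 1)) : X * Y = Y * X := by
  have ent : ∀ Z : Matrix (Fin 2) (Fin 2) F, Z * N = N * Z →
      Z 0 1 * N 1 0 = N 0 1 * Z 1 0 ∧ N 0 1 * (Z 0 0 - Z 1 1) = Z 0 1 * (N 0 0 - N 1 1) ∧
      N 1 0 * (Z 0 0 - Z 1 1) = Z 1 0 * (N 0 0 - N 1 1) := by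
    intro Z hZ
    have h00 := congrFun (congrFun hZ 0) 0
    have h01 := congrFun (congrFun hZ 0) 1
    have h10 := congrFun (congrFun hZ 1) 0
    simp only [Matrix.mul_apply, Fin.sum_univ_two] at h00 h01 h10
    refine ⟨?_, ?_, ?_⟩
    · linear_combination h00
    · linear_combination h01
    · linear_combination -h10
  obtain ⟨x1, x2, x3⟩ := ent X hX
  obtain ⟨y1, y2, y3⟩ := ent Y hY
  have key : X 0 1 * Y 1 0 = Y 0 1 * X 1 0 ∧ (X 0 0 - X 1 1) * Y 0 1 = (Y 0 0 - Y 1 1) * X 0 1 ∧
      (X 0 0 - X 1 1) * Y 1 0 = (Y 0 0 - Y 1 1) * X 1 0 := by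
    by_cases h01 : N 0 1 = 0
    · by_cases h10 : N 1 0 = 0
      · have hc : N 0 0 - N 1 1 ≠ 0 := by
          intro h; exact hN ⟨h01, h10, sub_eq_zero.1 h⟩
        rw [h01, zero_mul] at x2 y2
        rw [h10, zero_mul] at x3 y3
        have a1 : X 0 1 = 0 := by
          rcases mul_eq_zero.1 x2.symm with h | h
          · exact h
          · exact absurd h hc
        have a2 : Y 0 1 = 0 := by
          rcases mul_eq_zero.1 y2.symm with h | h
          · exact h
          · exact absurd h hc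
        have a3 : X 1 0 = 0 := by
          rcases mul_eq_zero.1 x3.symm with h | h
          · exact h
          · exact absurd h hc
        have a4 : Y 1 0 = 0 := by
          rcases mul_eq_zero.1 y3.symm with h | h
          · exact h
          · exact absurd h hc
        rw [a1, a2, a3, a4]
        simp
      · have g1 : X 0 1 * Y 1 0 = Y 0 1 * X 1 0 := by
          apply mul_left_cancel₀ h10
          linear_combination (Y 1 0) * x1 - (X 1 0) * y1
        refine ⟨g1, ?_, ?_⟩
        · apply mul_left_cancel₀ h10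
          linear_combination (Y 0 1) * x3 - (X 0 1) * y3 - (N 0 0 - N 1 1) * g1
        · apply mul_left_cancel₀ h10
          linear_combination (Y 1 0) * x3 - (X 1 0) * y3
    · have g1 : X 0 1 * Y 1 0 = Y 0 1 * X 1 0 := by
        apply mul_left_cancel₀ h01
        linear_combination (-X 0 1) * y1 + (Y 0 1) * x1
      refine ⟨g1, ?_, ?_⟩
      · apply mul_left_cancel₀ h01
        linear_combination (Y 0 1) * x2 - (X 0 1) * y2
      · apply mul_left_cancel₀ h01
        linear_combination (Y 1 0) * x2 - (X 1 0) * y2 + (N 0 0 - N 1 1) * g1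
  obtain ⟨g1, g2, g3⟩ := key
  ext i j
  fin_cases i <;> fin_cases j <;>
    simp only [Matrix.mul_apply, Fin.sum_univ_two, Fin.zero_eta, Fin.mk_one, Fin.isValue]
  · linear_combination g1
  · linear_combination g2
  · linear_combination -g3
  · linear_combination -g1

theorem pgl_sq {F : Type*} [Field F] (x y : Matrix.ProjGenLinGroup (Fin 2) F)
    (h : x ^ 2 = y ^ 2) (h1 : x ^ 2 ≠ 1) : x * y = y * x := by
  obtain ⟨X, rfl⟩ := Matrix.ProjGenLinGroup.mk_surjective x
  obtain ⟨Y, rfl⟩ := Matrix.ProjGenLinGroup.mk_surjective y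
  rw [← map_pow, ← map_pow, Matrix.ProjGenLinGroup.mk_eq_mk_iff'] at h
  rw [← map_pow, Ne, Matrix.ProjGenLinGroup.mk_eq_one] at h1
  obtain ⟨z, hz, hzz⟩ := h
  rw [Subgroup.mem_center_iff] at hz
  have hYX : Y * X ^ 2 = X ^ 2 * Y := by
    have e1 : Y * (X ^ 2 * z) = (X ^ 2 * z) * Y := by rw [hzz]; group
    have e2 : (X ^ 2 * z) * Y = X ^ 2 * Y * z := by rw [mul_assoc, ← hz Y, ← mul_assoc]
    rw [e2, ← mul_assoc] at e1
    exact mul_right_cancel e1
  have hXX : X * X ^ 2 = X ^ 2 * X := by group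
  have hmat : (X : Matrix (Fin 2) (Fin 2) F) * (Y : Matrix (Fin 2) (Fin 2) F) =
      (Y : Matrix (Fin 2) (Fin 2) F) * (X : Matrix (Fin 2) (Fin 2) F) := by
    refine mat_comm (N := ((X ^ 2 : GL (Fin 2) F) : Matrix (Fin 2) (Fin 2) F)) ?_ ?_ ?_
    · have := congrArg (fun g : GL (Fin 2) F => (g : Matrix (Fin 2) (Fin 2) F)) hXX
      simpa only [Units.val_mul] using this
    · have := congrArg (fun g : GL (Fin 2) F => (g : Matrix (Fin 2) (Fin 2) F)) hYX
      simpa only [Units.val_mul] using this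
    · rintro ⟨n1, n2, n3⟩
      apply h1
      rw [Subgroup.mem_center_iff]
      intro g
      apply Units.ext
      rw [Units.val_mul, Units.val_mul]
      ext i j
      fin_cases i <;> fin_cases j <;>
        simp only [Matrix.mul_apply, Fin.sum_univ_two, Fin.zero_eta, Fin.mk_one, Fin.isValue, n1, n2, n3] <;>
        ring
  have : X * Y = Y * X := Units.ext (by simpa only [Units.val_mul] using hmat)
  rw [← map_mul, ← map_mul, this]

end Cfsg.Agent.H73.CZ
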