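import Cfsg.Agent.H73.CZ6
import Cfsg.Agent.H73.CZM
import Cfsg.Agent.S0730

set_option autoImplicit false

namespace Cfsg.Agent.H73.CZ

open Equiv

universe u
variable {Ω : Type u} {G : Subgroup (Perm Ω)} [Finite Ω]

theorem C2.sharp (h : C2 G) (hp : (Nat.card Ω - 1).Prime) {a b x : Ω} (hab : a ≠ b) (hxa : x ≠ a)
    (hxb : x ≠ b) {d : Perm Ω} (hd : d ∈ G) (hda : d a = a) (hdb : d b = b) (hdx : d x = x) :
    d = 1 := by
  obtain ⟨W, hW⟩ := exWD h.two h.zs a
  obtain ⟨w, hw, hwx⟩ := h.Wtr hab (Ne.symm hxa) hW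
  have hdS : d ∈ St G a := mem_St.2 ⟨hd, hda⟩
  have h1 : w⁻¹ * (d * w * d⁻¹) = 1 := by
    refine hW.semi _ (mul_mem (inv_mem hw) (hW.norm d hdS w hw)) b (Ne.symm hab) ?_
    have hdb' : d⁻¹ b = b := by
      have := ias d b; rw [hdb] at this; exact this
    show w⁻¹ (d (w (d⁻¹ b))) = b
    rw [hdb', hwx, hdx, ← hwx, ias]
  have h2 : d * w = w * d := by
    calc d * w = w * (w⁻¹ * (d * w * d⁻¹)) * d := by group
      _ = w * d := by rw [h1, mul_one]
  have hw1 : w ≠ 1 := by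
    intro h3
    rw [h3] at hwx
    exact hxb hwx.symm
  haveI : Fact (Nat.card Ω - 1).Prime := ⟨hp⟩
  have h3 : ∀ v ∈ W, d * v = v * d := by
    intro v hv
    have h4 : (⟨v, hv⟩ : ↥W) ∈ Subgroup.zpowers (⟨w, hw⟩ : ↥W) :=
      mem_zpowers_of_prime_card (h.cardW hab hW) (fun h5 => hw1 (congrArg Subtype.val h5))
    rw [Subgroup.mem_zpowers_iff] at h4
    obtain ⟨k, hk⟩ := h4
    have h5 : w ^ k = v := congrArg Subtype.val hk
    rw [← h5]
    exact (show Commute d w from h2).zpow_right k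
  exact h.faith hab hW (mem_St2.2 ⟨hd, hda, hdb⟩) h3

theorem C2.tri (h : C2 G) (hp : (Nat.card Ω - 1).Prime) {a b : Ω} (hab : a ≠ b)
    (hD : Nat.card ↥(St2 G a b) = Nat.card Ω - 2) {x y : Ω} (hxa : x ≠ a)
    (hxb : x ≠ b) (hya : y ≠ a) (hyb : y ≠ b) : ∃ c ∈ G, c a = a ∧ c b = b ∧ c x = y := by
  have h1 := card_St (St2 G a b) x
  have hst : Nat.card ↥(St (St2 G a b) x) = 1 := by
    rw [Subgroup.card_eq_one, Subgroup.eq_bot_iff_forall]
    intro d hd
    have h2 := mem_St.1 hd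
    have h3 := mem_St2.1 h2.1
    exact h.sharp hp hab hxa hxb h3.1 h3.2.1 h3.2.2 h2.2
  rw [hst, mul_one, hD] at h1
  have hsub : (MulAction.orbit ↥(St2 G a b) x : Set Ω) ⊆ {a, b}ᶜ := by
    rintro _ ⟨d, rfl⟩
    have h3 := mem_St2.1 d.2
    simp only [Set.mem_compl_iff, Set.mem_insert_iff, Set.mem_singleton_iff, not_or]
    constructor
    · intro h4
      have h5 : (d : Perm Ω) x = (d : Perm Ω) a := by rw [h3.2.1]; exact h4
      exact hxa ((d : Perm Ω).injective h5)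
    · intro h4
      have h5 : (d : Perm Ω) x = (d : Perm Ω) b := by rw [h3.2.2]; exact h4
      exact hxb ((d : Perm Ω).injective h5)
  have heq := Set.eq_of_subset_of_ncard_le hsub (by
    rw [← Nat.card_coe_set_eq, ← Nat.card_coe_set_eq, card_compl2 hab, h1]) (Set.toFinite _)
  have hy : y ∈ (MulAction.orbit ↥(St2 G a b) x : Set Ω) := by
    rw [heq]
    simp only [Set.mem_compl_iff, Set.mem_insert_iff, Set.mem_singleton_iff, not_or]
    exact ⟨hya, hyb⟩
  obtain ⟨d, hd⟩ := hy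
  have h3 := mem_St2.1 d.2
  exact ⟨d, h3.1, h3.2.1, h3.2.2, hd⟩

theorem C2.allinv (h : C2 G) (hn : 2 < Nat.card Ω) {a b : Ω} (hab : a ≠ b)
    (hD : Nat.card ↥(St2 G a b) = Nat.card Ω - 2) {j : Perm Ω} (hj : j ∈ G) (hja : j a = b)
    (hjb : j b = a) (hj2 : j ^ 2 = 1) (hjf : ∀ x, j x ≠ x) {d : Perm Ω} (hd : d ∈ St2 G a b) :
    j * d * j⁻¹ = d⁻¹ := by
  have hcount := h.count hab hj hja hjb hj2 hjf
  set E := EI (St2 G a b) (fun _ hx _ hy => commD h.two h.zs hab hx hy) j with hE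
  have hEle : E ≤ St2 G a b := fun x hx => hx.1
  have hdvd : Nat.card ↥E ∣ Nat.card ↥(St2 G a b) := Subgroup.card_dvd_of_le hEle
  have heq : Nat.card ↥E = Nat.card ↥(St2 G a b) := by
    obtain ⟨c, hc⟩ := hdvd
    rw [hD] at hc
    have hc1 : c = 1 := by
      rcases Nat.lt_or_ge c 1 with h1 | h1
      · have : c = 0 := by omega
        rw [this] at hc; omega
      · rcases Nat.lt_or_ge 1 c with h2 | h2
        · exfalso
          have h3 : Nat.card ↥E * 2 ≤ Nat.card ↥E * c := Nat.mul_le_mul_left _ h2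
          omega
        · omega
    rw [hc1, mul_one] at hc
    rw [hD, hc]
  have h2 : E = St2 G a b := Subgroup.eq_of_le_of_card_ge hEle heq.ge
  have h3 : d ∈ E := by rw [h2]; exact hd
  exact h3.2

theorem C2.iso (h : C2 G) (hev : Even (Nat.card Ω)) (hn : 2 < Nat.card Ω)
    (hp : (Nat.card Ω - 1).Prime) (hD : ∀ a b, a ≠ b → Nat.card ↥(St2 G a b) = Nat.card Ω - 2) :
    ∃ (F : Type) (_ : Field F) (_ : Fintype F), Fintype.card F = Nat.card Ω - 1 ∧
      Nonempty (↥G ≃* Matrix.ProjGenLinGroup (Fin 2) F) := by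
  classical
  haveI := Fintype.ofFinite Ω
  have hp2 : Nat.card Ω - 1 ≠ 2 := by
    obtain ⟨r, hr⟩ := hev
    omega
  have hα : Fintype.card Ω = (Nat.card Ω - 1) ^ 1 + 1 := by
    rw [pow_one, ← Nat.card_eq_fintype_card]; omega
  obtain ⟨F, i1, i2, hF, hiso⟩ := Cfsg.Agent.S0730.result (α := Ω) hp hp2 (by decide : Odd 1) hα G
    ⟨by
      intro x y
      obtain ⟨g, hg, hg0, hg1⟩ := h.two (x 0) (x 1) (y 0) (y 1) (fun e => by
        have := x.injective e; exact absurd this (by decide)) (fun e => by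
        have := y.injective e; exact absurd this (by decide))
      have n1 : g (x 2) ≠ y 0 := by
        rw [← hg0]; intro e; have := x.injective (g.injective e); exact absurd this (by decide)
      have n2 : g (x 2) ≠ y 1 := by
        rw [← hg1]; intro e; have := x.injective (g.injective e); exact absurd this (by decide)
      have n3 : y 2 ≠ y 0 := fun e => by have := y.injective e; exact absurd this (by decide)
      have n4 : y 2 ≠ y 1 := fun e => by have := y.injective e; exact absurd this (by decide)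
      have n5 : y 0 ≠ y 1 := fun e => by have := y.injective e; exact absurd this (by decide)
      obtain ⟨c, hc, hc0, hc1, hc2⟩ := h.tri hp n5 (hD _ _ n5) n1 n2 n3 n4
      refine ⟨⟨c * g, mul_mem hc hg⟩, ?_⟩
      ext k
      fin_cases k
      · show c (g (x 0)) = y 0
        rw [hg0, hc0]
      · show c (g (x 1)) = y 1
        rw [hg1, hc1]
      · show c (g (x 2)) = y 2
        exact hc2⟩
    (by
      intro x
      rw [Subgroup.eq_bot_iff_forall]
      intro g hg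
      rw [MulAction.mem_stabilizer_iff] at hg
      have e : ∀ k, (g : Perm Ω) (x k) = x k := by
        intro k
        exact congrArg (fun f : Fin 3 ↪ Ω => f k) hg
      have n5 : x 0 ≠ x 1 := fun e => by have := x.injective e; exact absurd this (by decide)
      have n3 : x 2 ≠ x 0 := fun e => by have := x.injective e; exact absurd this (by decide)
      have n4 : x 2 ≠ x 1 := fun e => by have := x.injective e; exact absurd this (by decide)
      exact Subtype.ext (h.sharp hp n5 n3 n4 g.2 (e 0) (e 1) (e 2)))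
  rw [pow_one] at hF
  exact ⟨F, i1, i2, hF, hiso⟩

theorem par3 (x y z : ℤ) : (∃ k, x = y + 2 * k) ∨ (∃ k, z = x + 2 * k) ∨ (∃ k, z = y + 2 * k) := by
  rcases Int.emod_two_eq_zero_or_one (x - y) with h | h
  · exact Or.inl ⟨(x - y) / 2, by omega⟩
  · rcases Int.emod_two_eq_zero_or_one (z - x) with h2 | h2
    · exact Or.inr (Or.inl ⟨(z - x) / 2, by omega⟩)
    · exact Or.inr (Or.inr ⟨(z - y) / 2, by omega⟩)

theorem C2.good (h : C2 G) (hev : Even (Nat.card Ω)) (hn : 2 < Nat.card Ω)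
    (hj : ∀ a b, a ≠ b → ∃ j ∈ G, j a = b ∧ j b = a ∧ j ^ 2 = 1 ∧ ∀ x, j x ≠ x) :
    Good G Set.univ ∧ (Nat.card Ω - 1).Prime ∧
    ∃ (F : Type) (_ : Field F) (_ : Fintype F), Fintype.card F = Nat.card Ω - 1 ∧
      Nonempty (↥G ≃* Matrix.ProjGenLinGroup (Fin 2) F) := by
  classical
  obtain ⟨a0, b0, hab0⟩ : ∃ a b : Ω, a ≠ b := by
    haveI : Nontrivial Ω := Finite.one_lt_card_iff_nontrivial.1 (by omega)
    exact exists_pair_ne Ω
  have hp := (h.num hev hn hab0 (hj _ _ hab0)).1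
  have hD : ∀ a b, a ≠ b → Nat.card ↥(St2 G a b) = Nat.card Ω - 2 :=
    fun a b hab => (h.num hev hn hab (hj _ _ hab)).2
  have hiso := h.iso hev hn hp hD
  refine ⟨⟨?_, ?_, ?_, ?_, ?_⟩, hp, hiso⟩
  · intro a _ b _ x _ y _ hab hxa hxb hya hyb
    exact h.tri hp hab (hD _ _ hab) hxa hxb hya hyb
  · intro c hc a _ b _ x _ hab hxa hxb h1 h2 h3 y _
    rw [h.sharp hp hab hxa hxb hc h1 h2 h3]; rfl
  · intro w hw a _ b _ hab hwa hwb d hd hda hdb y _
    obtain ⟨j, hjG, hja, hjb, hj2, hjf⟩ := hj a b hab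
    have hdD : d ∈ St2 G a b := mem_St2.2 ⟨hd, hda, hdb⟩
    have hji : j⁻¹ = j := inv_eq_of_sq hj2
    set e := w * j⁻¹ with he
    have heD : e ∈ St2 G a b := by
      refine mem_St2.2 ⟨mul_mem hw (inv_mem hjG), ?_, ?_⟩
      · rw [he, hji]; show w (j a) = a; rw [hja, hwb]
      · rw [he, hji]; show w (j b) = b; rw [hjb, hwa]
    have h1 := h.allinv hn hab (hD _ _ hab) hjG hja hjb hj2 hjf hdD
    have h2 : w * d * w⁻¹ = d⁻¹ := by
      have hcm := commD h.two h.zs hab heD (inv_mem hdD)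
      calc w * d * w⁻¹ = e * (j * d * j⁻¹) * e⁻¹ := by rw [he]; group
        _ = e * d⁻¹ * e⁻¹ := by rw [h1]
        _ = d⁻¹ * e * e⁻¹ := by rw [hcm]
        _ = d⁻¹ := by group
    calc w (d (w⁻¹ (d y))) = (w * d * w⁻¹) (d y) := rfl
      _ = d⁻¹ (d y) := by rw [h2]
      _ = y := ias d y
  · intro u hu w hw a _ b _ hab hua hub hwa hwb huf hwf
    have hu2 : u ^ 2 = 1 := by
      ext y; rw [pow_two]; exact (huf y trivial).1
    have hw2 : w ^ 2 = 1 := by
      ext y; rw [pow_two]; exact (hwf y trivial).1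
    obtain ⟨γ, hγa, hγb⟩ : ∃ γ : Ω, γ ≠ a ∧ γ ≠ b := by
      by_contra hcon
      push Not at hcon
      have h1 : (Set.univ : Set Ω) ⊆ {a, b} := by
        intro x _
        by_cases hx : x = a
        · simp [hx]
        · simp [hcon x hx]
      have h2 := Set.ncard_le_ncard h1 (Set.toFinite _)
      rw [Set.ncard_univ, Set.ncard_pair hab] at h2
      omega
    obtain ⟨v, hv, hvγ, hv2, hva⟩ := h.exu hγa hγb hab
    have hvb : v b = a := by rw [← hva]; exact sq_app hv2 a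
    have hwi : w⁻¹ = w := inv_eq_of_sq hw2
    -- d1 = u w⁻¹, d3 = v w⁻¹
    have d1 : u * w⁻¹ ∈ St2 G a b := by
      refine mem_St2.2 ⟨mul_mem hu (inv_mem hw), ?_, ?_⟩
      · rw [hwi]; show u (w a) = a; rw [hwa, hub]
      · rw [hwi]; show u (w b) = b; rw [hwb, hua]
    have d3 : v * w⁻¹ ∈ St2 G a b := by
      refine mem_St2.2 ⟨mul_mem hv (inv_mem hw), ?_, ?_⟩
      · rw [hwi]; show v (w a) = a; rw [hwa, hvb]
      · rw [hwi]; show v (w b) = b; rw [hwb, hva]
    haveI := cycD h.two h.zs hab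
    obtain ⟨g0, hg0⟩ := IsCyclic.exists_generator (α := ↥(St2 G a b))
    obtain ⟨x1, hx1⟩ := Subgroup.mem_zpowers_iff.1 (hg0 ⟨_, d1⟩)
    obtain ⟨x3, hx3⟩ := Subgroup.mem_zpowers_iff.1 (hg0 ⟨_, d3⟩)
    have hx1' : (g0 : Perm Ω) ^ x1 = u * w⁻¹ := congrArg Subtype.val hx1
    have hx3' : (g0 : Perm Ω) ^ x3 = v * w⁻¹ := congrArg Subtype.val hx3
    have hinv : ∀ k : ℤ, w * (g0 : Perm Ω) ^ k = (g0 : Perm Ω) ^ (-k) * w := by
      intro k
      have h1 := h.allinv hn hab (hD _ _ hab) hw hwa hwb hw2 (fun x => (hwf x trivial).2)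
        (zpow_mem g0.2 k)
      calc w * (g0 : Perm Ω) ^ k = (w * (g0 : Perm Ω) ^ k * w⁻¹) * w := by group
        _ = (g0 : Perm Ω) ^ (-k) * w := by rw [h1]; group
    have hconj : ∀ (k l : ℤ), (g0 : Perm Ω) ^ k * ((g0 : Perm Ω) ^ l * w) * ((g0 : Perm Ω) ^ k)⁻¹ =
        (g0 : Perm Ω) ^ (l + 2 * k) * w := by
      intro k l
      calc (g0 : Perm Ω) ^ k * ((g0 : Perm Ω) ^ l * w) * ((g0 : Perm Ω) ^ k)⁻¹
          = (g0 : Perm Ω) ^ k * (g0 : Perm Ω) ^ l * (w * (g0 : Perm Ω) ^ (-k)) := by group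
        _ = (g0 : Perm Ω) ^ k * (g0 : Perm Ω) ^ l * ((g0 : Perm Ω) ^ (- -k) * w) := by rw [hinv]
        _ = (g0 : Perm Ω) ^ (l + 2 * k) * w := by
          rw [neg_neg, ← mul_assoc, ← zpow_add, ← zpow_add]
          congr 2
          ring
    have hue : u = (g0 : Perm Ω) ^ x1 * w := by rw [hx1']; group
    have hve : v = (g0 : Perm Ω) ^ x3 * w := by rw [hx3']; group
    have hwe : w = (g0 : Perm Ω) ^ (0 : ℤ) * w := by simp
    -- v is not conjugate to u or w
    have hnot : ∀ (k : ℤ) (f : Perm Ω), (∀ y, f y ≠ y) →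
        v = (g0 : Perm Ω) ^ k * f * ((g0 : Perm Ω) ^ k)⁻¹ → False := by
      intro k f hf hvf
      have h1 : v γ = γ := hvγ
      rw [hvf] at h1
      have h2 : ((g0 : Perm Ω) ^ k)⁻¹ (((g0 : Perm Ω) ^ k) (f (((g0 : Perm Ω) ^ k)⁻¹ γ))) =
          ((g0 : Perm Ω) ^ k)⁻¹ γ := congrArg (fun z => ((g0 : Perm Ω) ^ k)⁻¹ z) h1
      rw [ias] at h2
      exact hf _ h2
    rcases par3 x1 0 x3 with ⟨k, hk⟩ | ⟨k, hk⟩ | ⟨k, hk⟩
    · have h1 : u = (g0 : Perm Ω) ^ k * w * ((g0 : Perm Ω) ^ k)⁻¹ := by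
        have h2 := hconj k 0
        rw [← hwe, ← hk, ← hue] at h2
        exact h2.symm
      have h3 := mem_St2.1 (zpow_mem g0.2 k)
      refine ⟨(g0 : Perm Ω) ^ k, h3.1, h3.2.1, h3.2.2, ?_⟩
      intro y _
      exact congrArg (fun f : Perm Ω => f y) h1
    · exfalso
      refine hnot k u (fun y => (huf y trivial).2) ?_
      have h2 := hconj k x1
      rw [← hk, ← hve, ← hue] at h2
      exact h2.symm
    · exfalso
      refine hnot k w (fun y => (hwf y trivial).2) ?_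
      have h2 := hconj k 0
      rw [← hk, ← hve, ← hwe] at h2
      exact h2.symm
  · intro x hx y hy hxy hne z _
    obtain ⟨F, i1, i2, -, ⟨e⟩⟩ := hiso
    have h1 : (⟨x, hx⟩ : ↥G) ^ 2 = (⟨y, hy⟩ : ↥G) ^ 2 := by
      apply Subtype.ext
      show x ^ 2 = y ^ 2
      ext z
      rw [pow_two, pow_two]
      exact hxy z trivial
    have h2 : (⟨x, hx⟩ : ↥G) ^ 2 ≠ 1 := by
      intro h3
      obtain ⟨z, -, hz⟩ := hne
      have h4 : x ^ 2 = 1 := congrArg Subtype.val h3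
      exact hz (sq_app h4 z)
    have h3 := pgl_sq (e ⟨x, hx⟩) (e ⟨y, hy⟩) (by rw [← map_pow, ← map_pow, h1])
      (by rw [← map_pow]; intro h4; exact h2 (e.map_eq_one_iff.1 h4))
    rw [← map_mul, ← map_mul] at h3
    have h4 := e.injective h3
    exact congrArg (fun f : ↥G => (f : Perm Ω) z) h4

end Cfsg.Agent.H73.CZ
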