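import Cfsg.Agent.H73.CZ7

set_option autoImplicit false

namespace Cfsg.Agent.H73.CZ

open Equiv

universe u

theorem two_compl {Γ : Type*} [Group Γ] [Finite Γ] (hev : 2 ∣ Nat.card Γ) [Fact (Nat.Prime 2)]
    (P : Sylow 2 Γ) (hP : IsCyclic ↥P) :
    ∃ N : Subgroup Γ, N.Normal ∧ Odd (Nat.card ↥N) ∧ Nat.card ↥N * Nat.card ↥P = Nat.card Γ := by
  have hmf : (Nat.card Γ).minFac = 2 := (Nat.minFac_eq_two_iff _).2 hev
  have h1 := IsCyclic.isComplement' hmf hP
  refine ⟨_, inferInstance, ?_, h1.card_mul⟩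
  rw [← Nat.not_even_iff_odd, even_iff_two_dvd, ← h1.index_eq_card]
  exact P.not_dvd_index

variable {Ω : Type u} [Finite Ω] {G A : Subgroup (Perm Ω)}

theorem orb_univ {S : Subgroup (Perm Ω)} {a : Ω} (h : ∀ b, ∃ x ∈ S, x a = b) :
    Nat.card ↥(MulAction.orbit ↥S a) = Nat.card Ω := by
  have : (MulAction.orbit ↥S a : Set Ω) = Set.univ := by
    ext b
    constructor
    · intro _; trivial
    · intro _
      obtain ⟨x, hx, hxb⟩ := h b
      exact ⟨⟨x, hx⟩, hxb⟩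
  rw [this, Nat.card_coe_set_eq, Set.ncard_univ]

theorem Two.tr (h : Two G) (hn : 2 < Nat.card Ω) (a b : Ω) : ∃ x ∈ G, x a = b := by
  haveI : Nontrivial Ω := Finite.one_lt_card_iff_nontrivial.1 (by omega)
  obtain ⟨c, hc⟩ := exists_ne a
  obtain ⟨d, hd⟩ := exists_ne b
  obtain ⟨g, hg, hg1, -⟩ := h a c b d (Ne.symm hc) (Ne.symm hd)
  exact ⟨g, hg, hg1⟩

theorem cardG (h : Two G) (hn : 2 < Nat.card Ω) {a b : Ω} (hab : a ≠ b) :
    Nat.card ↥G = Nat.card Ω * ((Nat.card Ω - 1) * Nat.card ↥(St2 G a b)) := by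
  have h1 := card_St G a
  rw [orb_univ (fun b => h.tr hn a b)] at h1
  have h2 := card_St (St G a) b
  have horb : (MulAction.orbit ↥(St G a) b : Set Ω) = {a}ᶜ := by
    ext x
    constructor
    · rintro ⟨w, rfl⟩
      intro hx
      have hwa : (w : Perm Ω) a = a := (mem_St.1 w.2).2
      have h2 : (w : Perm Ω) b = (w : Perm Ω) a := by rw [hwa]; exact hx
      exact hab ((w : Perm Ω).injective h2).symm
    · intro hx
      have hxa : a ≠ x := fun h2 => hx h2.symm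
      obtain ⟨g, hg, hg1, hg2⟩ := h a b a x hab hxa
      exact ⟨⟨g, mem_St.2 ⟨hg, hg1⟩⟩, hg2⟩
  rw [horb, card_compl] at h2
  rw [← h1, ← h2]
  rfl

theorem Afree' (hAc : IsCyclic ↥A) (hAt : ∀ a b : Ω, ∃ x ∈ A, x a = b) {x : Perm Ω} (hx : x ∈ A)
    {a : Ω} (hxa : x a = a) : x = 1 := by
  letI : CommGroup ↥A := IsCyclic.commGroup
  ext b
  obtain ⟨y, hy, hyb⟩ := hAt a b
  have h1 : x * y = y * x := by
    have := mul_comm (⟨x, hx⟩ : ↥A) ⟨y, hy⟩
    exact congrArg Subtype.val this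
  calc x b = x (y a) := by rw [hyb]
    _ = (x * y) a := rfl
    _ = (y * x) a := by rw [h1]
    _ = y (x a) := rfl
    _ = b := by rw [hxa, hyb]

theorem cardA (hAc : IsCyclic ↥A) (hAt : ∀ a b : Ω, ∃ x ∈ A, x a = b) (a : Ω) :
    Nat.card ↥A = Nat.card Ω := by
  have h1 := card_St A a
  rw [orb_univ (fun b => hAt a b)] at h1
  have hst : Nat.card ↥(St A a) = 1 := by
    rw [Subgroup.card_eq_one, Subgroup.eq_bot_iff_forall]
    intro x hx
    exact Afree' hAc hAt (mem_St.1 hx).1 (mem_St.1 hx).2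
  rw [hst, mul_one] at h1
  exact h1.symm

theorem evenD (h : Two G) (hAG : A ≤ G) (hAc : IsCyclic ↥A) (hAt : ∀ a b : Ω, ∃ x ∈ A, x a = b)
    (hev : Even (Nat.card Ω)) (hn : 2 < Nat.card Ω) {a b : Ω} (hab : a ≠ b) :
    Even (Nat.card ↥(St2 G a b)) := by
  classical
  haveI : Fact (Nat.Prime 2) := ⟨Nat.prime_two⟩
  by_contra hodd
  rw [Nat.not_even_iff_odd] at hodd
  have hG := cardG h hn hab
  have hA := cardA hAc hAt a
  have hodd1 : Odd (Nat.card Ω - 1) := by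
    obtain ⟨r, hr⟩ := hev
    exact ⟨r - 1, by omega⟩
  have hfac : (Nat.card ↥G).factorization 2 = (Nat.card ↥A).factorization 2 := by
    rw [hG, hA, Nat.factorization_mul (by omega) (Nat.mul_pos (by omega) hodd.pos).ne',
      Nat.factorization_mul (by omega) hodd.pos.ne']
    simp only [Finsupp.add_apply]
    rw [Nat.factorization_eq_zero_of_not_dvd (n := Nat.card Ω - 1)
      (fun hd => (Nat.not_even_iff_odd.2 hodd1) (even_iff_two_dvd.2 hd)),
      Nat.factorization_eq_zero_of_not_dvd (n := Nat.card ↥(St2 G a b))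
      (fun hd => (Nat.not_even_iff_odd.2 hodd) (even_iff_two_dvd.2 hd))]
    omega
  obtain ⟨S⟩ := (inferInstance : Nonempty (Sylow 2 ↥A))
  have hSc := S.card_eq_multiplicity
  set S' := ((S : Subgroup ↥A).map A.subtype) with hS'
  have hS'A : S' ≤ A := Subgroup.map_subtype_le _
  have hP0 : Nat.card ↥(S'.subgroupOf G) = 2 ^ (Nat.card ↥G).factorization 2 := by
    rw [Nat.card_congr (Subgroup.subgroupOfEquivOfLe (hS'A.trans hAG)).toEquiv, hS',
      Subgroup.card_map_of_injective A.subtype_injective, hfac]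
    exact hSc
  have hcyc : IsCyclic ↥(Sylow.ofCard (S'.subgroupOf G) hP0) := by
    haveI := hAc
    haveI h1 : IsCyclic ↥S' := Subgroup.isCyclic_of_le hS'A
    exact isCyclic_of_surjective _
      (Subgroup.subgroupOfEquivOfLe (hS'A.trans hAG)).symm.surjective
  have h2G : 2 ∣ Nat.card ↥G := by
    rw [hG]; exact Dvd.dvd.mul_right (even_iff_two_dvd.1 hev) _
  obtain ⟨N, hN, hNodd, hNc⟩ := two_compl h2G _ hcyc
  have hPc : Nat.card ↥(Sylow.ofCard (S'.subgroupOf G) hP0) = 2 ^ (Nat.card ↥G).factorization 2 := hP0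
  have hNbot : N ≠ ⊥ := by
    intro h0
    rw [h0, Subgroup.card_bot, one_mul, hPc] at hNc
    have h3 : Nat.card Ω - 1 ∣ 2 ^ (Nat.card ↥G).factorization 2 := by
      rw [hNc, hG]; exact Dvd.intro_left (Nat.card Ω * Nat.card ↥(St2 G a b)) (by ring)
    have h4 : (Nat.card Ω - 1).Coprime (2 ^ (Nat.card ↥G).factorization 2) :=
      Nat.Coprime.pow_right _ (Nat.coprime_two_right.2 hodd1)
    have := Nat.Coprime.eq_one_of_dvd h4 h3
    omega
  obtain ⟨x', hx'⟩ := Subgroup.ne_bot_iff_exists_ne_one.1 hNbot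
  obtain ⟨x, hxN, hx1⟩ : ∃ x : ↥G, x ∈ N ∧ x ≠ 1 :=
    ⟨(x' : ↥G), x'.2, fun h => hx' (Subtype.ext h)⟩
  obtain ⟨c, hc⟩ : ∃ c, (x : Perm Ω) c ≠ c := by
    by_contra hcon
    push Not at hcon
    exact hx1 (Subtype.ext (by ext z; simpa using hcon z))
  set N' := N.map G.subtype with hN'
  have htr : ∀ e, ∃ y ∈ N', y c = e := by
    intro e
    by_cases hec : e = c
    · exact ⟨1, one_mem _, hec.symm⟩
    · obtain ⟨g, hg, hg1, hg2⟩ := h c ((x : Perm Ω) c) c e (Ne.symm hc) (Ne.symm hec)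
      refine ⟨g * x * g⁻¹, ⟨⟨g, hg⟩ * x * ⟨g, hg⟩⁻¹, hN.conj_mem x hxN ⟨g, hg⟩, rfl⟩, ?_⟩
      have hgi : g⁻¹ c = c := by
        have := ias g c; rw [hg1] at this; exact this
      show g ((x : Perm Ω) (g⁻¹ c)) = e
      rw [hgi, hg2]
  have h5 := card_St N' c
  rw [orb_univ htr, hN', Subgroup.card_map_of_injective G.subtype_injective] at h5
  rw [← h5] at hNodd
  have h6 := (Nat.odd_mul.1 hNodd).1
  exact (Nat.not_even_iff_odd.2 h6) hev

end Cfsg.Agent.H73.CZ
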