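import Cfsg.Agent.H73.CZ8

set_option autoImplicit false

namespace Cfsg.Agent.H73.CZ

open Equiv

universe u

theorem evenFx {Ω : Type u} [Finite Ω] (hev : Even (Nat.card Ω)) {t : Perm Ω} (ht : t ^ 2 = 1) :
    Even (Nat.card ↥(Fx t)) := by
  classical
  haveI := Fintype.ofFinite Ω
  haveI : Fact (Nat.Prime 2) := ⟨Nat.prime_two⟩
  have h1 := Equiv.Perm.card_compl_support_modEq (σ := t) (p := 2) (n := 1) (by rw [pow_one]; exact ht)
  have h2 : Nat.card ↥(Fx t) = (t.support)ᶜ.card := by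
    rw [Nat.card_coe_set_eq, ← Set.ncard_coe_finset]
    congr 1
    ext x
    simp [Fx]
  rw [h2, Nat.even_iff]
  rw [← Nat.card_eq_fintype_card] at h1
  rw [Nat.even_iff] at hev
  have h3 : (t.support)ᶜ.card % 2 = Nat.card Ω % 2 := h1
  omega

/-- the restriction of `C(t)` to the fixed points of `t` -/
def rho {Ω : Type u} (G : Subgroup (Perm Ω)) (t : Perm Ω) : ↥(Cn G t) →* Perm ↥(Fx t) :=
  MonoidHom.mk' (fun c =>
    { toFun := fun x => ⟨(c : Perm Ω) x, Fx_inv c.2 x.2⟩
      invFun := fun x => ⟨(c : Perm Ω)⁻¹ x, Fx_inv (inv_mem c.2) x.2⟩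
      left_inv := fun x => Subtype.ext (Equiv.symm_apply_apply (c : Perm Ω) x)
      right_inv := fun x => Subtype.ext (Equiv.apply_symm_apply (c : Perm Ω) x) })
    (by intro a b; rfl)

theorem rho_app {Ω : Type u} (G : Subgroup (Perm Ω)) (t : Perm Ω) (c : ↥(Cn G t)) (x : ↥(Fx t)) :
    ((rho G t c x : ↥(Fx t)) : Ω) = (c : Perm Ω) x := rfl

theorem good_lift {Ω : Type u} [Finite Ω] (G : Subgroup (Perm Ω)) (t : Perm Ω)
    (h : Good (rho G t).range Set.univ) : Good (Cn G t) (Fx t) := by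
  constructor
  · intro a ha b hb x hx y hy hab hxa hxb hya hyb
    obtain ⟨_, ⟨c, rfl⟩, h1, h2, h3⟩ := h.tri ⟨a, ha⟩ trivial ⟨b, hb⟩ trivial ⟨x, hx⟩ trivial
      ⟨y, hy⟩ trivial (fun e => hab (congrArg Subtype.val e)) (fun e => hxa (congrArg Subtype.val e))
      (fun e => hxb (congrArg Subtype.val e)) (fun e => hya (congrArg Subtype.val e))
      (fun e => hyb (congrArg Subtype.val e))
    exact ⟨c, c.2, congrArg Subtype.val h1, congrArg Subtype.val h2, congrArg Subtype.val h3⟩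
  · intro c hc a ha b hb x hx hab hxa hxb h1 h2 h3 y hy
    have := h.sharp (rho G t ⟨c, hc⟩) ⟨_, rfl⟩ ⟨a, ha⟩ trivial ⟨b, hb⟩ trivial ⟨x, hx⟩ trivial
      (fun e => hab (congrArg Subtype.val e)) (fun e => hxa (congrArg Subtype.val e))
      (fun e => hxb (congrArg Subtype.val e)) (Subtype.ext h1) (Subtype.ext h2) (Subtype.ext h3)
      ⟨y, hy⟩ trivial
    exact congrArg Subtype.val this
  · intro w hw a ha b hb hab h1 h2 d hd h3 h4 y hy
    have := h.inv (rho G t ⟨w, hw⟩) ⟨_, rfl⟩ ⟨a, ha⟩ trivial ⟨b, hb⟩ trivial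
      (fun e => hab (congrArg Subtype.val e)) (Subtype.ext h1) (Subtype.ext h2)
      (rho G t ⟨d, hd⟩) ⟨_, rfl⟩ (Subtype.ext h3) (Subtype.ext h4) ⟨y, hy⟩ trivial
    exact congrArg Subtype.val this
  · intro u hu w hw a ha b hb hab h1 h2 h3 h4 h5 h6
    obtain ⟨_, ⟨d, rfl⟩, h7, h8, h9⟩ := h.conj (rho G t ⟨u, hu⟩) ⟨_, rfl⟩ (rho G t ⟨w, hw⟩) ⟨_, rfl⟩
      ⟨a, ha⟩ trivial ⟨b, hb⟩ trivial
      (fun e => hab (congrArg Subtype.val e)) (Subtype.ext h1) (Subtype.ext h2)
      (Subtype.ext h3) (Subtype.ext h4)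
      (fun y _ => ⟨Subtype.ext (h5 y y.2).1, fun e => (h5 y y.2).2 (congrArg Subtype.val e)⟩)
      (fun y _ => ⟨Subtype.ext (h6 y y.2).1, fun e => (h6 y y.2).2 (congrArg Subtype.val e)⟩)
    refine ⟨d, d.2, congrArg Subtype.val h7, congrArg Subtype.val h8, ?_⟩
    intro y hy
    exact congrArg Subtype.val (h9 ⟨y, hy⟩ trivial)
  · intro x hx y hy h1 h2 z hz
    obtain ⟨z0, hz0, hz1⟩ := h2
    have := h.sq (rho G t ⟨x, hx⟩) ⟨_, rfl⟩ (rho G t ⟨y, hy⟩) ⟨_, rfl⟩
      (fun z _ => Subtype.ext (h1 z z.2)) ⟨⟨z0, hz0⟩, trivial, fun e => hz1 (congrArg Subtype.val e)⟩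
      ⟨z, hz⟩ trivial
    exact congrArg Subtype.val this

theorem mainP (n : ℕ) : ∀ (Ω : Type u) [Finite Ω] (G A : Subgroup (Perm Ω)), Nat.card Ω = n →
    Even n → 2 < n → Two G → ZS G → A ≤ G → IsCyclic ↥A → (∀ a b, ∃ x ∈ A, x a = b) →
    Good G Set.univ ∧ (Nat.card Ω - 1).Prime ∧
    ∃ (F : Type) (_ : Field F) (_ : Fintype F), Fintype.card F = Nat.card Ω - 1 ∧
      Nonempty (↥G ≃* Matrix.ProjGenLinGroup (Fin 2) F) := by
  classical
  induction n using Nat.strong_induction_on with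
  | _ n ih =>
  intro Ω _ G A hcard hev hn htwo hz hAG hAc hAt
  haveI : Fact (Nat.Prime 2) := ⟨Nat.prime_two⟩
  haveI : Nontrivial Ω := Finite.one_lt_card_iff_nontrivial.1 (by omega)
  obtain ⟨α⟩ := (inferInstance : Nonempty Ω)
  have hA := cardA hAc hAt α
  obtain ⟨i0, hi0⟩ := exists_prime_orderOf_dvd_card' (G := ↥A) 2
    (by rw [hA, hcard]; exact even_iff_two_dvd.1 hev)
  set i : Perm Ω := (i0 : Perm Ω) with hi
  have hiA : i ∈ A := i0.2
  have hi2 : i ^ 2 = 1 := by
    have := pow_orderOf_eq_one i0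
    rw [hi0] at this
    exact congrArg Subtype.val this
  have hi1 : i ≠ 1 := by
    intro h1
    have : i0 = 1 := Subtype.ext h1
    rw [this, orderOf_one] at hi0
    omega
  have hifree : ∀ x, i x ≠ x := fun x hx => hi1 (Afree' hAc hAt hiA hx)
  have hab : α ≠ i α := (hifree α).symm
  have heD := evenD htwo hAG hAc hAt (by rw [hcard]; exact hev) (by rw [hcard]; exact hn) hab
  obtain ⟨t0, ht0⟩ := exists_prime_orderOf_dvd_card' (G := ↥(St2 G α (i α))) 2
    (even_iff_two_dvd.1 heD)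
  set t : Perm Ω := (t0 : Perm Ω) with ht
  have htm := mem_St2.1 t0.2
  have ht2 : t ^ 2 = 1 := by
    have := pow_orderOf_eq_one t0
    rw [ht0] at this
    exact congrArg Subtype.val this
  have ht1 : t ≠ 1 := by
    intro h1
    have : t0 = 1 := Subtype.ext h1
    rw [this, orderOf_one] at ht0
    omega
  have h : Ctx G A α i t := ⟨htwo, hz, hAG, hAc, hAt, hiA, hi2, hi1, htm.1, htm.2.1, htm.2.2, ht2, ht1⟩
  have hevF : Even (Nat.card ↥(Fx t)) := evenFx (by rw [hcard]; exact hev) ht2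
  have hlt : Nat.card ↥(Fx t) < n := by
    rw [← hcard, Nat.card_coe_set_eq]
    obtain ⟨x, hx⟩ : ∃ x, t x ≠ x := by
      by_contra hcon
      push Not at hcon
      exact ht1 (by ext x; simpa using hcon x)
    rw [← Set.ncard_univ]
    apply Set.ncard_lt_ncard _ (Set.toFinite _)
    refine ⟨Set.subset_univ _, ?_⟩
    intro h3
    exact hx (h3 (Set.mem_univ x))
  rcases Nat.lt_or_ge 2 (Nat.card ↥(Fx t)) with hbig | hsmall
  · exfalso
    have h4 : 4 ≤ Nat.card ↥(Fx t) := by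
      obtain ⟨r, hr⟩ := hevF
      omega
    -- apply the induction hypothesis
    have hgood : Good (rho G t).range Set.univ := by
      refine (ih (Nat.card ↥(Fx t)) hlt ↥(Fx t) (rho G t).range
        ((A.subgroupOf (Cn G t)).map (rho G t)) rfl hevF hbig ?_ ?_ ?_ ?_ ?_).1
      · intro a b c d hab' hcd'
        have hcd : (c : Ω) ≠ d := fun e => hcd' (Subtype.ext e)
        obtain ⟨g, hg, hg1, hg2⟩ := htwo a b c d (fun e => hab' (Subtype.ext e)) hcd
        have hgC : g ∈ Cn G t := by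
          have e1 : g⁻¹ (c : Ω) = a := by rw [← hg1]; exact ias g a
          have e2 : g⁻¹ (d : Ω) = b := by rw [← hg2]; exact ias g b
          have h1 : g * t * g⁻¹ ∈ St2 G (c : Ω) d := by
            refine mem_St2.2 ⟨mul_mem (mul_mem hg h.tG) (inv_mem hg), ?_, ?_⟩
            · show g (t (g⁻¹ c)) = c
              rw [e1, mem_Fx.1 a.2, hg1]
            · show g (t (g⁻¹ d)) = d
              rw [e2, mem_Fx.1 b.2, hg2]
          have h2 := uniqD htwo hz hcd h1 (mem_St2.2 ⟨h.tG, c.2, d.2⟩) (by rw [conj_pow, ht2]; group)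
            ht2 (by intro h3; exact ht1 (by rwa [conj_eq_one_iff] at h3)) ht1
          refine mem_Cn.2 ⟨hg, ?_⟩
          calc g * t = (g * t * g⁻¹) * g := by group
            _ = t * g := by rw [h2]
        exact ⟨rho G t ⟨g, hgC⟩, ⟨_, rfl⟩, Subtype.ext hg1, Subtype.ext hg2⟩
      · intro a
        haveI := hz (a : Ω)
        have hle : St (Cn G t) (a : Ω) ≤ St G (a : Ω) := by
          intro x hx
          have := mem_St.1 hx
          exact mem_St.2 ⟨(mem_Cn.1 this.1).1, this.2⟩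
        haveI : IsZGroup ↥(St (Cn G t) (a : Ω)) :=
          IsZGroup.of_injective (f := Subgroup.inclusion hle) (Subgroup.inclusion_injective hle)
        let f : ↥(St (Cn G t) (a : Ω)) →* ↥(St (rho G t).range a) :=
          MonoidHom.mk' (fun x => ⟨rho G t ⟨x, (mem_St.1 x.2).1⟩,
            mem_St.2 ⟨⟨_, rfl⟩, Subtype.ext (mem_St.1 x.2).2⟩⟩) (by
            intro x y
            apply Subtype.ext
            exact (rho G t).map_mul ⟨x, (mem_St.1 x.2).1⟩ ⟨y, (mem_St.1 y.2).1⟩)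
        refine IsZGroup.of_surjective (f := f) ?_
        intro y
        obtain ⟨⟨c, hc⟩, hcy⟩ := (mem_St.1 y.2).1
        have hya := (mem_St.1 y.2).2
        rw [← hcy] at hya
        refine ⟨⟨c, mem_St.2 ⟨hc, congrArg Subtype.val hya⟩⟩, ?_⟩
        apply Subtype.ext
        exact hcy
      · rintro _ ⟨x, -, rfl⟩
        exact ⟨x, rfl⟩
      · haveI := hAc
        haveI : IsCyclic ↥(A.subgroupOf (Cn G t)) := by
          refine isCyclic_of_injective (MonoidHom.mk' (fun x : ↥(A.subgroupOf (Cn G t)) =>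
            (⟨((x : ↥(Cn G t)) : Perm Ω), x.2⟩ : ↥A)) (by intro x y; rfl)) ?_
          intro x y hxy
          have := congrArg Subtype.val hxy
          exact Subtype.ext (Subtype.ext this)
        exact isCyclic_of_surjective ((rho G t).subgroupMap (A.subgroupOf (Cn G t)))
          ((rho G t).subgroupMap_surjective _)
      · intro a b
        obtain ⟨x, hx, hxa⟩ := hAt α a
        obtain ⟨y, hy, hyb⟩ := hAt α b
        have hxC := h.Areg hx (by rw [hxa]; exact a.2)
        have hyC := h.Areg hy (by rw [hyb]; exact b.2)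
        have hyx : y * x⁻¹ ∈ A := mul_mem hy (inv_mem hx)
        refine ⟨rho G t ⟨y * x⁻¹, mul_mem hyC (inv_mem hxC)⟩,
          ⟨⟨y * x⁻¹, mul_mem hyC (inv_mem hxC)⟩, hyx, rfl⟩, ?_⟩
        apply Subtype.ext
        show y (x⁻¹ a) = b
        rw [← hxa, ias, hyb]
    exact h.no_big (good_lift G t hgood) h4 hevF
  · have hF2 : ∀ x, t x = x → x = α ∨ x = i α := by
      intro x hx
      by_contra hcon
      push Not at hcon
      have h1 : ({α, i α, x} : Set Ω) ⊆ Fx t := by
        intro y hy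
        simp only [Set.mem_insert_iff, Set.mem_singleton_iff] at hy
        rcases hy with rfl | rfl | rfl
        · exact h.ta
        · exact h.tb
        · exact hx
      have h2 := Set.ncard_le_ncard h1 (Set.toFinite _)
      rw [← Nat.card_coe_set_eq (Fx t)] at h2
      rw [Set.ncard_insert_of_notMem (by
        simp only [Set.mem_insert_iff, Set.mem_singleton_iff, not_or]
        exact ⟨hab, Ne.symm hcon.1⟩), Set.ncard_pair (Ne.symm hcon.2)] at h2
      omega
    have hC2 : C2 G := by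
      refine ⟨htwo, hz, ?_⟩
      intro a b hne
      obtain ⟨g, hg, hg1, hg2⟩ := htwo α (i α) a b hab hne
      have e1 : g⁻¹ a = α := by rw [← hg1]; exact ias g _
      have e2 : g⁻¹ b = i α := by rw [← hg2]; exact ias g _
      refine ⟨g * t * g⁻¹, mem_St2.2 ⟨mul_mem (mul_mem hg h.tG) (inv_mem hg), ?_, ?_⟩,
        by rw [conj_pow, ht2]; group, by intro h3; exact ht1 (by rwa [conj_eq_one_iff] at h3), ?_⟩
      · show g (t (g⁻¹ a)) = a
        rw [e1, h.ta, hg1]
      · show g (t (g⁻¹ b)) = b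
        rw [e2, h.tb, hg2]
      · intro x hx
        have h5 : g (t (g⁻¹ x)) = x := hx
        have h6 : t (g⁻¹ x) = g⁻¹ x := by
          have this : g⁻¹ (g (t (g⁻¹ x))) = g⁻¹ x := congrArg (fun z => g⁻¹ z) h5
          rwa [ias] at this
        rcases hF2 _ h6 with h7 | h7
        · left; rw [← hg1, ← h7]; exact (Equiv.apply_symm_apply g x).symm
        · right; rw [← hg2, ← h7]; exact (Equiv.apply_symm_apply g x).symm
    refine hC2.good (by rw [hcard]; exact hev) (by rw [hcard]; exact hn) ?_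
    intro a b hne
    obtain ⟨g, hg, hg1, hg2⟩ := htwo α (i α) a b hab hne
    have e1 : g⁻¹ a = α := by rw [← hg1]; exact ias g _
    have e2 : g⁻¹ b = i α := by rw [← hg2]; exact ias g _
    refine ⟨g * i * g⁻¹, mul_mem (mul_mem hg h.iG) (inv_mem hg), ?_, ?_,
      by rw [conj_pow, hi2]; group, ?_⟩
    · show g (i (g⁻¹ a)) = b
      rw [e1, hg2]
    · show g (i (g⁻¹ b)) = a
      rw [e2, sq_app hi2, hg1]
    · intro x hx
      have h5 : g (i (g⁻¹ x)) = x := hx
      have h6 : i (g⁻¹ x) = g⁻¹ x := by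
        have this : g⁻¹ (g (i (g⁻¹ x))) = g⁻¹ x := congrArg (fun z => g⁻¹ z) h5
        rwa [ias] at this
      exact hifree _ h6

end Cfsg.Agent.H73.CZ
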