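import Cfsg.Agent.AutPSL.Struct
import Cfsg.Agent.S0813

set_option autoImplicit false

namespace Cfsg.Agent.H73.CZ

open Matrix Cfsg.Agent.AutPSL

universe u

theorem pgl_struct {F : Type*} [Field F] [Fintype F] (hF : 4 ≤ Fintype.card F) :
    ∃ L : Subgroup (Matrix.ProjGenLinGroup (Fin 2) F), L.Normal ∧
      Nonempty (↥L ≃* Matrix.ProjectiveSpecialLinearGroup (Fin 2) F) ∧
      (∀ x, (∀ y ∈ L, x * y = y * x) → x = 1) := by
  set ι := (Matrix.ProjectiveSpecialLinearGroup.toPGL (n := Fin 2) (R := F)) with hι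
  have hinj : Function.Injective ι := Matrix.ProjectiveSpecialLinearGroup.toPGL_injective
  have key : ∀ (g : GL (Fin 2) F) (s : Matrix.SpecialLinearGroup (Fin 2) F),
      Matrix.ProjGenLinGroup.mk g * ι (toPSL s) * (Matrix.ProjGenLinGroup.mk g)⁻¹ =
        ι (toPSL (conjSL g s)) := by
    intro g s
    show Matrix.ProjGenLinGroup.mk g * Matrix.ProjGenLinGroup.mk (Matrix.SpecialLinearGroup.toGL s) *
      (Matrix.ProjGenLinGroup.mk g)⁻¹ = Matrix.ProjGenLinGroup.mk (Matrix.SpecialLinearGroup.toGL (conjSL g s))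
    rw [← map_inv, ← map_mul, ← map_mul]
    congr 1
    apply Units.ext
    rw [Units.val_mul, Units.val_mul]
    rfl
  refine ⟨ι.range, ?_, ⟨(MonoidHom.ofInjective hinj).symm⟩, ?_⟩
  · constructor
    rintro _ ⟨s, rfl⟩ g
    obtain ⟨g, rfl⟩ := Matrix.ProjGenLinGroup.mk_surjective g
    obtain ⟨s, rfl⟩ := toPSL_surjective s
    exact ⟨_, (key g s).symm⟩
  · intro x hx
    obtain ⟨g, rfl⟩ := Matrix.ProjGenLinGroup.mk_surjective x
    rw [Matrix.ProjGenLinGroup.mk_eq_one, ← ker_diagHom (n := 2) (F := F) le_rfl, MonoidHom.mem_ker]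
    rw [diagHom_apply]
    apply aut_ext
    intro s
    rw [cAut_toPSL]
    have h1 := hx (ι (toPSL s)) ⟨_, rfl⟩
    have h2 := key g s
    rw [h1, mul_inv_cancel_right] at h2
    have h3 := hinj h2
    have h4 : mapSL (RingEquiv.refl F) s = s := by
      ext i j
      simp
    rw [h4]
    exact h3.symm

theorem pgl_V4 {F : Type*} [Field F] (h2 : (2 : F) ≠ 0) :
    ∃ x y : Matrix.ProjGenLinGroup (Fin 2) F, x ^ 2 = 1 ∧ y ^ 2 = 1 ∧ x ≠ 1 ∧ y ≠ 1 ∧ x ≠ y ∧
      x * y = y * x := by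
  have dX : IsUnit (!![1, 0; 0, -1] : Matrix (Fin 2) (Fin 2) F) := by
    rw [Matrix.isUnit_iff_isUnit_det, Matrix.det_fin_two_of]; simp
  have dY : IsUnit (!![0, 1; 1, 0] : Matrix (Fin 2) (Fin 2) F) := by
    rw [Matrix.isUnit_iff_isUnit_det, Matrix.det_fin_two_of]; simp
  obtain ⟨X, hX⟩ := dX
  obtain ⟨Y, hY⟩ := dY
  have hX2 : X ^ 2 = 1 := by
    apply Units.ext
    rw [Units.val_pow_eq_pow_val, hX, pow_two]
    ext i j
    fin_cases i <;> fin_cases j <;> simp [Matrix.mul_apply, Fin.sum_univ_two]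
  have hY2 : Y ^ 2 = 1 := by
    apply Units.ext
    rw [Units.val_pow_eq_pow_val, hY, pow_two]
    ext i j
    fin_cases i <;> fin_cases j <;> simp [Matrix.mul_apply, Fin.sum_univ_two]
  have hXY : X * Y = Y * X * (-1) := by
    apply Units.ext
    simp only [Units.val_mul, hX, hY, Units.val_neg, Units.val_one]
    ext i j
    fin_cases i <;> fin_cases j <;> simp [Matrix.mul_apply, Fin.sum_univ_two]
  have hne : X * Y ≠ Y * X := by
    intro h
    have h1 := congrArg (fun g : GL (Fin 2) F => (g : Matrix (Fin 2) (Fin 2) F) 0 1) h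
    simp only [Units.val_mul, hX, hY] at h1
    simp [Matrix.mul_apply, Fin.sum_univ_two] at h1
    apply h2
    have : (1 : F) + 1 = 0 := by linear_combination h1
    rw [← this]; norm_num
  have hcen : (-1 : GL (Fin 2) F) ∈ Subgroup.center (GL (Fin 2) F) := by
    rw [Subgroup.mem_center_iff]
    intro g
    simp
  refine ⟨Matrix.ProjGenLinGroup.mk X, Matrix.ProjGenLinGroup.mk Y, by rw [← map_pow, hX2, map_one],
    by rw [← map_pow, hY2, map_one], ?_, ?_, ?_, ?_⟩
  · rw [Ne, Matrix.ProjGenLinGroup.mk_eq_one, Subgroup.mem_center_iff]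
    intro h
    exact hne (h Y).symm
  · rw [Ne, Matrix.ProjGenLinGroup.mk_eq_one, Subgroup.mem_center_iff]
    intro h
    exact hne (h X)
  · rw [Ne, Matrix.ProjGenLinGroup.mk_eq_mk_iff']
    rintro ⟨z, hz, hzz⟩
    rw [Subgroup.mem_center_iff] at hz
    apply hne
    rw [← hzz, mul_assoc, ← hz X, ← mul_assoc]
  · rw [← map_mul, ← map_mul, hXY, map_mul _ (Y * X), Matrix.ProjGenLinGroup.mk_eq_one.2 hcen, mul_one]

end Cfsg.Agent.H73.CZ
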