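import Cfsg.Agent.H73.CZR1
import Cfsg.Agent.H73.CZ1
import Cfsg.Agent.H67.Radical

set_option autoImplicit false

namespace Cfsg.Agent.H73.CZ

open Matrix Cfsg.Agent.AutPSL

universe u

/-- `K` is `PGL₂(p)`, `p > 3` prime -/
def IsP (K : Type u) [Group K] : Prop :=
  ∃ (F : Type) (_ : Field F) (_ : Fintype F), (Fintype.card F).Prime ∧ 3 < Fintype.card F ∧
    Nonempty (K ≃* Matrix.ProjGenLinGroup (Fin 2) F)

theorem IsP.struct {K : Type u} [Group K] [Finite K] (h : IsP K) :
    ∃ L : Subgroup K, L.Normal ∧ L.Characteristic ∧ IsSimpleGroup ↥L ∧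
      (∀ x, (∀ y ∈ L, x * y = y * x) → x = 1) ∧ Nat.card (MulAut ↥L) = Nat.card K ∧
      (∀ N : Subgroup K, N.Normal → N ≠ ⊥ → L ≤ N) := by
  classical
  obtain ⟨F, i1, i2, hp, h3, ⟨e⟩⟩ := h
  obtain ⟨L0, hL0n, ⟨f⟩, hL0c⟩ := pgl_struct (F := F) (by omega)
  set L : Subgroup K := L0.comap e.toMonoidHom with hL
  have hLn : L.Normal := hL0n.comap _
  have hmap : ∀ x, x ∈ L ↔ e x ∈ L0 := fun x => Iff.rfl
  let g : ↥L ≃* ↥L0 :=
    { toFun := fun x => ⟨e x, x.2⟩
      invFun := fun x => ⟨e.symm x, by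
        show e (e.symm x) ∈ L0
        rw [e.apply_symm_apply]; exact x.2⟩
      left_inv := fun x => Subtype.ext (e.symm_apply_apply x)
      right_inv := fun x => Subtype.ext (e.apply_symm_apply x)
      map_mul' := fun x y => Subtype.ext (e.map_mul x y) }
  have hPsimple : IsSimpleGroup (Matrix.ProjectiveSpecialLinearGroup (Fin 2) F) :=
    Matrix.ProjectiveSpecialLinearGroup.rank_two_simple (by rw [Nat.card_eq_fintype_card]; omega)
  have hsimple : IsSimpleGroup ↥L :=
    (MulEquiv.isSimpleGroup_congr (g.trans f)).2 hPsimple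
  have hcent : ∀ x, (∀ y ∈ L, x * y = y * x) → x = 1 := by
    intro x hx
    have : e x = 1 := by
      apply hL0c
      intro y hy
      have h1 := hx (e.symm y) (by show e (e.symm y) ∈ L0; rw [e.apply_symm_apply]; exact hy)
      have h2 := congrArg e h1
      rwa [map_mul, map_mul, e.apply_symm_apply] at h2
    exact e.map_eq_one_iff.1 this
  have hle : ∀ N : Subgroup K, N.Normal → N ≠ ⊥ → L ≤ N := by
    intro N hN hNb
    by_contra hcon
    have h1 : (N.subgroupOf L).Normal := inferInstance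
    rcases hsimple.eq_bot_or_eq_top_of_normal _ h1 with h2 | h2
    · apply hNb
      rw [Subgroup.eq_bot_iff_forall]
      intro x hx
      apply hcent
      intro y hy
      have h3 : x * y * x⁻¹ * y⁻¹ ∈ N := by
        have : x * y * x⁻¹ * y⁻¹ = x * (y * x⁻¹ * y⁻¹) := by group
        rw [this]
        exact mul_mem hx (hN.conj_mem _ (inv_mem hx) y)
      have h4 : x * y * x⁻¹ * y⁻¹ ∈ L := mul_mem (hLn.conj_mem _ hy x) (inv_mem hy)
      have h5 : (⟨_, h4⟩ : ↥L) ∈ N.subgroupOf L := h3
      rw [h2, Subgroup.mem_bot] at h5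
      have h6 : x * y * x⁻¹ * y⁻¹ = 1 := congrArg Subtype.val h5
      calc x * y = (x * y * x⁻¹ * y⁻¹) * (y * x) := by group
        _ = y * x := by rw [h6, one_mul]
    · exact hcon (Subgroup.subgroupOf_eq_top.1 h2)
  have hLbot : L ≠ ⊥ := by
    intro h1
    have : Nontrivial ↥L := hsimple.toNontrivial
    rw [h1] at this
    exact (not_nontrivial_iff_subsingleton.2 inferInstance) this
  refine ⟨L, hLn, ?_, hsimple, hcent, ?_, hle⟩
  · rw [Subgroup.characteristic_iff_map_eq]
    intro φ
    have h1 : (L.map φ.toMonoidHom).Normal := hLn.map _ φ.surjective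
    have h2 : L.map φ.toMonoidHom ≠ ⊥ := by
      rw [Ne, Subgroup.map_eq_bot_iff_of_injective _ φ.injective]
      exact hLbot
    have h3 := hle _ h1 h2
    have h4 : Nat.card ↥(L.map φ.toMonoidHom) = Nat.card ↥L :=
      Subgroup.card_map_of_injective φ.injective
    exact (Subgroup.eq_of_le_of_card_ge h3 h4.le).symm
  · haveI : Fact (Fintype.card F).Prime := ⟨hp⟩
    have h1 := Cfsg.Agent.S0813.result (F := F) (Fintype.card F) 1 le_rfl (by rw [pow_one]) 2 le_rfl
      (fun _ => by rw [pow_one]; omega)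
    rw [if_pos rfl, one_mul, one_mul] at h1
    rw [Nat.card_congr (MulAut.congr (g.trans f)).toEquiv, h1]
    exact (Nat.card_congr e.toEquiv).symm

theorem IsP.noncyc {K : Type u} [Group K] [Finite K] (h : IsP K) [Fact (Nat.Prime 2)]
    (P : Sylow 2 K) : ¬ IsCyclic ↥P := by
  classical
  intro hP
  obtain ⟨F, i1, i2, hp, h3, ⟨e⟩⟩ := h
  have h2 : (2 : F) ≠ 0 := by
    intro h2
    have h4 : (Fintype.card F : F) = 0 := Nat.cast_card_eq_zero F
    obtain ⟨k, hk⟩ := hp.odd_of_ne_two (by omega)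
    rw [hk] at h4
    push_cast at h4
    rw [h2, zero_mul, zero_add] at h4
    exact one_ne_zero h4
  obtain ⟨x0, y0, hx, hy, hx1, hy1, hxy, hc⟩ := pgl_V4 (F := F) h2
  obtain ⟨x, rfl⟩ := e.surjective x0
  obtain ⟨y, rfl⟩ := e.surjective y0
  rw [← map_pow, e.map_eq_one_iff] at hx hy
  rw [Ne, e.map_eq_one_iff] at hx1 hy1
  have hxy' : x ≠ y := fun h => hxy (by rw [h])
  rw [← map_mul, ← map_mul] at hc
  have hc' := e.injective hc
  have hcomm : ∀ a ∈ ({x, y} : Set K), ∀ b ∈ ({x, y} : Set K), a * b = b * a := by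
    intro a ha b hb
    simp only [Set.mem_insert_iff, Set.mem_singleton_iff] at ha hb
    rcases ha with rfl | rfl <;> rcases hb with rfl | rfl
    · rfl
    · exact hc'
    · exact hc'.symm
    · rfl
  letI : CommGroup ↥(Subgroup.closure ({x, y} : Set K)) := Subgroup.closureCommGroupOfComm hcomm
  have hP2 : IsPGroup 2 ↥(Subgroup.closure ({x, y} : Set K)) := by
    intro g
    refine ⟨1, ?_⟩
    apply Subtype.ext
    have : ∀ z ∈ Subgroup.closure ({x, y} : Set K), z ^ 2 = 1 := by
      intro z hz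
      induction hz using Subgroup.closure_induction with
      | mem z hz =>
        simp only [Set.mem_insert_iff, Set.mem_singleton_iff] at hz
        rcases hz with rfl | rfl
        · exact hx
        · exact hy
      | one => simp
      | mul a b ha hb iha ihb =>
        have hab : a * b = b * a := by
          have := mul_comm (⟨a, ha⟩ : ↥(Subgroup.closure ({x, y} : Set K))) ⟨b, hb⟩
          exact congrArg Subtype.val this
        have : (a * b) ^ 2 = a ^ 2 * b ^ 2 := (show Commute a b from hab).mul_pow 2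
        rw [this, iha, ihb, one_mul]
      | inv a ha iha => rw [inv_pow, iha, inv_one]
    simpa using this g g.2
  obtain ⟨Q, hQ⟩ := hP2.exists_le_sylow
  have hQc : IsCyclic ↥Q := isCyclic_of_surjective _ (P.equiv Q).surjective
  have hxm : x ∈ Q := hQ (Subgroup.subset_closure (by simp))
  have hym : y ∈ Q := hQ (Subgroup.subset_closure (by simp))
  have := cyc_invol hQc (x := ⟨x, hxm⟩) (y := ⟨y, hym⟩) (Subtype.ext (by simpa using hx))
    (Subtype.ext (by simpa using hy)) (fun h => hx1 (congrArg Subtype.val h))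
    (fun h => hy1 (congrArg Subtype.val h))
  exact hxy' (congrArg Subtype.val this)

theorem dvd_prod {N : Type*} [Group N] [Finite N] (A B : Subgroup N)
    (h : ∀ n, ∃ a ∈ A, ∃ b ∈ B, n = a * b) : Nat.card N ∣ Nat.card ↥A * Nat.card ↥B := by
  have h1 : Nat.card (N ⧸ B) ∣ Nat.card ↥A := by
    have horb : (MulAction.orbit ↥A ((1 : N) : N ⧸ B) : Set (N ⧸ B)) = Set.univ := by
      ext x
      constructor
      · intro _; trivial
      · intro _
        obtain ⟨n, rfl⟩ := QuotientGroup.mk_surjective x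
        obtain ⟨a, ha, b, hb, rfl⟩ := h n
        refine ⟨⟨a, ha⟩, ?_⟩
        show ((a * 1 : N) : N ⧸ B) = ((a * b : N) : N ⧸ B)
        rw [mul_one, QuotientGroup.eq]
        simpa using hb
    have h2 := Nat.card_congr (MulAction.orbitProdStabilizerEquivGroup ↥A ((1 : N) : N ⧸ B))
    rw [Nat.card_prod, horb] at h2
    have h3 : Nat.card ↥(Set.univ : Set (N ⧸ B)) = Nat.card (N ⧸ B) := by
      rw [Nat.card_coe_set_eq, Set.ncard_univ]
    rw [h3] at h2
    exact Dvd.intro _ h2
  rw [Subgroup.card_eq_card_quotient_mul_card_subgroup B]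
  exact mul_dvd_mul_right h1 _

/-- a cyclic factor of `PGL₂(p)` has even order -/
theorem IsP.evenA {K : Type u} [Group K] [Finite K] (h : IsP K) (A B : Subgroup K)
    (hB : IsZGroup ↥B) (hAB : ∀ n, ∃ a ∈ A, ∃ b ∈ B, n = a * b) : 2 ∣ Nat.card ↥A := by
  by_contra hodd
  haveI : Fact (Nat.Prime 2) := ⟨Nat.prime_two⟩
  obtain ⟨S⟩ := (inferInstance : Nonempty (Sylow 2 ↥B))
  have hdv := dvd_prod A B hAB
  have hfac : (Nat.card K).factorization 2 = (Nat.card ↥B).factorization 2 := by
    apply le_antisymm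
    · have h1 := ((Nat.factorization_le_iff_dvd Nat.card_pos.ne'
        (Nat.mul_pos Nat.card_pos Nat.card_pos).ne').2 hdv) 2
      rw [Nat.factorization_mul Nat.card_pos.ne' Nat.card_pos.ne', Finsupp.add_apply,
        Nat.factorization_eq_zero_of_not_dvd (n := Nat.card ↥A) hodd] at h1
      omega
    · exact ((Nat.factorization_le_iff_dvd Nat.card_pos.ne' Nat.card_pos.ne').2
        (Subgroup.card_subgroup_dvd_card B)) 2
  have hc : Nat.card ↥((S : Subgroup ↥B).map B.subtype) = 2 ^ (Nat.card K).factorization 2 := by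
    rw [Subgroup.card_map_of_injective B.subtype_injective, hfac]
    exact S.card_eq_multiplicity
  have hcyc : IsCyclic ↥(Sylow.ofCard ((S : Subgroup ↥B).map B.subtype) hc) := by
    haveI : IsCyclic ↥(S : Subgroup ↥B) := inferInstance
    exact isCyclic_of_surjective _
      (Subgroup.equivMapOfInjective (S : Subgroup ↥B) _ B.subtype_injective).surjective
  exact h.noncyc _ hcyc

end Cfsg.Agent.H73.CZ
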