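import Cfsg.Agent.H73.CZR2

set_option autoImplicit false

namespace Cfsg.Agent.H73.CZ

universe u

/-- induction hypothesis -/
def IHyp (n : ℕ) : Prop :=
  ∀ (G' : Type u) [Group G'] [Finite G'] (A B : Subgroup G'), Nat.card G' < n → IsCyclic ↥A →
    IsZGroup ↥B → (∀ g, ∃ a ∈ A, ∃ b ∈ B, g = a * b) → Cfsg.solvableRadical G' = ⊥ →
    1 < Nat.card G' → IsP G'

variable {G : Type u} [Group G] [Finite G]

theorem not_solv (hr : Cfsg.solvableRadical G = ⊥) (h1 : 1 < Nat.card G) : ¬ Group.IsSolvable G := by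
  intro hs
  have h2 : Group.IsSolvable ↥(⊤ : Subgroup G) :=
    Group.isSolvable_of_isSolvable_injective (f := (⊤ : Subgroup G).subtype)
      (⊤ : Subgroup G).subtype_injective
  have h3 := H67.le_solvableRadical (N := (⊤ : Subgroup G)) inferInstance h2
  rw [hr, top_le_iff] at h3
  have h4 : Nat.card ↥(⊥ : Subgroup G) = Nat.card ↥(⊤ : Subgroup G) := by rw [h3]
  rw [Subgroup.card_bot, Subgroup.card_top] at h4
  omega

theorem rad_normal (hr : Cfsg.solvableRadical G = ⊥) (K : Subgroup G) [K.Normal] :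
    Cfsg.solvableRadical ↥K = ⊥ := by
  have h := H67.map_solvableRadical_le K
  rw [hr, le_bot_iff, Subgroup.map_eq_bot_iff_of_injective _ K.subtype_injective] at h
  exact h

theorem cyc_subgroupOf {A : Subgroup G} (hA : IsCyclic ↥A) (K : Subgroup G) :
    IsCyclic ↥(A.subgroupOf K) := by
  haveI := hA
  refine isCyclic_of_injective (MonoidHom.mk' (fun x : ↥(A.subgroupOf K) =>
    (⟨((x : ↥K) : G), x.2⟩ : ↥A)) (by intro x y; rfl)) ?_
  intro x y hxy
  have := congrArg Subtype.val hxy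
  exact Subtype.ext (Subtype.ext this)

theorem z_subgroupOf {B : Subgroup G} (hB : IsZGroup ↥B) (K : Subgroup G) :
    IsZGroup ↥(B.subgroupOf K) := by
  haveI := hB
  refine IsZGroup.of_injective (f := (MonoidHom.mk' (fun x : ↥(B.subgroupOf K) =>
    (⟨((x : ↥K) : G), x.2⟩ : ↥B)) (by intro x y; rfl))) ?_
  intro x y hxy
  have := congrArg Subtype.val hxy
  exact Subtype.ext (Subtype.ext this)

theorem core_inter {A B : Subgroup G} (hA : IsCyclic ↥A)
    (hAB : ∀ g, ∃ a ∈ A, ∃ b ∈ B, g = a * b) {M : Subgroup G} (hBM : B ≤ M) :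
    ∀ a ∈ A, a ∈ M → a ∈ M.normalCore := by
  letI : CommGroup ↥A := IsCyclic.commGroup
  intro a ha haM g
  show g * a * g⁻¹ ∈ M
  obtain ⟨a1, ha1, b1, hb1, hg⟩ := hAB g⁻¹
  have hg' : g = b1⁻¹ * a1⁻¹ := by rw [← mul_inv_rev, ← hg, inv_inv]
  have hc : a1⁻¹ * a = a * a1⁻¹ := by
    have := mul_comm (⟨a1⁻¹, inv_mem ha1⟩ : ↥A) ⟨a, ha⟩
    exact congrArg Subtype.val this
  have : g * a * g⁻¹ = b1⁻¹ * a * b1 := by
    rw [hg, hg']
    calc b1⁻¹ * a1⁻¹ * a * (a1 * b1) = b1⁻¹ * (a1⁻¹ * a) * a1 * b1 := by group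
      _ = b1⁻¹ * (a * a1⁻¹) * a1 * b1 := by rw [hc]
      _ = b1⁻¹ * a * b1 := by group
  rw [this]
  exact mul_mem (mul_mem (inv_mem (hBM hb1)) haM) (hBM hb1)

theorem core_prod {A B : Subgroup G} (hA : IsCyclic ↥A)
    (hAB : ∀ g, ∃ a ∈ A, ∃ b ∈ B, g = a * b) {M : Subgroup G} (hBM : B ≤ M) :
    ∀ x : ↥M.normalCore, ∃ a ∈ A.subgroupOf M.normalCore, ∃ b ∈ B.subgroupOf M.normalCore,
      x = a * b := by
  intro x
  obtain ⟨a, ha, b, hb, hx⟩ := hAB x
  have hxM : (x : G) ∈ M := M.normalCore_le x.2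
  have haM : a ∈ M := by
    have : a = x * b⁻¹ := by rw [hx]; group
    rw [this]
    exact mul_mem hxM (inv_mem (hBM hb))
  have haK := core_inter hA hAB hBM a ha haM
  have hbK : b ∈ M.normalCore := by
    have : b = a⁻¹ * x := by rw [hx]; group
    rw [this]
    exact mul_mem (inv_mem haK) x.2
  exact ⟨⟨a, haK⟩, ha, ⟨b, hbK⟩, hb, Subtype.ext hx⟩

theorem core_isP {n : ℕ} (ih : IHyp.{u} n) (hn : Nat.card G = n) {A B : Subgroup G}
    (hA : IsCyclic ↥A) (hB : IsZGroup ↥B)
    (hAB : ∀ g, ∃ a ∈ A, ∃ b ∈ B, g = a * b) (hr : Cfsg.solvableRadical G = ⊥)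
    {M : Subgroup G} (hM : IsCoatom M) (hBM : B ≤ M) (hK : M.normalCore ≠ ⊥) :
    IsP ↥M.normalCore ∧ ∃ a ∈ A, a ∈ M.normalCore ∧ a ^ 2 = 1 ∧ a ≠ 1 := by
  have hlt : M.normalCore < ⊤ := lt_of_le_of_lt M.normalCore_le hM.lt_top
  have hcard : Nat.card ↥M.normalCore < n := by
    rw [← hn]
    have h1 := Subgroup.card_le_card_group M.normalCore
    refine lt_of_le_of_ne h1 (fun h2 => hlt.ne ((Subgroup.card_eq_iff_eq_top _).1 h2) )
  have hP : IsP ↥M.normalCore :=
    ih ↥M.normalCore (A.subgroupOf M.normalCore) (B.subgroupOf M.normalCore) hcard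
      (cyc_subgroupOf hA _) (z_subgroupOf hB _) (core_prod hA hAB hBM) (rad_normal hr _)
      (by
        rw [Subgroup.one_lt_card_iff_ne_bot]
        exact hK)
  refine ⟨hP, ?_⟩
  have h2 := hP.evenA (A.subgroupOf M.normalCore) (B.subgroupOf M.normalCore) (z_subgroupOf hB _)
    (core_prod hA hAB hBM)
  haveI : Fact (Nat.Prime 2) := ⟨Nat.prime_two⟩
  obtain ⟨a, ha⟩ := exists_prime_orderOf_dvd_card' 2 h2
  refine ⟨((a : ↥M.normalCore) : G), a.2, (a : ↥M.normalCore).2, ?_, ?_⟩
  · have := pow_orderOf_eq_one a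
    rw [ha] at this
    exact congrArg (fun x : ↥(A.subgroupOf M.normalCore) => ((x : ↥M.normalCore) : G)) this
  · intro h3
    have : a = 1 := Subtype.ext (Subtype.ext h3)
    rw [this, orderOf_one] at ha
    omega

theorem no_core {n : ℕ} (ih : IHyp.{u} n) (hn : Nat.card G = n) {A B : Subgroup G}
    (hA : IsCyclic ↥A) (hB : IsZGroup ↥B)
    (hAB : ∀ g, ∃ a ∈ A, ∃ b ∈ B, g = a * b) (hr : Cfsg.solvableRadical G = ⊥)
    {M : Subgroup G} (hM : IsCoatom M) (hBM : B ≤ M) : M.normalCore = ⊥ := by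
  classical
  by_contra hK
  obtain ⟨hP, a1, ha1, ha1K, ha12, ha11⟩ := core_isP ih hn hA hB hAB hr hM hBM hK
  set K := M.normalCore with hKdef
  have hKn : K.Normal := by rw [hKdef]; infer_instance
  obtain ⟨L0, hL0n, hL0c, hL0s, hL0cent, hL0aut, hL0le⟩ := hP.struct
  set L : Subgroup G := L0.map K.subtype with hL
  have hLn : L.Normal := by rw [hL]; infer_instance
  set C : Subgroup G := Subgroup.centralizer (L : Set G) with hC
  have hCn : C.Normal := by rw [hC]; infer_instance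
  have hCK : ∀ x ∈ C, x ∈ K → x = 1 := by
    intro x hx hxK
    have h1 : (⟨x, hxK⟩ : ↥K) = 1 := by
      apply hL0cent
      intro y hy
      apply Subtype.ext
      rw [hC, Subgroup.mem_centralizer_iff] at hx
      exact (hx y ⟨y, hy, rfl⟩).symm
    exact congrArg Subtype.val h1
  have hKlt : Nat.card ↥K < Nat.card G := by
    have h1 := Subgroup.card_le_card_group K
    have hlt : K < ⊤ := lt_of_le_of_lt M.normalCore_le hM.lt_top
    exact lt_of_le_of_ne h1 (fun h2 => hlt.ne ((Subgroup.card_eq_iff_eq_top _).1 h2))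
  have hCbot : C ≠ ⊥ := by
    intro h1
    have hinj : Function.Injective (MulAut.conjNormal : G →* MulAut ↥L) := by
      rw [injective_iff_map_eq_one]
      intro g hg
      have h2 : g ∈ C := by
        rw [hC, Subgroup.mem_centralizer_iff]
        intro y hy
        have h3 := congrArg (fun f : MulAut ↥L => ((f ⟨y, hy⟩ : ↥L) : G)) hg
        have h4 : g * y * g⁻¹ = y := h3
        calc y * g = (g * y * g⁻¹) * g := by rw [h4]
          _ = g * y := by group
      rw [h1, Subgroup.mem_bot] at h2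
      exact h2
    have h2 : Nat.card G ≤ Nat.card (MulAut ↥L) := Nat.card_le_card_of_injective _ hinj
    have h3 : Nat.card (MulAut ↥L) = Nat.card ↥K := by
      rw [← hL0aut]
      exact (Nat.card_congr (MulAut.congr (Subgroup.equivMapOfInjective L0 K.subtype
        K.subtype_injective)).toEquiv).symm
    omega
  have hns : ¬ Group.IsSolvable ↥K := by
    intro hs
    have := H67.le_solvableRadical hKn hs
    rw [hr, le_bot_iff] at this
    exact hK this
  have hBC : B ⊔ C ≠ ⊤ := by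
    intro htop
    apply hns
    haveI := hB
    have h1 : Function.Surjective ((QuotientGroup.mk' C).comp B.subtype) := by
      intro y
      obtain ⟨g, rfl⟩ := QuotientGroup.mk'_surjective C y
      have hg : g ∈ B ⊔ C := by rw [htop]; trivial
      obtain ⟨b, hb, c, hc, rfl⟩ := Subgroup.mem_sup_of_normal_right.1 hg
      refine ⟨⟨b, hb⟩, ?_⟩
      show QuotientGroup.mk' C b = QuotientGroup.mk' C (b * c)
      rw [map_mul, (QuotientGroup.eq_one_iff c).2 hc |> fun h => (show QuotientGroup.mk' C c = 1 from h),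
        mul_one]
    have h2 : Group.IsSolvable (G ⧸ C) := Group.isSolvable_of_surjective h1
    refine Group.isSolvable_of_isSolvable_injective (f := (QuotientGroup.mk' C).comp K.subtype) ?_
    rw [injective_iff_map_eq_one]
    intro x hx
    have h3 : (x : G) ∈ C := (QuotientGroup.eq_one_iff (x : G)).1 hx
    exact Subtype.ext (hCK x h3 x.2)
  obtain ⟨M', hM', hBCM⟩ := (eq_top_or_exists_le_coatom (B ⊔ C)).resolve_left hBC
  have hCK' : C ≤ M'.normalCore := Subgroup.normal_le_normalCore.2 (le_sup_right.trans hBCM)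
  have hK' : M'.normalCore ≠ ⊥ := by
    intro h1
    rw [h1, le_bot_iff] at hCK'
    exact hCbot hCK'
  obtain ⟨hP', a2, ha2, ha2K, ha22, ha21⟩ := core_isP ih hn hA hB hAB hr hM' (le_sup_left.trans hBCM) hK'
  set K' := M'.normalCore with hK'def
  have hK'n : K'.Normal := by rw [hK'def]; infer_instance
  have hKK' : ∀ x ∈ K, x ∈ K' → x = 1 := by
    by_contra hcon
    push Not at hcon
    obtain ⟨x, hxK, hxK', hx1⟩ := hcon
    obtain ⟨L', hL'n, hL'c, hL's, hL'cent, hL'aut, hL'le⟩ := hP'.struct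
    have h1 : L' ≤ C.subgroupOf K' := by
      apply hL'le _ inferInstance
      intro h2
      apply hCbot
      rw [Subgroup.eq_bot_iff_forall]
      intro c hc
      have h3 : (⟨c, hCK' hc⟩ : ↥K') ∈ C.subgroupOf K' := hc
      rw [h2, Subgroup.mem_bot] at h3
      exact congrArg Subtype.val h3
    have h2 : L' ≤ K.subgroupOf K' := by
      apply hL'le _ inferInstance
      intro h2
      apply hx1
      have h3 : (⟨x, hxK'⟩ : ↥K') ∈ K.subgroupOf K' := hxK
      rw [h2, Subgroup.mem_bot] at h3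
      exact congrArg Subtype.val h3
    have h3 : Nontrivial ↥L' := hL's.toNontrivial
    obtain ⟨y, hy⟩ := exists_ne (1 : ↥L')
    apply hy
    have h4 : ((y : ↥K') : G) = 1 := hCK _ (h1 y.2) (h2 y.2)
    exact Subtype.ext (Subtype.ext h4)
  have haa : a1 = a2 := by
    have := cyc_invol hA (x := ⟨a1, ha1⟩) (y := ⟨a2, ha2⟩) (Subtype.ext (by simpa using ha12))
      (Subtype.ext (by simpa using ha22)) (fun h => ha11 (congrArg Subtype.val h))
      (fun h => ha21 (congrArg Subtype.val h))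
    exact congrArg Subtype.val this
  rw [haa] at ha1K
  exact ha21 (hKK' a2 ha1K ha2K)

end Cfsg.Agent.H73.CZ
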