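import Mathlib
import Cfsg.Agent.Cop.GenAb
import Cfsg.Agent.H65.BProp

set_option autoImplicit false

open Subgroup

namespace Cfsg.Agent.H73.Camina

variable {G : Type*} [Group G]

/-- the Camina condition -/
def Cam (N : Subgroup G) : Prop := ∀ g : G, g ∉ N → ∀ n ∈ N, ∃ x : G, x * g * x⁻¹ = g * n

section

variable {N : Subgroup G}

theorem pow_orderOf_eq_one' (hc : Cam N) {g y : G} (hg : g ∉ N) (hy : y ∈ N) (hgy : Commute g y) :
    y ^ orderOf g = 1 := by
  obtain ⟨x, hx⟩ := hc g hg y hy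
  have h1 : (g * y) ^ orderOf g = 1 := by
    rw [← hx]
    have : (x * g * x⁻¹) ^ orderOf g = x * g ^ orderOf g * x⁻¹ := conj_pow
    rw [this, pow_orderOf_eq_one]; group
  rw [hgy.mul_pow, pow_orderOf_eq_one, one_mul] at h1
  exact h1

theorem mem_comap_centralizer [N.Normal] {x d : G} :
    d ∈ (centralizer {(x : G ⧸ N)} : Subgroup (G ⧸ N)).comap (QuotientGroup.mk' N) ↔
      x⁻¹ * (d * x * d⁻¹) ∈ N := by
  rw [mem_comap, mem_centralizer_singleton_iff, QuotientGroup.mk'_apply, ← QuotientGroup.mk_mul,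
    ← QuotientGroup.mk_mul, eq_comm, QuotientGroup.eq]
  have hn : N.Normal := inferInstance
  constructor
  · intro h
    have := hn.conj_mem _ h d
    have e : x⁻¹ * (d * x * d⁻¹) = d * ((x * d)⁻¹ * (d * x)) * d⁻¹ := by group
    rw [e]
    exact this
  · intro h
    have := hn.conj_mem _ h d⁻¹
    have e : (x * d)⁻¹ * (d * x) = d⁻¹ * (x⁻¹ * (d * x * d⁻¹)) * d⁻¹⁻¹ := by group
    rw [e]
    exact this

/-- `|C_G(x)| = |C_{G/N}(xN)|` -/
theorem card_centralizer [Finite G] [N.Normal] (hc : Cam N) {x : G} (hx : x ∉ N) :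
    Nat.card (centralizer {x} : Subgroup G) = Nat.card (centralizer {(x : G ⧸ N)} : Subgroup (G ⧸ N)) := by
  classical
  set D : Subgroup G := (centralizer {(x : G ⧸ N)} : Subgroup (G ⧸ N)).comap (QuotientGroup.mk' N) with hD
  have hDi : D.index = (centralizer {(x : G ⧸ N)} : Subgroup (G ⧸ N)).index :=
    index_comap_of_surjective _ (QuotientGroup.mk'_surjective N)
  have hle : centralizer {x} ≤ D := by
    intro d hd
    rw [hD, mem_comap_centralizer]
    have : d * x * d⁻¹ = x := by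
      rw [mem_centralizer_singleton_iff.1 hd]; group
    rw [this, inv_mul_cancel]
    exact one_mem _
  have hrel : (centralizer {x} : Subgroup G).relIndex D = Nat.card N := by
    letI : MulAction D G := MulAction.compHom G ((MulAut.conj : G →* MulAut G).comp D.subtype)
    have hsm : ∀ (d : D) (g : G), d • g = (d : G) * g * (d : G)⁻¹ := fun d g => rfl
    have h1 : (centralizer {x} : Subgroup G).subgroupOf D = MulAction.stabilizer D x := by
      ext d
      rw [mem_subgroupOf, mem_centralizer_singleton_iff, MulAction.mem_stabilizer_iff, hsm,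
        mul_inv_eq_iff_eq_mul]
    have h2 : MulAction.orbit D x = (fun n => x * n) '' (N : Set G) := by
      ext y
      constructor
      · rintro ⟨d, rfl⟩
        refine ⟨x⁻¹ * ((d : G) * x * (d : G)⁻¹), mem_comap_centralizer.1 d.2, ?_⟩
        change x * (x⁻¹ * ((d : G) * x * (d : G)⁻¹)) = (d : G) * x * (d : G)⁻¹
        group
      · rintro ⟨n, hn, rfl⟩
        obtain ⟨d, hd⟩ := hc x hx n hn
        refine ⟨⟨d, ?_⟩, hd⟩
        rw [hD, mem_comap_centralizer, hd, inv_mul_cancel_left]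
        exact hn
    unfold relIndex
    rw [h1, MulAction.index_stabilizer, h2, Set.ncard_image_of_injective _ (mul_right_injective x)]
    exact (Nat.card_coe_set_eq (N : Set G)).symm
  have h4 : (centralizer {x} : Subgroup G).relIndex D * D.index = (centralizer {x} : Subgroup G).index :=
    relIndex_mul_index hle
  have h5 := (centralizer {x} : Subgroup G).card_mul_index
  have h6 := (centralizer {(x : G ⧸ N)} : Subgroup (G ⧸ N)).card_mul_index
  have h7 := N.card_eq_card_quotient_mul_card_subgroup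
  rw [← h4, hrel, hDi] at h5
  have hi : 0 < (centralizer {(x : G ⧸ N)} : Subgroup (G ⧸ N)).index := Nat.pos_of_ne_zero index_ne_zero_of_finite
  have hN : 0 < Nat.card N := Nat.card_pos
  rw [← h6, ← h5] at h7
  have h8 : Nat.card (centralizer {x} : Subgroup G) *
      (Nat.card N * (centralizer {(x : G ⧸ N)} : Subgroup (G ⧸ N)).index) =
      Nat.card (centralizer {(x : G ⧸ N)} : Subgroup (G ⧸ N)) *
      (Nat.card N * (centralizer {(x : G ⧸ N)} : Subgroup (G ⧸ N)).index) := by
    rw [h7]; ring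
  exact Nat.eq_of_mul_eq_mul_right (Nat.mul_pos hN hi) h8

theorem card_eq_map_mul_inf [Finite G] [N.Normal] (C : Subgroup G) :
    Nat.card C = Nat.card (C.map (QuotientGroup.mk' N)) * Nat.card (N ⊓ C : Subgroup G) := by
  have h1 := ((QuotientGroup.mk' N).comp C.subtype).ker.card_mul_index
  rw [index_ker, MonoidHom.range_comp, range_subtype] at h1
  have h2 : Nat.card ((QuotientGroup.mk' N).comp C.subtype).ker = Nat.card (N ⊓ C : Subgroup G) := by
    have e : ((QuotientGroup.mk' N).comp C.subtype).ker = N.subgroupOf C := by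
      ext a
      rw [MonoidHom.mem_ker, mem_subgroupOf]
      exact QuotientGroup.eq_one_iff _
    rw [e, ← subgroupOf_map_subtype]
    exact (Nat.card_congr (equivMapOfInjective _ _ C.subtype_injective).toEquiv)
  rw [← h1, h2, mul_comm]

/-- a `p`-element outside `N` has many fixed points on `N` -/
theorem dvd_card_fixed [Finite G] [hN : N.Normal] {p : ℕ} [hp : Fact p.Prime] {x : G} {k : ℕ}
    (hx : x ^ p ^ k = 1) (hpN : p ∣ Nat.card N) : p ∣ Nat.card (N ⊓ centralizer {x} : Subgroup G) := by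
  classical
  letI : MulAction (zpowers x) N := MulAction.compHom N ((MulAut.conjNormal : G →* MulAut N).comp (zpowers x).subtype)
  have hsm : ∀ (d : zpowers x) (n : N), ((d • n : N) : G) = (d : G) * n * (d : G)⁻¹ := fun d n =>
    MulAut.conjNormal_apply _ _
  have hP : IsPGroup p (zpowers x) := by
    intro g
    obtain ⟨g, i, rfl⟩ := g
    refine ⟨k, ?_⟩
    ext
    simp only [SubmonoidClass.coe_pow, OneMemClass.coe_one]
    rw [← zpow_natCast, ← zpow_mul, mul_comm, zpow_mul, zpow_natCast, hx, one_zpow]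
  have h1 := hP.card_modEq_card_fixedPoints N
  have h2 : Nat.card (MulAction.fixedPoints (zpowers x) N) = Nat.card (N ⊓ centralizer {x} : Subgroup G) := by
    refine Nat.card_congr ⟨fun n => ⟨n.1.1, n.1.2, ?_⟩, fun n => ⟨⟨n.1, n.2.1⟩, ?_⟩, fun n => rfl, fun n => rfl⟩
    · refine mem_centralizer_singleton_iff.2 ?_
      have := n.2 ⟨x, mem_zpowers x⟩
      have h3 := congrArg Subtype.val this
      rw [hsm] at h3
      rw [mul_inv_eq_iff_eq_mul] at h3
      exact h3.symm
    · rintro ⟨g, i, rfl⟩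
      ext
      rw [hsm]
      have h3 : Commute (n : G) x := mem_centralizer_singleton_iff.1 n.2.2
      have h4 : Commute (n : G) (x ^ i) := h3.zpow_right i
      change x ^ i * (n : G) * (x ^ i)⁻¹ = n
      rw [mul_inv_eq_iff_eq_mul]
      exact h4.eq.symm
  rw [← h2]
  exact (Nat.modEq_zero_iff_dvd.1 ((h1.symm.trans (Nat.modEq_zero_iff_dvd.2 hpN))))

theorem dvd_card_centralizer [Finite G] [hN : N.Normal] (hc : Cam N) {p : ℕ} [hp : Fact p.Prime] {x : G}
    (hxN : x ∉ N) {k : ℕ} (hx : x ^ p ^ k = 1) (hpN : p ∣ Nat.card N) :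
    p * orderOf (x : G ⧸ N) ∣ Nat.card (centralizer {(x : G ⧸ N)} : Subgroup (G ⧸ N)) := by
  rw [← card_centralizer hc hxN]
  have h1 : p ∣ Nat.card (N ⊓ centralizer {x} : Subgroup G) := dvd_card_fixed hx hpN
  -- `C_G(x) / C_N(x)`
  set C : Subgroup G := centralizer {x} with hC
  have h2 : orderOf (x : G ⧸ N) ∣ Nat.card (C.map (QuotientGroup.mk' N)) := by
    have hm : (x : G ⧸ N) ∈ C.map (QuotientGroup.mk' N) := ⟨x, mem_centralizer_singleton_iff.2 rfl, rfl⟩
    have := orderOf_dvd_natCard (⟨_, hm⟩ : C.map (QuotientGroup.mk' N))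
    rwa [Subgroup.orderOf_mk] at this
  have h3 : Nat.card C = Nat.card (C.map (QuotientGroup.mk' N)) * Nat.card (N ⊓ C : Subgroup G) := by
    exact card_eq_map_mul_inf C
  rw [h3, mul_comm]
  exact mul_dvd_mul h2 h1
end


section Thin

variable [Finite G] {N : Subgroup G} [hN : N.Normal]

/-- Sylow subgroups of `G/N` contain `C_p × C_p` -/
theorem exists_elem_le (hc : Cam N) {p : ℕ} [hp : Fact p.Prime] (hpN : p ∣ Nat.card N)
    (hpG : p ∣ N.index) (Q : Sylow p (G ⧸ N)) :
    ∃ E : Subgroup (G ⧸ N), E ≤ (Q : Subgroup (G ⧸ N)) ∧ IsMulCommutative E ∧ Nat.card E = p ^ 2 ∧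
      ∀ y ∈ E, y ^ p = 1 := by
  classical
  -- p-elements of G/N lift
  have hlift : ∀ a ∈ (Q : Subgroup (G ⧸ N)), ∃ x : G, (x : G ⧸ N) = a ∧ ∃ k, x ^ p ^ k = 1 := by
    intro a ha
    obtain ⟨S, hS⟩ := Sylow.mapSurjective_surjective (QuotientGroup.mk'_surjective N) p Q
    have ha' : a ∈ (S : Subgroup G).map (QuotientGroup.mk' N) := by
      rw [← Sylow.coe_mapSurjective (QuotientGroup.mk'_surjective N), hS]
      exact ha
    obtain ⟨x, hx, rfl⟩ := ha'
    obtain ⟨k, hk⟩ := S.2 ⟨x, hx⟩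
    exact ⟨x, rfl, k, by simpa using congrArg Subtype.val hk⟩
  have hdvd : ∀ a ∈ (Q : Subgroup (G ⧸ N)), a ≠ 1 →
      p * orderOf a ∣ Nat.card (centralizer {a} : Subgroup (G ⧸ N)) := by
    intro a ha ha1
    obtain ⟨x, rfl, k, hk⟩ := hlift a ha
    exact dvd_card_centralizer hc (fun h => ha1 ((QuotientGroup.eq_one_iff x).2 h)) hk hpN
  have hQ1 : Nat.card Q ≠ 1 := by
    rw [Q.card_eq_multiplicity]
    have : p ∣ Nat.card (G ⧸ N) := hpG
    have h2 : (Nat.card (G ⧸ N)).factorization p ≠ 0 := by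
      have := hp.out.factorization_pos_of_dvd Nat.card_pos.ne' this
      omega
    exact (Nat.one_lt_pow h2 hp.out.one_lt).ne'
  have hnd : ¬ p * Nat.card Q ∣ Nat.card (G ⧸ N) := by
    intro h
    rw [Q.card_eq_multiplicity, ← pow_succ'] at h
    exact Nat.pow_succ_factorization_not_dvd Nat.card_pos.ne' hp.out h
  -- an element whose order is |Q| gives a contradiction
  have hgen : ∀ a ∈ (Q : Subgroup (G ⧸ N)), orderOf a ≠ Nat.card Q := by
    intro a ha h
    have ha1 : a ≠ 1 := by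
      rintro rfl
      rw [orderOf_one] at h
      exact hQ1 h.symm
    have h1 := hdvd a ha ha1
    rw [h] at h1
    exact hnd (h1.trans (card_subgroup_dvd_card _))
  rcases Cfsg.Agent.H65.pgroup_cases Q.2 with h | h | h
  · exfalso
    obtain ⟨a, ha⟩ := h.exists_ofOrder_eq_natCard
    exact hgen a.1 a.2 (by rw [← ha]; exact Subgroup.orderOf_coe a)
  · exfalso
    obtain ⟨rfl, n, ⟨e⟩⟩ := h
    haveI : NeZero (2 ^ n) := ⟨by positivity⟩
    have hcQ : Nat.card Q = 4 * 2 ^ n := by
      rw [Nat.card_congr e.toEquiv, Nat.card_eq_fintype_card, QuaternionGroup.card]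
    rcases Nat.eq_zero_or_pos n with rfl | hn
    · refine hgen (e.symm (QuaternionGroup.xa 0)).1 (e.symm (QuaternionGroup.xa 0)).2 ?_
      rw [Subgroup.orderOf_coe, MulEquiv.orderOf_eq, QuaternionGroup.orderOf_xa, hcQ]
      rfl
    · set a : Q := e.symm (QuaternionGroup.a 1) with hadef
      have hoa : orderOf (a : G ⧸ N) = 2 * 2 ^ n := by
        rw [Subgroup.orderOf_coe, hadef, MulEquiv.orderOf_eq, QuaternionGroup.orderOf_a_one]
      have h4 : 4 ≤ 2 * 2 ^ n := by
        have : 2 ^ 1 ≤ 2 ^ n := Nat.pow_le_pow_right (by norm_num) hn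
        omega
      have ha1 : (a : G ⧸ N) ≠ 1 := by
        intro h
        rw [h, orderOf_one] at hoa
        omega
      have h1 := hdvd a.1 a.2 ha1
      rw [hoa] at h1
      -- a Sylow subgroup centralizing `a`
      obtain ⟨T⟩ : Nonempty (Sylow 2 (centralizer {(a : G ⧸ N)} : Subgroup (G ⧸ N))) := inferInstance
      have hT1 : Nat.card Q ∣ Nat.card T := by
        rw [T.card_eq_multiplicity, hcQ]
        have e4 : 4 * 2 ^ n = 2 ^ (n + 2) := by rw [pow_add]; ring
        rw [e4]
        refine pow_dvd_pow 2 ?_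
        rw [← Nat.Prime.pow_dvd_iff_le_factorization Nat.prime_two Nat.card_pos.ne']
        refine dvd_trans (dvd_of_eq ?_) h1
        rw [pow_add]; ring
      set T' : Subgroup (G ⧸ N) :=
        (T : Subgroup (centralizer {(a : G ⧸ N)} : Subgroup (G ⧸ N))).map (Subgroup.subtype _) with hT'
      have hT'c : Nat.card T' = Nat.card T :=
        (Nat.card_congr (equivMapOfInjective _ _ (Subgroup.subtype_injective _)).toEquiv).symm
      have hT'p : IsPGroup 2 T' := T.2.map _
      obtain ⟨S, hS⟩ := hT'p.exists_le_sylow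
      have hTS : T' = S := by
        apply Subgroup.eq_of_le_of_card_ge hS
        rw [hT'c]
        have : Nat.card S = Nat.card Q := by
          rw [S.card_eq_multiplicity, Q.card_eq_multiplicity]
        rw [this]
        exact Nat.le_of_dvd Nat.card_pos hT1
      obtain ⟨g, hg⟩ := MulAction.exists_smul_eq (G ⧸ N) S Q
      -- b = g a g⁻¹ centralizes Q
      set b : G ⧸ N := g * a * g⁻¹ with hb
      have hbc : ∀ y ∈ (Q : Subgroup (G ⧸ N)), y * b = b * y := by
        intro y hy
        have h5 : g⁻¹ * y * g ∈ (S : Subgroup (G ⧸ N)) := by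
          rw [← hg, Sylow.coe_subgroup_smul, Subgroup.mem_pointwise_smul_iff_inv_smul_mem] at hy
          simpa [MulAut.smul_def] using hy
        rw [← hTS] at h5
        obtain ⟨t, _, ht⟩ := h5
        have h6 := mem_centralizer_singleton_iff.1 t.2
        have h7 : (t : G ⧸ N) = g⁻¹ * y * g := ht
        rw [h7] at h6
        rw [hb]
        calc y * (g * a * g⁻¹) = g * ((g⁻¹ * y * g) * a) * g⁻¹ := by group
          _ = g * (a * (g⁻¹ * y * g)) * g⁻¹ := by rw [h6]
          _ = _ := by group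
      have hbo : orderOf b = orderOf (a : G ⧸ N) := by
        have := orderOf_injective (MulAut.conj g).toMonoidHom (MulAut.conj g).injective (a : G ⧸ N)
        exact this
      have hbp : IsPGroup 2 (zpowers b) := by
        refine IsPGroup.of_card (n := n + 1) ?_
        rw [Nat.card_zpowers, hbo, hoa, pow_succ]; ring
      have hbQ : b ∈ (Q : Subgroup (G ⧸ N)) := by
        have h8 := hbp.inf_normalizer_sylow Q
        have h9 : b ∈ zpowers b ⊓ normalizer (Q : Set (G ⧸ N)) := by
          refine ⟨mem_zpowers b, ?_⟩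
          refine centralizer_le_normalizer _ ?_
          rw [mem_centralizer_iff]
          exact hbc
        rw [h8] at h9
        exact h9.2
      set c : QuaternionGroup (2 ^ n) := e ⟨b, hbQ⟩ with hcdef
      have hco : orderOf c = 2 * 2 ^ n := by
        rw [hcdef, MulEquiv.orderOf_eq, Subgroup.orderOf_mk, hbo, hoa]
      have hcc : ∀ y, y * c = c * y := by
        intro y
        have h9 := hbc (e.symm y).1 (e.symm y).2
        have h10 : (e.symm y) * ⟨b, hbQ⟩ = ⟨b, hbQ⟩ * e.symm y := Subtype.ext h9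
        have h11 := congrArg e h10
        rw [map_mul, map_mul, MulEquiv.apply_symm_apply] at h11
        exact h11
      have hc2 : c ^ 2 = 1 := by
        rcases c with i | i
        · have h12 := hcc (QuaternionGroup.xa 0)
          rw [QuaternionGroup.xa_mul_a, QuaternionGroup.a_mul_xa] at h12
          have h13 : (0 : ZMod (2 * 2 ^ n)) + i = 0 - i := QuaternionGroup.xa.inj h12
          rw [pow_two, QuaternionGroup.a_mul_a]
          have h14 : i + i = 0 := by linear_combination h13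
          rw [h14]; rfl
        · exfalso
          have h12 := hcc (QuaternionGroup.a 1)
          rw [QuaternionGroup.xa_mul_a, QuaternionGroup.a_mul_xa] at h12
          have h13 : i - 1 = i + 1 := QuaternionGroup.xa.inj h12
          have h14 : (2 : ZMod (2 * 2 ^ n)) = 0 := by linear_combination -h13
          have h15 : ((2 : ℕ) : ZMod (2 * 2 ^ n)) = 0 := by exact_mod_cast h14
          rw [ZMod.natCast_eq_zero_iff] at h15
          have := Nat.le_of_dvd (by norm_num) h15
          omega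
      have := orderOf_dvd_of_pow_eq_one hc2
      rw [hco] at this
      have := Nat.le_of_dvd (by norm_num) this
      omega
  · obtain ⟨E, hE, hEc, hEx⟩ := h
    refine ⟨E.map (Subgroup.subtype _), ?_, ?_, ?_, ?_⟩
    · rintro _ ⟨y, _, rfl⟩
      exact y.2
    · infer_instance
    · rw [← hEc]
      exact (Nat.card_congr (equivMapOfInjective _ _ (Subgroup.subtype_injective _)).toEquiv).symm
    · rintro _ ⟨y, hy, rfl⟩
      rw [← map_pow, hEx y hy, map_one]

end Thin

section Count

variable [Finite G] {N : Subgroup G} [hN : N.Normal]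

theorem exists_conj_mem {p : ℕ} [hp : Fact p.Prime] (S : Sylow p G) {w : G}
    (hw : w ∈ N ⊔ (S : Subgroup G)) {k : ℕ} (hwk : w ^ p ^ k = 1) :
    ∃ n ∈ N, n⁻¹ * w * n ∈ (S : Subgroup G) := by
  classical
  set K : Subgroup G := N ⊔ (S : Subgroup G) with hK
  have hSK : (S : Subgroup G) ≤ K := le_sup_right
  set S' : Sylow p K := S.subtype hSK with hS'
  have hwp : IsPGroup p (zpowers (⟨w, hw⟩ : K)) := by
    intro g
    obtain ⟨g, i, rfl⟩ := g
    refine ⟨k, ?_⟩
    ext
    simp only [SubmonoidClass.coe_pow, OneMemClass.coe_one, SubgroupClass.coe_zpow]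
    rw [← zpow_natCast, ← zpow_mul, mul_comm, zpow_mul, zpow_natCast, hwk, one_zpow]
  obtain ⟨T, hT⟩ := hwp.exists_le_sylow
  obtain ⟨g, hg⟩ := MulAction.exists_smul_eq K S' T
  have h1 : (⟨w, hw⟩ : K) ∈ (T : Subgroup K) := hT (mem_zpowers _)
  rw [← hg, Sylow.coe_subgroup_smul, Subgroup.mem_pointwise_smul_iff_inv_smul_mem] at h1
  have h2 : (g : G)⁻¹ * w * g ∈ (S : Subgroup G) := by
    have h3 : ((g : K)⁻¹ * ⟨w, hw⟩ * g : K) ∈ (S' : Subgroup K) := by
      simpa [MulAut.smul_def] using h1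
    exact h3
  obtain ⟨n, hn, s, hs, hns⟩ := Subgroup.mem_sup_of_normal_left.1 g.2
  refine ⟨n, hn, ?_⟩
  rw [← hns] at h2
  have h4 := mul_mem (mul_mem hs h2) (inv_mem hs)
  have e : s * ((n * s)⁻¹ * w * (n * s)) * s⁻¹ = n⁻¹ * w * n := by group
  rwa [e] at h4

theorem normalizer_le (hc : Cam N) {p : ℕ} [hp : Fact p.Prime] (S : Sylow p G) {x : G}
    (hxS : x ∈ (S : Subgroup G)) (hxN : x ∉ N) :
    N ⊓ normalizer (((S : Subgroup G) ⊓ N ⊔ zpowers x : Subgroup G) : Set G) ≤ (S : Subgroup G) ⊓ N := by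
  classical
  set P0 : Subgroup G := (S : Subgroup G) ⊓ N with hP0
  set T : Subgroup G := P0 ⊔ zpowers x with hT
  set W : Subgroup G := N ⊓ normalizer (T : Set G) with hW
  have hTS : T ≤ (S : Subgroup G) := sup_le inf_le_left (by rwa [zpowers_le])
  have hP0W : P0 ≤ W := le_inf inf_le_right (le_sup_left.trans le_normalizer)
  have hxT : x ∈ T := (le_sup_right : zpowers x ≤ T) (mem_zpowers x)
  have hWy : ∀ w ∈ W, ∀ y ∈ P0, x⁻¹ * (w * (x * y) * w⁻¹) ∈ P0 := by
    intro w hw y hy
    refine Subgroup.mem_inf.2 ⟨mul_mem (inv_mem hxS) (hTS ?_), ?_⟩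
    · exact (mem_normalizer_iff.1 hw.2 _).1 (mul_mem hxT ((le_sup_left : P0 ≤ T) hy))
    · have e : x⁻¹ * (w * (x * y) * w⁻¹) = (x⁻¹ * w * x⁻¹⁻¹) * (y * w⁻¹) := by group
      rw [e]
      exact mul_mem (hN.conj_mem _ hw.1 _) (mul_mem hy.2 (inv_mem hw.1))
  obtain ⟨k, hk⟩ := S.2 ⟨x, hxS⟩
  have hk' : x ^ p ^ k = 1 := by simpa using congrArg Subtype.val hk
  set W' : Subgroup N := W.subgroupOf N with hW'
  have hfm : ∀ (q : N ⧸ W') (y : P0), x⁻¹ * ((q.out : G) * (x * y) * (q.out : G)⁻¹) ∈ N := by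
    intro q y
    have e : x⁻¹ * ((q.out : G) * (x * y) * (q.out : G)⁻¹) =
      (x⁻¹ * (q.out : G) * x⁻¹⁻¹) * ((y : G) * (q.out : G)⁻¹) := by group
    rw [e]
    exact mul_mem (hN.conj_mem _ q.out.2 _) (mul_mem y.2.2 (inv_mem q.out.2))
  let f : (N ⧸ W') × P0 → N := fun t => ⟨_, hfm t.1 t.2⟩
  have hf : Function.Surjective f := by
    rintro ⟨n', hn'⟩
    obtain ⟨g, hg⟩ := hc x hxN n' hn'
    have hwk : (x * n') ^ p ^ k = 1 := by
      rw [← hg]
      have : (g * x * g⁻¹) ^ p ^ k = g * x ^ p ^ k * g⁻¹ := conj_pow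
      rw [this, hk']; group
    have hwK : x * n' ∈ N ⊔ (S : Subgroup G) :=
      mul_mem ((le_sup_right : (S : Subgroup G) ≤ _) hxS) ((le_sup_left : N ≤ _) hn')
    obtain ⟨n, hn, hns⟩ := exists_conj_mem S hwK hwk
    have hy : x⁻¹ * (n⁻¹ * (x * n') * n) ∈ P0 := by
      refine Subgroup.mem_inf.2 ⟨mul_mem (inv_mem hxS) hns, ?_⟩
      have e : x⁻¹ * (n⁻¹ * (x * n') * n) = (x⁻¹ * n⁻¹ * x⁻¹⁻¹) * (n' * n) := by group
      rw [e]
      exact mul_mem (hN.conj_mem _ (inv_mem hn) _) (mul_mem hn' hn)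
    obtain ⟨w0, hw0⟩ := QuotientGroup.mk_out_eq_mul W' ⟨n, hn⟩
    have hw0' : (((QuotientGroup.mk ⟨n, hn⟩ : N ⧸ W').out : N) : G) = n * (w0 : N) := congrArg Subtype.val hw0
    have hy' := hWy _ (inv_mem (mem_subgroupOf.1 w0.2)) _ hy
    refine ⟨(QuotientGroup.mk ⟨n, hn⟩, ⟨_, hy'⟩), ?_⟩
    apply Subtype.ext
    change x⁻¹ * ((((QuotientGroup.mk ⟨n, hn⟩ : N ⧸ W').out : N) : G) * (x * _) * (((QuotientGroup.mk ⟨n, hn⟩ : N ⧸ W').out : N) : G)⁻¹) = n'
    rw [hw0']
    group
  have h1 := Nat.card_le_card_of_surjective f hf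
  rw [Nat.card_prod] at h1
  have h2 := W'.card_eq_card_quotient_mul_card_subgroup
  have h3 : Nat.card W' = Nat.card W := by
    rw [hW', ← Nat.card_congr (Subgroup.subgroupOfEquivOfLe (inf_le_left : W ≤ N)).toEquiv]
  rw [h2, h3] at h1
  have h4 : Nat.card W ≤ Nat.card P0 := Nat.le_of_mul_le_mul_left h1 Nat.card_pos
  exact (Subgroup.eq_of_le_of_card_ge hP0W h4).ge

end Count

end Cfsg.Agent.H73.Camina
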