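import Cfsg.Agent.H73.Camina
import Cfsg.Agent.S0033

set_option autoImplicit false

open Subgroup

namespace Cfsg.Agent.H73.Camina

variable {G : Type*} [Group G]

section

variable [Finite G] {N : Subgroup G} [hN : N.Normal]

theorem card_inf_sylow {p : ℕ} [hp : Fact p.Prime] (S : Sylow p G) :
    Nat.card ((S : Subgroup G) ⊓ N : Subgroup G) = p ^ (Nat.card N).factorization p := by
  have h1 := card_eq_map_mul_inf (N := N) (S : Subgroup G)
  have h2 : Nat.card ((S : Subgroup G).map (QuotientGroup.mk' N)) = p ^ (Nat.card (G ⧸ N)).factorization p := by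
    have := (Sylow.mapSurjective (QuotientGroup.mk'_surjective N) S).card_eq_multiplicity
    rwa [Sylow.coe_mapSurjective] at this
  rw [h2, S.card_eq_multiplicity, N.card_eq_card_quotient_mul_card_subgroup,
    Nat.factorization_mul Nat.card_pos.ne' Nat.card_pos.ne', Finsupp.add_apply, pow_add, inf_comm] at h1
  exact (Nat.eq_of_mul_eq_mul_left (pow_pos hp.out.pos _) h1).symm

theorem inf_normalizer_le (hc : Cam N) {p : ℕ} [hp : Fact p.Prime] (hpN : p ∣ Nat.card N)
    (hpG : p ∣ N.index) (S : Sylow p G) :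
    N ⊓ normalizer (((S : Subgroup G) ⊓ N : Subgroup G) : Set G) ≤ (S : Subgroup G) ⊓ N := by
  classical
  set P0 : Subgroup G := (S : Subgroup G) ⊓ N with hP0
  set L : Subgroup G := normalizer (P0 : Set G) with hL
  have hP0L : P0 ≤ L := le_normalizer
  have hSL : (S : Subgroup G) ≤ L := by
    intro s hs
    rw [hL, mem_normalizer_iff]
    intro y
    constructor
    · rintro ⟨h1, h2⟩
      exact Subgroup.mem_inf.2 ⟨mul_mem (mul_mem hs h1) (inv_mem hs), hN.conj_mem _ h2 _⟩
    · rintro ⟨h1, h2⟩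
      have e : y = s⁻¹ * (s * y * s⁻¹) * s⁻¹⁻¹ := by group
      rw [e]
      exact Subgroup.mem_inf.2 ⟨mul_mem (mul_mem (inv_mem hs) h1) (inv_mem (inv_mem hs)), hN.conj_mem _ h2 _⟩
  obtain ⟨E, hEQ, hEc, hEcard, hEp⟩ := exists_elem_le hc hpN hpG
    (Sylow.mapSurjective (QuotientGroup.mk'_surjective N) S)
  rw [Sylow.coe_mapSurjective] at hEQ
  set F : Subgroup G := (S : Subgroup G) ⊓ E.comap (QuotientGroup.mk' N) with hF
  have hFS : F ≤ (S : Subgroup G) := inf_le_left
  have hFE : ∀ f ∈ F, (f : G ⧸ N) ∈ E := fun f hf => hf.2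
  have hEF : ∀ e ∈ E, ∃ f ∈ F, (f : G ⧸ N) = e := by
    intro e he
    obtain ⟨s, hs, rfl⟩ := hEQ he
    exact ⟨s, ⟨hs, he⟩, rfl⟩
  have hFN : ∀ f ∈ F, f ∈ N → f ∈ P0 := fun f hf hf' => ⟨hFS hf, hf'⟩
  set P : Subgroup L := P0.subgroupOf L with hP
  haveI hPn : P.Normal := by rw [hP, hL]; infer_instance
  set EE : Subgroup (L ⧸ P) := (F.subgroupOf L).map (QuotientGroup.mk' P) with hEE
  set UU : Subgroup (L ⧸ P) := (N.subgroupOf L).map (QuotientGroup.mk' P) with hUU
  -- equality in `L / P`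
  have hEEcomm : IsMulCommutative EE := by
    refine ⟨⟨?_⟩⟩
    rintro ⟨_, ⟨a, ha, rfl⟩⟩ ⟨_, ⟨b, hb, rfl⟩⟩
    apply Subtype.ext
    change QuotientGroup.mk' P a * QuotientGroup.mk' P b = QuotientGroup.mk' P b * QuotientGroup.mk' P a
    rw [← map_mul, ← map_mul, QuotientGroup.mk'_apply, QuotientGroup.mk'_apply, QuotientGroup.eq, hP, mem_subgroupOf]
    have haF : (a : G) ∈ F := ha
    have hbF : (b : G) ∈ F := hb
    refine hFN _ (mul_mem (inv_mem (mul_mem haF hbF)) (mul_mem hbF haF)) ?_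
    change ((a : G) * (b : G))⁻¹ * ((b : G) * (a : G)) ∈ N
    rw [← QuotientGroup.eq]
    change ((a : G) : G ⧸ N) * ((b : G) : G ⧸ N) = ((b : G) : G ⧸ N) * ((a : G) : G ⧸ N)
    exact congrArg Subtype.val (hEc.is_comm.comm ⟨_, hFE _ haF⟩ ⟨_, hFE _ hbF⟩)
  have hUUn : UU.Normal := by
    haveI : (N.subgroupOf L).Normal := inferInstance
    exact this.map _ (QuotientGroup.mk'_surjective P)
  have hEEU : EE ≤ normalizer (UU : Set (L ⧸ P)) := by
    rw [normalizer_eq_top]
    exact le_top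
  have hcop : (Nat.card EE).Coprime (Nat.card UU) := by
    have h1 : ∃ n, Nat.card EE = p ^ n := by
      have : IsPGroup p EE := by
        have h2 : IsPGroup p F := S.2.to_le hFS
        exact (h2.comap_of_injective L.subtype L.subtype_injective).map _
      exact (IsPGroup.iff_card.1 this)
    obtain ⟨n, hn⟩ := h1
    rw [hn]
    apply Nat.Coprime.pow_left
    rw [Nat.Prime.coprime_iff_not_dvd hp.out]
    intro hdvd
    have h2 := card_eq_map_mul_inf (N := P) (N.subgroupOf L)
    have h3 : Nat.card (P ⊓ N.subgroupOf L : Subgroup L) = p ^ (Nat.card N).factorization p := by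
      have e : P ⊓ N.subgroupOf L = P := by
        rw [inf_eq_left]
        exact Subgroup.comap_mono inf_le_right
      rw [e, hP, Nat.card_congr (Subgroup.subgroupOfEquivOfLe hP0L).toEquiv]
      exact card_inf_sylow S
    have h4 : Nat.card (N.subgroupOf L) ∣ Nat.card N := by
      have h5 : Nat.card (N.subgroupOf L) = Nat.card (N ⊓ L : Subgroup G) := by
        rw [← subgroupOf_map_subtype]
        exact (Nat.card_congr (equivMapOfInjective _ _ L.subtype_injective).toEquiv)
      rw [h5]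
      exact card_dvd_of_le inf_le_left
    rw [h2, h3] at h4
    have h6 : p * p ^ (Nat.card N).factorization p ∣ Nat.card N :=
      (Nat.mul_dvd_mul hdvd dvd_rfl).trans h4
    rw [← pow_succ'] at h6
    exact Nat.pow_succ_factorization_not_dvd Nat.card_pos.ne' hp.out h6
  have hgen := Cop.le_genT hEEcomm _ UU rfl hEEU hcop
  have hbot : Cop.genT EE UU ≤ ⊥ := by
    unfold Cop.genT
    refine iSup₂_le fun B hB => ?_
    obtain ⟨hBE, a, haE, haB⟩ := hB
    -- `B` is not trivial
    have hB1 : B ≠ ⊥ := by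
      rintro rfl
      rw [bot_sup_eq] at haB
      obtain ⟨f, hf, rfl⟩ := haE
      have hfF : (f : G) ∈ F := hf
      have hle : E ≤ zpowers (((f : G) : G ⧸ N)) := by
        intro e he
        obtain ⟨s, hs, rfl⟩ := hEF e he
        have h1 : QuotientGroup.mk' P ⟨s, hSL (hFS hs)⟩ ∈ EE := ⟨⟨s, hSL (hFS hs)⟩, hs, rfl⟩
        rw [← haB] at h1
        obtain ⟨i, hi⟩ := mem_zpowers_iff.1 h1
        refine mem_zpowers_iff.2 ⟨i, ?_⟩
        rw [← map_zpow, QuotientGroup.mk'_apply, QuotientGroup.mk'_apply, QuotientGroup.eq, hP, mem_subgroupOf] at hi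
        rw [← QuotientGroup.mk_zpow, QuotientGroup.eq]
        exact hi.2
      have h2 := Subgroup.card_le_of_le hle
      rw [hEcard, Nat.card_zpowers] at h2
      have h3 := Nat.le_of_dvd hp.out.pos (orderOf_dvd_of_pow_eq_one (hEp _ (hFE _ hfF)))
      have h4 := hp.out.one_lt
      nlinarith
    obtain ⟨⟨b, hb⟩, hb1⟩ := Subgroup.ne_bot_iff_exists_ne_one.1 hB1
    obtain ⟨f, hf, hfb⟩ := hBE hb
    have hfF : (f : G) ∈ F := hf
    have hfN : (f : G) ∉ N := by
      intro h
      apply hb1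
      apply Subtype.ext
      change b = 1
      rw [← hfb, QuotientGroup.mk'_apply, QuotientGroup.eq_one_iff, hP, mem_subgroupOf]
      exact hFN _ hfF h
    rintro u ⟨⟨v, hv, rfl⟩, hu2⟩
    have hvN : (v : G) ∈ N := hv
    have h1 := mem_centralizer_iff.1 hu2 b hb
    rw [← hfb, ← map_mul, ← map_mul, QuotientGroup.mk'_apply, QuotientGroup.mk'_apply, QuotientGroup.eq,
      hP, mem_subgroupOf] at h1
    have h2 : ((f : G) * (v : G))⁻¹ * ((v : G) * (f : G)) ∈ P0 := h1
    have hvL : (v : G) ∈ normalizer (P0 : Set G) := v.2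
    have h3 : (v : G) ∈ normalizer (((S : Subgroup G) ⊓ N ⊔ zpowers (f : G) : Subgroup G) : Set G) := by
      rw [← hP0, mem_normalizer_iff_map_conj_eq]
      apply Subgroup.eq_of_le_of_card_ge
      · rw [Subgroup.map_sup]
        refine sup_le ?_ ?_
        · rw [mem_normalizer_iff_map_conj_eq.1 hvL]
          exact le_sup_left
        · rw [MonoidHom.map_zpowers, zpowers_le]
          change (v : G) * (f : G) * (v : G)⁻¹ ∈ _
          have e : (v : G) * (f : G) * (v : G)⁻¹ =
              (f : G) * ((v : G) * (((f : G) * (v : G))⁻¹ * ((v : G) * (f : G))) * (v : G)⁻¹) := by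
            group
          rw [e]
          refine mul_mem ((le_sup_right : zpowers (f : G) ≤ _) (mem_zpowers _)) ?_
          exact (le_sup_left : P0 ≤ _) ((mem_normalizer_iff.1 hvL _).1 h2)
      · exact (Nat.card_congr (equivMapOfInjective _ _ (MulAut.conj (v : G)).injective).toEquiv).le
    have h4 := normalizer_le hc S (hFS hfF) hfN ⟨hvN, h3⟩
    rw [Subgroup.mem_bot, QuotientGroup.mk'_apply, QuotientGroup.eq_one_iff, hP, mem_subgroupOf]
    exact h4
  intro u hu
  have h5 : QuotientGroup.mk' P ⟨u, hu.2⟩ ∈ UU := ⟨⟨u, hu.2⟩, hu.1, rfl⟩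
  have h6 := hbot (hgen h5)
  rw [Subgroup.mem_bot, QuotientGroup.mk'_apply, QuotientGroup.eq_one_iff, hP, mem_subgroupOf] at h6
  exact h6

/-- a `q`-group with no fixed points on a nontrivial `q'`-group does not contain `C_q × C_q` -/
theorem no_elem {q : ℕ} [hq : Fact q.Prime] {E U : Subgroup G} (hE : IsMulCommutative E)
    (hEc : Nat.card E = q ^ 2) (hEp : ∀ y ∈ E, y ^ q = 1) (hEU : E ≤ normalizer (U : Set G))
    (hU : U ≠ ⊥) (hcop : ¬ q ∣ Nat.card U) (hfix : ∀ e ∈ E, e ≠ 1 → ∀ u ∈ U, u * e = e * u → u = 1) : False := by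
  classical
  apply hU
  rw [eq_bot_iff]
  have hc : (Nat.card E).Coprime (Nat.card U) := by
    rw [hEc]
    exact Nat.Coprime.pow_left _ ((Nat.Prime.coprime_iff_not_dvd hq.out).2 hcop)
  refine (Cop.le_genT hE _ U rfl hEU hc).trans ?_
  unfold Cop.genT
  refine iSup₂_le fun B hB => ?_
  obtain ⟨hBE, a, haE, haB⟩ := hB
  have hB1 : B ≠ ⊥ := by
    rintro rfl
    rw [bot_sup_eq] at haB
    have h2 : Nat.card (zpowers a) = q ^ 2 := by rw [haB, hEc]
    rw [Nat.card_zpowers] at h2
    have h3 := Nat.le_of_dvd hq.out.pos (orderOf_dvd_of_pow_eq_one (hEp _ haE))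
    have h4 := hq.out.one_lt
    nlinarith
  obtain ⟨⟨b, hb⟩, hb1⟩ := Subgroup.ne_bot_iff_exists_ne_one.1 hB1
  rintro u ⟨hu, hu2⟩
  rw [Subgroup.mem_bot]
  exact hfix b (hBE hb) (fun h => hb1 (Subtype.ext h)) u hu (mem_centralizer_iff.1 hu2 b hb).symm

/-- the case of a prime `q ≠ p` dividing `|G : N|` -/
theorem isPGroup_of_two_primes (hc : Cam N) {p q : ℕ} [hp : Fact p.Prime] [hq : Fact q.Prime] (hpq : p ≠ q)
    (hpN : p ∣ Nat.card N) (hpG : p ∣ N.index) (hqG : q ∣ N.index) : IsPGroup p N := by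
  classical
  obtain ⟨S⟩ : Nonempty (Sylow p G) := inferInstance
  have hkey := inf_normalizer_le hc hpN hpG S
  set P0 : Subgroup G := (S : Subgroup G) ⊓ N with hP0
  have hP0p : IsPGroup p P0 := S.2.to_le inf_le_left
  have hP0c : Nat.card P0 = p ^ (Nat.card N).factorization p := card_inf_sylow S
  have hP01 : P0 ≠ ⊥ := by
    intro h
    rw [h, Subgroup.card_bot] at hP0c
    have h2 : (Nat.card N).factorization p ≠ 0 := by
      have := hp.out.factorization_pos_of_dvd Nat.card_pos.ne' hpN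
      omega
    exact (Nat.one_lt_pow h2 hp.out.one_lt).ne hP0c
  set L : Subgroup G := normalizer (P0 : Set G) with hL
  have hP0L : P0 ≤ L := le_normalizer
  have hLN : L ⊓ N = P0 := le_antisymm (by rw [inf_comm]; exact hkey) (le_inf hP0L inf_le_right)
  -- Frattini
  have hP0N : P0 ≤ N := inf_le_right
  have hFr : L ⊔ N = ⊤ := by
    have hc0 : Nat.card (P0.subgroupOf N) = p ^ (Nat.card N).factorization p := by
      rw [Nat.card_congr (Subgroup.subgroupOfEquivOfLe hP0N).toEquiv, hP0c]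
    have h := Sylow.normalizer_sup_eq_top (Sylow.ofCard (P0.subgroupOf N) hc0)
    have e : ((Sylow.ofCard (P0.subgroupOf N) hc0 : Sylow p N) : Subgroup N).map N.subtype = P0 := by
      change (P0.subgroupOf N).map N.subtype = P0
      rw [subgroupOf_map_subtype, inf_eq_left.2 hP0N]
    rw [e] at h
    exact h
  obtain ⟨Y⟩ : Nonempty (Sylow q L) := inferInstance
  set Y' : Subgroup G := (Y : Subgroup L).map L.subtype with hY'
  have hY'q : IsPGroup q Y' := Y.2.map _
  have hY'L : Y' ≤ L := by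
    rintro _ ⟨y, _, rfl⟩
    exact y.2
  have hY'N : ∀ y ∈ Y', y ∈ N → y = 1 := by
    intro y hy hyN
    have h1 : y ∈ P0 := by
      rw [← hLN]
      exact ⟨hY'L hy, hyN⟩
    exact Subgroup.disjoint_def.1 (IsPGroup.disjoint_of_ne p q hpq _ _ hP0p hY'q) h1 hy
  have hordY : ∀ y ∈ Y', ∃ k, orderOf y = q ^ k := by
    intro y hy
    obtain ⟨k, hk⟩ := (IsPGroup.iff_orderOf.1 hY'q) ⟨y, hy⟩
    exact ⟨k, by rwa [Subgroup.orderOf_mk] at hk⟩
  -- elements of `Y` act without fixed points on `P₀`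
  have hfix : ∀ y ∈ Y', y ≠ 1 → ∀ u ∈ P0, u * y = y * u → u = 1 := by
    intro y hy hy1 u hu huy
    have hyN : y ∉ N := fun h => hy1 (hY'N y hy h)
    have h1 := pow_orderOf_eq_one' hc hyN (hP0N hu) (show Commute y u from huy.symm)
    obtain ⟨k, hk⟩ := hordY y hy
    rw [hk] at h1
    obtain ⟨j, hj⟩ := (IsPGroup.iff_orderOf.1 hP0p) ⟨u, hu⟩
    rw [Subgroup.orderOf_mk] at hj
    have h2 : orderOf u ∣ q ^ k := orderOf_dvd_of_pow_eq_one h1
    rw [hj] at h2
    have h3 : Nat.Coprime (p ^ j) (q ^ k) :=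
      Nat.Coprime.pow _ _ ((Nat.coprime_primes hp.out hq.out).2 hpq)
    have h4 := Nat.Coprime.eq_one_of_dvd h3 h2
    rw [h4] at hj
    exact orderOf_eq_one_iff.1 hj
  -- `Y N / N` is a Sylow `q`-subgroup
  have hcL : Nat.card L = Nat.card (G ⧸ N) * Nat.card P0 := by
    have h1 := card_eq_map_mul_inf (N := N) L
    rw [inf_comm, hLN] at h1
    rw [h1]
    congr 1
    have h2 : L.map (QuotientGroup.mk' N) = ⊤ := by
      have h3 : (L ⊔ N).map (QuotientGroup.mk' N) = ⊤ := by
        rw [hFr, ← MonoidHom.range_eq_map, MonoidHom.range_eq_top]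
        exact QuotientGroup.mk'_surjective N
      rw [Subgroup.map_sup] at h3
      have h4 : N.map (QuotientGroup.mk' N) = ⊥ := by
        rw [Subgroup.map_eq_bot_iff, QuotientGroup.ker_mk']
      rw [h4, sup_bot_eq] at h3
      exact h3
    rw [h2, Subgroup.card_top]
  have hvP0 : (Nat.card P0).factorization q = 0 := by
    rw [hP0c, Nat.Prime.factorization_pow hp.out, Finsupp.single_apply, if_neg hpq]
  have hcY : Nat.card Y' = q ^ (Nat.card (G ⧸ N)).factorization q := by
    rw [hY', ← Nat.card_congr (equivMapOfInjective _ _ L.subtype_injective).toEquiv, Y.card_eq_multiplicity,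
      hcL, Nat.factorization_mul Nat.card_pos.ne' Nat.card_pos.ne', Finsupp.add_apply, hvP0, add_zero]
  have hNY : N ⊓ Y' = ⊥ := by
    rw [eq_bot_iff]
    rintro y ⟨h1, h2⟩
    exact hY'N y h2 h1
  have hcQ : Nat.card (Y'.map (QuotientGroup.mk' N)) = q ^ (Nat.card (G ⧸ N)).factorization q := by
    have h1 := card_eq_map_mul_inf (N := N) Y'
    rw [hNY, Subgroup.card_bot, mul_one] at h1
    rw [← h1, hcY]
  by_cases hqN : q ∣ Nat.card N
  · exfalso
    obtain ⟨E, hEQ, hEc, hEcard, hEp⟩ := exists_elem_le hc hqN hqG (Sylow.ofCard _ hcQ)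
    have hEQ' : E ≤ Y'.map (QuotientGroup.mk' N) := hEQ
    set F : Subgroup G := Y' ⊓ E.comap (QuotientGroup.mk' N) with hF
    have hFY : F ≤ Y' := inf_le_left
    have hFmap : F.map (QuotientGroup.mk' N) = E := by
      apply le_antisymm
      · rintro _ ⟨f, hf, rfl⟩
        exact hf.2
      · intro e he
        obtain ⟨s, hs, rfl⟩ := hEQ' he
        exact ⟨s, ⟨hs, he⟩, rfl⟩
    refine no_elem (E := F) (U := P0) (q := q) ?_ ?_ ?_ (hFY.trans hY'L) hP01 ?_ (fun e he => hfix e (hFY he))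
    · refine ⟨⟨fun a b => Subtype.ext ?_⟩⟩
      change (a : G) * (b : G) = (b : G) * (a : G)
      have h1 : ((a : G) * (b : G))⁻¹ * ((b : G) * (a : G)) = 1 := by
        refine hY'N _ (hFY (mul_mem (inv_mem (mul_mem a.2 b.2)) (mul_mem b.2 a.2))) ?_
        rw [← QuotientGroup.eq]
        change ((a : G) : G ⧸ N) * ((b : G) : G ⧸ N) = ((b : G) : G ⧸ N) * ((a : G) : G ⧸ N)
        exact congrArg Subtype.val (hEc.is_comm.comm ⟨_, a.2.2⟩ ⟨_, b.2.2⟩)
      exact (inv_mul_eq_one.1 h1)
    · have h1 := card_eq_map_mul_inf (N := N) F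
      have h2 : N ⊓ F = ⊥ := by
        rw [eq_bot_iff, ← hNY]
        exact inf_le_inf_left _ hFY
      rw [h2, Subgroup.card_bot, mul_one, hFmap, hEcard] at h1
      exact h1
    · intro y hy
      refine hY'N _ (pow_mem (hFY hy) _) ?_
      rw [← QuotientGroup.eq_one_iff, QuotientGroup.mk_pow]
      exact hEp _ hy.2
    · intro h
      have := hq.out.factorization_pos_of_dvd Nat.card_pos.ne' h
      omega
  · -- `N` is nilpotent
    have hqY : q ∣ Nat.card Y' := by
      rw [hcY]
      refine dvd_pow_self q ?_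
      have := hq.out.factorization_pos_of_dvd Nat.card_pos.ne' (show q ∣ Nat.card (G ⧸ N) from hqG)
      omega
    obtain ⟨⟨y, hy⟩, hyo⟩ := exists_prime_orderOf_dvd_card' q hqY
    rw [Subgroup.orderOf_mk] at hyo
    have hy1 : y ≠ 1 := by
      rintro rfl
      rw [orderOf_one] at hyo
      exact hq.out.one_lt.ne hyo
    have hyN : y ∉ N := fun h => hy1 (hY'N y hy h)
    have hfixN : ∀ u ∈ N, u * y = y * u → u = 1 := by
      intro u hu huy
      have h1 := pow_orderOf_eq_one' hc hyN hu (show Commute y u from huy.symm)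
      rw [hyo] at h1
      have h2 : orderOf u ∣ q := orderOf_dvd_of_pow_eq_one h1
      rcases (Nat.dvd_prime hq.out).1 h2 with h3 | h3
      · exact orderOf_eq_one_iff.1 h3
      · exfalso
        apply hqN
        rw [← h3, ← Subgroup.orderOf_mk u hu]
        exact orderOf_dvd_natCard _
    set φ : MulAut N := MulAut.conjNormal y with hφ
    have hφ1 : ∀ g : N, φ g = g → g = 1 := by
      intro g hg
      have h1 := congrArg Subtype.val hg
      rw [hφ, MulAut.conjNormal_apply, mul_inv_eq_iff_eq_mul] at h1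
      exact Subtype.ext (hfixN g g.2 h1.symm)
    have hN1 : Nontrivial N := by
      rw [← Finite.one_lt_card_iff_nontrivial]
      exact lt_of_lt_of_le hp.out.one_lt (Nat.le_of_dvd Nat.card_pos hpN)
    have hφo : orderOf φ = q := by
      apply orderOf_eq_prime
      · rw [hφ, ← map_pow]
        have : y ^ q = 1 := by rw [← hyo]; exact pow_orderOf_eq_one y
        rw [this, map_one]
      · intro h
        obtain ⟨g, hg⟩ := exists_ne (1 : N)
        exact hg (hφ1 g (by rw [h]; rfl))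
    have hnil : Group.IsNilpotent N := Cfsg.Agent.S0033.result (G := N) φ (fun g hg => hφ1 g hg) q hq.out hφo
    have hNP : P0.subgroupOf N = ⊤ := by
      by_contra hne
      have h1 := Group.normalizerCondition_of_isNilpotent (h := hnil) (P0.subgroupOf N) (lt_top_iff_ne_top.2 hne)
      obtain ⟨u, hu, hu'⟩ := SetLike.exists_of_lt h1
      apply hu'
      rw [mem_subgroupOf]
      refine hkey (Subgroup.mem_inf.2 ⟨u.2, ?_⟩)
      rw [mem_normalizer_iff] at hu
      rw [hL, mem_normalizer_iff]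
      intro h
      constructor
      · intro hh
        exact (hu ⟨h, hP0N hh⟩).1 hh
      · intro hh
        have hhN : h ∈ N := by
          have e : h = (u : G)⁻¹ * ((u : G) * h * (u : G)⁻¹) * (u : G)⁻¹⁻¹ := by group
          rw [e]
          exact hN.conj_mem _ (hP0N hh) _
        exact (hu ⟨h, hhN⟩).2 hh
    rw [subgroupOf_eq_top] at hNP
    exact hP0p.to_le hNP

/-- Camina's trichotomy -/
theorem trichotomy (hc : Cam N) (hN2 : N ≠ ⊤) :
    (∀ x ∈ N, x ≠ 1 → centralizer ({x} : Set G) ≤ N) ∨ IsPrimePow (Nat.card N) ∨ IsPrimePow N.index := by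
  classical
  by_cases hcop : ∀ p : ℕ, p.Prime → p ∣ Nat.card N → ¬ p ∣ N.index
  · left
    intro x hx hx1 g hg
    by_contra hgN
    have hgx : Commute g x := mem_centralizer_singleton_iff.1 hg
    have ho1 : orderOf (g : G ⧸ N) ≠ 1 := by
      intro h
      exact hgN ((QuotientGroup.eq_one_iff g).1 (orderOf_eq_one_iff.1 h))
    obtain ⟨q, hq, hqo⟩ := Nat.exists_prime_and_dvd ho1
    have hqG : q ∣ N.index := hqo.trans (orderOf_dvd_natCard _)
    have hqN : ¬ q ∣ Nat.card N := fun h => hcop q hq h hqG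
    obtain ⟨a, m, hqm, ham⟩ := Nat.exists_eq_pow_mul_and_not_dvd (orderOf_pos g).ne' q hq.ne_one
    have hm0 : m ≠ 0 := by
      rintro rfl
      exact hqm (dvd_zero _)
    have hg'N : g ^ m ∉ N := by
      intro h
      rw [← QuotientGroup.eq_one_iff, QuotientGroup.mk_pow] at h
      exact hqm (hqo.trans (orderOf_dvd_of_pow_eq_one h))
    have hg'o : orderOf (g ^ m) = q ^ a := by
      rw [orderOf_pow_of_dvd hm0 (by rw [ham]; exact dvd_mul_left _ _), ham,
        Nat.mul_div_cancel _ (Nat.pos_of_ne_zero hm0)]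
    have h1 := pow_orderOf_eq_one' hc hg'N hx (hgx.pow_left m)
    rw [hg'o] at h1
    apply hx1
    have h2 : orderOf x ∣ q ^ a := orderOf_dvd_of_pow_eq_one h1
    have h3 : orderOf x ∣ Nat.card N := by
      rw [← Subgroup.orderOf_mk x hx]
      exact orderOf_dvd_natCard _
    have h4 : Nat.Coprime (q ^ a) (Nat.card N) := Nat.Coprime.pow_left _ ((Nat.Prime.coprime_iff_not_dvd hq).2 hqN)
    have h5 := Nat.dvd_gcd h2 h3
    rw [h4] at h5
    exact orderOf_eq_one_iff.1 (Nat.dvd_one.1 h5)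
  · push Not at hcop
    obtain ⟨p, hp, hpN, hpG⟩ := hcop
    haveI := Fact.mk hp
    right
    by_cases h2 : ∃ q : ℕ, q.Prime ∧ q ≠ p ∧ q ∣ N.index
    · left
      obtain ⟨q, hq, hqp, hqG⟩ := h2
      haveI := Fact.mk hq
      have h3 := isPGroup_of_two_primes hc hqp.symm hpN hpG hqG
      obtain ⟨n, hn⟩ := IsPGroup.iff_card.1 h3
      rw [hn]
      refine hp.isPrimePow.pow ?_
      rintro rfl
      rw [hn, pow_zero] at hpN
      exact hp.one_lt.ne' (Nat.dvd_one.1 hpN)
    · right
      push Not at h2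
      have h3 : N.index = p ^ N.index.primeFactorsList.length :=
        Nat.eq_prime_pow_of_unique_prime_dvd index_ne_zero_of_finite (fun {d} hd hdn => by
          by_contra hne
          exact h2 d hd hne hdn)
      rw [h3]
      refine hp.isPrimePow.pow ?_
      intro h4
      rw [h3, h4, pow_zero] at hpG
      exact hp.one_lt.ne' (Nat.dvd_one.1 hpG)

end

end Cfsg.Agent.H73.Camina
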