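import Mathlib

/-!
Groups critical with respect to a set of element orders: direct products of minimal Frobenius groups.
-/

set_option autoImplicit false
set_option linter.unusedSectionVars false

namespace Cfsg.Agent.H73.CritSet

open Subgroup

/-- the property of the factors -/
structure T (p q : ℕ) (Y : Type) [Group Y] : Prop where
  pow : ∀ g : Y, g ^ p = 1 ∨ g ^ q = 1
  exp : ∃ g : Y, orderOf g = p
  exq : ∃ g : Y, orderOf g = q
  mul : ∀ x y : Y, x ^ p = 1 → y ^ p = 1 → (x * y) ^ p = 1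

theorem eq_one_of_pows {G : Type*} [Group G] {x : G} {m n : ℕ} (hm : x ^ m = 1) (hn : x ^ n = 1)
    (hmn : Nat.Coprime m n) : x = 1 := by
  rw [← orderOf_eq_one_iff]
  exact Nat.eq_one_of_dvd_coprimes hmn (orderOf_dvd_of_pow_eq_one hm) (orderOf_dvd_of_pow_eq_one hn)

section affine

variable {K : Type} [Field K] [Finite K] (U : Subgroup Kˣ)

/-- the affine group with multipliers in `U` -/
def Aff : Subgroup (Equiv.Perm K) where
  carrier := {g | ∃ u ∈ U, ∃ v : K, ∀ x, g x = (u : K) * x + v}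
  one_mem' := ⟨1, one_mem _, 0, fun x => by simp⟩
  mul_mem' := by
    rintro g h ⟨u, hu, v, hg⟩ ⟨u', hu', v', hh⟩
    refine ⟨u * u', mul_mem hu hu', u * v' + v, fun x => ?_⟩
    rw [Equiv.Perm.mul_apply, hh, hg, Units.val_mul]; ring
  inv_mem' := by
    rintro g ⟨u, hu, v, hg⟩
    refine ⟨u⁻¹, inv_mem hu, -(u⁻¹ : Kˣ) * v, fun x => ?_⟩
    rw [Equiv.Perm.inv_eq_iff_eq, hg]
    have : (u : K) * ((u⁻¹ : Kˣ) : K) = 1 := Units.mul_inv u
    linear_combination (v - x) * this

theorem exists_T {p q : ℕ} (hp : p.Prime) (hq : q.Prime) (hpq : p ≠ q) :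
    ∃ (Y : Type) (_ : Group Y) (_ : Fintype Y), T p q Y := by
  classical
  have : Fact p.Prime := ⟨hp⟩
  have : Fact q.Prime := ⟨hq⟩
  have hq1 : q - 1 ≠ 0 := by have := hq.two_le; omega
  let K := GaloisField p (q - 1)
  have hKc : Nat.card K = p ^ (q - 1) := GaloisField.card p (q - 1) hq1
  have : Finite K := inferInstance
  have : Fintype K := Fintype.ofFinite K
  have hchar : CharP K p := inferInstance
  have hdvd : q ∣ Nat.card Kˣ := by
    rw [Nat.card_units, hKc]
    have h1 : (p : ZMod q) ^ (q - 1) = 1 := by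
      apply ZMod.pow_card_sub_one_eq_one
      intro h
      rw [ZMod.natCast_eq_zero_iff] at h
      exact hpq ((Nat.prime_dvd_prime_iff_eq hq hp).mp h).symm
    have h2 : ((p ^ (q - 1) : ℕ) : ZMod q) = ((1 : ℕ) : ZMod q) := by push_cast; exact h1
    rw [ZMod.natCast_eq_natCast_iff] at h2
    exact (Nat.modEq_iff_dvd' (Nat.one_le_pow _ _ hp.pos)).mp h2.symm
  obtain ⟨ζ, hζ⟩ := exists_prime_orderOf_dvd_card' q hdvd
  have hζq : ζ ^ q = 1 := orderOf_dvd_iff_pow_eq_one.mp hζ.dvd
  have hUq : ∀ u ∈ zpowers ζ, u ^ q = 1 := by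
    rintro _ ⟨k, rfl⟩
    show (ζ ^ k) ^ q = 1
    rw [← zpow_natCast, ← zpow_mul, mul_comm, zpow_mul, zpow_natCast, hζq, one_zpow]
  -- powers
  have hpow1 : ∀ (g : Equiv.Perm K) (v : K), (∀ x, g x = x + v) → ∀ n : ℕ, ∀ x, (g ^ n) x = x + n * v := by
    intro g v hg n
    induction n with
    | zero => intro x; simp
    | succ n ih =>
      intro x
      rw [pow_succ', Equiv.Perm.mul_apply, ih, hg]; push_cast; ring
  have hpow2 : ∀ (g : Equiv.Perm K) (u : Kˣ) (v : K), (u : K) ≠ 1 → (∀ x, g x = u * x + v) →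
      ∀ n : ℕ, ∀ x, (g ^ n) x = u ^ n * (x - v / (1 - u)) + v / (1 - u) := by
    intro g u v hu hg n
    have h1 : (1 - (u : K)) ≠ 0 := sub_ne_zero.mpr (Ne.symm hu)
    induction n with
    | zero => intro x; simp
    | succ n ih =>
      intro x
      rw [pow_succ', Equiv.Perm.mul_apply, ih, hg]
      have hc : v = v / (1 - (u : K)) * (1 - (u : K)) := by rw [div_mul_cancel₀ _ h1]
      generalize v / (1 - (u : K)) = c at hc ⊢
      rw [hc]; ring
  have hfin : Finite (Aff (zpowers ζ)) := inferInstance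
  refine ⟨Aff (zpowers ζ), inferInstance, Fintype.ofFinite _, ?_, ?_, ?_, ?_⟩
  · rintro ⟨g, u, hu, v, hg⟩
    by_cases hu1 : (u : K) = 1
    · left
      apply Subtype.ext
      ext x
      show (g ^ p) x = x
      rw [hpow1 g v (fun x => by rw [hg, hu1, one_mul]) p x, CharP.cast_eq_zero, zero_mul, add_zero]
    · right
      apply Subtype.ext
      ext x
      show (g ^ q) x = x
      have h1 : (u : K) ^ q = 1 := by rw [← Units.val_pow_eq_pow_val, hUq u hu, Units.val_one]
      rw [hpow2 g u v hu1 hg q x, h1]; ring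
  · refine ⟨⟨Equiv.addRight (1 : K), 1, one_mem _, 1, fun x => by simp⟩, ?_⟩
    apply orderOf_eq_prime
    · apply Subtype.ext
      ext x
      show ((Equiv.addRight (1 : K)) ^ p) x = x
      rw [hpow1 _ 1 (fun x => rfl) p x, CharP.cast_eq_zero, zero_mul, add_zero]
    · intro h
      have h1 := congrArg (fun g : Aff (zpowers ζ) => (g : Equiv.Perm K) 0) h
      simp at h1
  · refine ⟨⟨Units.mulLeft ζ, ζ, mem_zpowers ζ, 0, fun x => by simp⟩, ?_⟩
    apply orderOf_eq_prime
    · apply Subtype.ext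
      ext x
      have hζ1 : (ζ : K) ≠ 1 := by
        intro h
        have : ζ = 1 := Units.ext h
        rw [this, orderOf_one] at hζ
        exact hq.one_lt.ne hζ
      show ((Units.mulLeft ζ : Equiv.Perm K) ^ q) x = x
      rw [hpow2 _ ζ 0 hζ1 (fun x => by simp) q x]
      have h1 : (ζ : K) ^ q = 1 := by rw [← Units.val_pow_eq_pow_val, hζq, Units.val_one]
      rw [h1]; ring
    · intro h
      have h1 := congrArg (fun g : Aff (zpowers ζ) => (g : Equiv.Perm K) 1) h
      simp at h1
      rw [h1, orderOf_one] at hζ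
      exact hq.one_lt.ne hζ
  · have key : ∀ (g : Aff (zpowers ζ)), g ^ p = 1 → ∃ v : K, ∀ x, (g : Equiv.Perm K) x = x + v := by
      rintro ⟨g, u, hu, v, hg⟩ h
      refine ⟨v, fun x => ?_⟩
      by_cases hu1 : (u : K) = 1
      · show g x = _
        rw [hg, hu1, one_mul]
      · exfalso
        have h1 : (g ^ p) = 1 := congrArg Subtype.val h
        have h2 := hpow2 g u v hu1 hg p
        have h3 : (u : K) ^ p = 1 := by
          have e1 := h2 1
          have e0 := h2 0
          rw [h1] at e1 e0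
          simp only [Equiv.Perm.coe_one, id_eq] at e1 e0
          linear_combination e0 - e1
        have h4 : u ^ p = 1 := Units.ext (by rw [Units.val_pow_eq_pow_val, h3, Units.val_one])
        have h5 := eq_one_of_pows h4 (hUq u hu) ((Nat.coprime_primes hp hq).mpr hpq)
        exact hu1 (by rw [h5, Units.val_one])
    intro x y hx hy
    obtain ⟨v, hv⟩ := key x hx
    obtain ⟨w, hw⟩ := key y hy
    apply Subtype.ext
    ext t
    show (((x : Equiv.Perm K) * y) ^ p) t = t
    rw [hpow1 _ (w + v) (fun x => by rw [Equiv.Perm.mul_apply, hw, hv]; ring) p t, CharP.cast_eq_zero,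
      zero_mul, add_zero]

end affine

/-- sections inherit `T` if they have elements of both orders -/
theorem T.section {p q : ℕ} (hp : p.Prime) (hq : q.Prime) (hpq : p ≠ q) {Y : Type} [Group Y] (hT : T p q Y)
    (H : Subgroup Y) (N : Subgroup H) [N.Normal] (h1 : ∃ g : H ⧸ N, orderOf g = p)
    (h2 : ∃ g : H ⧸ N, orderOf g = q) : T p q (H ⧸ N) := by
  have hcop : Nat.Coprime p q := (Nat.coprime_primes hp hq).mpr hpq
  refine ⟨?_, h1, h2, ?_⟩
  · intro g
    obtain ⟨x, rfl⟩ := QuotientGroup.mk_surjective g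
    rcases hT.pow x with h | h
    · left
      have : x ^ p = 1 := Subtype.ext h
      rw [← QuotientGroup.mk_pow, this]; rfl
    · right
      have : x ^ q = 1 := Subtype.ext h
      rw [← QuotientGroup.mk_pow, this]; rfl
  · have key : ∀ g : H ⧸ N, g ^ p = 1 → ∃ x : H, (x : Y) ^ p = 1 ∧ (QuotientGroup.mk x : H ⧸ N) = g := by
      intro g hg
      obtain ⟨x, rfl⟩ := QuotientGroup.mk_surjective g
      rcases hT.pow x with h | h
      · exact ⟨x, h, rfl⟩
      · refine ⟨1, by simp, ?_⟩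
        have : x ^ q = 1 := Subtype.ext h
        have h3 : (QuotientGroup.mk x : H ⧸ N) ^ q = 1 := by rw [← QuotientGroup.mk_pow, this]; rfl
        rw [eq_one_of_pows hg h3 hcop]; rfl
    intro g k hg hk
    obtain ⟨x, hx, rfl⟩ := key g hg
    obtain ⟨y, hy, rfl⟩ := key k hk
    have h3 : (x * y) ^ p = 1 := Subtype.ext (hT.mul x y hx hy)
    rw [← QuotientGroup.mk_mul, ← QuotientGroup.mk_pow, h3]; rfl

/-- critical groups -/
theorem exists_crit {p q : ℕ} (hp : p.Prime) (hq : q.Prime) (hpq : p ≠ q) :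
    ∃ (Y : Type) (_ : Group Y) (_ : Fintype Y), T p q Y ∧
      ∀ (H : Subgroup Y) (N : Subgroup H) [N.Normal], (H ≠ ⊤ ∨ N ≠ ⊥) →
        ¬ ((∃ g : H ⧸ N, orderOf g = p) ∧ ∃ g : H ⧸ N, orderOf g = q) := by
  classical
  have hex : ∃ n : ℕ, ∃ (Y : Type) (_ : Group Y) (_ : Fintype Y), T p q Y ∧ Nat.card Y = n := by
    obtain ⟨Y, i1, i2, h⟩ := exists_T hp hq hpq
    exact ⟨_, Y, i1, i2, h, rfl⟩
  obtain ⟨Y, i1, i2, hT, hc⟩ := Nat.find_spec hex
  refine ⟨Y, i1, i2, hT, ?_⟩
  intro H N hN hne ⟨h1, h2⟩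
  have h3 := hT.section hp hq hpq H N h1 h2
  have h4 : Nat.card (H ⧸ N) < Nat.find hex := by
    rw [← hc]
    have hHY : Nat.card H ≤ Nat.card Y := Subgroup.card_le_card_group H
    have hHN : Nat.card (H ⧸ N) ≤ Nat.card H := by
      rw [Subgroup.card_eq_card_quotient_mul_card_subgroup N]
      exact Nat.le_mul_of_pos_right _ Nat.card_pos
    rcases hne with h | h
    · have : Nat.card H < Nat.card Y := by
        refine lt_of_le_of_ne hHY fun he => h ?_
        exact Subgroup.eq_top_of_card_eq H he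
      omega
    · have : Nat.card (H ⧸ N) < Nat.card H := by
        rw [Subgroup.card_eq_card_quotient_mul_card_subgroup N]
        have h5 : 1 < Nat.card N := by
          rw [Finite.one_lt_card_iff_nontrivial]
          exact (Subgroup.nontrivial_iff_ne_bot N).mpr h
        have h6 : 0 < Nat.card (H ⧸ N) := Nat.card_pos
        nlinarith
      omega
  exact Nat.find_min hex h4 ⟨H ⧸ N, inferInstance, Fintype.ofFinite _, h3, rfl⟩

end Cfsg.Agent.H73.CritSet
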