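import Cfsg.Agent.H73.CritSet

/-!
Direct products of critical groups.
-/

set_option autoImplicit false
set_option linter.unusedSectionVars false

namespace Cfsg.Agent.H73.CritSet

open Subgroup

theorem T.not_mul {p q : ℕ} (hp : p.Prime) (hq : q.Prime) (hpq : p ≠ q) {Y : Type} [Group Y] (hT : T p q Y) :
    ¬ ∀ x y : Y, x ^ q = 1 → y ^ q = 1 → (x * y) ^ q = 1 := by
  intro h
  have hcop : Nat.Coprime p q := (Nat.coprime_primes hp hq).mpr hpq
  obtain ⟨y, hy⟩ := hT.exp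
  obtain ⟨z, hz⟩ := hT.exq
  have hy1 : y ^ p = 1 := orderOf_dvd_iff_pow_eq_one.mp hy.dvd
  have hz1 : z ^ q = 1 := orderOf_dvd_iff_pow_eq_one.mp hz.dvd
  have hc1 : (y * (z * y⁻¹ * z⁻¹)) ^ p = 1 := by
    apply hT.mul _ _ hy1
    rw [conj_pow, inv_pow, hy1]; simp
  have hc2 : ((y * z * y⁻¹) * z⁻¹) ^ q = 1 := by
    apply h
    · rw [conj_pow, hz1]; simp
    · rw [inv_pow, hz1]; simp
  have hc3 : ((y * z * y⁻¹) * z⁻¹) ^ p = 1 := by
    rw [← hc1]; congr 1; group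
  have hc : (y * z * y⁻¹) * z⁻¹ = 1 := eq_one_of_pows hc3 hc2 hcop
  have hcomm : Commute y z := by
    show y * z = z * y
    rw [mul_inv_eq_one, mul_inv_eq_iff_eq_mul] at hc
    exact hc
  rcases hT.pow (y * z) with h1 | h1
  · rw [hcomm.mul_pow, hy1, one_mul] at h1
    have := eq_one_of_pows h1 hz1 hcop
    rw [this, orderOf_one] at hz
    exact hq.one_lt.ne hz
  · rw [hcomm.mul_pow, hz1, mul_one] at h1
    have := eq_one_of_pows hy1 h1 hcop
    rw [this, orderOf_one] at hy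
    exact hp.one_lt.ne hy

section prod

variable {ι : Type} [Fintype ι] [DecidableEq ι] {P Q : ι → ℕ} (hP : ∀ j, (P j).Prime) (hQ : ∀ j, (Q j).Prime)
  (hPQ : ∀ j, P j ≠ Q j) (hne : ∀ j k, j ≠ k → P j ≠ P k ∧ P j ≠ Q k ∧ Q j ≠ Q k)
  (Y : ι → Type) [∀ j, Group (Y j)] (hT : ∀ j, T (P j) (Q j) (Y j))

include hP hQ hne in
theorem cop_n {j k : ι} (hjk : j ≠ k) : Nat.Coprime (P j * Q j) (P k * Q k) := by
  obtain ⟨h1, h2, h3⟩ := hne j k hjk
  obtain ⟨-, h4, -⟩ := hne k j hjk.symm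
  refine Nat.Coprime.mul_left (Nat.Coprime.mul_right ?_ ?_) (Nat.Coprime.mul_right ?_ ?_)
  · exact (Nat.coprime_primes (hP j) (hP k)).mpr h1
  · exact (Nat.coprime_primes (hP j) (hQ k)).mpr h2
  · exact (Nat.coprime_primes (hQ j) (hP k)).mpr h4.symm
  · exact (Nat.coprime_primes (hQ j) (hQ k)).mpr h3

include hT in
theorem ord_cases {j : ι} (hP : ∀ j, (P j).Prime) (hQ : ∀ j, (Q j).Prime) (y : Y j) :
    orderOf y = 1 ∨ orderOf y = P j ∨ orderOf y = Q j := by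
  rcases (hT j).pow y with h | h
  · rcases (Nat.dvd_prime (hP j)).mp (orderOf_dvd_of_pow_eq_one h) with h' | h'
    · exact Or.inl h'
    · exact Or.inr (Or.inl h')
  · rcases (Nat.dvd_prime (hQ j)).mp (orderOf_dvd_of_pow_eq_one h) with h' | h'
    · exact Or.inl h'
    · exact Or.inr (Or.inr h')

include hT in
theorem ord_dvd {j : ι} (y : Y j) : orderOf y ∣ P j * Q j := by
  rcases (hT j).pow y with h | h
  · exact (orderOf_dvd_of_pow_eq_one h).trans (dvd_mul_right _ _)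
  · exact (orderOf_dvd_of_pow_eq_one h).trans (dvd_mul_left _ _)

include hP hQ hne hT in
theorem ord_pi (x : ∀ j, Y j) : orderOf x = ∏ j, orderOf (x j) := by
  apply Nat.dvd_antisymm
  · apply orderOf_dvd_of_pow_eq_one
    funext j
    rw [Pi.pow_apply, Pi.one_apply, ← orderOf_dvd_iff_pow_eq_one]
    exact Finset.dvd_prod_of_mem _ (Finset.mem_univ j)
  · apply Fintype.prod_dvd_of_isRelPrime
    · intro j k hjk
      exact Nat.coprime_iff_isRelPrime.mp (Nat.Coprime.coprime_dvd_left (ord_dvd Y hT (x j))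
        (Nat.Coprime.coprime_dvd_right (ord_dvd Y hT (x k)) (cop_n hP hQ hne hjk)))
    · intro j
      apply orderOf_dvd_of_pow_eq_one
      rw [← Pi.pow_apply, pow_orderOf_eq_one, Pi.one_apply]

include hP hQ hne hT in
theorem range_ord : Set.range (orderOf : (∀ j, Y j) → ℕ) =
    {m : ℕ | ∃ c : ι → ℕ, (∀ j, c j = 1 ∨ c j = P j ∨ c j = Q j) ∧ m = ∏ j, c j} := by
  ext m
  constructor
  · rintro ⟨x, rfl⟩
    exact ⟨fun j => orderOf (x j), fun j => ord_cases Y hT hP hQ (x j), ord_pi hP hQ hne Y hT x⟩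
  · rintro ⟨c, hc, rfl⟩
    have : ∀ j, ∃ y : Y j, orderOf y = c j := by
      intro j
      rcases hc j with h | h | h
      · exact ⟨1, by rw [orderOf_one, h]⟩
      · rw [h]; exact (hT j).exp
      · rw [h]; exact (hT j).exq
    choose x hx using this
    refine ⟨x, ?_⟩
    rw [ord_pi hP hQ hne Y hT x]
    exact Finset.prod_congr rfl fun j _ => hx j

include hP hQ hne in
theorem exists_e (j : ι) : ∃ e : ℕ, e ≡ 1 [MOD P j * Q j] ∧ ∀ k, k ≠ j → P k * Q k ∣ e := by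
  have hc : Nat.Coprime (P j * Q j) (∏ k ∈ Finset.univ.erase j, P k * Q k) := by
    apply Nat.Coprime.prod_right
    intro k hk
    exact cop_n hP hQ hne (Finset.ne_of_mem_erase hk).symm
  obtain ⟨e, h1, h2⟩ := Nat.chineseRemainder hc 1 0
  refine ⟨e, h1, fun k hk => ?_⟩
  rw [Nat.modEq_zero_iff_dvd] at h2
  exact (Finset.dvd_prod_of_mem (fun k => P k * Q k) (Finset.mem_erase.mpr ⟨hk, Finset.mem_univ k⟩)).trans h2

include hT in
theorem pow_e {j : ι} {e : ℕ} (h1 : e ≡ 1 [MOD P j * Q j]) (h2 : ∀ k, k ≠ j → P k * Q k ∣ e)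
    (x : ∀ j, Y j) : x ^ e = Pi.mulSingle j (x j) := by
  funext k
  rw [Pi.pow_apply]
  by_cases hk : k = j
  · subst hk
    rw [Pi.mulSingle_eq_same]
    have : x k ^ e = x k ^ 1 := by
      rw [pow_eq_pow_iff_modEq]
      exact Nat.ModEq.of_dvd (ord_dvd Y hT (x k)) h1
    rw [this, pow_one]
  · rw [Pi.mulSingle_eq_of_ne hk]
    exact orderOf_dvd_iff_pow_eq_one.mp ((ord_dvd Y hT (x k)).trans (h2 k hk))

include hP hQ hne hT in
theorem crit (hcr : ∀ j, ∀ (H : Subgroup (Y j)) (N : Subgroup H) [N.Normal], (H ≠ ⊤ ∨ N ≠ ⊥) →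
      ¬ ((∃ g : H ⧸ N, orderOf g = P j) ∧ ∃ g : H ⧸ N, orderOf g = Q j))
    (H : Subgroup (∀ j, Y j)) (N : Subgroup H) [N.Normal] (hHN : H ≠ ⊤ ∨ N ≠ ⊥) :
    Set.range (orderOf : (H ⧸ N) → ℕ) ≠
      {m : ℕ | ∃ c : ι → ℕ, (∀ j, c j = 1 ∨ c j = P j ∨ c j = Q j) ∧ m = ∏ j, c j} := by
  intro hR
  choose e he1 he2 using exists_e hP hQ hne
  have hpe : ∀ j, ∀ x : ∀ j, Y j, x ^ (e j) = Pi.mulSingle j (x j) := fun j x => pow_e Y hT (he1 j) (he2 j) x
  have hmemH : ∀ x ∈ H, ∀ j, Pi.mulSingle j (x j) ∈ H := by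
    intro x hx j
    rw [← hpe j x]; exact pow_mem hx _
  -- the projections of `H` and `N`
  have key : ∀ j, (H.comap (MonoidHom.mulSingle Y j) = ⊤) ∧
      (∀ y : Y j, ∀ hy : Pi.mulSingle j y ∈ H, (⟨Pi.mulSingle j y, hy⟩ : H) ∈ N → y = 1) := by
    intro j
    let Hj : Subgroup (Y j) := H.comap (MonoidHom.mulSingle Y j)
    let φ : Hj →* H :=
      { toFun := fun y => ⟨Pi.mulSingle j (y : Y j), y.2⟩
        map_one' := Subtype.ext (Pi.mulSingle_one j)
        map_mul' := fun a b => Subtype.ext (Pi.mulSingle_mul j (a : Y j) (b : Y j)) }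
    let Nj : Subgroup Hj := N.comap φ
    have hNj : Nj.Normal := inferInstance
    let ψ : Hj ⧸ Nj →* H ⧸ N := QuotientGroup.map Nj N φ le_rfl
    have hψ : Function.Injective ψ := by
      rw [injective_iff_map_eq_one]
      intro a ha
      obtain ⟨y, rfl⟩ := QuotientGroup.mk_surjective a
      have h1 : (QuotientGroup.mk (φ y) : H ⧸ N) = 1 := ha
      rw [QuotientGroup.eq_one_iff] at h1 ⊢
      exact h1
    have hord : ∀ r : ℕ, r ∣ P j * Q j → (r ∈ Set.range (orderOf : (H ⧸ N) → ℕ)) → ∃ g : Hj ⧸ Nj, orderOf g = r := by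
      rintro r hr ⟨g, rfl⟩
      obtain ⟨x, rfl⟩ := QuotientGroup.mk_surjective g
      have hx := hmemH x x.2 j
      refine ⟨QuotientGroup.mk ⟨(x : ∀ j, Y j) j, hx⟩, ?_⟩
      rw [← orderOf_injective ψ hψ]
      congr 1
      have h1 : (QuotientGroup.mk x : H ⧸ N) ^ (e j) = (QuotientGroup.mk x : H ⧸ N) ^ 1 := by
        rw [pow_eq_pow_iff_modEq]
        exact Nat.ModEq.of_dvd hr (he1 j)
      rw [pow_one] at h1
      rw [← h1, ← QuotientGroup.mk_pow]
      show (QuotientGroup.mk (φ ⟨(x : ∀ j, Y j) j, hx⟩) : H ⧸ N) = _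
      congr 1
      apply Subtype.ext
      show Pi.mulSingle j ((x : ∀ j, Y j) j) = (x : ∀ j, Y j) ^ (e j)
      rw [hpe]
    have hr1 : P j ∈ Set.range (orderOf : (H ⧸ N) → ℕ) := by
      rw [hR]
      refine ⟨fun k => if k = j then P j else 1, fun k => ?_, ?_⟩
      · by_cases hk : k = j
        · subst hk; simp
        · simp [hk]
      · rw [Finset.prod_ite_eq' Finset.univ j (fun _ => P j)]; simp
    have hr2 : Q j ∈ Set.range (orderOf : (H ⧸ N) → ℕ) := by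
      rw [hR]
      refine ⟨fun k => if k = j then Q j else 1, fun k => ?_, ?_⟩
      · by_cases hk : k = j
        · subst hk; simp
        · simp [hk]
      · rw [Finset.prod_ite_eq' Finset.univ j (fun _ => Q j)]; simp
    have h3 := hord _ (dvd_mul_right _ _) hr1
    have h4 := hord _ (dvd_mul_left _ _) hr2
    have h5 : ¬ (Hj ≠ ⊤ ∨ Nj ≠ ⊥) := fun h => hcr j Hj Nj h ⟨h3, h4⟩
    push Not at h5
    refine ⟨h5.1, fun y hy hyN => ?_⟩
    have h6 : (⟨y, hy⟩ : Hj) ∈ Nj := hyN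
    rw [h5.2, Subgroup.mem_bot] at h6
    exact congrArg Subtype.val h6
  have hHtop : H = ⊤ := by
    rw [eq_top_iff]
    intro x _
    apply Subgroup.pi_mem_of_mulSingle_mem
    intro j
    have h1 : x j ∈ H.comap (MonoidHom.mulSingle Y j) := by rw [(key j).1]; trivial
    exact h1
  have hNbot : N = ⊥ := by
    rw [eq_bot_iff]
    intro x hx
    rw [Subgroup.mem_bot]
    apply Subtype.ext
    funext j
    have h1 := hmemH x x.2 j
    apply (key j).2 _ h1
    have h2 : (⟨Pi.mulSingle j ((x : ∀ j, Y j) j), h1⟩ : H) = x ^ (e j) := by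
      apply Subtype.ext
      show Pi.mulSingle j ((x : ∀ j, Y j) j) = (x : ∀ j, Y j) ^ (e j)
      rw [hpe]
    rw [h2]; exact pow_mem hx _
  rcases hHN with h | h
  · exact h hHtop
  · exact h hNbot

include hP hQ hne hT in
theorem mul_P (j : ι) (x y : ∀ j, Y j) (hx : x ^ (P j) = 1) (hy : y ^ (P j) = 1) : (x * y) ^ (P j) = 1 := by
  have key : ∀ z : ∀ j, Y j, z ^ (P j) = 1 → ∀ k, k ≠ j → z k = 1 := by
    intro z hz k hk
    have h1 : (z k) ^ (P j) = 1 := congrFun hz k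
    have h2 : (z k) ^ (P k * Q k) = 1 := orderOf_dvd_iff_pow_eq_one.mp (ord_dvd Y hT (z k))
    exact eq_one_of_pows h1 h2 (Nat.Coprime.coprime_dvd_left (dvd_mul_right _ _) (cop_n hP hQ hne hk.symm))
  funext k
  by_cases hk : k = j
  · subst hk
    exact (hT k).mul _ _ (congrFun hx k) (congrFun hy k)
  · rw [Pi.pow_apply, Pi.mul_apply, key x hx k hk, key y hy k hk]; simp

include hT in
theorem not_mul_Q (hP : ∀ j, (P j).Prime) (hQ : ∀ j, (Q j).Prime) (hPQ : ∀ j, P j ≠ Q j) (j : ι) :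
    ¬ ∀ x y : ∀ j, Y j, x ^ (Q j) = 1 → y ^ (Q j) = 1 → (x * y) ^ (Q j) = 1 := by
  intro h
  apply (hT j).not_mul (hP j) (hQ j) (hPQ j)
  intro x y hx hy
  have h1 := h (Pi.mulSingle j x) (Pi.mulSingle j y) (by rw [← Pi.mulSingle_pow, hx, Pi.mulSingle_one])
    (by rw [← Pi.mulSingle_pow, hy, Pi.mulSingle_one])
  rw [← Pi.mulSingle_mul, ← Pi.mulSingle_pow] at h1
  have h2 := congrFun h1 j
  rwa [Pi.mulSingle_eq_same] at h2

end prod

end Cfsg.Agent.H73.CritSet
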