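import Mathlib
import Cfsg.Agent.FStar.Layer
import Cfsg.Agent.FStar.AxB
import Cfsg.Agent.FStar.PComp
import Cfsg.Agent.Bal.PQ
import Cfsg.Agent.H50.PAut
import Cfsg.Agent.H17.Basic
import Cfsg.Agent.H72.Basic
import Cfsg.Agent.Transfer.NPC
import Cfsg.Agent.Transfer.SmallSylow

/-!
Groups with a cyclic Sylow `p`-subgroup and trivial `p'`-core.
-/

set_option autoImplicit false
set_option linter.unusedSectionVars false

namespace Cfsg.Agent.H73.CycSyl

open Subgroup

/-- the action of an element normalizing a cyclic `p`-group -/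
theorem key {G : Type*} [Group G] [Finite G] {p : ℕ} [hp : Fact p.Prime] {P : Subgroup G} (hP : IsPGroup p P)
    (hc : IsCyclic P) {g z : G} (hg : g ∈ normalizer (P : Set G)) (hz : z ∈ P) (hzo : orderOf z = p) :
    (∃ m : ℕ, g ^ p ^ m ∈ centralizer (P : Set G) ∧ g * z = z * g) ∨
    (g * z ≠ z * g ∧ ∃ x ∈ P, P ≤ zpowers (g * x * g⁻¹ * x⁻¹)) := by
  obtain ⟨⟨x, hx⟩, hgen⟩ := hc.exists_generator
  have hgen' : ∀ y ∈ P, ∃ n : ℤ, x ^ n = y := by
    intro y hy
    obtain ⟨n, hn⟩ := mem_zpowers_iff.mp (hgen ⟨y, hy⟩)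
    exact ⟨n, congrArg Subtype.val hn⟩
  obtain ⟨n, hn⟩ := IsPGroup.iff_card.mp hP
  have hxo : orderOf x = p ^ n := by
    rw [← hn, ← orderOf_eq_card_of_forall_mem_zpowers hgen, ← Subgroup.orderOf_coe]
  obtain ⟨k, hk⟩ := hgen' _ ((mem_normalizer_iff.mp hg x).mp hx)
  have hcx : ∀ m : ℤ, g * x ^ m * g⁻¹ = x ^ (k * m) := by
    intro m
    rw [← conj_zpow, ← hk, ← zpow_mul]
  by_cases hpk : (p : ℤ) ∣ k - 1
  · left
    refine ⟨n, ?_, ?_⟩
    · have h1 : ∀ i : ℕ, g ^ i * x * (g ^ i)⁻¹ = x ^ (k ^ i) := by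
        intro i
        induction i with
        | zero => simp
        | succ i ih =>
          have : g ^ (i + 1) * x * (g ^ (i + 1))⁻¹ = g * (g ^ i * x * (g ^ i)⁻¹) * g⁻¹ := by
            rw [pow_succ']; group
          rw [this, ih, hcx, pow_succ']
      have h2 := h1 (p ^ n)
      have h3 : (p ^ (n + 1) : ℤ) ∣ k ^ p ^ n - 1 ^ p ^ n := by
        have := dvd_sub_pow_of_dvd_sub (R := ℤ) (p := p) (a := k) (b := 1) hpk n
        exact this
      have h4 : x ^ (k ^ p ^ n) = x := by
        have h5 : (orderOf x : ℤ) ∣ k ^ p ^ n - 1 := by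
          rw [hxo]
          rw [one_pow] at h3
          push_cast
          exact (pow_dvd_pow (p : ℤ) (Nat.le_succ n)).trans h3
        have h6 : x ^ (k ^ p ^ n - 1) = 1 := orderOf_dvd_iff_zpow_eq_one.mp h5
        have h7 : k ^ p ^ n = (k ^ p ^ n - 1) + 1 := by ring
        rw [h7, zpow_add, h6, one_mul, zpow_one]
      rw [h4] at h2
      have h5 : g ^ p ^ n * x = x * g ^ p ^ n := by
        calc g ^ p ^ n * x = g ^ p ^ n * x * (g ^ p ^ n)⁻¹ * g ^ p ^ n := by group
          _ = x * g ^ p ^ n := by rw [h2]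
      rw [mem_centralizer_iff]
      intro y hy
      obtain ⟨m, rfl⟩ := hgen' y hy
      exact ((show Commute (g ^ p ^ n) x from h5).zpow_right m).eq.symm
    · obtain ⟨m, rfl⟩ := hgen' z hz
      obtain ⟨t, ht⟩ := hpk
      have h1 := hcx m
      have h2 : k * m = m + m * (p * t) := by
        have : k = 1 + p * t := by linarith
        rw [this]; ring
      rw [h2, zpow_add, zpow_mul x m, zpow_mul (x ^ m) p, zpow_natCast (x ^ m) p] at h1
      have h3 : (x ^ m) ^ p = 1 := by rw [← hzo]; exact pow_orderOf_eq_one _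
      rw [h3, one_zpow, mul_one] at h1
      calc g * x ^ m = g * x ^ m * g⁻¹ * g := by group
        _ = x ^ m * g := by rw [h1]
  · right
    refine ⟨fun hgz => ?_, x, hx, ?_⟩
    · apply hpk
      obtain ⟨m, hm⟩ := hgen' z hz
      have h1 := hcx m
      have h2 : g * x ^ m * g⁻¹ = x ^ m := by rw [hm, hgz]; group
      rw [h2, mul_comm k m, zpow_mul, hm] at h1
      rw [← hzo, orderOf_dvd_iff_zpow_eq_one, zpow_sub, zpow_one, ← h1, mul_inv_cancel]
    have h1 : g * x * g⁻¹ * x⁻¹ = x ^ (k - 1) := by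
      rw [← hk, zpow_sub, zpow_one]
    rw [h1]
    have hcop : IsCoprime (k - 1) ((p : ℤ) ^ n) := by
      apply IsCoprime.pow_right
      rw [isCoprime_comm]
      exact (Prime.coprime_iff_not_dvd (Nat.prime_iff_prime_int.mp hp.out)).mpr hpk
    obtain ⟨a, b, hab⟩ := hcop
    have hxm : x ∈ zpowers (x ^ (k - 1)) := by
      refine ⟨a, ?_⟩
      show (x ^ (k - 1)) ^ a = x
      rw [← zpow_mul]
      have h2 : (k - 1) * a = 1 - b * (p : ℤ) ^ n := by linarith
      have h3 : x ^ (b * (p : ℤ) ^ n) = 1 := by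
        have h4 : (p : ℤ) ^ n = ((p ^ n : ℕ) : ℤ) := by push_cast; rfl
        rw [mul_comm, h4, zpow_mul, zpow_natCast, ← hxo, pow_orderOf_eq_one, one_zpow]
      rw [h2, zpow_sub, h3, zpow_one, inv_one, mul_one]
    intro y hy
    obtain ⟨m, rfl⟩ := hgen' y hy
    exact zpow_mem hxm m

theorem exists_orderOf {G : Type*} [Group G] [Finite G] {p : ℕ} [hp : Fact p.Prime] {H : Subgroup G}
    (h : p ∣ Nat.card H) : ∃ z ∈ H, orderOf z = p := by
  obtain ⟨⟨z, hz⟩, hzo⟩ := exists_prime_orderOf_dvd_card' p h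
  exact ⟨z, hz, by rw [← hzo, ← Subgroup.orderOf_coe]⟩

theorem comm_of_cyclic {G : Type*} [Group G] {P : Subgroup G} (hc : IsCyclic P) :
    P ≤ centralizer (P : Set G) := by
  have hcc := hc.isMulCommutative
  intro x hx
  rw [mem_centralizer_iff]
  intro y hy
  exact congrArg Subtype.val (hcc.is_comm.comm (⟨y, hy⟩ : P) ⟨x, hx⟩)

/-- elements of the normalizer of a cyclic Sylow subgroup -/
theorem mem_centralizer_of_sylow {G : Type*} [Group G] [Finite G] {p : ℕ} [hp : Fact p.Prime] {P : Sylow p G}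
    (hc : IsCyclic P) {g : G} (hg : g ∈ normalizer ((P : Subgroup G) : Set G))
    {m : ℕ} (hm : g ^ p ^ m ∈ centralizer ((P : Subgroup G) : Set G)) :
    g ∈ centralizer ((P : Subgroup G) : Set G) := by
  set N := normalizer ((P : Subgroup G) : Set G) with hN
  set C := centralizer ((P : Subgroup G) : Set G) with hC
  have hPC : (P : Subgroup G) ≤ C := comm_of_cyclic hc
  have hCN : C ≤ N := centralizer_le_normalizer _
  have hn : (C.subgroupOf N).Normal := by
    rw [hC, hN, ← normalizerMonoidHom_ker]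
    infer_instance
  have h1 : (C.subgroupOf N).index ∣ (P : Subgroup G).index := by
    have h2 : C.relIndex N ∣ (P : Subgroup G).relIndex N := relIndex_dvd_of_le_left N hPC
    exact h2.trans (relIndex_dvd_index_of_le (hPC.trans hCN))
  have h2 := Subgroup.pow_index_mem (C.subgroupOf N) ⟨g, hg⟩
  have h3 : g ^ (C.subgroupOf N).index ∈ C := h2
  have hcop : Nat.Coprime (C.subgroupOf N).index (p ^ m) := by
    apply Nat.Coprime.pow_right
    rw [Nat.coprime_comm, Nat.Prime.coprime_iff_not_dvd hp.out]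
    intro h4
    exact P.not_dvd_index (h4.trans h1)
  have h4 := (Nat.isCoprime_iff_coprime.mpr hcop)
  obtain ⟨a, b, hab⟩ := h4
  have h5 : g = (g ^ (C.subgroupOf N).index) ^ a * (g ^ p ^ m) ^ b := by
    rw [← zpow_natCast, ← zpow_natCast, ← zpow_mul, ← zpow_mul, ← zpow_add,
      mul_comm ((C.subgroupOf N).index : ℤ), mul_comm ((p ^ m : ℕ) : ℤ), hab, zpow_one]
  rw [h5]
  exact mul_mem (zpow_mem h3 a) (zpow_mem hm b)

/-- NPC criterion 1 -/
theorem hasNPC_of_central {G : Type*} [Group G] [Finite G] {p : ℕ} [hp : Fact p.Prime] {P : Sylow p G}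
    (hc : IsCyclic P) {z : G} (hz : z ∈ P) (hzo : orderOf z = p) (hzc : z ∈ center G) :
    Cfsg.HasNormalPComplement p G := by
  apply Transfer.hasNPC_of_normalizer_le_centralizer P
  intro g hg
  rcases key P.2 hc hg hz hzo with ⟨m, hm, -⟩ | ⟨h, -⟩
  · exact mem_centralizer_of_sylow hc hg hm
  · exact absurd (mem_center_iff.mp hzc g) h

/-- Case A: nontrivial `O_p`. -/
theorem caseA {K : Type*} [Group K] [Finite K] {p : ℕ} [hp : Fact p.Prime]
    (hO : Cfsg.pPrimeCore p K = ⊥) (P : Sylow p K) (hP : IsCyclic ↥(P : Subgroup K))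
    (hne : Cfsg.pCore p K ≠ ⊥) :
    (P : Subgroup K).Normal ∧ Subgroup.centralizer ((P : Subgroup K) : Set K) = (P : Subgroup K) ∧
      (∀ (_ : (P : Subgroup K).Normal), IsCyclic (K ⧸ (P : Subgroup K))) ∧ (P : Subgroup K).index ∣ p - 1 := by
  have hOP : Cfsg.pCore p K ≤ (P : Subgroup K) := H72.pCore_le_sylow P
  have hpO : IsPGroup p (Cfsg.pCore p K) := Solv.pCore_isPGroup p
  have hdvd : p ∣ Nat.card (Cfsg.pCore p K) := by
    obtain ⟨n, hn⟩ := IsPGroup.iff_card.mp hpO
    rw [hn]
    apply dvd_pow_self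
    rintro rfl
    rw [pow_zero] at hn
    exact hne (Subgroup.card_eq_one.mp hn)
  obtain ⟨z, hzO, hzo⟩ := exists_orderOf hdvd
  have hzP : z ∈ (P : Subgroup K) := hOP hzO
  have hOn : (Cfsg.pCore p K).Normal := inferInstance
  -- `⟨z⟩` is normal
  have hZn : (zpowers z).Normal := by
    constructor
    intro y hy g
    obtain ⟨m, rfl⟩ := mem_zpowers_iff.mp hy
    have h1 : g * z * g⁻¹ ∈ (P : Subgroup K) := hOP (hOn.conj_mem z hzO g)
    have h2 : orderOf (g * z * g⁻¹) = p := by
      rw [← hzo]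
      exact orderOf_injective (MulAut.conj g).toMonoidHom (MulAut.conj g).injective z
    have h3 : (zpowers (⟨g * z * g⁻¹, h1⟩ : (P : Subgroup K))) = zpowers (⟨z, hzP⟩ : (P : Subgroup K)) := by
      apply H50.eq_of_card_eq_of_cyclic
      rw [Nat.card_zpowers, Nat.card_zpowers, ← Subgroup.orderOf_coe, ← Subgroup.orderOf_coe]
      exact h2.trans hzo.symm
    have h4 : (⟨g * z * g⁻¹, h1⟩ : (P : Subgroup K)) ∈ zpowers (⟨z, hzP⟩ : (P : Subgroup K)) := by
      rw [← h3]; exact mem_zpowers _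
    obtain ⟨t, ht⟩ := mem_zpowers_iff.mp h4
    have h5 : z ^ t = g * z * g⁻¹ := congrArg Subtype.val ht
    rw [← conj_zpow, ← h5]
    exact zpow_mem (zpow_mem (mem_zpowers z) t) m
  -- the centralizer
  set C := centralizer (zpowers z : Set K) with hCdef
  have hCn : C.Normal := inferInstance
  have hPC : (P : Subgroup K) ≤ C := by
    intro x hx
    rw [hCdef, mem_centralizer_iff]
    rintro _ ⟨m, rfl⟩
    have h1 := mem_centralizer_iff.mp (comm_of_cyclic hP hx) z hzP
    exact ((show Commute z x from h1).zpow_left m).eq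
  have hCz : ∀ c ∈ C, c * z = z * c := fun c hc => (mem_centralizer_iff.mp hc z (mem_zpowers z)).symm
  have hzC : z ∈ C := hPC hzP
  let P' : Sylow p C := P.subtype hPC
  have hcP' : IsCyclic P' := by
    have : (P' : Subgroup C) = (P : Subgroup K).subgroupOf C := rfl
    show IsCyclic (P' : Subgroup C)
    rw [this]
    exact isCyclic_of_surjective (subgroupOfEquivOfLe hPC).symm (subgroupOfEquivOfLe hPC).symm.surjective
  have hnpc : Cfsg.HasNormalPComplement p C := by
    refine hasNPC_of_central hcP' (z := ⟨z, hzC⟩) (show z ∈ (P : Subgroup K) from hzP) ?_ ?_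
    · rw [← hzo, ← Subgroup.orderOf_coe]
    · rw [mem_center_iff]
      rintro ⟨c, hc⟩
      exact Subtype.ext (hCz c hc)
  obtain ⟨P₀, H, hH, hHP⟩ := hnpc
  have hHcop : (Nat.card H).Coprime p := by
    have h1 := hHP.index_eq_card
    rw [Nat.coprime_comm, Nat.Prime.coprime_iff_not_dvd hp.out]
    intro h2
    exact P₀.not_dvd_index (by rw [h1]; exact h2)
  have hHbot : H = ⊥ := by
    have h1 := Bal.pPrimeCore_subnormal_eq_bot hO (hCn.isSubnormal)
    rw [eq_bot_iff, ← h1]
    exact FStar.le_pPrimeCore_of_isSubnormal hH.isSubnormal hHcop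
  have hCP : C = (P : Subgroup K) := by
    symm
    apply Subgroup.eq_of_le_of_card_ge hPC
    have h1 := hHP.card_mul_card
    rw [hHbot, card_bot, one_mul] at h1
    rw [← h1]
    have h2 : Nat.card P₀ = Nat.card P' := by
      rw [P₀.card_eq_multiplicity, P'.card_eq_multiplicity]
    have h3 : Nat.card P' = Nat.card P := Nat.card_congr (subgroupOfEquivOfLe hPC).toEquiv
    exact (h2.trans h3).le
  have hnP : (P : Subgroup K).Normal := hCP ▸ hCn
  refine ⟨hnP, ?_, ?_, ?_⟩
  · apply le_antisymm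
    · rw [← hCP, hCdef]
      apply centralizer_le
      rw [← hCdef, hCP]
      exact (zpowers_le).mpr hzP
    · exact comm_of_cyclic hP
  · intro hn
    have hZc : Nat.card (zpowers z) = p := by rw [Nat.card_zpowers, hzo]
    have e := IsCyclic.mulAutMulEquiv (zpowers z)
    rw [hZc] at e
    let φ : K →* MulAut (zpowers z) := MulAut.conjNormal
    have hker : φ.ker = (P : Subgroup K) := by
      rw [← hCP, hCdef]
      ext g
      rw [MonoidHom.mem_ker, mem_centralizer_iff]
      constructor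
      · intro h y hy
        have h1 := congrArg (fun f : MulAut (zpowers z) => ((f ⟨y, hy⟩ : zpowers z) : K)) h
        have h2 : g * y * g⁻¹ = y := h1
        rw [mul_inv_eq_iff_eq_mul] at h2
        exact h2.symm
      · intro h
        ext y
        show g * y * g⁻¹ = y
        rw [← h y y.2]; group
    have hcyc : IsCyclic (MulAut (zpowers z)) := by
      have : IsCyclic (ZMod p)ˣ := inferInstance
      exact isCyclic_of_surjective e.symm e.symm.surjective
    have e2 : K ⧸ (P : Subgroup K) ≃* φ.range :=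
      (QuotientGroup.quotientMulEquivOfEq hker.symm).trans (QuotientGroup.quotientKerEquivRange φ)
    exact isCyclic_of_surjective e2.symm e2.symm.surjective
  · have h1 := H17.relIndex_dvd_of_card_prime hp.out (zpowers z) (by rw [Nat.card_zpowers, hzo])
    rw [normalizer_eq_top (zpowers z), relIndex_top_right, ← hCdef, hCP] at h1
    exact h1

theorem fitting_eq_bot {K : Type*} [Group K] [Finite K] {p : ℕ} [hp : Fact p.Prime]
    (hO : Cfsg.pPrimeCore p K = ⊥) (hne : Cfsg.pCore p K = ⊥) : Cfsg.fittingSubgroup K = ⊥ := by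
  rw [Solv.fitting_eq_iSup_pCore, iSup_eq_bot]
  intro q
  have : Fact (Nat.Prime (q : ℕ)) := ⟨q.2⟩
  by_cases hq : (q : ℕ) = p
  · rw [hq]; exact hne
  · rw [eq_bot_iff, ← hO]
    exact FStar.pCore_le_pPrimeCore_of_ne hq

/-- commuting elements of order `p` with trivially meeting cyclic groups contradict cyclic Sylow subgroups -/
theorem false_of_commuting {K : Type*} [Group K] [Finite K] {p : ℕ} [hp : Fact p.Prime]
    (P : Sylow p K) (hP : IsCyclic ↥(P : Subgroup K)) {x y : K} (hx : orderOf x = p) (hy : orderOf y = p)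
    (hxy : x * y = y * x) {A B : Subgroup K} (hA : x ∈ A) (hB : y ∈ B) (hAB : A ⊓ B = ⊥) : False := by
  have hz : IsPGroup p (closure ({x, y} : Set K)) := by
    have hc : IsMulCommutative (closure ({x, y} : Set K)) := by
      apply Subgroup.isMulCommutative_closure
      rintro a (rfl | rfl) b (rfl | rfl)
      · rfl
      · exact hxy
      · exact hxy.symm
      · rfl
    intro ⟨w, hw⟩
    refine ⟨1, ?_⟩
    rw [pow_one]
    apply Subtype.ext
    show w ^ p = 1
    induction hw using Subgroup.closure_induction with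
    | mem w hw =>
      rcases hw with rfl | rfl
      · rw [← hx]; exact pow_orderOf_eq_one _
      · rw [← hy]; exact pow_orderOf_eq_one _
    | one => exact one_pow _
    | mul u v hu hv hu' hv' =>
      have h1 : Commute u v := congrArg Subtype.val (hc.is_comm.comm
        (⟨u, hu⟩ : closure ({x, y} : Set K)) ⟨v, hv⟩)
      rw [h1.mul_pow, hu', hv', one_mul]
    | inv u _ hu => rw [inv_pow, hu, inv_one]
  obtain ⟨Q, hQ⟩ := hz.exists_le_sylow
  have hQc : IsCyclic Q := isCyclic_of_surjective (Sylow.equiv P Q) (Sylow.equiv P Q).surjective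
  have hxQ : x ∈ (Q : Subgroup K) := hQ (subset_closure (Or.inl rfl))
  have hyQ : y ∈ (Q : Subgroup K) := hQ (subset_closure (Or.inr rfl))
  have h1 : zpowers (⟨x, hxQ⟩ : (Q : Subgroup K)) = zpowers (⟨y, hyQ⟩ : (Q : Subgroup K)) := by
    apply H50.eq_of_card_eq_of_cyclic
    rw [Nat.card_zpowers, Nat.card_zpowers, ← Subgroup.orderOf_coe, ← Subgroup.orderOf_coe]
    exact hx.trans hy.symm
  have h2 : (⟨x, hxQ⟩ : (Q : Subgroup K)) ∈ zpowers (⟨y, hyQ⟩ : (Q : Subgroup K)) := by
    rw [← h1]; exact mem_zpowers _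
  obtain ⟨t, ht⟩ := mem_zpowers_iff.mp h2
  have h3 : y ^ t = x := congrArg Subtype.val ht
  have h4 : x ∈ A ⊓ B := ⟨hA, by rw [← h3]; exact zpow_mem hB t⟩
  rw [hAB, mem_bot] at h4
  rw [h4, orderOf_one] at hx
  exact hp.out.one_lt.ne hx

/-- Case B -/
theorem caseB {K : Type*} [Group K] [Finite K] {p : ℕ} [hp : Fact p.Prime] (hpK : p ∣ Nat.card K)
    (hO : Cfsg.pPrimeCore p K = ⊥) (P : Sylow p K) (hP : IsCyclic ↥(P : Subgroup K))
    (hne : Cfsg.pCore p K = ⊥) :
    IsSimpleGroup ↥(Cfsg.generalizedFittingSubgroup K) ∧ ¬ IsMulCommutative ↥(Cfsg.generalizedFittingSubgroup K) ∧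
      ¬ p ∣ (Cfsg.generalizedFittingSubgroup K).index := by
  have hF := fitting_eq_bot hO hne
  have hFs : Cfsg.generalizedFittingSubgroup K = Cfsg.layer K := by
    show Cfsg.layer K ⊔ Cfsg.fittingSubgroup K = Cfsg.layer K
    rw [hF, sup_bot_eq]
  have hlne : Cfsg.layer K ≠ ⊥ := by
    intro h
    have h1 := FStar.centralizer_generalizedFitting_le (G := K)
    rw [hFs, h] at h1
    have h2 : centralizer ((⊥ : Subgroup K) : Set K) = ⊤ := by
      rw [eq_top_iff]
      intro x _
      rw [mem_centralizer_iff]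
      intro y hy
      rw [(mem_bot.mp hy)]; simp
    rw [h2] at h1
    have h3 : (⊤ : Subgroup K) = ⊥ := le_bot_iff.mp h1
    have h4 : Nat.card K = 1 := by rw [← card_top, h3, card_bot]
    rw [h4] at hpK
    exact hp.out.one_lt.ne' (Nat.dvd_one.mp hpK)
  obtain ⟨L, hL⟩ : ∃ L : Subgroup K, Cfsg.IsComponent L := by
    by_contra hcon
    push Not at hcon
    apply hlne
    show sSup {K' : Subgroup K | Cfsg.IsComponent K'} = ⊥
    rw [sSup_eq_bot]
    intro M hM
    exact absurd hM (hcon M)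
  have hpd : ∀ M : Subgroup K, Cfsg.IsComponent M → p ∣ Nat.card M := by
    intro M hM
    by_contra hnd
    have h1 := FStar.le_pPrimeCore_of_isSubnormal (p := p) hM.1
      ((Nat.Prime.coprime_iff_not_dvd hp.out).mpr hnd).symm
    rw [hO] at h1
    exact FStar.ne_bot hM.2 (le_bot_iff.mp h1)
  have hEn : (Cfsg.layer K).Normal := by
    have : (Cfsg.generalizedFittingSubgroup K).Normal := inferInstance
    rwa [hFs] at this
  -- center of the layer
  have hZE : Cfsg.layer K ⊓ centralizer (Cfsg.layer K : Set K) = ⊥ := by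
    rw [eq_bot_iff, ← hF]
    apply Solv.le_fitting
    · have : (centralizer (Cfsg.layer K : Set K)).Normal := inferInstance
      infer_instance
    · have hcomm : IsMulCommutative ↥(Cfsg.layer K ⊓ centralizer (Cfsg.layer K : Set K)) := by
        refine ⟨⟨fun a b => Subtype.ext ?_⟩⟩
        exact (mem_centralizer_iff.mp b.2.2 a a.2.1)
      let _ : CommGroup ↥(Cfsg.layer K ⊓ centralizer (Cfsg.layer K : Set K)) :=
        { (inferInstance : Group ↥(Cfsg.layer K ⊓ centralizer (Cfsg.layer K : Set K))) with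
          mul_comm := hcomm.is_comm.comm }
      exact CommGroup.isNilpotent (G := ↥(Cfsg.layer K ⊓ centralizer (Cfsg.layer K : Set K)))
  -- uniqueness of the component
  have hZL : ∀ M : Subgroup K, Cfsg.IsComponent M → M ⊓ centralizer (M : Set K) = ⊥ := by
    intro M hM
    rw [eq_bot_iff, ← hZE]
    rintro x ⟨hxM, hxC⟩
    refine ⟨FStar.component_le_layer hM hxM, ?_⟩
    have h1 := FStar.map_center_layer (G := K)
    have h2 : (center ↥M).map M.subtype ≤ (center ↥(Cfsg.layer K)).map (Cfsg.layer K).subtype := by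
      rw [h1]
      exact le_iSup (fun L : {K' : Subgroup K // Cfsg.IsComponent K'} =>
        (center ↥(L : Subgroup K)).map (L : Subgroup K).subtype) ⟨M, hM⟩
    rw [FStar.map_center_subtype, FStar.map_center_subtype] at h2
    exact (h2 ⟨hxM, hxC⟩).2
  have huniq : ∀ M : Subgroup K, Cfsg.IsComponent M → M = L := by
    intro M hM
    by_contra hML
    have hcm := FStar.component_commute hM hL hML
    obtain ⟨x, hxM, hxo⟩ := exists_orderOf (hpd M hM)
    obtain ⟨y, hyL, hyo⟩ := exists_orderOf (hpd L hL)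
    have hxy : x * y = y * x := FStar.commutator_eq_bot_iff_forall.mp hcm x hxM y hyL
    refine false_of_commuting P hP hxo hyo hxy hxM hyL ?_
    rw [eq_bot_iff, ← hZL L hL]
    rintro w ⟨hwM, hwL⟩
    refine ⟨hwL, mem_centralizer_iff.mpr ?_⟩
    intro v hv
    exact (FStar.commutator_eq_bot_iff_forall.mp hcm w hwM v hv).symm
  have hEL : Cfsg.layer K = L := by
    apply le_antisymm
    · show sSup {K' : Subgroup K | Cfsg.IsComponent K'} ≤ L
      apply sSup_le
      intro M hM
      exact (huniq M hM).le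
    · exact FStar.component_le_layer hL
  have hLn : L.Normal := hEL ▸ hEn
  rw [hFs, hEL]
  have hcen : center L = ⊥ := by
    have h1 := FStar.map_center_subtype L
    rw [hZL L hL] at h1
    exact (Subgroup.map_eq_bot_iff_of_injective _ L.subtype_injective).mp h1
  have hLnt : Nontrivial L := FStar.nontrivial_of_isQuasisimple hL.2
  have hLs : IsSimpleGroup L := by
    have h1 : IsSimpleGroup (L ⧸ center L) := hL.2.2
    have e : L ⧸ center L ≃* L :=
      (QuotientGroup.quotientMulEquivOfEq hcen).trans QuotientGroup.quotientBot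
    exact IsSimpleGroup.isSimpleGroup_of_surjective e.toMonoidHom e.surjective
  have hLnc : ¬ IsMulCommutative L := by
    intro h
    have h1 : center L = ⊤ := by
      rw [eq_top_iff]
      intro x _
      rw [mem_center_iff]
      intro y
      exact h.is_comm.comm y x
    rw [hcen] at h1
    exact bot_ne_top h1
  refine ⟨hLs, hLnc, ?_⟩
  -- index
  intro hdi
  obtain ⟨z, hzP, hzo⟩ := exists_orderOf (P.dvd_card_of_dvd_card hpK)
  have hPL : ¬ (P : Subgroup K) ≤ L := by
    intro h
    exact P.not_dvd_index (hdi.trans (index_dvd_of_le h))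
  have hPM : (P : Subgroup K) ≤ L ⊔ (P : Subgroup K) := le_sup_right
  let P' : Sylow p ↥(L ⊔ (P : Subgroup K)) := P.subtype hPM
  have hcP' : IsCyclic P' := by
    show IsCyclic ((P : Subgroup K).subgroupOf (L ⊔ (P : Subgroup K)))
    exact isCyclic_of_surjective (subgroupOfEquivOfLe hPM).symm (subgroupOfEquivOfLe hPM).symm.surjective
  have hnpc : Cfsg.HasNormalPComplement p ↥(L ⊔ (P : Subgroup K)) := by
    apply Transfer.hasNPC_of_normalizer_le_centralizer P'
    intro g hg
    rcases key P'.2 hcP' hg (z := ⟨z, hPM hzP⟩) (show z ∈ (P : Subgroup K) from hzP)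
      (by rw [← Subgroup.orderOf_coe]; exact hzo) with ⟨m, hm, -⟩ | ⟨-, x, hx, h⟩
    · exact mem_centralizer_of_sylow hcP' hg hm
    · exfalso
      apply hPL
      have hxP : (x : K) ∈ (P : Subgroup K) := hx
      have hcomm : (g : K) * x * (g : K)⁻¹ * (x : K)⁻¹ ∈ L := by
        have hg2 := g.2
        rw [mem_sup_of_normal_left] at hg2
        obtain ⟨l, hl, y, hy, hly⟩ := hg2
        have hyx : y * x = x * y := (mem_centralizer_iff.mp (comm_of_cyclic hP hxP) y hy)
        have h1 : (g : K) * x * (g : K)⁻¹ * (x : K)⁻¹ = l * (x * l⁻¹ * (x : K)⁻¹) := by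
          rw [← hly]
          calc l * y * (x : K) * (l * y)⁻¹ * (x : K)⁻¹ = l * (y * x) * y⁻¹ * l⁻¹ * (x : K)⁻¹ := by group
            _ = l * (x * y) * y⁻¹ * l⁻¹ * (x : K)⁻¹ := by rw [hyx]
            _ = l * (x * l⁻¹ * (x : K)⁻¹) := by group
        rw [h1]
        exact mul_mem hl (hLn.conj_mem _ (inv_mem hl) _)
      intro w hw
      have h2 : (⟨w, hPM hw⟩ : ↥(L ⊔ (P : Subgroup K))) ∈ zpowers (g * x * g⁻¹ * x⁻¹) :=
        h (show w ∈ (P : Subgroup K) from hw)
      obtain ⟨t, ht⟩ := mem_zpowers_iff.mp h2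
      have h3 : ((g : K) * x * (g : K)⁻¹ * (x : K)⁻¹) ^ t = w := congrArg Subtype.val ht
      rw [← h3]
      exact zpow_mem hcomm t
  have hnL : Cfsg.HasNormalPComplement p L := Transfer.HasNPC.of_injective hnpc
    (inclusion (le_sup_left : L ≤ L ⊔ (P : Subgroup K))) (inclusion_injective _)
  refine Transfer.not_hasNPC_of_isSimpleGroup ?_ (hpd L hL) hnL
  by_contra hcon
  push Not at hcon
  exact hLnc ⟨⟨hcon⟩⟩

end Cfsg.Agent.H73.CycSyl
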