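import Cfsg.Agent.H73.DihEl
import Cfsg.Agent.H68.Basic

set_option autoImplicit false

/-! # The Thompson dihedral lemma for groups of automorphisms, and involutory automorphisms of `p`-groups (helper73) -/

namespace Cfsg.Agent.H73.DihAut

open Subgroup

variable {P : Type*} [Group P]

/-- the Thompson dihedral lemma for an elementary abelian 2-group of automorphisms. -/
theorem exists_elements [Finite P] (hs : Group.IsSolvable P) (hodd : Odd (Nat.card P)) (I : Subgroup (MulAut P))
    (hI : Cfsg.IsElementaryAbelian 2 I) (d : ℕ) (hd : Nat.card ↥I = 2 ^ d) :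
    ∃ (T : Fin d → MulAut P) (y : Fin d → P), (∀ i, T i ∈ I) ∧ closure (Set.range T) = I ∧
      (∀ i, (orderOf (y i)).Prime) ∧ (∀ i, T i (y i) = (y i)⁻¹) ∧ (∀ i j, i ≠ j → T j (y i) = y i) ∧
      ∀ i j, y i * y j = y j * y i := by
  classical
  have hfin : Finite (MulAut P) := inferInstance
  let Γ := P ⋊[I.subtype] I
  have hfinΓ : Finite Γ := Finite.of_equiv _ (SemidirectProduct.equivProd (φ := I.subtype)).symm
  let L : Subgroup Γ := (SemidirectProduct.inl : P →* Γ).range
  let A : Subgroup Γ := (SemidirectProduct.inr : I →* Γ).range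
  have hconj : ∀ (g : I) (x : P), (SemidirectProduct.inr g : Γ) * SemidirectProduct.inl x * (SemidirectProduct.inr g : Γ)⁻¹ =
      SemidirectProduct.inl ((g : MulAut P) x) := by
    intro g x
    rw [← map_inv]
    exact (SemidirectProduct.inl_aut (φ := I.subtype) g x).symm
  have hLc : Nat.card L = Nat.card P :=
    (Nat.card_congr (MonoidHom.ofInjective (SemidirectProduct.inl_injective (φ := I.subtype))).toEquiv).symm
  have hAc : Nat.card A = Nat.card I :=
    (Nat.card_congr (MonoidHom.ofInjective (SemidirectProduct.inr_injective (φ := I.subtype))).toEquiv).symm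
  have hLs : Group.IsSolvable L := by
    have := hs
    exact Group.isSolvable_of_surjective (f := (SemidirectProduct.inl : P →* Γ).rangeRestrict)
      (MonoidHom.rangeRestrict_surjective _)
  have hA : Cfsg.IsElementaryAbelian 2 A := by
    refine ⟨⟨⟨?_⟩⟩, ?_⟩
    · rintro ⟨_, a, rfl⟩ ⟨_, b, rfl⟩
      apply Subtype.ext
      change (SemidirectProduct.inr a : Γ) * SemidirectProduct.inr b = SemidirectProduct.inr b * SemidirectProduct.inr a
      rw [← map_mul, ← map_mul, hI.1.is_comm.comm a b]
    · rintro _ ⟨a, rfl⟩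
      rw [← map_pow]
      have : a ^ 2 = 1 := Subtype.ext (hI.2 a a.2)
      rw [this, map_one]
  have hLn : L = (SemidirectProduct.rightHom : Γ →* I).ker := SemidirectProduct.range_inl_eq_ker_rightHom
  have hLnormal : L.Normal := by rw [hLn]; infer_instance
  have hAL : A ≤ Subgroup.normalizer (L : Set Γ) := by
    rw [Subgroup.normalizer_eq_top]; exact le_top
  have hfaith : A ⊓ Subgroup.centralizer (L : Set Γ) = ⊥ := by
    rw [eq_bot_iff]
    rintro _ ⟨⟨a, rfl⟩, ha⟩
    rw [mem_bot]
    have : a = 1 := by
      apply Subtype.ext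
      apply MulEquiv.ext
      intro x
      have h1 : (SemidirectProduct.inl x : Γ) * SemidirectProduct.inr a = SemidirectProduct.inr a * SemidirectProduct.inl x :=
        mem_centralizer_iff.1 ha _ ⟨x, rfl⟩
      have h2 := hconj a x
      rw [← h1, mul_inv_cancel_right] at h2
      exact (SemidirectProduct.inl_injective (φ := I.subtype) h2).symm
    rw [this, map_one]
  obtain ⟨b, y, hbA, hcl, hy, hinv, hcom, hyy⟩ := DihEl.exists_elements L A hLs (by rw [hLc]; exact hodd) hA d
    (by rw [hAc]; exact hd) hAL hfaith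
  choose T hT using hbA
  choose z hz using fun i => (hy i).1
  have hzo : ∀ i, orderOf (z i) = orderOf (y i) := by
    intro i
    rw [← hz i]
    exact (orderOf_injective (SemidirectProduct.inl : P →* Γ) SemidirectProduct.inl_injective (z i)).symm
  refine ⟨fun i => (T i : MulAut P), z, fun i => (T i).2, ?_, ?_, ?_, ?_, ?_⟩
  · have h1 : closure (Set.range T) = ⊤ := by
      apply Subgroup.map_injective (SemidirectProduct.inr_injective (φ := I.subtype))
      rw [MonoidHom.map_closure, ← MonoidHom.range_eq_map]
      have : (⇑(SemidirectProduct.inr : I →* Γ) '' Set.range T) = Set.range b := by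
        rw [← Set.range_comp]
        congr 1
        funext i
        exact hT i
      rw [this, hcl]
    have h2 : Set.range (fun i => (T i : MulAut P)) = I.subtype '' Set.range T := by
      rw [← Set.range_comp]; rfl
    rw [h2, ← MonoidHom.map_closure, h1, ← MonoidHom.range_eq_map, Subgroup.range_subtype]
  · intro i; rw [hzo]; exact (hy i).2
  · intro i
    apply SemidirectProduct.inl_injective (φ := I.subtype)
    rw [← hconj, hT i, hz i, map_inv, hz i]
    exact hinv i
  · intro i j hij
    apply SemidirectProduct.inl_injective (φ := I.subtype)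
    rw [← hconj, hT j, hz i, hcom i j hij, mul_inv_cancel_right]
  · intro i j
    apply SemidirectProduct.inl_injective (φ := I.subtype)
    rw [map_mul, map_mul, hz, hz]
    exact hyy i j

/-- in a cyclic `p`-group every element of order `p` lies in every nontrivial subgroup -/
theorem mem_zpowers_of_cyclic {C : Type*} [Group C] [Finite C] [IsCyclic C] {p : ℕ} (hp : p.Prime) (hC : IsPGroup p C)
    {x y : C} (hx : x ≠ 1) (hy : orderOf y = p) : y ∈ zpowers x := by
  apply Cfsg.Agent.H68.mem_zpowers_of_orderOf_dvd
  rw [hy]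
  have := Fact.mk hp
  obtain ⟨k, hk⟩ := IsPGroup.iff_orderOf.1 hC x
  rw [hk]
  have : k ≠ 0 := by
    rintro rfl
    rw [pow_zero] at hk
    exact hx (orderOf_eq_one_iff.1 hk)
  exact dvd_pow_self p this

theorem mem_zpowers_of_mem_zpowers [Finite P] {p : ℕ} (hp : p.Prime) (hP : IsPGroup p P) {g x y : P}
    (hxg : x ∈ zpowers g) (hyg : y ∈ zpowers g) (hx : x ≠ 1) (hy : orderOf y = p) : y ∈ zpowers x := by
  have h1 : (⟨y, hyg⟩ : zpowers g) ∈ zpowers (⟨x, hxg⟩ : zpowers g) :=
    mem_zpowers_of_cyclic hp (hP.to_subgroup _) (fun h => hx (congrArg Subtype.val h)) (by rw [Subgroup.orderOf_mk]; exact hy)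
  obtain ⟨k, hk⟩ := h1
  exact ⟨k, congrArg Subtype.val hk⟩

end Cfsg.Agent.H73.DihAut
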