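import Cfsg.Agent.H23.ThompsonDih

set_option autoImplicit false

/-! # Element form of the Thompson dihedral lemma (helper73) -/

namespace Cfsg.Agent.H73.DihEl

open Subgroup Cfsg.Agent.H23.TD

variable {G : Type*} [Group G]

/-- the Thompson dihedral lemma with elements of prime order. -/
theorem exists_elements [Finite G] (L A : Subgroup G) (hLs : Group.IsSolvable ↥L)
    (hLodd : Odd (Nat.card ↥L)) (hA : Cfsg.IsElementaryAbelian 2 A) (d : ℕ)
    (hAd : Nat.card ↥A = 2 ^ d) (hAL : A ≤ Subgroup.normalizer (L : Set G))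
    (hfaith : A ⊓ Subgroup.centralizer (L : Set G) = ⊥) :
    ∃ b y : Fin d → G, (∀ i, b i ∈ A) ∧ closure (Set.range b) = A ∧ (∀ i, y i ∈ L ∧ (orderOf (y i)).Prime) ∧
      (∀ i, b i * y i * (b i)⁻¹ = (y i)⁻¹) ∧ (∀ i j, i ≠ j → b j * y i = y i * b j) ∧
      ∀ i j, y i * y j = y j * y i := by
  classical
  have hA2 : ∀ a ∈ A, a * a = 1 := fun a ha => by rw [← pow_two]; exact hA.2 a ha
  have hAc : ∀ a ∈ A, ∀ b ∈ A, a * b = b * a := fun a ha b hb => by
    have := hA.1.is_comm.comm (⟨a, ha⟩ : ↥A) ⟨b, hb⟩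
    exact congrArg Subtype.val this
  have hAL' : ∀ a ∈ A, ∀ x ∈ L, a * x * a⁻¹ ∈ L := fun a ha x hx => (mem_normalizer_iff.1 (hAL ha) x).1 hx
  set F := fittingOf L with hF
  have hFL : F ≤ L := BG.fittingOf_le L
  have hFnil : Group.IsNilpotent F := BG.fittingOf_isNilpotent L
  have hFodd : Odd (Nat.card F) := Odd.of_dvd_nat hLodd (card_dvd_of_le hFL)
  have hAF : ∀ a ∈ A, ∀ x ∈ F, a * x * a⁻¹ ∈ F := fun a ha x hx =>
    (mem_normalizer_iff.1 ((hAL.trans (BG.normalizer_le_normalizer_fittingOf L)) ha) x).1 hx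
  have hLF : ∀ l ∈ L, ∀ x ∈ F, l * x * l⁻¹ ∈ F := fun a ha x hx =>
    (mem_normalizer_iff.1 (BG.le_normalizer_fittingOf L ha) x).1 hx
  obtain ⟨M, hMF, hMc, hMn, hMA, hMC⟩ := exists_abelian hFnil hAF hA2 hAc
  have hModd : Odd (Nat.card M) := Odd.of_dvd_nat hFodd (card_dvd_of_le hMF)
  have hfM : ∀ a ∈ A, (∀ x ∈ M, a * x = x * a) → a = 1 := by
    intro a ha hax
    have h1 := faith_step (hA2 a ha) (hAF a ha) hMn hMC hModd hax
    have h2 := faith_step (hA2 a ha) (hAL' a ha) hLF (BG.inf_centralizer_fittingOf_le hLs) hFodd h1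
    have h3 : a ∈ A ⊓ Subgroup.centralizer (L : Set G) :=
      mem_inf.2 ⟨ha, mem_centralizer_iff.2 fun l hl => (h2 l hl).symm⟩
    rw [hfaith, mem_bot] at h3
    exact h3
  obtain ⟨k, b, y, hk, hbA, hcl, hy, hinvt, hcom, -⟩ :=
    abelian_part hMc hModd hMA hA2 hAc hfM (Nat.card A) A le_rfl le_rfl
  have hkd : k = d := Nat.pow_right_injective le_rfl (hk.symm.trans hAd)
  subst hkd
  have hq : ∀ i, ∃ q : ℕ, q.Prime ∧ q ∣ orderOf (y i) := fun i =>
    Nat.exists_prime_and_dvd (fun h => (hy i).2 (orderOf_eq_one_iff.1 h))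
  choose q hqp hqd using hq
  refine ⟨b, fun i => y i ^ (orderOf (y i) / q i), hbA, hcl, ?_, ?_, ?_, ?_⟩
  · intro i
    refine ⟨pow_mem (hFL (hMF (hy i).1)) _, ?_⟩
    have h0 : orderOf (y i) ≠ 0 := (orderOf_pos (y i)).ne'
    have h1 : orderOf (y i ^ (orderOf (y i) / q i)) = q i := orderOf_pow_orderOf_div h0 (hqd i)
    rw [h1]
    exact hqp i
  · intro i
    have h1 : b i * y i ^ (orderOf (y i) / q i) * (b i)⁻¹ = (b i * y i * (b i)⁻¹) ^ (orderOf (y i) / q i) :=
      (conj_pow).symm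
    rw [h1, hinvt i, inv_pow]
  · intro i j hij
    exact ((Commute.pow_right (hcom i j hij : Commute (b j) (y i)) _)).eq
  · intro i j
    exact (Commute.pow_pow (hMc _ (hy i).1 _ (hy j).1 : Commute (y i) (y j)) _ _).eq

/-- an element of odd order which equals its inverse is trivial -/
theorem eq_one_of_inv {x : G} (h : x = x⁻¹) (hodd : Odd (orderOf x)) : x = 1 := by
  have h1 : x ^ 2 = 1 := by
    rw [pow_two]
    nth_rewrite 2 [h]
    exact mul_inv_cancel x
  have h2 : orderOf x ∣ 2 := orderOf_dvd_of_pow_eq_one h1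
  rcases (Nat.dvd_prime Nat.prime_two).1 h2 with h | h
  · exact orderOf_eq_one_iff.1 h
  · rw [h] at hodd; exact absurd hodd (by decide)

/-- faithfulness on the `y i`. -/
theorem faithful_elements {A : Subgroup G} (hA : Cfsg.IsElementaryAbelian 2 A) {d : ℕ} {b y : Fin d → G}
    (hbA : ∀ i, b i ∈ A) (hcl : closure (Set.range b) = A) (hodd : ∀ i, Odd (orderOf (y i))) (hy1 : ∀ i, y i ≠ 1)
    (hinv : ∀ i, b i * y i * (b i)⁻¹ = (y i)⁻¹) (hcom : ∀ i j, i ≠ j → b j * y i = y i * b j)
    {a : G} (ha : a ∈ A) (hay : ∀ i, a * y i = y i * a) : a = 1 := by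
  classical
  have hA2 : ∀ a ∈ A, a * a = 1 := fun a ha => by rw [← pow_two]; exact hA.2 a ha
  letI : CommGroup A := { (inferInstance : Group A) with mul_comm := fun x y => hA.1.is_comm.comm x y }
  let β : Fin d → A := fun i => ⟨b i, hbA i⟩
  have hgen : ∀ a ∈ closure (Set.range b), ∃ e : Fin d → ℕ, a = ((∏ i, β i ^ e i : A) : G) := by
    intro a ha
    have haA : a ∈ A := by rw [← hcl]; exact ha
    induction ha using Subgroup.closure_induction with
    | mem x hx =>
      obtain ⟨i, rfl⟩ := hx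
      refine ⟨fun j => if j = i then 1 else 0, ?_⟩
      have : (∏ j, β j ^ (if j = i then 1 else 0) : A) = β i := by
        rw [Finset.prod_eq_single i]
        · rw [if_pos rfl, pow_one]
        · intro j _ hj
          rw [if_neg hj, pow_zero]
        · intro h; exact absurd (Finset.mem_univ i) h
      rw [this]
    | one => exact ⟨fun _ => 0, by simp⟩
    | mul x z hx hz ihx ihz =>
      obtain ⟨e, he⟩ := ihx (by rw [← hcl]; exact hx)
      obtain ⟨f, hf⟩ := ihz (by rw [← hcl]; exact hz)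
      refine ⟨fun i => e i + f i, ?_⟩
      have : (∏ i, β i ^ (e i + f i) : A) = (∏ i, β i ^ e i) * ∏ i, β i ^ f i := by
        rw [← Finset.prod_mul_distrib]
        exact Finset.prod_congr rfl fun i _ => pow_add _ _ _
      rw [this, Subgroup.coe_mul, ← he, ← hf]
    | inv x hx ihx =>
      have hxA : x ∈ A := by rw [← hcl]; exact hx
      obtain ⟨e, he⟩ := ihx hxA
      refine ⟨e, ?_⟩
      rw [← he]
      exact (eq_inv_of_mul_eq_one_left (hA2 x hxA)).symm
  obtain ⟨e, he⟩ := hgen a (by rw [hcl]; exact ha)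
  have hcomβ : ∀ i j, i ≠ j → ∀ n : ℕ, Commute ((β j ^ n : A) : G) (y i) := by
    intro i j hij n
    rw [Subgroup.coe_pow]
    exact Commute.pow_left (hcom i j hij : Commute (b j) (y i)) n
  have heven : ∀ j, β j ^ e j = 1 := by
    intro j
    have h1 : (∏ i, β i ^ e i : A) = (∏ i ∈ Finset.univ.erase j, β i ^ e i) * β j ^ e j := by
      rw [mul_comm]
      exact (Finset.mul_prod_erase Finset.univ _ (Finset.mem_univ j)).symm
    have h2 : Commute (((∏ i ∈ Finset.univ.erase j, β i ^ e i : A)) : G) (y j) := by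
      have h3 : ∀ s : Finset (Fin d), j ∉ s → Commute (((∏ i ∈ s, β i ^ e i : A)) : G) (y j) := by
        intro s
        induction s using Finset.induction_on with
        | empty => intro _; simp
        | insert i s his ih =>
          intro hj
          rw [Finset.prod_insert his, Subgroup.coe_mul]
          rw [Finset.mem_insert, not_or] at hj
          exact (hcomβ j i hj.1 _).mul_left (ih hj.2)
      exact h3 _ (Finset.notMem_erase j _)
    have h4 : Commute ((β j ^ e j : A) : G) (y j) := by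
      have h5 : a = (((∏ i ∈ Finset.univ.erase j, β i ^ e i : A)) : G) * ((β j ^ e j : A) : G) := by
        rw [he, h1, Subgroup.coe_mul]
      have h6 : ((β j ^ e j : A) : G) = (((∏ i ∈ Finset.univ.erase j, β i ^ e i : A)) : G)⁻¹ * a := by
        rw [h5, inv_mul_cancel_left]
      rw [h6]
      exact h2.inv_left.mul_left (hay j)
    have hβ2 : β j ^ 2 = 1 := Subtype.ext (by
      rw [Subgroup.coe_pow, Subgroup.coe_one, pow_two]
      exact hA2 _ (hbA j))
    rcases Nat.even_or_odd' (e j) with ⟨c, hc | hc⟩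
    · rw [hc, pow_mul, hβ2, one_pow]
    · exfalso
      have h7 : β j ^ e j = β j := by rw [hc, pow_succ, pow_mul, hβ2, one_pow, one_mul]
      rw [h7] at h4
      have h8 : b j * y j = y j * b j := h4
      have h9 := hinv j
      rw [h8, mul_inv_cancel_right] at h9
      exact hy1 j (eq_one_of_inv h9 (hodd j))
  rw [he]
  have : (∏ i, β i ^ e i : A) = 1 := Finset.prod_eq_one fun i _ => heven i
  rw [this, Subgroup.coe_one]

end Cfsg.Agent.H73.DihEl
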