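import Mathlib
import Cfsg.Prelude.Def_CaseTheorems
import Cfsg.Agent.Extra.Unique
import Cfsg.Agent.H48.Extraspecial

/-!
Extraspecial 2-groups: number of solutions of `x ^ 2 = 1`, isomorphism, ranks.
-/

set_option autoImplicit false
set_option linter.unusedSectionVars false

namespace Cfsg.Agent.H73.ExSp2

open scoped Pointwise commutatorElement
open Cfsg Cfsg.Agent.Extra

universe u v

/-- The number of solutions of `x ^ 2 = 1`. -/
noncomputable def sq (P : Type*) [Group P] : ℕ := Nat.card {x : P // x ^ 2 = 1}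

section

variable {P : Type u} [Group P]

theorem comm_pow_pow {x y : P} {c : P} (hx : Commute c x) (hy : Commute c y) (i j : ℕ) :
    Commute c (x ^ i * y ^ j) := (hx.pow_right i).mul_right (hy.pow_right j)

/-- Normal form. -/
theorem exists_fin (h : GES 2 P) {x y : P} (hxy : ⁅x, y⁆ ≠ 1) (g : P) :
    ∃ (i j : Fin 2) (c : pairCent x y), x ^ (i : ℕ) * y ^ (j : ℕ) * c = g := by
  obtain ⟨i, j, hij⟩ := h.exists_pow_mul_pow hxy g
  have hZ : ∀ z ∈ Subgroup.center P, z ∈ pairCent x y := fun z hz =>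
    ⟨Subgroup.center_le_centralizer _ hz, Subgroup.center_le_centralizer _ hz⟩
  have hx2 : x ^ 2 ∈ Subgroup.center P := h.pow_mem_center x
  have hy2 : y ^ 2 ∈ Subgroup.center P := h.pow_mem_center y
  set u := (x ^ 2) ^ (i / 2) with hu
  set w := (y ^ 2) ^ (j / 2) with hw
  have huc : u ∈ Subgroup.center P := Subgroup.pow_mem _ hx2 _
  have hwc : w ∈ Subgroup.center P := Subgroup.pow_mem _ hy2 _
  have hxi : x ^ i = x ^ (i % 2) * u := by
    rw [hu, ← pow_mul, ← pow_add, Nat.mod_add_div]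
  have hyj : y ^ j = y ^ (j % 2) * w := by
    rw [hw, ← pow_mul, ← pow_add, Nat.mod_add_div]
  refine ⟨⟨i % 2, Nat.mod_lt _ (by norm_num)⟩, ⟨j % 2, Nat.mod_lt _ (by norm_num)⟩,
    ⟨u * w * ((x ^ i * y ^ j)⁻¹ * g), mul_mem (mul_mem (hZ _ huc) (hZ _ hwc)) hij⟩, ?_⟩
  show x ^ (i % 2) * y ^ (j % 2) * (u * w * ((x ^ i * y ^ j)⁻¹ * g)) = g
  have h1 : x ^ (i % 2) * y ^ (j % 2) * (u * w) = x ^ i * y ^ j := by
    rw [hxi, hyj]
    have h2 : u * y ^ (j % 2) = y ^ (j % 2) * u := ((Subgroup.mem_center_iff.mp huc) _).symm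
    calc x ^ (i % 2) * y ^ (j % 2) * (u * w) = x ^ (i % 2) * (y ^ (j % 2) * u) * w := by group
      _ = x ^ (i % 2) * u * (y ^ (j % 2) * w) := by rw [← h2]; group
  calc x ^ (i % 2) * y ^ (j % 2) * (u * w * ((x ^ i * y ^ j)⁻¹ * g))
      = (x ^ (i % 2) * y ^ (j % 2) * (u * w)) * ((x ^ i * y ^ j)⁻¹ * g) := by group
    _ = g := by rw [h1]; group

/-- The normal form map. -/
def nf (x y : P) : (Fin 2 × Fin 2) × pairCent x y → P :=
  fun t => x ^ (t.1.1 : ℕ) * y ^ (t.1.2 : ℕ) * t.2

theorem nf_bijective [Finite P] (h : GES 2 P) {x y : P} (hxy : ⁅x, y⁆ ≠ 1) :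
    Function.Bijective (nf x y) := by
  classical
  have := Fintype.ofFinite P
  rw [Fintype.bijective_iff_surjective_and_card]
  constructor
  · intro g
    obtain ⟨i, j, c, hc⟩ := exists_fin h hxy g
    exact ⟨((i, j), c), hc⟩
  · have h1 := h.card_eq hxy
    rw [Nat.card_eq_fintype_card, Nat.card_eq_fintype_card] at h1
    rw [h1, Fintype.card_prod, Fintype.card_prod, Fintype.card_fin]
    ring

theorem nf_sq {x y : P} (t : (Fin 2 × Fin 2) × pairCent x y) :
    (nf x y t) ^ 2 = (x ^ (t.1.1 : ℕ) * y ^ (t.1.2 : ℕ)) ^ 2 * (t.2 : P) ^ 2 := by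
  have hcx : Commute (t.2 : P) x := Subgroup.mem_centralizer_singleton_iff.mp t.2.2.1
  have hcy : Commute (t.2 : P) y := Subgroup.mem_centralizer_singleton_iff.mp t.2.2.2
  exact (comm_pow_pow hcx hcy _ _).symm.mul_pow 2

theorem card_sq_aux [Finite P] (h : GES 2 P) {x y : P} (hxy : ⁅x, y⁆ ≠ 1) :
    sq P = ∑ i : Fin 2, ∑ j : Fin 2,
      Nat.card {c : pairCent x y // (x ^ (i : ℕ) * y ^ (j : ℕ)) ^ 2 * (c : P) ^ 2 = 1} := by
  classical
  have e1 : {t : (Fin 2 × Fin 2) × pairCent x y //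
      (x ^ (t.1.1 : ℕ) * y ^ (t.1.2 : ℕ)) ^ 2 * (t.2 : P) ^ 2 = 1} ≃ {g : P // g ^ 2 = 1} := by
    refine (Equiv.ofBijective _ (nf_bijective h hxy)).subtypeEquiv ?_
    intro t
    rw [Equiv.ofBijective_apply, nf_sq t]
  have e2 : (Σ ij : Fin 2 × Fin 2, {c : pairCent x y //
      (x ^ (ij.1 : ℕ) * y ^ (ij.2 : ℕ)) ^ 2 * (c : P) ^ 2 = 1}) ≃
      {t : (Fin 2 × Fin 2) × pairCent x y //
      (x ^ (t.1.1 : ℕ) * y ^ (t.1.2 : ℕ)) ^ 2 * (t.2 : P) ^ 2 = 1} :=
    { toFun := fun s => ⟨(s.1, s.2.1), s.2.2⟩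
      invFun := fun t => ⟨t.1.1, ⟨t.1.2, t.2⟩⟩
      left_inv := fun _ => rfl
      right_inv := fun _ => rfl }
  rw [sq, ← Nat.card_congr (e2.trans e1), Nat.card_sigma, Fintype.sum_prod_type]

theorem card_sq [Finite P] (h : GES 2 P) {x y : P} (hxy : ⁅x, y⁆ ≠ 1) :
    sq P = Nat.card {c : pairCent x y // (c : P) ^ 2 = 1} +
      Nat.card {c : pairCent x y // y ^ 2 * (c : P) ^ 2 = 1} +
      (Nat.card {c : pairCent x y // x ^ 2 * (c : P) ^ 2 = 1} +
      Nat.card {c : pairCent x y // (x ^ 2 * y ^ 2 * ⁅y, x⁆) * (c : P) ^ 2 = 1}) := by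
  rw [card_sq_aux h hxy]
  simp only [Fin.sum_univ_two, Fin.val_zero, Fin.val_one, pow_zero, pow_one, one_mul, mul_one,
    one_pow]
  rw [h.sq_mul x y]

theorem card_ne [Finite P] (h : GES 2 P) (C : Subgroup P) {w : P} (hw : w ∈ Subgroup.center P)
    (hw1 : w ≠ 1) :
    Nat.card {c : C // w * (c : P) ^ 2 = 1} + Nat.card {c : C // (c : P) ^ 2 = 1} =
      Nat.card C := by
  classical
  have := Fintype.ofFinite P
  have h1 : ∀ c : C, w * (c : P) ^ 2 = 1 ↔ ¬ ((c : P) ^ 2 = 1) := by
    intro c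
    constructor
    · intro h2 h3
      rw [h3, mul_one] at h2
      exact hw1 h2
    · intro h2
      have h3 := h.eq_of_center_two (h.pow_mem_center (c : P)) h2 hw hw1
      rw [h3, ← pow_two]
      exact h.center_pow hw
  have h2 : Nat.card {c : C // w * (c : P) ^ 2 = 1} = Nat.card {c : C // ¬ ((c : P) ^ 2 = 1)} :=
    Nat.card_congr (Equiv.subtypeEquivRight h1)
  rw [h2, Nat.card_eq_fintype_card, Nat.card_eq_fintype_card, Nat.card_eq_fintype_card,
    Fintype.card_subtype_compl]
  have := Fintype.card_subtype_le (fun c : C => (c : P) ^ 2 = 1)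
  omega

theorem sq_sub (C : Subgroup P) : sq C = Nat.card {c : C // (c : P) ^ 2 = 1} := by
  apply Nat.card_congr
  refine Equiv.subtypeEquivRight ?_
  intro c
  rw [Subtype.ext_iff]; rfl

theorem sq_plus [Finite P] (h : GES 2 P) {x y : P} (hxy : ⁅x, y⁆ ≠ 1) (hx : x ^ 2 = 1)
    (hy : y ^ 2 = 1) : sq P = 2 * sq (pairCent x y) + Nat.card (pairCent x y) := by
  have h1 := card_sq h hxy
  rw [hx, hy] at h1
  simp only [one_mul, mul_one] at h1
  have h2 := card_ne h (pairCent x y) (h.classTwo.mem y x) (GES.comm_symm_ne_one hxy)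
  rw [sq_sub]
  omega

theorem sq_minus [Finite P] (h : GES 2 P) {x y : P} (hxy : ⁅x, y⁆ ≠ 1) (hx : x ^ 2 ≠ 1)
    (hy : y ^ 2 ≠ 1) : sq P + 2 * sq (pairCent x y) = 3 * Nat.card (pairCent x y) := by
  have h1 := card_sq h hxy
  have hxy' := GES.comm_symm_ne_one hxy
  have h5 : x ^ 2 * y ^ 2 * ⁅y, x⁆ = ⁅y, x⁆ := by
    have h3 := h.eq_of_center_two (h.pow_mem_center x) hx (h.pow_mem_center y) hy
    rw [h3, ← pow_two, h.center_pow (h.pow_mem_center y), one_mul]
  rw [h5] at h1
  have h2 := card_ne h (pairCent x y) (h.classTwo.mem y x) hxy'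
  have h3 := card_ne h (pairCent x y) (h.pow_mem_center x) hx
  have h4 := card_ne h (pairCent x y) (h.pow_mem_center y) hy
  rw [sq_sub]
  omega

theorem sq_two (P : Type u) [Group P] [Finite P] (h2 : Nat.card P = 2) : sq P = 2 := by
  have h1 : ∀ x : P, x ^ 2 = 1 := by
    intro x
    rw [← h2]; exact pow_card_eq_one'
  rw [sq, Nat.card_congr (Equiv.subtypeUnivEquiv h1), h2]

theorem ges_pairCent (h : GES 2 P) {x y : P} (hxy : ⁅x, y⁆ ≠ 1) : GES 2 (pairCent x y) :=
  h.inf_ges hxy

theorem card_pairCent [Finite P] (h : GES 2 P) {m : ℕ} (hm : Nat.card P = 2 ^ (2 * (m + 1) + 1))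
    {x y : P} (hxy : ⁅x, y⁆ ≠ 1) : Nat.card (pairCent x y) = 2 ^ (2 * m + 1) := by
  have h1 := h.card_eq hxy
  rw [hm] at h1
  have h2 : 2 ^ (2 * (m + 1) + 1) = 2 ^ 2 * 2 ^ (2 * m + 1) := by ring
  rw [h2] at h1
  exact (Nat.eq_of_mul_eq_mul_left (by norm_num) h1).symm

end

/-- The two types. -/
theorem sq_cases (m : ℕ) : ∀ {P : Type u} [Group P] [Finite P], GES 2 P →
    Nat.card P = 2 ^ (2 * m + 1) → sq P = 2 ^ (2 * m) + 2 ^ m ∨ sq P + 2 ^ m = 2 ^ (2 * m) := by
  induction m with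
  | zero =>
    intro P _ _ h hm
    left
    rw [sq_two P (by simpa using hm)]; norm_num
  | succ m ih =>
    intro P _ _ h hm
    have htop : Subgroup.center P ≠ ⊤ := by
      intro h1
      have h2 := h.center_eq_top_iff.mp h1
      rw [hm] at h2
      have h3 : 2 ^ 1 < 2 ^ (2 * (m + 1) + 1) := Nat.pow_lt_pow_right (by norm_num) (by omega)
      omega
    have e1 : 2 ^ (2 * (m + 1)) = 4 * 2 ^ (2 * m) := by ring
    have e2 : 2 ^ (m + 1) = 2 * 2 ^ m := by ring
    have e3 : 2 ^ (2 * m + 1) = 2 * 2 ^ (2 * m) := by ring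
    rcases h.exists_pair_eight htop with ⟨x, y, hxy, hx, hy⟩ | ⟨x, y, hxy, hx, hy⟩
    · have h1 := sq_plus h hxy hx hy
      have h2 := card_pairCent h hm hxy
      rcases ih (ges_pairCent h hxy) h2 with h3 | h3
      · left; rw [h1, h2, h3, e1, e2, e3]; ring
      · right; rw [h1, h2, e1, e2, e3, ← h3]; ring
    · have h1 := sq_minus h hxy hx hy
      have h2 := card_pairCent h hm hxy
      rw [h2] at h1
      rcases ih (ges_pairCent h hxy) h2 with h3 | h3
      · right; rw [h3] at h1; rw [e1, e2]; rw [e3] at h1; omega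
      · left; rw [e1, e2]; rw [e3] at h1; omega

/-- Equal orders and equal numbers of solutions of `x ^ 2 = 1` imply isomorphism. -/
theorem iso_of_sq (m : ℕ) : ∀ {P : Type u} {Q : Type v} [Group P] [Group Q] [Finite P] [Finite Q],
    GES 2 P → GES 2 Q → Nat.card P = 2 ^ (2 * m + 1) → Nat.card Q = 2 ^ (2 * m + 1) →
    sq P = sq Q → Nonempty (P ≃* Q) := by
  induction m with
  | zero =>
    intro P Q _ _ _ _ hP hQ hPn hQn _
    exact ⟨mulEquivOfPrimeCardEq (p := 2) (by simpa using hPn) (by simpa using hQn)⟩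
  | succ m ih =>
    intro P Q _ _ _ _ hP hQ hPn hQn hs
    have h3 : 2 ^ 1 < 2 ^ (2 * (m + 1) + 1) := Nat.pow_lt_pow_right (by norm_num) (by omega)
    have htP : Subgroup.center P ≠ ⊤ := fun h1 => by
      have h2 := hP.center_eq_top_iff.mp h1
      omega
    have htQ : Subgroup.center Q ≠ ⊤ := fun h1 => by
      have h2 := hQ.center_eq_top_iff.mp h1
      omega
    by_cases h8 : m = 0
    · subst h8
      have hiso : ∀ {A : Type u} {B : Type v} [Group A] [Group B], Nat.card A = 2 →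
          Nat.card B = 2 → Nonempty (A ≃* B) := fun hA hB => ⟨mulEquivOfPrimeCardEq (p := 2) hA hB⟩
      rcases hP.exists_pair_eight htP with ⟨x, y, hxy, hx, hy⟩ | ⟨x, y, hxy, hx, hy⟩ <;>
      rcases hQ.exists_pair_eight htQ with ⟨x', y', hxy', hx', hy'⟩ | ⟨x', y', hxy', hx', hy'⟩ <;>
      have c1 := card_pairCent hP hPn hxy <;>
      have c2 := card_pairCent hQ hQn hxy' <;>
      have s1 := sq_two (pairCent x y) (by simpa using c1) <;>
      have s2 := sq_two (pairCent x' y') (by simpa using c2)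
      · exact GES.glue_two hP hQ hxy hxy' (by simp [hx, hx']) (by simp [hy, hy'])
          (hiso (by simpa using c1) (by simpa using c2))
      · exfalso
        have h1 := sq_plus hP hxy hx hy
        have h2 := sq_minus hQ hxy' hx' hy'
        simp only [mul_zero, zero_add, pow_one] at c1 c2
        omega
      · exfalso
        have h1 := sq_minus hP hxy hx hy
        have h2 := sq_plus hQ hxy' hx' hy'
        simp only [mul_zero, zero_add, pow_one] at c1 c2
        omega
      · exact GES.glue_two hP hQ hxy hxy' (by simp [hx, hx']) (by simp [hy, hy'])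
          (hiso (by simpa using c1) (by simpa using c2))
    · have h9 : 8 < 2 ^ (2 * (m + 1) + 1) := by
        calc 8 < 2 ^ (2 * (1 + 1) + 1) := by norm_num
          _ ≤ 2 ^ (2 * (m + 1) + 1) := Nat.pow_le_pow_right (by norm_num) (by omega)
      obtain ⟨u, hu, hu2⟩ := hP.exists_noncentral_involution (by rw [hPn]; exact h9)
      obtain ⟨x, y, hxy, hx, hy⟩ := hP.exists_plus_pair hu hu2
      obtain ⟨u', hu', hu2'⟩ := hQ.exists_noncentral_involution (by rw [hQn]; exact h9)
      obtain ⟨x', y', hxy', hx', hy'⟩ := hQ.exists_plus_pair hu' hu2'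
      have c1 := card_pairCent hP hPn hxy
      have c2 := card_pairCent hQ hQn hxy'
      have s1 := sq_plus hP hxy hx hy
      have s2 := sq_plus hQ hxy' hx' hy'
      have h10 : sq (pairCent x y) = sq (pairCent x' y') := by omega
      have h11 := ih (ges_pairCent hP hxy) (ges_pairCent hQ hxy') c1 c2 h10
      exact GES.glue_two hP hQ hxy hxy' (by simp [hx, hx']) (by simp [hy, hy']) h11

/-! ### Ranks -/

section Rank

variable {P : Type u} [Group P] [Finite P]

theorem comm_mem' (h : GES 2 P) (a b : P) : a * b * a⁻¹ * b⁻¹ ∈ Subgroup.center P :=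
  h.classTwo.mem a b

/-- Elementary abelian subgroups have order at most `2 ^ (m + 1)`. -/
theorem rank_le (h : GES 2 P) {m : ℕ} (hm : Nat.card P = 2 ^ (2 * m + 1)) (A : Subgroup P)
    (hA : IsMulCommutative A) : Nat.card A ≤ 2 ^ (m + 1) := by
  have h1 := H48.card_mul_card_centralizer (p := 2) h.card_center (comm_mem' h) A
  have h2 : A ≤ Subgroup.centralizer (A : Set P) := Subgroup.le_centralizer A
  have h3 : Nat.card A ≤ Nat.card (Subgroup.centralizer (A : Set P)) := Subgroup.card_le_of_le h2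
  have h4 : Nat.card ↥(A ⊓ Subgroup.center P) ≤ 2 := by
    rw [← h.card_center]; exact Subgroup.card_le_of_le inf_le_right
  have h5 : Nat.card A * Nat.card A ≤ 2 ^ (m + 1) * 2 ^ (m + 1) := by
    calc Nat.card A * Nat.card A ≤ Nat.card A * Nat.card (Subgroup.centralizer (A : Set P)) :=
          Nat.mul_le_mul_left _ h3
      _ = Nat.card P * Nat.card ↥(A ⊓ Subgroup.center P) := h1
      _ ≤ 2 ^ (2 * m + 1) * 2 := by rw [hm]; exact Nat.mul_le_mul_left _ h4
      _ = 2 ^ (m + 1) * 2 ^ (m + 1) := by ring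
  exact Nat.mul_self_le_mul_self_iff.mp h5

/-- If there is an elementary abelian subgroup of order `2 ^ (m + 1)` then the type is plus. -/
theorem sq_of_rank (h : GES 2 P) {m : ℕ} (hm : Nat.card P = 2 ^ (2 * m + 1)) (A : Subgroup P)
    (hA : IsMulCommutative A) (hA2 : ∀ a ∈ A, a ^ 2 = 1) (hcard : Nat.card A = 2 ^ (m + 1)) :
    sq P = 2 ^ (2 * m) + 2 ^ m := by
  classical
  have := Fintype.ofFinite P
  have h1 := H48.card_mul_card_centralizer (p := 2) h.card_center (comm_mem' h) A
  have h2 : A ≤ Subgroup.centralizer (A : Set P) := Subgroup.le_centralizer A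
  have h4 : Nat.card ↥(A ⊓ Subgroup.center P) ≤ 2 := by
    rw [← h.card_center]; exact Subgroup.card_le_of_le inf_le_right
  have h5 : Nat.card (Subgroup.centralizer (A : Set P)) ≤ Nat.card A := by
    have h6 : Nat.card A * Nat.card (Subgroup.centralizer (A : Set P)) ≤
        Nat.card A * Nat.card A := by
      rw [h1, hm, hcard]
      calc 2 ^ (2 * m + 1) * Nat.card ↥(A ⊓ Subgroup.center P) ≤ 2 ^ (2 * m + 1) * 2 :=
            Nat.mul_le_mul_left _ h4
        _ = 2 ^ (m + 1) * 2 ^ (m + 1) := by ring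
    exact Nat.le_of_mul_le_mul_left h6 Nat.card_pos
  have hself : A = Subgroup.centralizer (A : Set P) :=
    Subgroup.eq_of_le_of_card_ge h2 h5
  -- for `g ∉ A` exactly half of the `a`
  have hg : ∀ g : P, g ∉ A → 2 * Nat.card {a : A // (g * a) ^ 2 = 1} = Nat.card A := by
    intro g hgA
    let f : A →* P := (Subgroup.subtype _).comp ((commHom h.classTwo g).comp A.subtype)
    have hf : ∀ a : A, f a = ⁅g, (a : P)⁆ := fun a => rfl
    obtain ⟨a0, ha0⟩ : ∃ a0 : A, f a0 ≠ 1 := by
      by_contra hcon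
      push Not at hcon
      apply hgA
      rw [hself, Subgroup.mem_centralizer_iff]
      intro a ha
      have h6 := hcon ⟨a, ha⟩
      rw [hf] at h6
      exact (commutatorElement_eq_one_iff_mul_comm.mp h6).symm
    -- the involution `a ↦ a * a0` swaps the two halves
    have hsq : ∀ a : A, (g * (a : P)) ^ 2 = g ^ 2 * ⁅(a : P), g⁆ := by
      intro a
      rw [h.sq_mul, hA2 a a.2, mul_one]
    have hz : ⁅(a0 : P), g⁆ ≠ 1 := GES.comm_symm_ne_one ha0
    have hg2 : g ^ 2 ∈ Subgroup.center P := h.pow_mem_center g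
    have hmem : ∀ a : A, g ^ 2 * ⁅(a : P), g⁆ ∈ Subgroup.center P := fun a =>
      mul_mem hg2 (h.classTwo.mem _ _)
    have hsw : ∀ a : A, (g * (a : P)) ^ 2 = 1 ↔ ¬ ((g * ((a * a0 : A) : P)) ^ 2 = 1) := by
      intro a
      have h6 : (g * ((a * a0 : A) : P)) ^ 2 = (g * (a : P)) ^ 2 * ⁅(a0 : P), g⁆ := by
        rw [hsq, hsq, Subgroup.coe_mul, h.classTwo.mul_left, mul_assoc]
      rw [h6]
      constructor
      · intro h7 h8
        rw [h7, one_mul] at h8
        exact hz h8
      · intro h7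
        by_contra h8
        have h9 := h.eq_of_center_two (h.pow_mem_center (g * (a : P))) h8
          (h.classTwo.mem (a0 : P) g) hz
        apply h7
        rw [h9, ← pow_two]
        exact h.comm_pow _ _
    have h7 : Nat.card {a : A // (g * (a : P)) ^ 2 = 1} =
        Nat.card {a : A // ¬ ((g * (a : P)) ^ 2 = 1)} := by
      apply Nat.card_congr
      refine (Equiv.mulRight a0).subtypeEquiv ?_
      intro a
      exact hsw a
    have h8 : Nat.card {a : A // (g * (a : P)) ^ 2 = 1} +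
        Nat.card {a : A // ¬ ((g * (a : P)) ^ 2 = 1)} = Nat.card A := by
      rw [Nat.card_eq_fintype_card, Nat.card_eq_fintype_card, Nat.card_eq_fintype_card,
        Fintype.card_subtype_compl]
      have := Fintype.card_subtype_le (fun a : A => (g * (a : P)) ^ 2 = 1)
      omega
    omega
  have hgA : ∀ g : P, g ∈ A → Nat.card {a : A // (g * a) ^ 2 = 1} = Nat.card A := by
    intro g hgA
    apply Nat.card_congr
    exact Equiv.subtypeUnivEquiv fun a => hA2 _ (mul_mem hgA a.2)
  -- double count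
  have hdc : ∑ g : P, Nat.card {a : A // (g * a) ^ 2 = 1} = Nat.card A * sq P := by
    have h6 : ∀ g : P, Nat.card {a : A // (g * a) ^ 2 = 1} =
        ∑ a : A, if (g * (a : P)) ^ 2 = 1 then 1 else 0 := by
      intro g
      rw [Nat.card_eq_fintype_card, Fintype.card_subtype, Finset.card_filter]
    simp only [h6]
    rw [Finset.sum_comm]
    have h7 : ∀ a : A, (∑ g : P, if (g * (a : P)) ^ 2 = 1 then 1 else 0) = sq P := by
      intro a
      rw [sq, Nat.card_eq_fintype_card, Fintype.card_subtype, Finset.card_filter]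
      exact Fintype.sum_equiv (Equiv.mulRight (a : P)) _ _ (fun g => rfl)
    simp only [h7]
    rw [Finset.sum_const, smul_eq_mul, Finset.card_univ, ← Nat.card_eq_fintype_card]
  have hsplit : ∑ g : P, 2 * Nat.card {a : A // (g * a) ^ 2 = 1} =
      ∑ g : P, (Nat.card A + if g ∈ A then Nat.card A else 0) := by
    apply Finset.sum_congr rfl
    intro g _
    split_ifs with h6
    · rw [hgA g h6]; ring
    · rw [hg g h6]; ring
  have hcA : (∑ g : P, if g ∈ A then Nat.card A else 0) = Nat.card A * Nat.card A := by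
    rw [← Finset.sum_filter, Finset.sum_const, smul_eq_mul, ← Fintype.card_subtype,
      ← Nat.card_eq_fintype_card]
  rw [← Finset.mul_sum, hdc, Finset.sum_add_distrib, hcA, Finset.sum_const, smul_eq_mul,
    Finset.card_univ, ← Nat.card_eq_fintype_card, hm, hcard] at hsplit
  have h9 : 2 ^ (m + 1) * (2 * sq P) = 2 ^ (m + 1) * (2 * (2 ^ (2 * m) + 2 ^ m)) := by
    calc 2 ^ (m + 1) * (2 * sq P) = 2 * (2 ^ (m + 1) * sq P) := by ring
      _ = 2 ^ (2 * m + 1) * 2 ^ (m + 1) + 2 ^ (m + 1) * 2 ^ (m + 1) := hsplit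
      _ = 2 ^ (m + 1) * (2 * (2 ^ (2 * m) + 2 ^ m)) := by ring
  have h10 := Nat.eq_of_mul_eq_mul_left (pow_pos (by norm_num) _) h9
  omega

/-- Adjoining a commuting involution. -/
theorem exists_adjoin (B : Subgroup P) (hB : IsMulCommutative B) (hB2 : ∀ b ∈ B, b ^ 2 = 1)
    {x : P} (hx2 : x ^ 2 = 1) (hxB : ∀ b ∈ B, b * x = x * b) (hx : x ∉ B) :
    ∃ A : Subgroup P, IsMulCommutative A ∧ (∀ a ∈ A, a ^ 2 = 1) ∧
      2 * Nat.card B ≤ Nat.card A := by
  have hcomm : ∀ a ∈ (B : Set P) ∪ {x}, ∀ b ∈ (B : Set P) ∪ {x}, a * b = b * a := by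
    rintro a (ha | rfl) b (hb | rfl)
    · exact congrArg Subtype.val (hB.is_comm.comm (⟨a, ha⟩ : B) ⟨b, hb⟩)
    · exact hxB a ha
    · exact (hxB b hb).symm
    · rfl
  have hA := Subgroup.isMulCommutative_closure (k := (B : Set P) ∪ {x}) hcomm
  refine ⟨Subgroup.closure ((B : Set P) ∪ {x}), hA, ?_, ?_⟩
  · intro a ha
    induction ha using Subgroup.closure_induction with
    | mem a ha =>
      rcases ha with ha | rfl
      · exact hB2 a ha
      · exact hx2
    | one => exact one_pow _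
    | mul a b ha hb ha' hb' =>
      have h1 : Commute a b := congrArg Subtype.val (hA.is_comm.comm
        (⟨a, ha⟩ : Subgroup.closure ((B : Set P) ∪ {x})) ⟨b, hb⟩)
      rw [h1.mul_pow, ha', hb', one_mul]
    | inv a _ ha => rw [inv_pow, ha, inv_one]
  · have hle : B ≤ Subgroup.closure ((B : Set P) ∪ {x}) := fun b hb =>
      Subgroup.subset_closure (Or.inl hb)
    have hxm : x ∈ Subgroup.closure ((B : Set P) ∪ {x}) := Subgroup.subset_closure (Or.inr rfl)
    have h1 : Nat.card B ∣ Nat.card (Subgroup.closure ((B : Set P) ∪ {x})) :=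
      Subgroup.card_dvd_of_le hle
    obtain ⟨k, hk⟩ := h1
    have h2 : k ≠ 0 := by
      rintro rfl
      rw [mul_zero] at hk
      exact Nat.card_pos.ne' hk
    have h3 : k ≠ 1 := by
      rintro rfl
      rw [mul_one] at hk
      have h4 := Subgroup.eq_of_le_of_card_ge hle hk.le
      apply hx
      rw [h4]; exact hxm
    rw [hk, mul_comm]
    exact Nat.mul_le_mul_left _ (by omega)

end Rank

/-- Large elementary abelian subgroups. -/
theorem exists_rank (m : ℕ) : ∀ {P : Type u} [Group P] [Finite P], GES 2 P →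
    Nat.card P = 2 ^ (2 * m + 1) →
    (sq P = 2 ^ (2 * m) + 2 ^ m → ∃ A : Subgroup P, IsMulCommutative A ∧ (∀ a ∈ A, a ^ 2 = 1) ∧
      2 ^ (m + 1) ≤ Nat.card A) ∧
    (∃ A : Subgroup P, IsMulCommutative A ∧ (∀ a ∈ A, a ^ 2 = 1) ∧ 2 ^ m ≤ Nat.card A) := by
  induction m with
  | zero =>
    intro P _ _ h hm
    have hm' : Nat.card P = 2 := by simpa using hm
    have hcomm : Subgroup.center P = ⊤ := h.center_eq_top_iff.mpr hm'
    have hA : IsMulCommutative (Subgroup.center P) := inferInstance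
    have h2 : ∀ a ∈ Subgroup.center P, a ^ 2 = 1 := fun a ha => h.center_pow ha
    have h3 : Nat.card (Subgroup.center P) = 2 := h.card_center
    exact ⟨fun _ => ⟨Subgroup.center P, hA, h2, by rw [h3]; norm_num⟩,
      ⟨Subgroup.center P, hA, h2, by rw [h3]; norm_num⟩⟩
  | succ m ih =>
    intro P _ _ h hm
    have e1 : 2 ^ (2 * (m + 1)) = 4 * 2 ^ (2 * m) := by ring
    have e2 : 2 ^ (m + 1) = 2 * 2 ^ m := by ring
    have e3 : 2 ^ (2 * m + 1) = 2 * 2 ^ (2 * m) := by ring
    have htop : Subgroup.center P ≠ ⊤ := by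
      intro h1
      have h2 := h.center_eq_top_iff.mp h1
      rw [hm] at h2
      have h3 : 2 ^ 1 < 2 ^ (2 * (m + 1) + 1) := Nat.pow_lt_pow_right (by norm_num) (by omega)
      omega
    by_cases hplus : ∃ x y : P, ⁅x, y⁆ ≠ 1 ∧ x ^ 2 = 1 ∧ y ^ 2 = 1
    · obtain ⟨x, y, hxy, hx, hy⟩ := hplus
      have hC := ges_pairCent h hxy
      have c1 := card_pairCent h hm hxy
      have s1 := sq_plus h hxy hx hy
      have hxC : x ∉ pairCent x y := by
        intro h1
        apply hxy
        rw [commutatorElement_eq_one_iff_mul_comm]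
        exact Subgroup.mem_centralizer_singleton_iff.mp h1.2
      have key : ∀ n : ℕ, (∃ A : Subgroup (pairCent x y), IsMulCommutative A ∧
          (∀ a ∈ A, a ^ 2 = 1) ∧ n ≤ Nat.card A) →
          ∃ A : Subgroup P, IsMulCommutative A ∧ (∀ a ∈ A, a ^ 2 = 1) ∧ 2 * n ≤ Nat.card A := by
        rintro n ⟨A, hA, hA2, hAn⟩
        obtain ⟨B, hB, hB2, hBn⟩ := exists_adjoin (A.map (Subgroup.subtype _))
          (by
            refine ⟨⟨?_⟩⟩
            rintro ⟨_, a, ha, rfl⟩ ⟨_, b, hb, rfl⟩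
            apply Subtype.ext
            have h1 : a * b = b * a :=
              congrArg Subtype.val (hA.is_comm.comm (⟨a, ha⟩ : A) ⟨b, hb⟩)
            have h2 : (a : P) * b = b * a := congrArg Subtype.val h1
            exact h2)
          (by
            rintro _ ⟨a, ha, rfl⟩
            exact congrArg Subtype.val (hA2 a ha))
          hx
          (by
            rintro _ ⟨a, ha, rfl⟩
            exact Subgroup.mem_centralizer_singleton_iff.mp a.2.1)
          (by
            rintro ⟨a, ha, h1⟩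
            apply hxC
            have h2 : (a : P) ∈ pairCent x y := a.2
            have h3 : (a : P) = x := h1
            rwa [h3] at h2)
        refine ⟨B, hB, hB2, ?_⟩
        rw [Subgroup.card_map_of_injective (Subgroup.subtype_injective _)] at hBn
        omega
      obtain ⟨i1, i2⟩ := ih hC c1
      refine ⟨fun hs => ?_, ?_⟩
      · have h3 : sq (pairCent x y) = 2 ^ (2 * m) + 2 ^ m := by
          rw [s1, c1, e1, e2, e3] at hs
          omega
        have h4 := key _ (i1 h3)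
        rw [← pow_succ'] at h4
        exact h4
      · have h4 := key _ i2
        rw [← pow_succ'] at h4
        exact h4
    · rcases h.exists_pair_eight htop with ⟨x, y, hxy, hx, hy⟩ | ⟨x, y, hxy, hx, hy⟩
      · exact absurd ⟨x, y, hxy, hx, hy⟩ hplus
      have hm0 : m = 0 := by
        by_contra hm0
        have h9 : 8 < Nat.card P := by
          rw [hm]
          calc 8 < 2 ^ (2 * (1 + 1) + 1) := by norm_num
            _ ≤ 2 ^ (2 * (m + 1) + 1) := Nat.pow_le_pow_right (by norm_num) (by omega)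
        obtain ⟨u, hu, hu2⟩ := h.exists_noncentral_involution h9
        exact hplus (h.exists_plus_pair hu hu2)
      subst hm0
      have c1 := card_pairCent h hm hxy
      have s1 := sq_minus h hxy hx hy
      have s2 := sq_two (pairCent x y) (by simpa using c1)
      refine ⟨fun hs => ?_, Subgroup.center P, inferInstance, fun a ha => h.center_pow ha, ?_⟩
      · exfalso
        simp only [mul_zero, zero_add, pow_one] at c1
        norm_num at hs
        omega
      · rw [h.card_center]; norm_num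

theorem card_pow_two {P : Type u} [Group P] [Finite P] (A : Subgroup P)
    (hA2 : ∀ a ∈ A, a ^ 2 = 1) : ∃ k : ℕ, Nat.card A = 2 ^ k := by
  have : Fact (Nat.Prime 2) := ⟨Nat.prime_two⟩
  apply IsPGroup.iff_card.mp
  intro a
  exact ⟨1, by
    rw [pow_one]
    exact Subtype.ext (hA2 a a.2)⟩

/-- The two types and their ranks. -/
theorem rank_cases {P : Type u} [Group P] [Finite P] (h : GES 2 P) {m : ℕ} (hm1 : 1 ≤ m)
    (hm : Nat.card P = 2 ^ (2 * m + 1)) :
    (sq P = 2 ^ (2 * m) + 2 ^ m ∧ PRankLE 2 (m + 1) P ∧ ¬ PRankLE 2 m P) ∨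
    (sq P + 2 ^ m = 2 ^ (2 * m) ∧ PRankLE 2 m P ∧ ¬ PRankLE 2 (m - 1) P) := by
  obtain ⟨r1, A', hA', hA'2, hA'c⟩ := exists_rank m h hm
  rcases sq_cases m h hm with hs | hs
  · left
    refine ⟨hs, fun A hA _ => rank_le h hm A hA, fun hcon => ?_⟩
    obtain ⟨A, hA, hA2, hAc⟩ := r1 hs
    have h1 := hcon A hA hA2
    have h2 : 2 ^ m < 2 ^ (m + 1) := Nat.pow_lt_pow_right (by norm_num) (by omega)
    omega
  · right
    refine ⟨hs, fun A hA hA2 => ?_, fun hcon => ?_⟩
    · obtain ⟨k, hk⟩ := card_pow_two A hA2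
      have h1 := rank_le h hm A hA
      rw [hk] at h1 ⊢
      have h2 : k ≤ m + 1 := (Nat.pow_le_pow_iff_right (by norm_num)).mp h1
      rcases Nat.lt_or_ge m k with h3 | h3
      · exfalso
        have h4 : k = m + 1 := by omega
        rw [h4] at hk
        have h5 := sq_of_rank h hm A hA hA2 hk
        have h6 : 0 < 2 ^ m := pow_pos (by norm_num) _
        omega
      · exact Nat.pow_le_pow_right (by norm_num) h3
    · have h1 := hcon A' hA' hA'2
      have h2 : 2 ^ (m - 1) < 2 ^ m := Nat.pow_lt_pow_right (by norm_num) (by omega)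
      omega

end Cfsg.Agent.H73.ExSp2
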