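import Mathlib
import Cfsg.Prelude.Def_Transfer
import Cfsg.Agent.H73.ExSp2

/-!
Models of the extraspecial 2-groups: central extensions given by bilinear cocycles.
-/

set_option autoImplicit false
set_option linter.unusedSectionVars false

namespace Cfsg.Agent.H73.ExMod

open scoped commutatorElement
open Cfsg Cfsg.Agent.Extra

/-- Central extension of `V` by `ZMod 2` with bilinear cocycle `β`. -/
@[ext] structure CE {V : Type} [AddCommGroup V] (β : V → V → ZMod 2) where
  /-- vector part -/
  fst : V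
  /-- central part -/
  snd : ZMod 2

variable {V : Type} [AddCommGroup V]

/-- Bilinear. -/
structure Bil (β : V → V → ZMod 2) : Prop where
  add_left : ∀ a b c, β (a + b) c = β a c + β b c
  add_right : ∀ a b c, β a (b + c) = β a b + β a c

namespace Bil

variable {β : V → V → ZMod 2}

theorem zero_left (h : Bil β) (a : V) : β 0 a = 0 := by
  have := h.add_left 0 0 a
  rw [add_zero] at this
  simpa using this

theorem zero_right (h : Bil β) (a : V) : β a 0 = 0 := by
  have := h.add_right a 0 0
  rw [add_zero] at this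
  simpa using this

theorem neg_left (h : Bil β) (a b : V) : β (-a) b = β a b := by
  have := h.add_left (-a) a b
  rw [neg_add_cancel, h.zero_left] at this
  have h2 : ∀ x y : ZMod 2, 0 = x + y → x = y := by decide
  exact h2 _ _ this

/-- The group structure. -/
@[reducible] def group (h : Bil β) : Group (CE β) :=
  @Group.ofLeftAxioms (CE β)
    ⟨fun a b => ⟨a.fst + b.fst, a.snd + b.snd + β a.fst b.fst⟩⟩
    ⟨fun a => ⟨-a.fst, a.snd + β a.fst a.fst⟩⟩
    ⟨⟨0, 0⟩⟩
    (by
      intro a b c
      refine CE.ext (add_assoc _ _ _) ?_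
      show a.snd + b.snd + β a.fst b.fst + c.snd + β (a.fst + b.fst) c.fst =
        a.snd + (b.snd + c.snd + β b.fst c.fst) + β a.fst (b.fst + c.fst)
      rw [h.add_left, h.add_right]; ring)
    (by
      intro a
      refine CE.ext (zero_add _) ?_
      show 0 + a.snd + β 0 a.fst = a.snd
      rw [h.zero_left]; ring)
    (by
      intro a
      refine CE.ext (neg_add_cancel _) ?_
      show a.snd + β a.fst a.fst + a.snd + β (-a.fst) a.fst = 0
      rw [h.neg_left]
      have h2 : ∀ x y : ZMod 2, x + y + x + y = 0 := by decide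
      exact h2 _ _)

end Bil

/-- The model. -/
def Mo {β : V → V → ZMod 2} (_ : Bil β) : Type := CE β

variable {β : V → V → ZMod 2} (h : Bil β)

instance : Group (Mo h) := h.group

/-- The underlying equivalence. -/
def equiv : Mo h ≃ V × ZMod 2 where
  toFun a := (a.fst, a.snd)
  invFun a := ⟨a.1, a.2⟩
  left_inv _ := rfl
  right_inv _ := rfl

instance [Finite V] : Finite (Mo h) := Finite.of_equiv _ (equiv h).symm

theorem card_mo : Nat.card (Mo h) = Nat.card V * 2 := by
  rw [Nat.card_congr (equiv h), Nat.card_prod, Nat.card_zmod]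

theorem mul_def (a b : Mo h) : a * b =
    (⟨a.fst + b.fst, a.snd + b.snd + β a.fst b.fst⟩ : CE β) := rfl

theorem one_def : (1 : Mo h) = (⟨0, 0⟩ : CE β) := rfl

/-- The projection. -/
def proj : Mo h →* Multiplicative V where
  toFun a := Multiplicative.ofAdd a.fst
  map_one' := rfl
  map_mul' _ _ := rfl

theorem mem_center_of (a : Mo h) (ha : a.fst = 0) : a ∈ Subgroup.center (Mo h) := by
  rw [Subgroup.mem_center_iff]
  intro b
  rw [mul_def, mul_def]
  refine CE.ext (add_comm _ _) ?_
  show b.snd + a.snd + β b.fst a.fst = a.snd + b.snd + β a.fst b.fst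
  rw [ha, h.zero_left, h.zero_right, add_comm b.snd]

theorem mem_center_iff (hnd : ∀ w : V, (∀ v, β v w = β w v) → w = 0) (a : Mo h) :
    a ∈ Subgroup.center (Mo h) ↔ a.fst = 0 := by
  refine ⟨fun ha => ?_, mem_center_of h a⟩
  apply hnd
  intro v
  rw [Subgroup.mem_center_iff] at ha
  have h1 := ha (⟨v, 0⟩ : CE β)
  have h2 := congrArg CE.snd h1
  change (0 : ZMod 2) + a.snd + β v a.fst = a.snd + 0 + β a.fst v at h2
  rw [zero_add, add_zero] at h2
  exact add_left_cancel h2

theorem card_center (hnd : ∀ w : V, (∀ v, β v w = β w v) → w = 0) :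
    Nat.card (Subgroup.center (Mo h)) = 2 := by
  have e : Subgroup.center (Mo h) ≃ ZMod 2 :=
    { toFun := fun a => a.1.snd
      invFun := fun z => ⟨(⟨0, z⟩ : CE β), mem_center_of h _ rfl⟩
      left_inv := by
        intro a
        apply Subtype.ext
        exact CE.ext ((mem_center_iff h hnd a.1).mp a.2).symm rfl
      right_inv := fun _ => rfl }
  rw [Nat.card_congr e, Nat.card_zmod]

theorem ges (hnd : ∀ w : V, (∀ v, β v w = β w v) → w = 0) : GES 2 (Mo h) := by
  refine ⟨card_center h hnd, ?_⟩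
  rw [classTwo_iff]
  intro x y
  apply mem_center_of
  have h1 : proj h ⁅x, y⁆ = 1 := by
    rw [map_commutatorElement]
    exact commutatorElement_eq_one_iff_mul_comm.mpr (mul_comm _ _)
  exact h1

theorem sq_iff (h2 : ∀ v : V, v + v = 0) (a : Mo h) : a ^ 2 = 1 ↔ β a.fst a.fst = 0 := by
  rw [pow_two, mul_def, one_def]
  constructor
  · intro h1
    have h3 := congrArg CE.snd h1
    change a.snd + a.snd + β a.fst a.fst = 0 at h3
    have h4 : ∀ x : ZMod 2, x + x = 0 := by decide
    rwa [h4, zero_add] at h3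
  · intro h1
    refine CE.ext (h2 _) ?_
    show a.snd + a.snd + β a.fst a.fst = 0
    have h4 : ∀ x : ZMod 2, x + x = 0 := by decide
    rw [h4, h1, zero_add]

theorem sq_mo (h2 : ∀ v : V, v + v = 0) :
    ExSp2.sq (Mo h) = 2 * Nat.card {v : V // β v v = 0} := by
  have e : {a : Mo h // a ^ 2 = 1} ≃ {v : V // β v v = 0} × ZMod 2 :=
    { toFun := fun a => (⟨a.1.fst, (sq_iff h h2 a.1).mp a.2⟩, a.1.snd)
      invFun := fun t => ⟨(⟨t.1.1, t.2⟩ : CE β), (sq_iff h h2 _).mpr t.1.2⟩
      left_inv := fun _ => rfl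
      right_inv := fun _ => rfl }
  rw [ExSp2.sq, Nat.card_congr e, Nat.card_prod, Nat.card_zmod, mul_comm]

/-! ### The concrete forms -/

/-- The character. -/
def chi (x : ZMod 2) : ℤ := if x = 0 then 1 else -1

theorem chi_add : ∀ x y : ZMod 2, chi (x + y) = chi x * chi y := by decide

theorem chi_sum {ι : Type} (s : Finset ι) (f : ι → ZMod 2) :
    chi (∑ i ∈ s, f i) = ∏ i ∈ s, chi (f i) := by
  classical
  induction s using Finset.induction_on with
  | empty => simp [chi]
  | insert a s ha ih => rw [Finset.sum_insert ha, Finset.prod_insert ha, chi_add, ih]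

/-- The local form. -/
def loc (e : ZMod 2) (v w : ZMod 2 × ZMod 2) : ZMod 2 :=
  v.1 * w.2 + e * (v.1 * w.1 + v.2 * w.2)

/-- The form. -/
def form {n : ℕ} (e : Fin n → ZMod 2) (v w : Fin n → ZMod 2 × ZMod 2) : ZMod 2 :=
  ∑ i, loc (e i) (v i) (w i)

theorem bil_form {n : ℕ} (e : Fin n → ZMod 2) : Bil (form e) := by
  constructor
  · intro a b c
    simp only [form, ← Finset.sum_add_distrib]
    apply Finset.sum_congr rfl
    intro i _
    simp only [loc, Pi.add_apply, Prod.fst_add, Prod.snd_add]; ring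
  · intro a b c
    simp only [form, ← Finset.sum_add_distrib]
    apply Finset.sum_congr rfl
    intro i _
    simp only [loc, Pi.add_apply, Prod.fst_add, Prod.snd_add]; ring

theorem loc_zero_left (e : ZMod 2) (w : ZMod 2 × ZMod 2) : loc e 0 w = 0 := by
  simp [loc]

theorem loc_zero_right (e : ZMod 2) (w : ZMod 2 × ZMod 2) : loc e w 0 = 0 := by
  simp [loc]

theorem loc_nd : ∀ (e : ZMod 2) (w : ZMod 2 × ZMod 2), (∀ v, loc e v w = loc e w v) → w = 0 := by
  decide

theorem nondeg {n : ℕ} (e : Fin n → ZMod 2) (w : Fin n → ZMod 2 × ZMod 2)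
    (hw : ∀ v, form e v w = form e w v) : w = 0 := by
  classical
  funext i
  apply loc_nd (e i)
  intro v
  have h1 := hw (Pi.single i v)
  have h2 : form e (Pi.single i v) w = loc (e i) v (w i) := by
    rw [form, Finset.sum_eq_single i]
    · rw [Pi.single_eq_same]
    · intro j _ hj
      rw [Pi.single_eq_of_ne hj, loc_zero_left]
    · intro hi; exact absurd (Finset.mem_univ i) hi
  have h3 : form e w (Pi.single i v) = loc (e i) (w i) v := by
    rw [form, Finset.sum_eq_single i]
    · rw [Pi.single_eq_same]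
    · intro j _ hj
      rw [Pi.single_eq_of_ne hj, loc_zero_right]
    · intro hi; exact absurd (Finset.mem_univ i) hi
  rw [h2, h3] at h1
  exact h1

theorem two_zero {n : ℕ} (v : Fin n → ZMod 2 × ZMod 2) : v + v = 0 := by
  have h : ∀ w : ZMod 2 × ZMod 2, w + w = 0 := by decide
  funext i
  exact h _

theorem loc_sum : ∀ e : ZMod 2, ∑ v : ZMod 2 × ZMod 2, chi (loc e v v) = 2 * chi e := by
  decide

theorem sum_chi {n : ℕ} (e : Fin n → ZMod 2) :
    ∑ v : Fin n → ZMod 2 × ZMod 2, chi (form e v v) = 2 ^ n * ∏ i, chi (e i) := by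
  have h1 : ∀ v : Fin n → ZMod 2 × ZMod 2, chi (form e v v) =
      ∏ i, chi (loc (e i) (v i) (v i)) := fun v => chi_sum _ _
  simp only [h1]
  have h2 := Finset.prod_univ_sum (fun _ : Fin n => (Finset.univ : Finset (ZMod 2 × ZMod 2)))
    (fun i v => chi (loc (e i) v v))
  rw [Fintype.piFinset_univ] at h2
  rw [← h2]
  simp only [loc_sum]
  rw [Finset.prod_mul_distrib]
  simp

theorem card_zero {n : ℕ} (e : Fin n → ZMod 2) :
    (2 * Nat.card {v : Fin n → ZMod 2 × ZMod 2 // form e v v = 0} : ℤ) =
      4 ^ n + 2 ^ n * ∏ i, chi (e i) := by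
  classical
  rw [← sum_chi e]
  have h1 : ∀ v : Fin n → ZMod 2 × ZMod 2, chi (form e v v) =
      2 * (if form e v v = 0 then 1 else 0) - 1 := by
    intro v
    rw [chi]; split_ifs <;> norm_num
  simp only [h1]
  rw [Finset.sum_sub_distrib, ← Finset.mul_sum]
  rw [Nat.card_eq_fintype_card, Fintype.card_subtype, Finset.card_filter]
  push_cast
  rw [Finset.sum_const, Finset.card_univ]
  simp [Fintype.card_pi]

theorem exists_model (n : ℕ) (hn : 1 ≤ n) (b : Bool) : ∃ (E : Type) (_ : Group E) (_ : Finite E),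
    Cfsg.IsExtraspecial 2 E ∧ Nat.card E = 2 ^ (2 * n + 1) ∧
      (ExSp2.sq E : ℤ) = 4 ^ n + (if b then 2 ^ n else - 2 ^ n) := by
  classical
  have hp2 : Fact (Nat.Prime 2) := ⟨Nat.prime_two⟩
  let i0 : Fin n := ⟨0, hn⟩
  let e : Fin n → ZMod 2 := fun i => if i = i0 then (if b then 0 else 1) else 0
  have hb := bil_form e
  have hG := ges hb (nondeg e)
  have hcard : Nat.card (Mo hb) = 2 ^ (2 * n + 1) := by
    rw [card_mo, Nat.card_eq_fintype_card, Fintype.card_pi]
    simp only [Fintype.card_prod, ZMod.card, Finset.prod_const, Finset.card_univ, Fintype.card_fin]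
    rw [pow_succ, pow_mul]; norm_num
  refine ⟨Mo hb, inferInstance, inferInstance, ?_, hcard, ?_⟩
  · apply isExtraspecial_of_ges hG
    intro h1
    have h2 := hG.center_eq_top_iff.mp h1
    rw [hcard] at h2
    have h3 : 2 ^ 1 < 2 ^ (2 * n + 1) := Nat.pow_lt_pow_right (by norm_num) (by omega)
    omega
  · rw [sq_mo hb two_zero]
    push_cast
    rw [card_zero e]
    congr 1
    have h1 : ∏ i, chi (e i) = if b then 1 else -1 := by
      have h2 : ∀ i, chi (e i) = if i = i0 then (if b then 1 else -1) else 1 := by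
        intro i
        simp only [e]
        cases b <;> by_cases hi : i = i0 <;> simp [hi, chi]
      simp only [h2]
      rw [Finset.prod_ite_eq' Finset.univ i0]
      simp
    rw [h1]
    cases b <;> simp

end Cfsg.Agent.H73.ExMod
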