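import Mathlib
import Cfsg.Prelude.Def_Classical
import Cfsg.Prelude.Def_KGroupFacts
import Cfsg.Agent.H73.ExMod
import Cfsg.Agent.OrthCount.Orders

/-!
The outer automorphism group of an extraspecial 2-group is the orthogonal group of its squaring
form.
-/

set_option autoImplicit false
set_option linter.unusedSectionVars false

namespace Cfsg.Agent.H73.ExOut

open scoped commutatorElement
open Cfsg Cfsg.Agent.Extra Cfsg.Agent.H73.ExMod

section

variable {V : Type} [AddCommGroup V] {β : V → V → ZMod 2} (h : Bil β)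
variable (hnd : ∀ w : V, (∀ v, β v w = β w v) → w = 0)

/-- central element -/
def cz (z : ZMod 2) : Mo h := (⟨0, z⟩ : CE β)

/-- section -/
def sc (v : V) : Mo h := (⟨v, 0⟩ : CE β)

theorem sc_mul_cz (a : Mo h) : sc h a.fst * cz h a.snd = a := by
  rw [mul_def]
  refine CE.ext (add_zero _) ?_
  show (0 : ZMod 2) + a.snd + β a.fst 0 = a.snd
  rw [h.zero_right, zero_add, add_zero]

theorem sc_mul_sc (v w : V) : sc h v * sc h w = sc h (v + w) * cz h (β v w) := by
  rw [mul_def, mul_def]
  refine CE.ext ?_ ?_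
  · show v + w = v + w + 0
    rw [add_zero]
  · show (0 : ZMod 2) + 0 + β v w = 0 + β v w + β (v + w) 0
    rw [h.zero_right]; ring

theorem fst_mul (a b : Mo h) : (a * b).fst = a.fst + b.fst := rfl

include hnd in
theorem aut_cz (α : MulAut (Mo h)) (z : ZMod 2) : α (cz h z) = cz h z := by
  have hZ := card_center h hnd
  have hc : cz h z ∈ Subgroup.center (Mo h) := mem_center_of h _ rfl
  have hc' : α (cz h z) ∈ Subgroup.center (Mo h) := by
    rw [Subgroup.mem_center_iff] at hc ⊢
    intro g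
    obtain ⟨g, rfl⟩ := α.surjective g
    rw [← map_mul, hc g, map_mul]
  by_cases hz : z = 0
  · subst hz
    exact map_one α
  · have h1 : cz h z ≠ 1 := fun h1 => hz (congrArg CE.snd h1)
    have h2 : α (cz h z) ≠ 1 := by
      intro h2
      rw [map_eq_one_iff α α.injective] at h2
      exact h1 h2
    have hp2 : Fact (Nat.Prime 2) := ⟨Nat.prime_two⟩
    exact (ges h hnd).eq_of_center_two hc' h2 hc h1

/-- induced map on `V` -/
def hat (α : MulAut (Mo h)) (v : V) : V := (α (sc h v)).fst

include hnd in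
theorem hat_fst (α : MulAut (Mo h)) (a : Mo h) : (α a).fst = hat h α a.fst := by
  conv_lhs => rw [← sc_mul_cz h a]
  rw [map_mul, fst_mul, aut_cz h hnd]
  exact add_zero _

include hnd in
theorem hat_add (α : MulAut (Mo h)) (v w : V) : hat h α (v + w) = hat h α v + hat h α w := by
  have h1 := congrArg CE.fst (congrArg α (sc_mul_sc h v w))
  rw [map_mul, map_mul, aut_cz h hnd] at h1
  change (α (sc h v)).fst + (α (sc h w)).fst = (α (sc h (v + w))).fst + 0 at h1
  rw [add_zero] at h1
  exact h1.symm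

include hnd in
theorem hat_mul (α γ : MulAut (Mo h)) (v : V) : hat h (α * γ) v = hat h α (hat h γ v) := by
  show (α (γ (sc h v))).fst = _
  rw [hat_fst h hnd]; rfl

theorem hat_one (v : V) : hat h 1 v = v := rfl

theorem sq_eq (a : Mo h) (h2 : ∀ v : V, v + v = 0) : a * a = cz h (β a.fst a.fst) := by
  rw [mul_def]
  refine CE.ext (h2 _) ?_
  show a.snd + a.snd + β a.fst a.fst = β a.fst a.fst
  have h4 : ∀ x : ZMod 2, x + x = 0 := by decide
  rw [h4, zero_add]

include hnd in
theorem hat_form (h2 : ∀ v : V, v + v = 0) (α : MulAut (Mo h)) (v : V) :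
    β (hat h α v) (hat h α v) = β v v := by
  have h1 := congrArg α (sq_eq h (sc h v) h2)
  rw [map_mul, aut_cz h hnd, sq_eq h _ h2] at h1
  exact congrArg CE.snd h1

end

section Fin

variable {ι : Type} [Fintype ι] [DecidableEq ι] {β : (ι → ZMod 2) → (ι → ZMod 2) → ZMod 2}
  (h : Bil β)

theorem dbl (v : ι → ZMod 2) : v + v = 0 := by
  have h : ∀ x : ZMod 2, x + x = 0 := by decide
  funext i; exact h _

theorem smul_cases (c : ZMod 2) : c = 0 ∨ c = 1 := by
  revert c; decide

/-- additive equivalences are linear -/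
def linOf (f : (ι → ZMod 2) → (ι → ZMod 2)) (hf : ∀ v w, f (v + w) = f v + f w)
    (g : (ι → ZMod 2) → (ι → ZMod 2)) (hl : ∀ v, g (f v) = v) (hr : ∀ v, f (g v) = v) :
    (ι → ZMod 2) ≃ₗ[ZMod 2] (ι → ZMod 2) where
  toFun := f
  map_add' := hf
  map_smul' c v := by
    have h0 : f 0 = 0 := by
      have := hf 0 0
      rw [add_zero] at this
      simpa using this
    rcases smul_cases c with rfl | rfl
    · simp [h0]
    · simp
  invFun := g
  left_inv := hl
  right_inv := hr

/-- isometries of a function -/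
def OQ (q : (ι → ZMod 2) → ZMod 2) : Subgroup ((ι → ZMod 2) ≃ₗ[ZMod 2] (ι → ZMod 2)) where
  carrier := {g | ∀ v, q (g v) = q v}
  mul_mem' := fun {a b} ha hb v => by
    rw [LinearEquiv.mul_apply]; exact (ha _).trans (hb _)
  one_mem' := fun v => rfl
  inv_mem' := fun {a} ha v => by
    have := ha (a⁻¹ v)
    rw [← this]
    congr 1
    exact LinearEquiv.apply_symm_apply a v

/-- matrices and linear maps -/
noncomputable def isoOQ (q : (ι → ZMod 2) → ZMod 2) :
    Cfsg.isometryGroup (ZMod 2) q ≃* OQ q := by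
  let e : Matrix.GeneralLinearGroup ι (ZMod 2) ≃* ((ι → ZMod 2) ≃ₗ[ZMod 2] (ι → ZMod 2)) :=
    Matrix.GeneralLinearGroup.toLin.trans
      (LinearMap.GeneralLinearGroup.generalLinearEquiv (ZMod 2) (ι → ZMod 2))
  have he : ∀ (g : Matrix.GeneralLinearGroup ι (ZMod 2)) (v : ι → ZMod 2),
      e g v = (g : Matrix ι ι (ZMod 2)).mulVec v := fun g v => rfl
  have h1 : (Cfsg.isometryGroup (ZMod 2) q).map e.toMonoidHom = OQ q := by
    ext g
    constructor
    · rintro ⟨m, hm, rfl⟩ v
      exact hm v v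
    · intro hg
      refine ⟨e.symm g, ?_, e.apply_symm_apply g⟩
      intro u v
      have h2 := hg u
      have h3 := he (e.symm g) u
      rw [e.apply_symm_apply] at h3
      rw [h3] at h2
      exact h2
  exact (e.subgroupMap _).trans (MulEquiv.subgroupCongr h1)

variable (hnd : ∀ w : ι → ZMod 2, (∀ v, β v w = β w v) → w = 0)

/-- the map to isometries -/
def toOQ : MulAut (Mo h) →* OQ (fun v => β v v) where
  toFun α := ⟨linOf (hat h α) (hat_add h hnd α) (hat h α⁻¹)
    (fun v => by rw [← hat_mul h hnd, inv_mul_cancel, hat_one])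
    (fun v => by rw [← hat_mul h hnd, mul_inv_cancel, hat_one]), fun v => hat_form h hnd dbl α v⟩
  map_one' := by
    apply Subtype.ext
    apply LinearEquiv.ext
    intro v; rfl
  map_mul' α γ := by
    apply Subtype.ext
    apply LinearEquiv.ext
    intro v
    exact hat_mul h hnd α γ v

theorem toOQ_apply (α : MulAut (Mo h)) (v : ι → ZMod 2) :
    (toOQ h hnd α : (ι → ZMod 2) ≃ₗ[ZMod 2] (ι → ZMod 2)) v = hat h α v := rfl

theorem bil_smul_left (h : Bil β) (c : ZMod 2) (v w : ι → ZMod 2) : β (c • v) w = c * β v w := by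
  rcases smul_cases c with rfl | rfl
  · rw [zero_smul, h.zero_left, zero_mul]
  · rw [one_smul, one_mul]

theorem bil_smul_right (h : Bil β) (c : ZMod 2) (v w : ι → ZMod 2) : β v (c • w) = c * β v w := by
  rcases smul_cases c with rfl | rfl
  · rw [zero_smul, h.zero_right, zero_mul]
  · rw [one_smul, one_mul]

include h hnd in
/-- every additive functional is a commutator with some vector -/
theorem exists_dual (f : (ι → ZMod 2) → ZMod 2) (hf : ∀ v w, f (v + w) = f v + f w) :
    ∃ w, ∀ v, f v = β w v + β v w := by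
  let T : (ι → ZMod 2) →ₗ[ZMod 2] Module.Dual (ZMod 2) (ι → ZMod 2) :=
    LinearMap.mk₂ (ZMod 2) (fun w v => β w v + β v w)
      (fun a b c => by rw [h.add_left, h.add_right]; ring)
      (fun c a b => by rw [bil_smul_left h, bil_smul_right h, smul_eq_mul]; ring)
      (fun a b c => by rw [h.add_left, h.add_right]; ring)
      (fun c a b => by rw [bil_smul_left h, bil_smul_right h, smul_eq_mul]; ring)
  have hT : Function.Injective T := by
    rw [← LinearMap.ker_eq_bot, LinearMap.ker_eq_bot']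
    intro w hw
    apply hnd
    intro v
    have h1 : β w v + β v w = 0 := congrArg (fun f => f v) hw
    have h2 : ∀ x y : ZMod 2, x + y = 0 → y = x := by decide
    exact h2 _ _ h1
  have hTs : Function.Surjective T :=
    (LinearMap.injective_iff_surjective_of_finrank_eq_finrank
      (Subspace.dual_finrank_eq).symm).mp hT
  have hf0 : f 0 = 0 := by
    have := hf 0 0
    rw [add_zero] at this
    simpa using this
  let F : Module.Dual (ZMod 2) (ι → ZMod 2) :=
    { toFun := f
      map_add' := hf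
      map_smul' := by
        intro c v
        rcases smul_cases c with rfl | rfl
        · rw [zero_smul, hf0]; simp
        · simp }
  obtain ⟨w, hw⟩ := hTs F
  exact ⟨w, fun v => (congrArg (fun f => f v) hw).symm⟩

theorem ker_toOQ : (toOQ h hnd).ker = Cfsg.Inn (Mo h) := by
  ext α
  rw [MonoidHom.mem_ker]
  constructor
  · intro hα
    have h1 : ∀ v, hat h α v = v := fun v => by
      rw [← toOQ_apply h hnd, hα]; rfl
    have h2 : ∀ v w, (α (sc h (v + w))).snd = (α (sc h v)).snd + (α (sc h w)).snd := by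
      intro v w
      have h3 := congrArg CE.snd (congrArg α (sc_mul_sc h v w))
      rw [map_mul, map_mul, aut_cz h hnd] at h3
      change (α (sc h v)).snd + (α (sc h w)).snd + β (hat h α v) (hat h α w) =
        (α (sc h (v + w))).snd + β v w + β (hat h α (v + w)) 0 at h3
      rw [h1, h1, h.zero_right, add_zero] at h3
      exact (add_right_cancel h3).symm
    obtain ⟨w, hw⟩ := exists_dual h hnd (fun v => (α (sc h v)).snd) h2
    refine ⟨sc h w, ?_⟩
    ext x
    rw [MulAut.conj_apply, mul_inv_eq_iff_eq_mul]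
    have h4 : α x = (⟨x.fst, x.snd + (β w x.fst + β x.fst w)⟩ : CE β) := by
      conv_lhs => rw [← sc_mul_cz h x]
      rw [map_mul, aut_cz h hnd, mul_def]
      refine CE.ext ?_ ?_
      · show hat h α x.fst + 0 = x.fst
        rw [h1, add_zero]
      · show (α (sc h x.fst)).snd + x.snd + β (hat h α x.fst) 0 =
          x.snd + (β w x.fst + β x.fst w)
        rw [h.zero_right, hw x.fst]; ring
    rw [h4]
    refine CE.ext (add_comm _ _) ?_
    show 0 + x.snd + β w x.fst = x.snd + (β w x.fst + β x.fst w) + 0 + β x.fst w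
    have h5 : ∀ a b c : ZMod 2, 0 + a + b = a + (b + c) + 0 + c := by decide
    exact h5 _ _ _
  · rintro ⟨g, rfl⟩
    apply Subtype.ext
    apply LinearEquiv.ext
    intro v
    rw [toOQ_apply]
    show (g * sc h v * g⁻¹).fst = v
    rw [fst_mul, fst_mul]
    have h1 : g.fst + (g⁻¹).fst = 0 := by
      rw [← fst_mul, mul_inv_cancel]; rfl
    rw [add_right_comm, h1, zero_add]; rfl

/-- every alternating form is the polar form of a function -/
theorem exists_quad (γ : (ι → ZMod 2) → (ι → ZMod 2) → ZMod 2) (hγ : Bil γ)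
    (halt : ∀ v, γ v v = 0) :
    ∃ f : (ι → ZMod 2) → ZMod 2, ∀ v w, f (v + w) = f v + f w + γ v w := by
  let e := Fintype.equivFin ι
  have hsym : ∀ v w, γ v w = γ w v := by
    intro v w
    have h1 := halt (v + w)
    rw [hγ.add_left, hγ.add_right, hγ.add_right, halt, halt] at h1
    have h2 : ∀ x y : ZMod 2, 0 + x + (y + 0) = 0 → x = y := by decide
    exact h2 _ _ h1
  let δ : (ι → ZMod 2) → (ι → ZMod 2) → ZMod 2 := fun v w =>
    ∑ i, ∑ j, if e i < e j then γ (Pi.single i (v i)) (Pi.single j (w j)) else 0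
  have hδ : Bil δ := by
    constructor
    · intro a b c
      simp only [δ, ← Finset.sum_add_distrib]
      refine Finset.sum_congr rfl fun i _ => Finset.sum_congr rfl fun j _ => ?_
      split_ifs
      · rw [Pi.add_apply, Pi.single_add, hγ.add_left]
      · rw [add_zero]
    · intro a b c
      simp only [δ, ← Finset.sum_add_distrib]
      refine Finset.sum_congr rfl fun i _ => Finset.sum_congr rfl fun j _ => ?_
      split_ifs
      · rw [Pi.add_apply, Pi.single_add, hγ.add_right]
      · rw [add_zero]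
  have hexp : ∀ v w, γ v w = ∑ i, ∑ j, γ (Pi.single i (v i)) (Pi.single j (w j)) := by
    intro v w
    let g : (ι → ZMod 2) →+ (ι → ZMod 2) →+ ZMod 2 :=
      AddMonoidHom.mk' (fun a => AddMonoidHom.mk' (fun b => γ a b) (fun b c => hγ.add_right a b c))
        (fun a b => by ext c; exact hγ.add_left a b _)
    have hg : ∀ a b, g a b = γ a b := fun a b => rfl
    rw [← hg v w]
    conv_lhs => rw [← Finset.univ_sum_single v, ← Finset.univ_sum_single w]
    rw [map_sum g, AddMonoidHom.finsetSum_apply]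
    refine Finset.sum_congr rfl fun i _ => ?_
    rw [map_sum]
    rfl
  refine ⟨fun v => δ v v, ?_⟩
  intro v w
  show δ (v + w) (v + w) = δ v v + δ w w + γ v w
  have hkey : δ v w + δ w v = γ v w := by
    have h1 : δ w v = ∑ i, ∑ j, if e j < e i then γ (Pi.single i (v i)) (Pi.single j (w j)) else 0 := by
      show (∑ i, ∑ j, if e i < e j then γ (Pi.single i (w i)) (Pi.single j (v j)) else 0) = _
      rw [Finset.sum_comm]
      refine Finset.sum_congr rfl fun i _ => Finset.sum_congr rfl fun j _ => ?_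
      rw [hsym]
    rw [h1, hexp v w]
    simp only [δ, ← Finset.sum_add_distrib]
    refine Finset.sum_congr rfl fun i _ => Finset.sum_congr rfl fun j _ => ?_
    rcases lt_trichotomy (e i) (e j) with h2 | h2 | h2
    · rw [if_pos h2, if_neg (not_lt.mpr h2.le), add_zero]
    · have h3 : i = j := e.injective h2
      subst h3
      rw [if_neg (lt_irrefl _), add_zero]
      rcases smul_cases (v i) with h4 | h4
      · rw [h4, Pi.single_zero, hγ.zero_left]
      · rcases smul_cases (w i) with h5 | h5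
        · rw [h5, Pi.single_zero, hγ.zero_right]
        · rw [h4, h5, halt]
    · rw [if_neg (not_lt.mpr h2.le), if_pos h2, zero_add]
  rw [hδ.add_left, hδ.add_right, hδ.add_right, ← hkey]; ring

theorem toOQ_surjective : Function.Surjective (toOQ h hnd) := by
  rintro ⟨g, hg⟩
  have hgq : ∀ v, β (g v) (g v) = β v v := hg
  let γ : (ι → ZMod 2) → (ι → ZMod 2) → ZMod 2 := fun v w => β (g v) (g w) + β v w
  have hγ : Bil γ := by
    constructor
    · intro a b c
      simp only [γ, map_add, h.add_left]; ring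
    · intro a b c
      simp only [γ, map_add, h.add_right]; ring
  have halt : ∀ v, γ v v = 0 := by
    intro v
    have h4 : ∀ x : ZMod 2, x + x = 0 := by decide
    simp only [γ, hgq, h4]
  obtain ⟨f, hf⟩ := exists_quad γ hγ halt
  let F : Mo h →* Mo h := MonoidHom.mk' (fun x => (⟨g x.fst, x.snd + f x.fst⟩ : CE β)) (by
    intro x y
    refine CE.ext (map_add g _ _) ?_
    show x.snd + y.snd + β x.fst y.fst + f (x.fst + y.fst) =
      x.snd + f x.fst + (y.snd + f y.fst) + β (g x.fst) (g y.fst)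
    rw [hf]
    have h5 : ∀ a b c d e k : ZMod 2, a + b + c + (d + e + (k + c)) = a + d + (b + e) + k := by
      decide
    exact h5 _ _ _ _ _ _)
  have hF : Function.Bijective F := by
    constructor
    · intro x y hxy
      have h6 : x.fst = y.fst := g.injective (congrArg CE.fst hxy)
      have h7 : x.snd + f x.fst = y.snd + f y.fst := congrArg CE.snd hxy
      rw [h6] at h7
      exact CE.ext h6 (add_right_cancel h7)
    · intro y
      refine ⟨(⟨g.symm y.fst, y.snd + f (g.symm y.fst)⟩ : CE β), ?_⟩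
      refine CE.ext (g.apply_symm_apply _) ?_
      show y.snd + f (g.symm y.fst) + f (g.symm y.fst) = y.snd
      have h4 : ∀ x y : ZMod 2, x + y + y = x := by decide
      exact h4 _ _
  refine ⟨MulEquiv.ofBijective F hF, ?_⟩
  apply Subtype.ext
  apply LinearEquiv.ext
  intro v
  rfl

include hnd in
/-- the outer automorphism group of the model -/
theorem out_model : Nonempty (Cfsg.Out (Mo h) ≃* Cfsg.isometryGroup (ZMod 2) (fun v => β v v)) := by
  have e1 := QuotientGroup.quotientMulEquivOfEq (ker_toOQ h hnd).symm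
  have e2 := QuotientGroup.quotientKerEquivOfSurjective _ (toOQ_surjective h hnd)
  exact ⟨(e1.trans e2).trans (isoOQ _).symm⟩

end Fin

theorem out_congr {G H : Type*} [Group G] [Group H] (e : G ≃* H) :
    Nonempty (Cfsg.Out G ≃* Cfsg.Out H) := by
  refine ⟨QuotientGroup.congr _ _ (MulAut.congr e) ?_⟩
  ext x
  constructor
  · rintro ⟨_, ⟨g, rfl⟩, rfl⟩
    refine ⟨e g, ?_⟩
    ext y
    change e g * y * (e g)⁻¹ = e (g * e.symm y * g⁻¹)
    rw [map_mul, map_mul, map_inv, MulEquiv.apply_symm_apply]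
  · rintro ⟨h, rfl⟩
    refine ⟨MulAut.conj (e.symm h), ⟨_, rfl⟩, ?_⟩
    ext y
    change e (e.symm h * e.symm y * (e.symm h)⁻¹) = h * y * h⁻¹
    rw [map_mul, map_mul, map_inv, MulEquiv.apply_symm_apply, MulEquiv.apply_symm_apply]

/-! ### The two concrete forms -/

/-- plus type bilinear form -/
def bp (n : ℕ) (v w : Fin n ⊕ Fin n → ZMod 2) : ZMod 2 := ∑ i : Fin n, v (.inl i) * w (.inr i)

theorem bil_bp (n : ℕ) : Bil (bp n) := by
  constructor
  · intro a b c
    simp only [bp, ← Finset.sum_add_distrib, Pi.add_apply, add_mul]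
  · intro a b c
    simp only [bp, ← Finset.sum_add_distrib, Pi.add_apply, mul_add]

theorem bp_nd (n : ℕ) (w : Fin n ⊕ Fin n → ZMod 2) (hw : ∀ v, bp n v w = bp n w v) : w = 0 := by
  classical
  funext i
  rcases i with i | i
  · have h1 := hw (Pi.single (.inr i) 1)
    simp only [bp] at h1
    rw [Finset.sum_eq_zero, Finset.sum_eq_single i] at h1
    · simpa using h1.symm
    · intro j _ hj
      rw [Pi.single_eq_of_ne (by simpa using hj), mul_zero]
    · intro hi; exact absurd (Finset.mem_univ i) hi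
    · intro j _
      rw [Pi.single_eq_of_ne (by simp), zero_mul]
  · have h1 := hw (Pi.single (.inl i) 1)
    simp only [bp] at h1
    rw [Finset.sum_eq_single i, Finset.sum_eq_zero] at h1
    · simpa using h1
    · intro j _
      rw [Pi.single_eq_of_ne (by simp), mul_zero]
    · intro j _ hj
      rw [Pi.single_eq_of_ne (by simpa using hj), zero_mul]
    · intro hi; exact absurd (Finset.mem_univ i) hi

/-- minus type bilinear form -/
def bm (n : ℕ) (v w : (Fin n ⊕ Fin n) ⊕ Fin 2 → ZMod 2) : ZMod 2 :=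
  bp n (fun i => v (.inl i)) (fun i => w (.inl i)) +
    (v (.inr 0) * w (.inr 0) + v (.inr 0) * w (.inr 1) + v (.inr 1) * w (.inr 1))

theorem bil_bm (n : ℕ) : Bil (bm n) := by
  constructor
  · intro a b c
    have h1 := (bil_bp n).add_left (fun i => a (.inl i)) (fun i => b (.inl i)) (fun i => c (.inl i))
    show bp n ((fun i => a (.inl i)) + (fun i => b (.inl i))) (fun i => c (.inl i)) +
      ((a (.inr 0) + b (.inr 0)) * c (.inr 0) + (a (.inr 0) + b (.inr 0)) * c (.inr 1) +
        (a (.inr 1) + b (.inr 1)) * c (.inr 1)) = _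
    rw [h1]; simp only [bm]; ring
  · intro a b c
    have h1 := (bil_bp n).add_right (fun i => a (.inl i)) (fun i => b (.inl i))
      (fun i => c (.inl i))
    show bp n (fun i => a (.inl i)) ((fun i => b (.inl i)) + (fun i => c (.inl i))) +
      (a (.inr 0) * (b (.inr 0) + c (.inr 0)) + a (.inr 0) * (b (.inr 1) + c (.inr 1)) +
        a (.inr 1) * (b (.inr 1) + c (.inr 1))) = _
    rw [h1]; simp only [bm]; ring

theorem bm_nd (n : ℕ) (w : (Fin n ⊕ Fin n) ⊕ Fin 2 → ZMod 2) (hw : ∀ v, bm n v w = bm n w v) :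
    w = 0 := by
  classical
  have h1 : (fun i => w (.inl i)) = (0 : Fin n ⊕ Fin n → ZMod 2) := by
    apply bp_nd
    intro v
    have h2 := hw (Sum.elim v 0)
    simp only [bm, Sum.elim_inl, Sum.elim_inr, Pi.zero_apply, zero_mul, mul_zero, add_zero] at h2
    exact h2
  have h0 : (bp n 0 0) = 0 := (bil_bp n).zero_left 0
  have h2 := hw (Sum.elim 0 ![1, 0])
  have h3 := hw (Sum.elim 0 ![0, 1])
  simp only [bm, Sum.elim_inl, Sum.elim_inr, h1] at h2 h3
  change bp n 0 0 + _ = bp n 0 0 + _ at h2
  change bp n 0 0 + _ = bp n 0 0 + _ at h3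
  rw [h0] at h2 h3
  simp at h2 h3
  funext i
  rcases i with i | i
  · exact congrFun h1 i
  · fin_cases i
    · show w (.inr 0) = 0
      exact h3
    · show w (.inr 1) = 0
      exact h2

theorem sq_plus_model (n : ℕ) : ExSp2.sq (Mo (bil_bp n)) = 2 ^ (2 * n) + 2 ^ n := by
  rw [sq_mo _ dbl]
  have h1 := OrthCount.zeros_plus (F := ZMod 2) n
  rw [Nat.card_zmod] at h1
  have h2 : 2 * Nat.card {v : Fin n ⊕ Fin n → ZMod 2 // bp n v v = 0} + 2 ^ n =
      2 ^ (2 * n) + 2 ^ (n + 1) := h1
  rw [pow_succ] at h2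
  omega

theorem sq_minus_model (n : ℕ) : ExSp2.sq (Mo (bil_bm n)) + 2 ^ (n + 1) = 2 ^ (2 * (n + 1)) := by
  rw [sq_mo _ dbl]
  have h1 := OrthCount.zeros_minus (F := ZMod 2) n (a := 1) (b := 1) (by
    rintro ⟨z, w⟩ h
    rw [OrthCount.bin_apply] at h
    revert h; revert z w
    decide)
  rw [Nat.card_zmod] at h1
  have h3 : ∀ v : (Fin n ⊕ Fin n) ⊕ Fin 2 → ZMod 2,
      bm n v v = Cfsg.quadFormMinus n (ZMod 2) 1 1 v := by
    intro v
    simp only [bm, bp, Cfsg.quadFormMinus]
    ring
  have h2 : Nat.card {v : (Fin n ⊕ Fin n) ⊕ Fin 2 → ZMod 2 // bm n v v = 0} =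
      Nat.card {v : (Fin n ⊕ Fin n) ⊕ Fin 2 → ZMod 2 //
        Cfsg.quadFormMinus n (ZMod 2) 1 1 v = 0} := by
    apply Nat.card_congr
    apply Equiv.subtypeEquivRight
    intro v
    rw [h3]
  rw [h2]
  have e1 : 2 ^ (n + 2) = 2 * 2 ^ (n + 1) := by ring
  rw [e1] at h1
  have e2 : 2 * (n + 1) = 2 * n + 2 := by ring
  rw [e2]
  omega

theorem out_plus {E : Type*} [Group E] [Finite E] (hE : Cfsg.IsExtraspecial 2 E) (n : ℕ)
    (hcard : Nat.card E = 2 ^ (2 * n + 1)) (hs : ExSp2.sq E = 2 ^ (2 * n) + 2 ^ n) :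
    Nonempty (Cfsg.Out E ≃* Cfsg.isometryGroup (ZMod 2) (Cfsg.quadFormPlus n (ZMod 2))) := by
  have hp2 : Fact (Nat.Prime 2) := ⟨Nat.prime_two⟩
  have hG := ges_of_isExtraspecial hE
  have hc : Nat.card (Mo (bil_bp n)) = 2 ^ (2 * n + 1) := by
    rw [card_mo, Nat.card_eq_fintype_card, Fintype.card_pi]
    simp only [ZMod.card, Finset.prod_const, Finset.card_univ, Fintype.card_sum, Fintype.card_fin]
    rw [pow_succ]; ring
  obtain ⟨e⟩ := ExSp2.iso_of_sq n hG (ges (bil_bp n) (bp_nd n)) hcard hc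
    (hs.trans (sq_plus_model n).symm)
  obtain ⟨e1⟩ := out_congr e
  obtain ⟨e2⟩ := out_model (bil_bp n) (bp_nd n)
  exact ⟨e1.trans e2⟩

theorem out_minus {E : Type*} [Group E] [Finite E] (hE : Cfsg.IsExtraspecial 2 E) (n : ℕ)
    (hcard : Nat.card E = 2 ^ (2 * (n + 1) + 1)) (hs : ExSp2.sq E + 2 ^ (n + 1) = 2 ^ (2 * (n + 1))) :
    Nonempty (Cfsg.Out E ≃* Cfsg.isometryGroup (ZMod 2) (Cfsg.quadFormMinus n (ZMod 2) 1 1)) := by
  have hp2 : Fact (Nat.Prime 2) := ⟨Nat.prime_two⟩
  have hG := ges_of_isExtraspecial hE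
  have hc : Nat.card (Mo (bil_bm n)) = 2 ^ (2 * (n + 1) + 1) := by
    rw [card_mo, Nat.card_eq_fintype_card, Fintype.card_pi]
    simp only [ZMod.card, Finset.prod_const, Finset.card_univ, Fintype.card_sum, Fintype.card_fin]
    rw [pow_succ]; ring
  have h1 := sq_minus_model n
  obtain ⟨e⟩ := ExSp2.iso_of_sq (n + 1) hG (ges (bil_bm n) (bm_nd n)) hcard hc (by omega)
  obtain ⟨e1⟩ := out_congr e
  obtain ⟨e2⟩ := out_model (bil_bm n) (bm_nd n)
  have h3 : (fun v => bm n v v) = Cfsg.quadFormMinus n (ZMod 2) 1 1 := by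
    funext v
    simp only [bm, bp, Cfsg.quadFormMinus]
    ring
  rw [h3] at e2
  exact ⟨e1.trans e2⟩

end Cfsg.Agent.H73.ExOut
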