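import Mathlib
import Cfsg.Agent.Cop.Basic

set_option autoImplicit false

/-! Coprime actions given by a `MulDistribMulAction`. -/

namespace Cfsg.Agent.H73.ExtCop

open Subgroup

/-- existence of an invariant Sylow subgroup for an external coprime action -/
theorem exists_inv_sylow {A G : Type*} [Group A] [Finite A] [Group G] [Finite G] [MulDistribMulAction A G]
    (hcop : (Nat.card A).Coprime (Nat.card G)) (hsol : Group.IsSolvable A ∨ Group.IsSolvable G)
    (p : ℕ) [Fact p.Prime] : ∃ P : Sylow p G, ∀ a : A, ∀ x ∈ P, a • x ∈ P := by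
  let φ : A →* MulAut G := MulDistribMulAction.toMulAut A G
  have hfin : Finite (G ⋊[φ] A) := Finite.of_equiv (G × A) SemidirectProduct.equivProd.symm
  let K : Subgroup (G ⋊[φ] A) := (SemidirectProduct.inl : G →* G ⋊[φ] A).range
  let B : Subgroup (G ⋊[φ] A) := (SemidirectProduct.inr : A →* G ⋊[φ] A).range
  let eK : G ≃* K := MonoidHom.ofInjective SemidirectProduct.inl_injective
  let eB : A ≃* B := MonoidHom.ofInjective SemidirectProduct.inr_injective
  have hKn : K.Normal := by
    show ((SemidirectProduct.inl : G →* G ⋊[φ] A).range).Normal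
    rw [SemidirectProduct.range_inl_eq_ker_rightHom]; infer_instance
  have hBK : B ≤ normalizer (K : Set (G ⋊[φ] A)) := by
    rw [Subgroup.normalizer_eq_top]; exact le_top
  have hc : (Nat.card B).Coprime (Nat.card K) := by
    rw [← Nat.card_congr eK.toEquiv, ← Nat.card_congr eB.toEquiv]; exact hcop
  have hs : Group.IsSolvable B ∨ Group.IsSolvable K := by
    rcases hsol with h | h
    · left; exact Group.isSolvable_of_surjective (f := eB.toMonoidHom) eB.surjective
    · right; exact Group.isSolvable_of_surjective (f := eK.toMonoidHom) eK.surjective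
  obtain ⟨P, hP⟩ := Cop.exists_invariant_sylow hBK hc hs p
  refine ⟨P.comapOfInjective eK.toMonoidHom eK.injective (by
    intro x _
    exact eK.surjective x), ?_⟩
  intro a x hx
  have hx' : eK x ∈ P := hx
  have h1 : (SemidirectProduct.inl x : G ⋊[φ] A) ∈ (P : Subgroup K).map K.subtype := ⟨eK x, hx', rfl⟩
  have h2 := (mem_normalizer_iff.1 (hP ⟨a, rfl⟩) (SemidirectProduct.inl x)).1 h1
  have h3 : (SemidirectProduct.inr a : G ⋊[φ] A) * SemidirectProduct.inl x * (SemidirectProduct.inr a)⁻¹ =
      SemidirectProduct.inl (a • x) := by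
    have := SemidirectProduct.inl_aut (φ := φ) a x
    rw [map_inv] at this
    rw [← this]; rfl
  rw [h3] at h2
  obtain ⟨y, hy, hyx⟩ := h2
  have h4 : y = eK (a • x) := Subtype.ext hyx
  rw [h4] at hy
  exact hy

end Cfsg.Agent.H73.ExtCop
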