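import Mathlib
import Cfsg.Prelude.Def_Classical
import Cfsg.Agent.Suzuki.LieIso
import Cfsg.Agent.Suzuki.Trans
import Cfsg.Agent.H14.SubField
import Cfsg.Agent.H17.Basic
import Cfsg.Agent.S0280

/-!
Sections of GL(5,2).
-/

set_option autoImplicit false
set_option linter.unusedSectionVars false

namespace Cfsg.Agent.H73.GL52

open Cfsg Matrix

/-- the group -/
abbrev G : Type := GL (Fin 5) (ZMod 2)

theorem card_G : Nat.card G = 9999360 := by
  have h := Matrix.card_GL_field (𝔽 := ZMod 2) 5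
  rw [Nat.card_eq_fintype_card]
  rw [Nat.card_eq_fintype_card] at h
  rw [h, ZMod.card]
  decide

/-- first matrix of order 3 -/
def MA : Matrix (Fin 5) (Fin 5) (ZMod 2) :=
  !![0,1,0,0,0; 1,1,0,0,0; 0,0,1,0,0; 0,0,0,1,0; 0,0,0,0,1]

/-- second matrix of order 3 -/
def MB : Matrix (Fin 5) (Fin 5) (ZMod 2) :=
  !![1,0,0,0,0; 0,1,0,0,0; 0,0,0,1,0; 0,0,1,1,0; 0,0,0,0,1]

theorem MA3 : MA * (MA * MA) = 1 := by decide

theorem MA3' : (MA * MA) * MA = 1 := by decide

theorem MB3 : MB * (MB * MB) = 1 := by decide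

theorem MB3' : (MB * MB) * MB = 1 := by decide

theorem MAB : MA * MB = MB * MA := by decide

/-- first element -/
def a : G := ⟨MA, MA * MA, MA3, MA3'⟩

/-- second element -/
def b : G := ⟨MB, MB * MB, MB3, MB3'⟩

theorem a3 : a ^ 3 = 1 := by
  apply Units.ext
  rw [pow_succ, pow_two]
  exact MA3'

theorem b3 : b ^ 3 = 1 := by
  apply Units.ext
  rw [pow_succ, pow_two]
  exact MB3'

theorem ab : a * b = b * a := Units.ext MAB

theorem a_ne_one : a ≠ 1 := fun h => by
  have : MA = 1 := congrArg Units.val h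
  revert this; decide

theorem b_ne_one : b ≠ 1 := fun h => by
  have : MB = 1 := congrArg Units.val h
  revert this; decide

theorem a_ne_b : a ≠ b := fun h => by
  have : MA = MB := congrArg Units.val h
  revert this; decide

theorem ab_ne_one : a * b ≠ 1 := fun h => by
  have : MA * MB = 1 := congrArg Units.val h
  revert this; decide

theorem ab_ne_a : a * b ≠ a := fun h => b_ne_one (by simpa using h)

theorem ab_ne_b : a * b ≠ b := fun h => a_ne_one (by simpa using h)

/-- No element of order 9. -/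
theorem no_nine (h : G) : orderOf h ≠ 9 := by
  intro h9
  have hp : Fact (Nat.Prime 3) := ⟨Nat.prime_three⟩
  have hG : Nat.card G = 3 ^ 2 * 1111040 := by rw [card_G]; norm_num
  -- the cyclic Sylow
  have hz : IsPGroup 3 (Subgroup.zpowers h) := by
    rw [IsPGroup.iff_card]
    exact ⟨2, by rw [Nat.card_zpowers, h9]; norm_num⟩
  obtain ⟨P, hP⟩ := hz.exists_le_sylow
  have hPc : Nat.card P = 9 := by
    rw [H17.card_sylow_eq P hG (by norm_num)]; norm_num
  have hPeq : Subgroup.zpowers h = (P : Subgroup G) := by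
    apply Subgroup.eq_of_le_of_card_ge hP
    rw [Nat.card_zpowers, h9]
    exact hPc.le
  have hPcyc : IsCyclic P := by
    rw [← hPeq] at *
    infer_instance
  -- the other subgroup
  have hc : IsMulCommutative (Subgroup.closure ({a, b} : Set G)) := by
    apply Subgroup.isMulCommutative_closure
    rintro x (rfl | rfl) y (rfl | rfl)
    · rfl
    · exact ab
    · exact ab.symm
    · rfl
  have hp3 : IsPGroup 3 (Subgroup.closure ({a, b} : Set G)) := by
    intro ⟨x, hx⟩
    refine ⟨1, ?_⟩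
    rw [pow_one]
    apply Subtype.ext
    show x ^ 3 = 1
    induction hx using Subgroup.closure_induction with
    | mem x hx =>
      rcases hx with rfl | rfl
      · exact a3
      · exact b3
    | one => exact one_pow _
    | mul x y hx hy hx' hy' =>
      have h1 : Commute x y := congrArg Subtype.val (hc.is_comm.comm
        (⟨x, hx⟩ : Subgroup.closure ({a, b} : Set G)) ⟨y, hy⟩)
      rw [h1.mul_pow, hx', hy', one_mul]
    | inv x _ hx => rw [inv_pow, hx, inv_one]
  obtain ⟨Q, hQ⟩ := hp3.exists_le_sylow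
  have hQcyc : IsCyclic Q := by
    have e := Sylow.equiv P Q
    exact isCyclic_of_surjective e e.surjective
  have haQ : a ∈ (Q : Subgroup G) := hQ (Subgroup.subset_closure (Or.inl rfl))
  have hbQ : b ∈ (Q : Subgroup G) := hQ (Subgroup.subset_closure (Or.inr rfl))
  classical
  have : Fintype Q := Fintype.ofFinite Q
  have hle := IsCyclic.card_pow_eq_one_le (α := Q) (n := 3) (by norm_num)
  let f : Fin 4 → Q := ![1, ⟨a, haQ⟩, ⟨b, hbQ⟩, ⟨a, haQ⟩ * ⟨b, hbQ⟩]
  have hab3 : (a * b) ^ 3 = 1 := by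
    rw [(show Commute a b from ab).mul_pow, a3, b3, one_mul]
  have hf : ({1, ⟨a, haQ⟩, ⟨b, hbQ⟩, ⟨a, haQ⟩ * ⟨b, hbQ⟩} : Finset Q) ⊆
      Finset.univ.filter (fun x : Q => x ^ 3 = 1) := by
    intro x hx
    rw [Finset.mem_filter]
    refine ⟨Finset.mem_univ _, ?_⟩
    simp only [Finset.mem_insert, Finset.mem_singleton] at hx
    rcases hx with rfl | rfl | rfl | rfl
    · exact one_pow _
    · exact Subtype.ext a3
    · exact Subtype.ext b3
    · exact Subtype.ext hab3
  have h4 : ({1, ⟨a, haQ⟩, ⟨b, hbQ⟩, ⟨a, haQ⟩ * ⟨b, hbQ⟩} : Finset Q).card = 4 := by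
    rw [Finset.card_insert_of_notMem, Finset.card_insert_of_notMem, Finset.card_insert_of_notMem,
      Finset.card_singleton]
    · rw [Finset.mem_singleton]
      intro h
      exact ab_ne_b (congrArg Subtype.val h).symm
    · rw [Finset.mem_insert, Finset.mem_singleton]
      rintro (h | h)
      · exact a_ne_b (congrArg Subtype.val h)
      · exact ab_ne_a (congrArg Subtype.val h).symm
    · rw [Finset.mem_insert, Finset.mem_insert, Finset.mem_singleton]
      rintro (h | h | h)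
      · exact a_ne_one (congrArg Subtype.val h).symm
      · exact b_ne_one (congrArg Subtype.val h).symm
      · exact ab_ne_one (congrArg Subtype.val h).symm
  have h5 := Finset.card_le_card hf
  have h6 : (Finset.univ.filter (fun x : Q => x ^ 3 = 1)).card ≤ 3 := by
    refine le_trans (le_of_eq ?_) hle
    congr
  omega

theorem section_order {H : Subgroup G} {K : Subgroup H} [K.Normal] (x : H ⧸ K) : orderOf x ≠ 9 := by
  intro h9
  obtain ⟨y, rfl⟩ := QuotientGroup.mk_surjective x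
  have h1 : orderOf (QuotientGroup.mk y : H ⧸ K) ∣ orderOf y := orderOf_map_dvd (QuotientGroup.mk' K) y
  rw [h9] at h1
  have hfin : Finite G := inferInstance
  obtain ⟨k, hk⟩ := h1
  have hpos := orderOf_pos y
  have hk0 : k ≠ 0 := by rintro rfl; omega
  have h2 : orderOf (y ^ k) = 9 := by
    rw [orderOf_pow_of_dvd hk0 ⟨9, by rw [hk]; ring⟩, hk, Nat.mul_div_cancel _ (by omega)]
  have h3 : orderOf ((y ^ k : H) : G) = 9 := by rw [Subgroup.orderOf_coe, h2]
  exact no_nine _ h3

theorem card_dvd {H : Subgroup G} {K : Subgroup H} [K.Normal] : Nat.card (H ⧸ K) ∣ 9999360 := by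
  rw [← card_G]
  exact (Subgroup.card_quotient_dvd_card K).trans (Subgroup.card_subgroup_dvd_card H)

theorem exists_root {F : Type*} [Field F] [Fintype F] (hF : Fintype.card F = 8) :
    (2 : F) = 0 ∧ ∃ t : F, t ^ 3 = t + 1 := by
  classical
  have h2 : (2 : F) = 0 := by
    have h8 : ((8 : ℕ) : F) = 0 := by rw [← hF]; exact Nat.cast_card_eq_zero F
    have h8' : (2 : F) ^ 3 = 0 := by
      rw [← h8]; norm_num
    exact pow_eq_zero_iff (by norm_num) |>.mp h8'
  refine ⟨h2, ?_⟩
  obtain ⟨z, hz⟩ : ∃ z : F, z ∉ ({0, 1} : Finset F) := by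
    by_contra hcon
    push Not at hcon
    have h1 : (Finset.univ : Finset F) ⊆ {0, 1} := fun x _ => hcon x
    have h3 := (Finset.card_le_card h1).trans Finset.card_le_two
    rw [Finset.card_univ, hF] at h3
    omega
  simp only [Finset.mem_insert, Finset.mem_singleton, not_or] at hz
  have h7 : z ^ 7 = 1 := by
    have := FiniteField.pow_card_sub_one_eq_one z hz.1
    rwa [hF] at this
  have hprod : (z - 1) * ((z ^ 3 + z + 1) * (z ^ 3 + z ^ 2 + 1)) = 0 := by
    have h8 : (z - 1) * ((z ^ 3 + z + 1) * (z ^ 3 + z ^ 2 + 1)) =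
        z ^ 7 - 1 + 2 * (z ^ 4 - z ^ 3) := by ring
    rw [h8, h7, h2]; ring
  rcases mul_eq_zero.mp hprod with h | h
  · exact absurd (sub_eq_zero.mp h) hz.2
  · rcases mul_eq_zero.mp h with h | h
    · refine ⟨z, ?_⟩
      have h9 : z ^ 3 = z + 1 + ((z ^ 3 + z + 1) - 2 * (z + 1)) := by ring
      rw [h9, h, h2]; ring
    · refine ⟨z⁻¹, ?_⟩
      have h9 : z⁻¹ ^ 3 * (z ^ 3 + z ^ 2 + 1) = 0 := by rw [h, mul_zero]
      have h10 : z⁻¹ ^ 3 * (z ^ 3 + z ^ 2 + 1) = 1 + z⁻¹ + z⁻¹ ^ 3 := by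
        have hz0 := hz.1
        field_simp
      rw [h10] at h9
      have h11 : z⁻¹ ^ 3 = z⁻¹ + 1 + ((1 + z⁻¹ + z⁻¹ ^ 3) - 2 * (z⁻¹ + 1)) := by ring
      rw [h11, h9, h2]; ring

/-- an element of order 9 -/
theorem exists_nine {F : Type*} [Field F] [Fintype F] (hF : Fintype.card F = 8) :
    ∃ x : Matrix.ProjectiveSpecialLinearGroup (Fin 2) F, orderOf x = 9 := by
  obtain ⟨h2, t, ht⟩ := exists_root hF
  have hneg : (-1 : F) = 1 := by
    have : (1 : F) + 1 = 0 := by rw [one_add_one_eq_two, h2]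
    exact (eq_neg_of_add_eq_zero_left this).symm
  have hMd : (!![0, 1; 1, t] : Matrix (Fin 2) (Fin 2) F).det = 1 := by
    rw [Matrix.det_fin_two_of]; simp [hneg]
  have hNd : (!![t, 1 + t ^ 2; 1 + t ^ 2, t + 1] : Matrix (Fin 2) (Fin 2) F).det = 1 := by
    rw [Matrix.det_fin_two_of]
    linear_combination (-t) * ht - (1 + t ^ 2) * h2
  have e1 : (!![0, 1; 1, t] : Matrix (Fin 2) (Fin 2) F) * !![0, 1; 1, t] * !![0, 1; 1, t] =
      !![t, 1 + t ^ 2; 1 + t ^ 2, t + 1] := by
    rw [Matrix.mul_fin_two, Matrix.mul_fin_two]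
    ext i j
    fin_cases i <;> fin_cases j <;> simp
    · ring
    · ring
    · linear_combination ht + t * h2
  have e2 : (!![t, 1 + t ^ 2; 1 + t ^ 2, t + 1] : Matrix (Fin 2) (Fin 2) F) *
      !![t, 1 + t ^ 2; 1 + t ^ 2, t + 1] = !![t + 1, 1 + t ^ 2; 1 + t ^ 2, t] := by
    rw [Matrix.mul_fin_two]
    ext i j
    fin_cases i <;> fin_cases j <;> simp
    · linear_combination t * ht + (2 * t ^ 2) * h2
    · linear_combination (t + t ^ 3) * h2
    · linear_combination (t + t ^ 3) * h2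
    · linear_combination t * ht + (2 * t ^ 2 + t + 1) * h2
  have e3 : (!![t + 1, 1 + t ^ 2; 1 + t ^ 2, t] : Matrix (Fin 2) (Fin 2) F) *
      !![t, 1 + t ^ 2; 1 + t ^ 2, t + 1] = 1 := by
    rw [Matrix.mul_fin_two, Matrix.one_fin_two]
    ext i j
    fin_cases i <;> fin_cases j <;> simp
    · linear_combination t * ht + (2 * t ^ 2 + t) * h2
    · linear_combination (t + 1) * (1 + t ^ 2) * h2
    · linear_combination t * (1 + t ^ 2) * h2
    · linear_combination t * ht + (2 * t ^ 2 + t) * h2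
  let M : SpecialLinearGroup (Fin 2) F := ⟨!![0, 1; 1, t], hMd⟩
  let N : SpecialLinearGroup (Fin 2) F := ⟨!![t, 1 + t ^ 2; 1 + t ^ 2, t + 1], hNd⟩
  have hM3 : M ^ 3 = N := by
    rw [pow_succ, pow_two]
    exact Subtype.ext e1
  have hN3 : N ^ 3 = 1 := by
    rw [pow_succ, pow_two]
    apply Subtype.ext
    show (!![t, 1 + t ^ 2; 1 + t ^ 2, t + 1] : Matrix (Fin 2) (Fin 2) F) *
      !![t, 1 + t ^ 2; 1 + t ^ 2, t + 1] * !![t, 1 + t ^ 2; 1 + t ^ 2, t + 1] = 1
    rw [e2, e3]
  have hM9 : M ^ 3 ^ 2 = 1 := by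
    rw [pow_two, pow_mul, hM3, hN3]
  refine ⟨QuotientGroup.mk M, ?_⟩
  have h3 : ¬ (QuotientGroup.mk M : Matrix.ProjectiveSpecialLinearGroup (Fin 2) F) ^ 3 ^ 1 = 1 := by
    intro h
    rw [pow_one, ← QuotientGroup.mk_pow, hM3, QuotientGroup.eq_one_iff] at h
    rw [Matrix.SpecialLinearGroup.mem_center_iff] at h
    obtain ⟨r, _, hr⟩ := h
    have h4 := congrFun (congrFun hr 0) 1
    have h5 : (1 + t ^ 2 : F) = 0 := by simpa [N] using h4.symm
    have h6 : (1 + t) ^ 2 = 0 := by
      have : (1 + t) ^ 2 = (1 + t ^ 2) + 2 * t := by ring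
      rw [this, h5, h2]; ring
    have h7 : 1 + t = 0 := pow_eq_zero_iff (by norm_num) |>.mp h6
    have h8 : t ^ 3 = 0 := by rw [ht, add_comm]; exact h7
    have h9 : t = 0 := pow_eq_zero_iff (by norm_num) |>.mp h8
    rw [h9] at h7
    simp at h7
  have := orderOf_eq_prime_pow (p := 3) (n := 1) h3 (by rw [← QuotientGroup.mk_pow, hM9]; rfl)
  rw [this]; norm_num

end Cfsg.Agent.H73.GL52
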