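import Mathlib
import Cfsg.Prelude.Def_Solvable
import Cfsg.Agent.Solv.Core
import Cfsg.Agent.Cop.Basic
import Cfsg.Agent.H76.PSolvable
import Cfsg.Agent.Transfer.Fusion

set_option autoImplicit false
set_option linter.unusedSectionVars false

/-! # A Sylow `p`-subgroup normalizing a Sylow `q`-subgroup (helper73) -/

namespace Cfsg.Agent.H73.NormSyl

open Subgroup Cfsg
open scoped Pointwise

universe u

/-- the hypothesis on class sizes -/
def Hyp (p q : ℕ) (G : Type u) [Group G] : Prop :=
  ∀ y : G, (∃ k : ℕ, orderOf y = q ^ k) → ¬ p ∣ (Subgroup.centralizer ({y} : Set G)).index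

section

variable {G : Type u} [Group G] [Finite G] {p q : ℕ} [Fact p.Prime] [Fact q.Prime]

theorem Hyp.quot (h : Hyp p q G) (N : Subgroup G) [N.Normal] : Hyp p q (G ⧸ N) := by
  rintro ybar ⟨k, hk⟩ hdvd
  obtain ⟨y, rfl⟩ := QuotientGroup.mk_surjective ybar
  have hq := (Fact.out : q.Prime)
  obtain ⟨a, m, hm, ham⟩ := Nat.exists_eq_pow_mul_and_not_dvd (orderOf_pos y).ne' q hq.one_lt.ne'
  have hcop : Nat.Coprime m (orderOf (QuotientGroup.mk y : G ⧸ N)) := by
    rw [hk]
    exact ((Nat.Prime.coprime_iff_not_dvd hq).2 hm).symm.pow_right k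
  obtain ⟨u, hu⟩ := exists_pow_eq_self_of_coprime hcop
  have hord : ∃ j : ℕ, orderOf ((y ^ m) ^ u) = q ^ j := by
    have h1 : orderOf ((y ^ m) ^ u) ∣ q ^ a := by
      apply orderOf_dvd_of_pow_eq_one
      rw [← pow_mul, mul_comm u, pow_mul, ← pow_mul y, mul_comm m, ← ham, pow_orderOf_eq_one, one_pow]
    obtain ⟨j, -, hj⟩ := (Nat.dvd_prime_pow hq).1 h1
    exact ⟨j, hj⟩
  have h2 := h _ hord
  apply h2
  refine hdvd.trans ?_
  have h3 : (Subgroup.centralizer ({(y ^ m) ^ u} : Set G)).map (QuotientGroup.mk' N) ≤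
      Subgroup.centralizer ({(QuotientGroup.mk y : G ⧸ N)} : Set (G ⧸ N)) := by
    rintro _ ⟨x, hx, rfl⟩
    rw [mem_centralizer_iff]
    rintro _ rfl
    have h4 : (y ^ m) ^ u * x = x * (y ^ m) ^ u := mem_centralizer_iff.1 hx _ rfl
    have h5 : (QuotientGroup.mk y : G ⧸ N) = QuotientGroup.mk' N ((y ^ m) ^ u) := by
      rw [map_pow, map_pow]; exact hu.symm
    rw [h5, ← map_mul, h4, map_mul]
  exact (index_dvd_of_le h3).trans (index_map_dvd _ (QuotientGroup.mk'_surjective N))

theorem exists_sylow_le {N : Subgroup G} (h : ¬ p ∣ N.index) : ∃ P : Sylow p G, (P : Subgroup G) ≤ N := by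
  obtain ⟨R⟩ : Nonempty (Sylow p N) := inferInstance
  have h1 : ¬ p ∣ ((R : Subgroup N).map N.subtype).index := by
    rw [index_map_subtype]
    intro hd
    rcases (Nat.Prime.dvd_mul (Fact.out : p.Prime)).1 hd with hd | hd
    · exact R.not_dvd_index hd
    · exact h hd
  have h2 : IsPGroup p ((R : Subgroup N).map N.subtype) := R.2.map _
  refine ⟨h2.toSylow h1, ?_⟩
  rw [IsPGroup.toSylow_coe]
  exact map_subtype_le _

theorem isPGroup_of_normal {Q : Subgroup G} (hQ : IsPGroup q Q) {x : G} (hx : x ∈ Q) : ∃ k : ℕ, orderOf x = q ^ k := by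
  obtain ⟨k, hk⟩ := IsPGroup.iff_orderOf.1 hQ ⟨x, hx⟩
  exact ⟨k, by rw [← hk, Subgroup.orderOf_mk]⟩

/-- a `q`-group acting on a normal `q'`-subgroup centralizes a Sylow `p`-subgroup -/
theorem centralizes_sylow (h : Hyp p q G) (Q M : Subgroup G) [hM : M.Normal] (hQ : IsPGroup q Q)
    (hcop : (Nat.card Q).Coprime (Nat.card M)) :
    ∃ S : Sylow p M, Q ≤ centralizer (((S : Subgroup M).map M.subtype : Subgroup G) : Set G) := by
  have hnorm : ∀ A : Subgroup G, A ≤ normalizer (M : Set G) := fun A => by
    rw [Subgroup.normalizer_eq_top]; exact le_top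
  have hQs : Group.IsSolvable Q := by
    have : Group.IsNilpotent Q := hQ.isNilpotent
    infer_instance
  obtain ⟨S, hS⟩ := Cop.exists_invariant_sylow (hnorm Q) hcop (Or.inl hQs) p
  refine ⟨S, fun x hx => ?_⟩
  obtain ⟨k, hk⟩ := isPGroup_of_normal hQ hx
  obtain ⟨R, hR⟩ := exists_sylow_le (h x ⟨k, hk⟩)
  have hzx : zpowers x ≤ Q := zpowers_le.2 hx
  have hcop' : (Nat.card (zpowers x)).Coprime (Nat.card M) := Nat.Coprime.coprime_dvd_left (card_dvd_of_le hzx) hcop
  have hzs : Group.IsSolvable (zpowers x) := inferInstance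
  -- the Sylow subgroup R ⊓ M of M is centralized by x
  set T := Transfer.sylowInf R M with hT
  have hTR : (T : Subgroup M).map M.subtype = (R : Subgroup G) ⊓ M := by
    change ((R : Subgroup G).subgroupOf M).map M.subtype = _
    rw [Subgroup.subgroupOf_map_subtype]
  have hxT : ∀ z ∈ (T : Subgroup M).map M.subtype, x * z = z * x := by
    intro z hz
    rw [hTR] at hz
    exact (mem_centralizer_iff.1 (hR hz.1) x rfl)
  have h1 : zpowers x ≤ normalizer ((T : Subgroup M).map M.subtype : Set G) := by
    refine le_trans ?_ (Subgroup.centralizer_le_normalizer _)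
    rw [zpowers_le, mem_centralizer_iff]
    intro z hz
    exact (hxT z hz).symm
  obtain ⟨c, hc, hcT⟩ := Cop.exists_centralizer_conj_sylow (hnorm (zpowers x)) hcop' (Or.inl hzs) p T S h1 (hzx.trans hS)
  rw [mem_centralizer_iff]
  intro z hz
  have hz' : z ∈ ((MulAut.conj c • T : Sylow p M) : Subgroup M).map M.subtype := by rw [hcT]; exact hz
  obtain ⟨w, hw, rfl⟩ := hz'
  have hw' : w ∈ MulAut.conj c • (T : Subgroup M) := hw
  rw [Hall.mem_conj_smul] at hw'
  have h2 : ((c⁻¹ * w * c : M) : G) ∈ (T : Subgroup M).map M.subtype := ⟨_, hw', rfl⟩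
  have h3 := hxT _ h2
  have h4 : x * (c : G) = (c : G) * x := mem_centralizer_iff.1 hc x (mem_zpowers x)
  have h5 : (M.subtype w : G) = (c : G) * ((c⁻¹ * w * c : M) : G) * (c : G)⁻¹ := by
    simp only [Subgroup.coe_mul, Subgroup.coe_inv, Subgroup.coe_subtype]
    group
  rw [h5]
  have h6 : Commute x (c : G) := h4
  have h7 : Commute x ((c⁻¹ * w * c : M) : G) := h3
  exact ((h6.mul_right h7).mul_right h6.inv_right).eq.symm

end

/-- the `q`-solvable case -/
theorem qsolvable {p q : ℕ} [Fact p.Prime] [Fact q.Prime] (n : ℕ) :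
    ∀ (G : Type u) [Group G] [Finite G], Nat.card G = n → IsPSolvable q G → Hyp p q G →
      ∃ (P : Sylow p G) (Q : Sylow q G), (P : Subgroup G) ≤ Subgroup.normalizer ((Q : Subgroup G) : Set G) := by
  induction n using Nat.strong_induction_on with
  | _ n ih =>
  intro G _ _ hn hsolv hyp
  by_cases hM : pPrimeCore q G = ⊥
  · -- O_q(G)
    have hC := H76.centralizer_pCore_le hsolv hM
    by_cases hV : pCore q G = ⊥
    · rw [hV] at hC
      have htop : ∀ x : G, x = 1 := by
        intro x
        have : x ∈ centralizer (((⊥ : Subgroup G)) : Set G) := by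
          rw [mem_centralizer_iff]
          intro z hz
          have hz' : z = 1 := hz
          rw [hz', one_mul, mul_one]
        exact mem_bot.1 (hC this)
      refine ⟨default, default, fun x _ => ?_⟩
      rw [htop x]
      exact one_mem _
    · set V := pCore q G with hVdef
      have hVn : V.Normal := inferInstance
      have hlt : Nat.card (G ⧸ V) < n := by
        have h1 := Subgroup.card_eq_card_quotient_mul_card_subgroup V
        have h2 : 1 < Nat.card V := (Subgroup.one_lt_card_iff_ne_bot V).2 hV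
        have h3 : 0 < Nat.card (G ⧸ V) := Nat.card_pos
        rw [← hn, h1]
        nlinarith
      obtain ⟨Pb, Qb, hPQ⟩ := ih _ hlt (G ⧸ V) rfl (H76.isPSolvable_quotient V hsolv) (hyp.quot V)
      have hs := QuotientGroup.mk'_surjective V
      obtain ⟨P, rfl⟩ := Sylow.mapSurjective_surjective hs p Pb
      obtain ⟨Q, rfl⟩ := Sylow.mapSurjective_surjective hs q Qb
      refine ⟨P, Q, ?_⟩
      have h1 : ((Q : Subgroup G).map (QuotientGroup.mk' V)).comap (QuotientGroup.mk' V) = Q := by
        rw [Subgroup.comap_map_eq, QuotientGroup.ker_mk', sup_eq_left]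
        exact Solv.pCore_le_sylow Q
      have h2 := Subgroup.comap_normalizer_eq_of_surjective ((Q : Subgroup G).map (QuotientGroup.mk' V)) hs
      rw [h1] at h2
      have h3 : (P : Subgroup G) ≤ (Subgroup.normalizer (((Q : Subgroup G).map (QuotientGroup.mk' V) : Subgroup (G ⧸ V)) : Set (G ⧸ V))).comap
          (QuotientGroup.mk' V) := Subgroup.map_le_iff_le_comap.1 hPQ
      exact h3.trans h2.le
  · set M := pPrimeCore q G with hMdef
    have hMn : M.Normal := inferInstance
    have hlt : Nat.card (G ⧸ M) < n := by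
      have h1 := Subgroup.card_eq_card_quotient_mul_card_subgroup M
      have h2 : 1 < Nat.card M := (Subgroup.one_lt_card_iff_ne_bot M).2 hM
      have h3 : 0 < Nat.card (G ⧸ M) := Nat.card_pos
      rw [← hn, h1]
      nlinarith
    obtain ⟨Pb, Qb, hPQ⟩ := ih _ hlt (G ⧸ M) rfl (H76.isPSolvable_quotient M hsolv) (hyp.quot M)
    have hs := QuotientGroup.mk'_surjective M
    obtain ⟨P, rfl⟩ := Sylow.mapSurjective_surjective hs p Pb
    obtain ⟨Q, rfl⟩ := Sylow.mapSurjective_surjective hs q Qb
    set K : Subgroup G := (Q : Subgroup G) ⊔ M with hK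
    have h1 : ((Q : Subgroup G).map (QuotientGroup.mk' M)).comap (QuotientGroup.mk' M) = K := by
      rw [Subgroup.comap_map_eq, QuotientGroup.ker_mk']
    have h2 := Subgroup.comap_normalizer_eq_of_surjective ((Q : Subgroup G).map (QuotientGroup.mk' M)) hs
    rw [h1] at h2
    have h3 : (P : Subgroup G) ≤ Subgroup.normalizer (K : Set G) := by
      have h4 : (P : Subgroup G) ≤ (Subgroup.normalizer (((Q : Subgroup G).map (QuotientGroup.mk' M) : Subgroup (G ⧸ M)) : Set (G ⧸ M))).comap
          (QuotientGroup.mk' M) := Subgroup.map_le_iff_le_comap.1 hPQ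
      exact h4.trans h2.le
    set N := Subgroup.normalizer ((Q : Subgroup G) : Set G) with hN
    -- Frattini
    have h5 : (P : Subgroup G) ≤ N ⊔ M := by
      intro x hx
      have hxK := h3 hx
      have hQK : (Q : Subgroup G) ≤ K := le_sup_left
      -- x Q x⁻¹ ≤ K
      have hle : ((x • Q : Sylow q G) : Subgroup G) ≤ K := by
        intro z hz
        rw [Sylow.coe_subgroup_smul] at hz
        have hz' : z ∈ MulAut.conj x • (Q : Subgroup G) := hz
        rw [Hall.mem_conj_smul] at hz'
        have := hQK hz'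
        exact (mem_normalizer_iff''.1 hxK z).2 this
      obtain ⟨k, hk⟩ := MulAction.exists_smul_eq K ((x • Q).subtype hle) (Q.subtype hQK)
      have hk' : ((k : G) * x) • Q = Q := by
        rw [mul_smul]
        apply Sylow.ext
        have h6 := congrArg (fun R : Sylow q K => ((R : Subgroup K).map K.subtype)) hk
        have h6' : (((k • (x • Q).subtype hle : Sylow q K) : Subgroup K).map K.subtype) =
          (((Q.subtype hQK : Sylow q K) : Subgroup K).map K.subtype) := h6
        rw [Cop.map_smul_sylow] at h6'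
        have h7 : (((x • Q).subtype hle : Subgroup K)).map K.subtype = ((x • Q : Sylow q G) : Subgroup G) := by
          change (((x • Q : Sylow q G) : Subgroup G).subgroupOf K).map K.subtype = _
          rw [Subgroup.subgroupOf_map_subtype, inf_eq_left.2 hle]
        have h8 : ((Q.subtype hQK : Subgroup K)).map K.subtype = (Q : Subgroup G) := by
          change ((Q : Subgroup G).subgroupOf K).map K.subtype = _
          rw [Subgroup.subgroupOf_map_subtype, inf_eq_left.2 hQK]
        rw [h7, h8] at h6'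
        rw [Sylow.coe_subgroup_smul]
        exact h6'
      have h9 : (k : G) * x ∈ N := Sylow.smul_eq_iff_mem_normalizer.1 hk'
      have h10 : (k : G) ∈ N ⊔ M := (sup_le (le_sup_of_le_left Subgroup.le_normalizer) le_sup_right : K ≤ N ⊔ M) k.2
      have h11 : x = (k : G)⁻¹ * ((k : G) * x) := by group
      rw [h11]
      exact mul_mem (inv_mem h10) (mem_sup_left h9)
    -- the index of N
    have hcop : (Nat.card (Q : Subgroup G)).Coprime (Nat.card M) := by
      obtain ⟨j, hj⟩ := IsPGroup.iff_card.1 Q.2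
      have h6 : (Nat.card M).Coprime q := Solv.pPrimeCore_card_coprime q
      rw [hj]
      exact (h6.pow_right j).symm
    obtain ⟨S, hS⟩ := centralizes_sylow hyp (Q : Subgroup G) M Q.2 hcop
    have hSN : (S : Subgroup M).map M.subtype ≤ N := by
      refine le_trans ?_ (Subgroup.centralizer_le_normalizer _)
      rw [Subgroup.le_centralizer_iff]
      exact hS
    have hidx : ¬ p ∣ N.index := by
      have hp := (Fact.out : p.Prime)
      have e1 : ¬ p ∣ (N ⊔ M).index := fun hd => P.not_dvd_index (hd.trans (index_dvd_of_le h5))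
      have e2 : ¬ p ∣ (N ⊓ M).relIndex M := by
        intro hd
        have h6 : (S : Subgroup M).map M.subtype ≤ N ⊓ M := le_inf hSN (map_subtype_le _)
        have h7 : (N ⊓ M).relIndex M ∣ ((S : Subgroup M).map M.subtype).relIndex M := Subgroup.relIndex_dvd_of_le_left M h6
        apply S.not_dvd_index
        have h8 : ((S : Subgroup M).map M.subtype).relIndex M = (S : Subgroup M).index := by
          rw [Subgroup.relIndex, Subgroup.subgroupOf, Subgroup.comap_map_eq_self_of_injective M.subtype_injective]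
        rw [← h8]
        exact hd.trans h7
      have h9 := Solv.mul_card_sup_of_normal N M
      have h10 : Nat.card (N ⊓ M : Subgroup G) * (N ⊓ M).relIndex M = Nat.card M := by
        rw [← Subgroup.relIndex_bot_left, ← Subgroup.relIndex_bot_left, Subgroup.relIndex_mul_relIndex _ _ _ bot_le inf_le_right]
      have h11 : Nat.card (N ⊔ M : Subgroup G) * (N ⊔ M).index = Nat.card G := Subgroup.card_mul_index _
      have h12 : Nat.card N * N.index = Nat.card G := Subgroup.card_mul_index _
      have hpos1 : 0 < Nat.card (N ⊓ M : Subgroup G) := Nat.card_pos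
      have hpos2 : 0 < Nat.card N := Nat.card_pos
      have h13 : Nat.card (N ⊔ M : Subgroup G) = Nat.card N * (N ⊓ M).relIndex M := by
        apply Nat.eq_of_mul_eq_mul_right hpos1
        rw [h9, ← h10]; ring
      have h14 : N.index = (N ⊓ M).relIndex M * (N ⊔ M).index := by
        apply Nat.eq_of_mul_eq_mul_left hpos2
        rw [h12, ← h11, h13]; ring
      rw [h14]
      intro hd
      rcases hp.dvd_mul.1 hd with hd | hd
      · exact e2 hd
      · exact e1 hd
    obtain ⟨P', hP'⟩ := exists_sylow_le hidx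
    exact ⟨P', Q, hP'⟩

/-- the `p`-solvable case -/
theorem psolvable {p q : ℕ} [Fact p.Prime] [Fact q.Prime] (hpq : p ≠ q) {G : Type u} [Group G] [Finite G]
    (hsolv : IsPSolvable p G) (hyp : Hyp p q G) :
    ∃ (P : Sylow p G) (Q : Sylow q G), (P : Subgroup G) ≤ Subgroup.normalizer ((Q : Subgroup G) : Set G) := by
  set H := pPrimeCore p G with hH
  have hHn : H.Normal := inferInstance
  have hcore : pPrimeCore p (G ⧸ H) = ⊥ := Solv.pPrimeCore_quotient_pPrimeCore p
  have hC := H76.centralizer_pCore_le (H76.isPSolvable_quotient H hsolv) hcore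
  have hq := hyp.quot H
  -- q-elements of the quotient are trivial
  have h1 : ∀ y : G ⧸ H, (∃ k : ℕ, orderOf y = q ^ k) → y = 1 := by
    rintro y ⟨k, hk⟩
    obtain ⟨R, hR⟩ := exists_sylow_le (hq y ⟨k, hk⟩)
    have h2 : y ∈ centralizer ((pCore p (G ⧸ H) : Subgroup (G ⧸ H)) : Set (G ⧸ H)) := by
      rw [mem_centralizer_iff]
      intro z hz
      exact (mem_centralizer_iff.1 (hR (Solv.pCore_le_sylow R hz)) y rfl).symm
    have h3 := hC h2
    obtain ⟨j, hj⟩ := isPGroup_of_normal (Solv.pCore_isPGroup p) h3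
    have h4 : orderOf y ∣ 1 := by
      have h5 : Nat.Coprime (p ^ j) (q ^ k) :=
        Nat.Coprime.pow _ _ ((Nat.coprime_primes Fact.out Fact.out).2 hpq)
      rw [← hj, ← hk] at h5
      have := Nat.dvd_gcd (dvd_refl (orderOf y)) (dvd_refl (orderOf y))
      rwa [h5] at this
    exact orderOf_eq_one_iff.1 (Nat.dvd_one.1 h4)
  obtain ⟨P⟩ : Nonempty (Sylow p G) := inferInstance
  have hnorm : (P : Subgroup G) ≤ normalizer (H : Set G) := by rw [Subgroup.normalizer_eq_top]; exact le_top
  have hPs : Group.IsSolvable (P : Subgroup G) := by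
    have : Group.IsNilpotent (P : Subgroup G) := P.2.isNilpotent
    infer_instance
  have hcop : (Nat.card (P : Subgroup G)).Coprime (Nat.card H) := by
    obtain ⟨j, hj⟩ := IsPGroup.iff_card.1 P.2
    have h6 : (Nat.card H).Coprime p := Solv.pPrimeCore_card_coprime p
    rw [hj]
    exact (h6.pow_right j).symm
  obtain ⟨S, hS⟩ := Cop.exists_invariant_sylow hnorm hcop (Or.inl hPs) q
  have h2 : ¬ q ∣ ((S : Subgroup H).map H.subtype).index := by
    rw [index_map_subtype]
    intro hd
    rcases (Nat.Prime.dvd_mul (Fact.out : q.Prime)).1 hd with hd | hd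
    · exact S.not_dvd_index hd
    · obtain ⟨y, hy⟩ := exists_prime_orderOf_dvd_card' (G := G ⧸ H) q hd
      have h3 := h1 y ⟨1, by rw [hy, pow_one]⟩
      rw [h3, orderOf_one] at hy
      exact (Fact.out : q.Prime).one_lt.ne hy
  have h3 : IsPGroup q ((S : Subgroup H).map H.subtype) := S.2.map _
  refine ⟨P, h3.toSylow h2, ?_⟩
  rw [IsPGroup.toSylow_coe]
  exact hS

end Cfsg.Agent.H73.NormSyl
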