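import Cfsg.Agent.H73.OTBase

set_option autoImplicit false

/-! The group `AΓL(1,8)` of order 168. -/

namespace Cfsg.Agent.H73.OT

/-- `𝔽₈` as triples of bits, `a + b g + c g²`, `g³ = g + 1` -/
abbrev V8 := ZMod 2 × ZMod 2 × ZMod 2

/-- multiplication by `g` -/
def S8 (v : V8) : V8 := (v.2.2, v.1 + v.2.2, v.2.1)
/-- Frobenius -/
def P8 (v : V8) : V8 := (v.1, v.2.2, v.2.1 + v.2.2)

/-- `S^i ∘ P^j` -/
def act8 (i : ZMod 7) (j : ZMod 3) (v : V8) : V8 := S8^[i.val] (P8^[j.val] v)
/-- the twist `2^j` -/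
def tw8 (j : ZMod 3) : ZMod 7 := 2 ^ j.val

@[ext] structure AG where
  v : V8
  i : ZMod 7
  j : ZMod 3
deriving DecidableEq

set_option maxRecDepth 100000 in
theorem act8_mul : ∀ (i : ZMod 7) (j : ZMod 3) (i' : ZMod 7) (j' : ZMod 3) (v : V8),
    act8 (i + tw8 j * i') (j + j') v = act8 i j (act8 i' j' v) := by decide +kernel

theorem act8_add : ∀ (i : ZMod 7) (j : ZMod 3) (v w : V8),
    act8 i j (v + w) = act8 i j v + act8 i j w := by decide +kernel

theorem act8_one : ∀ v : V8, act8 0 0 v = v := by decide +kernel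
theorem tw8_add : ∀ j j' : ZMod 3, tw8 (j + j') = tw8 j * tw8 j' := by decide +kernel
theorem tw8_zero : tw8 0 = 1 := by decide +kernel

namespace AG

instance instMulAG : Mul AG := ⟨fun x y => ⟨x.v + act8 x.i x.j y.v, x.i + tw8 x.j * y.i, x.j + y.j⟩⟩
instance instOneAG : One AG := ⟨⟨0, 0, 0⟩⟩
instance instInvAG : Inv AG :=
  ⟨fun x => ⟨-act8 (-(tw8 (-x.j) * x.i)) (-x.j) x.v, -(tw8 (-x.j) * x.i), -x.j⟩⟩

theorem mul_v (x y : AG) : (x * y).v = x.v + act8 x.i x.j y.v := rfl
theorem mul_i (x y : AG) : (x * y).i = x.i + tw8 x.j * y.i := rfl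
theorem mul_j (x y : AG) : (x * y).j = x.j + y.j := rfl
theorem one_v : (1 : AG).v = 0 := rfl
theorem one_i : (1 : AG).i = 0 := rfl
theorem one_j : (1 : AG).j = 0 := rfl
theorem inv_v (x : AG) : x⁻¹.v = -act8 (-(tw8 (-x.j) * x.i)) (-x.j) x.v := rfl
theorem inv_i (x : AG) : x⁻¹.i = -(tw8 (-x.j) * x.i) := rfl
theorem inv_j (x : AG) : x⁻¹.j = -x.j := rfl

instance instGroupAG : Group AG := by
  refine Group.ofLeftAxioms ?_ ?_ ?_
  · intro x y z
    apply AG.ext
    · simp only [mul_v, mul_i, mul_j, act8_mul, act8_add, add_assoc]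
    · simp only [mul_i, mul_j, tw8_add]; ring
    · simp only [mul_j, add_assoc]
  · intro x
    apply AG.ext
    · simp only [mul_v, one_v, one_i, one_j, act8_one, zero_add]
    · simp only [mul_i, one_i, one_j, tw8_zero]; ring
    · simp only [mul_j, one_j, zero_add]
  · intro x
    apply AG.ext
    · simp only [mul_v, inv_v, inv_i, inv_j, one_v, neg_add_cancel]
    · simp only [mul_i, inv_i, inv_j, one_i, neg_add_cancel]
    · simp only [mul_j, inv_j, one_j, neg_add_cancel]

/-- underlying product -/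
def equiv : AG ≃ V8 × ZMod 7 × ZMod 3 where
  toFun x := (x.v, x.i, x.j)
  invFun y := ⟨y.1, y.2.1, y.2.2⟩
  left_inv _ := rfl
  right_inv _ := rfl

instance instFintypeAG : Fintype AG := Fintype.ofEquiv _ equiv.symm

/-- explicit `n`-th power, computed by left multiplication -/
def pw (x : AG) : ℕ → AG
  | 0 => 1
  | n + 1 => x * pw x n

theorem pw_eq (x : AG) (n : ℕ) : pw x n = x ^ n := by
  induction n with
  | zero => rfl
  | succ n ih => rw [pw, ih, pow_succ']

theorem cnt_eq (n : ℕ) : cnt AG n = (Finset.univ.filter fun x : AG => pw x n = 1).card := by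
  unfold cnt
  rw [Nat.card_eq_fintype_card, Fintype.card_subtype]
  simp only [pw_eq]

theorem cnt1 : cnt AG 1 = 1 := by rw [cnt_eq]; decide +kernel
theorem cnt2 : cnt AG 2 = 8 := by rw [cnt_eq]; decide +kernel
theorem cnt3 : cnt AG 3 = 57 := by rw [cnt_eq]; decide +kernel
theorem cnt6 : cnt AG 6 = 120 := by rw [cnt_eq]; decide +kernel
theorem cnt7 : cnt AG 7 = 49 := by rw [cnt_eq]; decide +kernel
theorem cnt14 : cnt AG 14 = 56 := by rw [cnt_eq]; decide +kernel
theorem cnt21 : cnt AG 21 = 105 := by rw [cnt_eq]; decide +kernel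
theorem pw42 : ∀ x : AG, pw x 42 = 1 := by decide +kernel

theorem pow42 (x : AG) : x ^ 42 = 1 := by rw [← pw_eq, pw42]
theorem pow84 (x : AG) : x ^ 84 = 1 := by
  rw [show 84 = 42 * 2 from rfl, pow_mul, pow42, one_pow]

theorem cnt42 : cnt AG 42 = 168 := by
  unfold cnt
  rw [Nat.card_congr (Equiv.subtypeUnivEquiv (fun x => pow42 x)), Nat.card_congr equiv]
  simp

theorem cnt_red (n : ℕ) : cnt AG n = cnt AG (n.gcd 42) := cnt_gcd AG 42 pow42 n

/-- projection to the Galois group -/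
def pj : AG →* Multiplicative (ZMod 3) where
  toFun x := Multiplicative.ofAdd x.j
  map_one' := rfl
  map_mul' _ _ := rfl

/-- projection of the kernel of `pj` -/
def pi' : pj.ker →* Multiplicative (ZMod 7) where
  toFun x := Multiplicative.ofAdd x.1.i
  map_one' := rfl
  map_mul' x y := by
    have hx : x.1.j = 0 := x.2
    show Multiplicative.ofAdd (x.1.i + tw8 x.1.j * y.1.i) = _
    rw [hx, tw8_zero, one_mul]; rfl

theorem solvable : Group.IsSolvable AG := by
  have h1 : Group.IsSolvable pi'.ker := by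
    apply Group.isSolvable_of_comm
    rintro ⟨⟨x, hx⟩, hx'⟩ ⟨⟨y, hy⟩, hy'⟩
    have a1 : x.j = 0 := hx
    have a2 : y.j = 0 := hy
    have a3 : x.i = 0 := hx'
    have a4 : y.i = 0 := hy'
    apply Subtype.ext
    apply Subtype.ext
    show x * y = y * x
    apply AG.ext
    · simp only [mul_v, a1, a2, a3, a4, act8_one]; exact add_comm _ _
    · simp only [mul_i, a1, a2, a3, a4]
    · simp only [mul_j, a1, a2]
  have h2 : Group.IsSolvable pj.ker := Group.isSolvable_of_ker_le_range pi'.ker.subtype pi' (by simp)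
  exact Group.isSolvable_of_ker_le_range pj.ker.subtype pj (by simp)

end AG

end Cfsg.Agent.H73.OT
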