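import Mathlib

set_option autoImplicit false

/-! Order types: counting solutions of `g ^ n = 1` in products and in sign-twisted
semidirect products `(ZMod 3 ^ a × ZMod 7 ^ b) ⋊ K`. -/

namespace Cfsg.Agent.H73.OT

/-- number of solutions of `g ^ n = 1` -/
noncomputable def cnt (G : Type*) [Group G] (n : ℕ) : ℕ := Nat.card {g : G // g ^ n = 1}

theorem cnt_prod (G H : Type*) [Group G] [Group H] (n : ℕ) :
    cnt (G × H) n = cnt G n * cnt H n := by
  unfold cnt
  rw [← Nat.card_prod]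
  refine Nat.card_congr
    { toFun := fun x => (⟨x.1.1, ?_⟩, ⟨x.1.2, ?_⟩)
      invFun := fun y => ⟨(y.1.1, y.2.1), ?_⟩
      left_inv := fun x => rfl
      right_inv := fun x => rfl }
  · exact congrArg Prod.fst x.2
  · exact congrArg Prod.snd x.2
  · exact Prod.ext y.1.2 y.2.2

theorem cnt_gcd (G : Type*) [Group G] (e : ℕ) (he : ∀ g : G, g ^ e = 1) (n : ℕ) :
    cnt G n = cnt G (n.gcd e) := by
  unfold cnt
  refine Nat.card_congr (Equiv.subtypeEquivRight fun g => ?_)
  constructor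
  · intro h
    exact pow_gcd_eq_one.mpr ⟨h, he g⟩
  · intro h
    exact (pow_gcd_eq_one.mp h).1

/-- the sign as an element of `ZMod m` -/
def sg (m : ℕ) (ε : ℤˣ) : ZMod m := ((ε : ℤ) : ZMod m)

theorem sg_one (m : ℕ) : sg m 1 = 1 := by simp [sg]
theorem sg_mul (m : ℕ) (a b : ℤˣ) : sg m (a * b) = sg m a * sg m b := by simp [sg]
theorem sg_inv_mul (m : ℕ) (a : ℤˣ) : sg m a⁻¹ * sg m a = 1 := by
  rw [← sg_mul, inv_mul_cancel, sg_one]

/-- `(ZMod 3 ^ a × ZMod 7 ^ b) ⋊ K` with `K` acting through sign characters -/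
@[ext] structure SG (K : Type) [Group K] {a b : ℕ} (α : Fin a → K →* ℤˣ) (β : Fin b → K →* ℤˣ) where
  u : Fin a → ZMod 3
  w : Fin b → ZMod 7
  k : K

namespace SG
variable {K : Type} [Group K] {a b : ℕ} {α : Fin a → K →* ℤˣ} {β : Fin b → K →* ℤˣ}

instance instMulSG : Mul (SG K α β) :=
  ⟨fun x y => ⟨fun i => x.u i + sg 3 (α i x.k) * y.u i, fun i => x.w i + sg 7 (β i x.k) * y.w i,
    x.k * y.k⟩⟩
instance instOneSG : One (SG K α β) := ⟨⟨fun _ => 0, fun _ => 0, 1⟩⟩
instance instInvSG : Inv (SG K α β) :=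
  ⟨fun x => ⟨fun i => -(sg 3 (α i x.k⁻¹) * x.u i), fun i => -(sg 7 (β i x.k⁻¹) * x.w i), x.k⁻¹⟩⟩

theorem mul_u (x y : SG K α β) (i : Fin a) : (x * y).u i = x.u i + sg 3 (α i x.k) * y.u i := rfl
theorem mul_w (x y : SG K α β) (i : Fin b) : (x * y).w i = x.w i + sg 7 (β i x.k) * y.w i := rfl
theorem mul_k (x y : SG K α β) : (x * y).k = x.k * y.k := rfl
theorem one_u (i : Fin a) : (1 : SG K α β).u i = 0 := rfl
theorem one_w (i : Fin b) : (1 : SG K α β).w i = 0 := rfl
theorem one_k : (1 : SG K α β).k = 1 := rfl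
theorem inv_u (x : SG K α β) (i : Fin a) : x⁻¹.u i = -(sg 3 (α i x.k⁻¹) * x.u i) := rfl
theorem inv_w (x : SG K α β) (i : Fin b) : x⁻¹.w i = -(sg 7 (β i x.k⁻¹) * x.w i) := rfl
theorem inv_k (x : SG K α β) : x⁻¹.k = x.k⁻¹ := rfl

instance instGroupSG : Group (SG K α β) := by
  refine Group.ofLeftAxioms ?_ ?_ ?_
  · intro x y z
    ext i
    · simp only [mul_u, mul_k, map_mul, sg_mul]; ring
    · simp only [mul_w, mul_k, map_mul, sg_mul]; ring
    · simp only [mul_k, mul_assoc]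
  · intro x
    ext i
    · simp only [mul_u, one_u, one_k, map_one, sg_one]; ring
    · simp only [mul_w, one_w, one_k, map_one, sg_one]; ring
    · simp only [mul_k, one_k, one_mul]
  · intro x
    ext i
    · simp only [mul_u, inv_u, one_u, inv_k]; ring
    · simp only [mul_w, inv_w, one_w, inv_k]; ring
    · simp only [mul_k, inv_k, one_k, inv_mul_cancel]

/-- projection -/
def proj : SG K α β →* K where
  toFun x := x.k
  map_one' := rfl
  map_mul' _ _ := rfl

/-- underlying product -/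
def equiv : SG K α β ≃ ((Fin a → ZMod 3) × (Fin b → ZMod 7)) × K where
  toFun x := ((x.u, x.w), x.k)
  invFun y := ⟨y.1.1, y.1.2, y.2⟩
  left_inv _ := rfl
  right_inv _ := rfl

instance instFiniteSG [Finite K] : Finite (SG K α β) := Finite.of_equiv _ (equiv (α := α) (β := β)).symm

theorem solvable [Group.IsSolvable K] : Group.IsSolvable (SG K α β) := by
  have hker : Group.IsSolvable (proj (α := α) (β := β)).ker := by
    apply Group.isSolvable_of_comm
    rintro ⟨x, hx⟩ ⟨y, hy⟩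
    have hx' : x.k = 1 := hx
    have hy' : y.k = 1 := hy
    apply Subtype.ext
    show x * y = y * x
    ext i
    · simp only [mul_u, hx', hy', map_one, sg_one]; ring
    · simp only [mul_w, hx', hy', map_one, sg_one]; ring
    · simp only [mul_k, hx', hy']
  exact Group.isSolvable_of_ker_le_range (proj (α := α) (β := β)).ker.subtype proj (by simp)

/-- the partial sums `∑_{j<n} ε^j` -/
def s (n : ℕ) (ε : ℤˣ) : ℕ := if ε = 1 then n else n % 2

theorem s_succ (m n : ℕ) (ε : ℤˣ) : (s (n + 1) ε : ZMod m) = (s n ε : ZMod m) + sg m (ε ^ n) := by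
  rcases Int.units_eq_one_or ε with rfl | rfl
  · simp [s, sg_one]
  · have h1 : ((-1 : ℤˣ) = 1) = False := by simp
    rcases Nat.even_or_odd n with hn | hn
    · have h2 : n % 2 = 0 := Nat.even_iff.mp hn
      have h3 : (n + 1) % 2 = 1 := by omega
      simp [s, h2, h3, hn.neg_one_pow, sg_one]
    · have h2 : n % 2 = 1 := Nat.odd_iff.mp hn
      have h3 : (n + 1) % 2 = 0 := by omega
      simp [s, h2, h3, hn.neg_one_pow, sg]

theorem pow_k (x : SG K α β) (n : ℕ) : (x ^ n).k = x.k ^ n := map_pow (proj (α := α) (β := β)) x n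

theorem pow_u (x : SG K α β) (n : ℕ) (i : Fin a) : (x ^ n).u i = (s n (α i x.k) : ZMod 3) * x.u i := by
  induction n with
  | zero =>
    have : s 0 (α i x.k) = 0 := by simp [s]
    rw [pow_zero, one_u, this]; simp
  | succ n ih =>
    rw [pow_succ, mul_u, ih, s_succ, pow_k, map_pow]; ring

theorem pow_w (x : SG K α β) (n : ℕ) (i : Fin b) : (x ^ n).w i = (s n (β i x.k) : ZMod 7) * x.w i := by
  induction n with
  | zero =>
    have : s 0 (β i x.k) = 0 := by simp [s]
    rw [pow_zero, one_w, this]; simp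
  | succ n ih =>
    rw [pow_succ, mul_w, ih, s_succ, pow_k, map_pow]; ring

/-- number of `x : ZMod p` killed by `t` -/
def c (p t : ℕ) : ℕ := if t % p = 0 then p else 1

theorem card_killed (p : ℕ) [Fact p.Prime] (t : ℕ) : Nat.card {x : ZMod p // (t : ZMod p) * x = 0} = c p t := by
  unfold c
  split_ifs with h
  · have h1 : (t : ZMod p) = 0 := (ZMod.natCast_eq_zero_iff t p).mpr (Nat.dvd_of_mod_eq_zero h)
    rw [Nat.card_congr (Equiv.subtypeUnivEquiv (fun x => by rw [h1, zero_mul]))]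
    simp
  · have h1 : (t : ZMod p) ≠ 0 := by
      intro h0
      exact h (Nat.mod_eq_zero_of_dvd ((ZMod.natCast_eq_zero_iff t p).mp h0))
    have h2 : ∀ x : ZMod p, ((t : ZMod p) * x = 0) ↔ x = 0 := fun x => by
      simp [h1]
    rw [Nat.card_congr (Equiv.subtypeEquivRight h2)]
    simp

variable [Fintype K] [DecidableEq K]

/-- the explicit count -/
def F (α : Fin a → K →* ℤˣ) (β : Fin b → K →* ℤˣ) (n : ℕ) : ℕ :=
  ∑ k : K, if k ^ n = 1 then (∏ i, c 3 (s n (α i k))) * (∏ i, c 7 (s n (β i k))) else 0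

theorem pow_eq_one_iff (x : SG K α β) (n : ℕ) : x ^ n = 1 ↔
    x.k ^ n = 1 ∧ (∀ i, (s n (α i x.k) : ZMod 3) * x.u i = 0) ∧ (∀ i, (s n (β i x.k) : ZMod 7) * x.w i = 0) := by
  constructor
  · intro h
    refine ⟨?_, fun i => ?_, fun i => ?_⟩
    · rw [← pow_k, h, one_k]
    · rw [← pow_u, h, one_u]
    · rw [← pow_w, h, one_w]
  · rintro ⟨h1, h2, h3⟩
    ext i
    · rw [pow_u, one_u, h2]
    · rw [pow_w, one_w, h3]
    · rw [pow_k, one_k, h1]

theorem cnt_eq (n : ℕ) : cnt (SG K α β) n = F α β n := by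
  have e : {x : SG K α β // x ^ n = 1} ≃ (Σ k : {k : K // k ^ n = 1},
      ((∀ i, {y : ZMod 3 // (s n (α i k.1) : ZMod 3) * y = 0}) ×
        (∀ i, {y : ZMod 7 // (s n (β i k.1) : ZMod 7) * y = 0}))) :=
    { toFun := fun x => ⟨⟨x.1.k, ((pow_eq_one_iff _ _).mp x.2).1⟩,
        (fun i => ⟨x.1.u i, ((pow_eq_one_iff _ _).mp x.2).2.1 i⟩,
         fun i => ⟨x.1.w i, ((pow_eq_one_iff _ _).mp x.2).2.2 i⟩)⟩
      invFun := fun y => ⟨⟨fun i => (y.2.1 i).1, fun i => (y.2.2 i).1, y.1.1⟩,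
        (pow_eq_one_iff _ _).mpr ⟨y.1.2, fun i => (y.2.1 i).2, fun i => (y.2.2 i).2⟩⟩
      left_inv := fun x => rfl
      right_inv := fun y => rfl }
  haveI : Fact (Nat.Prime 3) := ⟨by norm_num⟩
  haveI : Fact (Nat.Prime 7) := ⟨by norm_num⟩
  unfold cnt F
  rw [Nat.card_congr e, Nat.card_sigma]
  simp only [Nat.card_prod, Nat.card_pi, card_killed]
  rw [← Finset.sum_filter]
  rw [← Finset.sum_subtype (Finset.univ.filter fun k : K => k ^ n = 1) (by simp)
    (fun k => (∏ i, c 3 (s n (α i k))) * (∏ i, c 7 (s n (β i k))))]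

theorem pow84 (hK : ∀ k : K, k ^ 84 = 1) (x : SG K α β) : x ^ 84 = 1 := by
  rw [pow_eq_one_iff]
  refine ⟨hK _, fun i => ?_, fun i => ?_⟩
  · have : (s 84 (α i x.k) : ZMod 3) = 0 := by
      unfold s; split_ifs <;> rfl
    rw [this, zero_mul]
  · have : (s 84 (β i x.k) : ZMod 7) = 0 := by
      unfold s; split_ifs <;> rfl
    rw [this, zero_mul]

end SG

end Cfsg.Agent.H73.OT
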