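import Cfsg.Agent.H73.OTBase

set_option autoImplicit false

/-! The order type of `GL₃(2)`. -/

namespace Cfsg.Agent.H73.OT

/-- 3×3 Boolean matrices -/
@[ext] structure M3 where
  a : Bool
  b : Bool
  c : Bool
  d : Bool
  e : Bool
  f : Bool
  g : Bool
  h : Bool
  i : Bool
deriving DecidableEq

namespace M3

/-- Boolean matrix product over `𝔽₂` -/
def mul (A B : M3) : M3 :=
  ⟨xor (xor (A.a && B.a) (A.b && B.d)) (A.c && B.g),
   xor (xor (A.a && B.b) (A.b && B.e)) (A.c && B.h),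
   xor (xor (A.a && B.c) (A.b && B.f)) (A.c && B.i),
   xor (xor (A.d && B.a) (A.e && B.d)) (A.f && B.g),
   xor (xor (A.d && B.b) (A.e && B.e)) (A.f && B.h),
   xor (xor (A.d && B.c) (A.e && B.f)) (A.f && B.i),
   xor (xor (A.g && B.a) (A.h && B.d)) (A.i && B.g),
   xor (xor (A.g && B.b) (A.h && B.e)) (A.i && B.h),
   xor (xor (A.g && B.c) (A.h && B.f)) (A.i && B.i)⟩

def one : M3 := ⟨true, false, false, false, true, false, false, false, true⟩

def pw (A : M3) : ℕ → M3
  | 0 => one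
  | n + 1 => mul A (pw A n)

def bz (x : Bool) : ZMod 2 := if x then 1 else 0
def zb (x : ZMod 2) : Bool := decide (x = 1)

theorem bz_zb : ∀ x : ZMod 2, bz (zb x) = x := by decide
theorem zb_bz : ∀ x : Bool, zb (bz x) = x := by decide
theorem bz_dot : ∀ x y z w u v : Bool,
    bz (xor (xor (x && y) (z && w)) (u && v)) = bz x * bz y + bz z * bz w + bz u * bz v := by decide

theorem bz_dot' : ∀ x y z w u v : Bool,
    bz ((x && y) != ((z && w) != (u && v))) = bz x * bz y + bz z * bz w + bz u * bz v := by decide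

def toMat (A : M3) : Matrix (Fin 3) (Fin 3) (ZMod 2) :=
  !![bz A.a, bz A.b, bz A.c; bz A.d, bz A.e, bz A.f; bz A.g, bz A.h, bz A.i]

def ofMat (M : Matrix (Fin 3) (Fin 3) (ZMod 2)) : M3 :=
  ⟨zb (M 0 0), zb (M 0 1), zb (M 0 2), zb (M 1 0), zb (M 1 1), zb (M 1 2), zb (M 2 0), zb (M 2 1),
    zb (M 2 2)⟩

def equiv : M3 ≃ Matrix (Fin 3) (Fin 3) (ZMod 2) where
  toFun := toMat
  invFun := ofMat
  left_inv A := by
    ext <;> simp [toMat, ofMat, zb_bz]
  right_inv M := by
    ext i j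
    fin_cases i <;> fin_cases j <;> simp [toMat, ofMat, bz_zb]

theorem toMat_mul (A B : M3) : toMat (mul A B) = toMat A * toMat B := by
  ext i j
  fin_cases i <;> fin_cases j <;>
    simp [toMat, mul, Matrix.mul_apply, Fin.sum_univ_three, bz_dot']

theorem toMat_one : toMat one = 1 := by
  ext i j
  fin_cases i <;> fin_cases j <;> simp [toMat, one, bz]

theorem toMat_pw (A : M3) (n : ℕ) : toMat (pw A n) = toMat A ^ n := by
  induction n with
  | zero => rw [pw, toMat_one, pow_zero]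
  | succ n ih => rw [pw, toMat_mul, ih, pow_succ']

/-- underlying product -/
def equivProd : M3 ≃ Bool × Bool × Bool × Bool × Bool × Bool × Bool × Bool × Bool where
  toFun x := (x.a, x.b, x.c, x.d, x.e, x.f, x.g, x.h, x.i)
  invFun y := ⟨y.1, y.2.1, y.2.2.1, y.2.2.2.1, y.2.2.2.2.1, y.2.2.2.2.2.1, y.2.2.2.2.2.2.1,
    y.2.2.2.2.2.2.2.1, y.2.2.2.2.2.2.2.2⟩
  left_inv _ := rfl
  right_inv _ := rfl

instance instFintypeM3 : Fintype M3 := Fintype.ofEquiv _ equivProd.symm

end M3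

/-- `GL₃(2)` -/
abbrev L27 := (Matrix (Fin 3) (Fin 3) (ZMod 2))ˣ

/-- the units with `g ^ n = 1` are the elements of the monoid with `x ^ n = 1` -/
def unitsPow (M : Type*) [Monoid M] (n : ℕ) (hn : n ≠ 0) :
    {g : Mˣ // g ^ n = 1} ≃ {x : M // x ^ n = 1} where
  toFun g := ⟨(g.1 : M), by rw [← Units.val_pow_eq_pow_val, g.2]; rfl⟩
  invFun x := ⟨Units.ofPowEqOne x.1 n x.2 hn, by
    apply Units.ext
    rw [Units.val_pow_eq_pow_val]
    exact x.2⟩
  left_inv g := by
    apply Subtype.ext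
    apply Units.ext
    rfl
  right_inv x := rfl

theorem cnt_L27 (n : ℕ) (hn : n ≠ 0) : cnt L27 n = Nat.card {A : M3 // M3.toMat A ^ n = 1} := by
  unfold cnt
  rw [Nat.card_congr (unitsPow _ n hn)]
  exact (Nat.card_congr (M3.equiv.subtypeEquiv fun A => Iff.rfl)).symm

theorem toMat_eq_one (A : M3) : M3.toMat A = 1 ↔ A = M3.one := by
  constructor
  · intro h
    apply M3.equiv.injective
    show M3.toMat A = M3.toMat M3.one
    rw [h, M3.toMat_one]
  · rintro rfl
    exact M3.toMat_one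

theorem cnt_L27' (m n : ℕ) (hn : m * n ≠ 0) :
    cnt L27 (m * n) = (Finset.univ.filter fun A : M3 => M3.pw (M3.pw A m) n = M3.one).card := by
  rw [cnt_L27 _ hn, Nat.card_eq_fintype_card, Fintype.card_subtype]
  congr 1
  ext A
  simp only [Finset.mem_filter, Finset.mem_univ, true_and]
  rw [pow_mul, ← M3.toMat_pw, ← M3.toMat_pw, toMat_eq_one]

namespace L27

theorem cnt1 : cnt L27 1 = 1 := by rw [cnt_L27' 1 1 (by norm_num)]; decide +kernel
theorem cnt2 : cnt L27 2 = 22 := by rw [cnt_L27' 2 1 (by norm_num)]; decide +kernel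
theorem cnt3 : cnt L27 3 = 57 := by rw [cnt_L27' 3 1 (by norm_num)]; decide +kernel
theorem cnt4 : cnt L27 4 = 64 := by rw [cnt_L27' 4 1 (by norm_num)]; decide +kernel
theorem cnt6 : cnt L27 6 = 78 := by rw [cnt_L27' 3 2 (by norm_num)]; decide +kernel
theorem cnt7 : cnt L27 7 = 49 := by rw [cnt_L27' 7 1 (by norm_num)]; decide +kernel
theorem cnt12 : cnt L27 12 = 120 := by rw [cnt_L27' 3 4 (by norm_num)]; decide +kernel
theorem cnt14 : cnt L27 14 = 70 := by rw [cnt_L27' 7 2 (by norm_num)]; decide +kernel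
theorem cnt21 : cnt L27 21 = 105 := by rw [cnt_L27' 7 3 (by norm_num)]; decide +kernel
theorem cnt28 : cnt L27 28 = 112 := by rw [cnt_L27' 7 4 (by norm_num)]; decide +kernel
theorem cnt42 : cnt L27 42 = 126 := by rw [cnt_L27' 7 6 (by norm_num)]; decide +kernel
theorem cnt84 : cnt L27 84 = 168 := by rw [cnt_L27' 7 12 (by norm_num)]; decide +kernel

theorem card_eq : Nat.card L27 = 168 := by
  have h := Matrix.card_GL_field (𝔽 := ZMod 2) 3
  have h2 : Nat.card L27 = Nat.card (GL (Fin 3) (ZMod 2)) := rfl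
  rw [h2, h]
  simp [Fin.prod_univ_three]

theorem pow84 (g : L27) : g ^ 84 = 1 := by
  have h := cnt84
  unfold cnt at h
  rw [← card_eq] at h
  by_contra hg
  have h1 : Nat.card {g : L27 // g ^ 84 = 1} < Nat.card L27 := Finite.card_subtype_lt hg
  exact absurd h h1.ne

def t12 : L27 := ⟨!![1, 1, 0; 0, 1, 0; 0, 0, 1], !![1, 1, 0; 0, 1, 0; 0, 0, 1],
  by decide +kernel, by decide +kernel⟩
def t23 : L27 := ⟨!![1, 0, 0; 0, 1, 1; 0, 0, 1], !![1, 0, 0; 0, 1, 1; 0, 0, 1],
  by decide +kernel, by decide +kernel⟩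
def t13 : L27 := ⟨!![1, 0, 1; 0, 1, 0; 0, 0, 1], !![1, 0, 1; 0, 1, 0; 0, 0, 1],
  by decide +kernel, by decide +kernel⟩
def p23 : L27 := ⟨!![1, 0, 0; 0, 0, 1; 0, 1, 0], !![1, 0, 0; 0, 0, 1; 0, 1, 0],
  by decide +kernel, by decide +kernel⟩
def p12 : L27 := ⟨!![0, 1, 0; 1, 0, 0; 0, 0, 1], !![0, 1, 0; 1, 0, 0; 0, 0, 1],
  by decide +kernel, by decide +kernel⟩

open scoped commutatorElement

theorem conj1 : p23 * t13 * p23⁻¹ = t12 := by decide +kernel
theorem conj2 : p12 * t13 * p12⁻¹ = t23 := by decide +kernel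
theorem comm : ⁅t12, t23⁆ = t13 := by decide +kernel
theorem t13_ne : t13 ≠ 1 := by decide +kernel

theorem not_solvable : ¬ Group.IsSolvable L27 := by
  refine not_isSolvable_of_mem_derivedSeries t13_ne fun n => ?_
  induction n with
  | zero => exact Subgroup.mem_top _
  | succ n ih =>
    rw [derivedSeries_succ, ← comm]
    refine Subgroup.commutator_mem_commutator ?_ ?_
    · rw [← conj1]
      exact (derivedSeries_normal L27 n).conj_mem _ ih _
    · rw [← conj2]
      exact (derivedSeries_normal L27 n).conj_mem _ ih _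

end L27

end Cfsg.Agent.H73.OT
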