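import Mathlib
import Cfsg.Prelude.Def_Blocks
import Cfsg.Agent.CharBase.Column
import Cfsg.Agent.CharBase.Central
import Cfsg.Agent.Char.Regular
import Cfsg.Agent.Char.Galois
import Cfsg.Agent.H73.AbSyl2

/-!
Characters fixed by the Galois automorphism fixing 2-power roots of unity and inverting odd order ones.
If all of them have odd degree, then a certain count of 2-elements is even.
-/

set_option autoImplicit false
set_option linter.unusedSectionVars false

namespace Cfsg.Agent.H73.SigFix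

open Cfsg Cfsg.Agent.CharBase Cfsg.Agent.Char Cfsg.Agent.H73.AbSyl2
open scoped ComplexConjugate

universe u

section omega

variable {G : Type u} [Group G] [Fintype G]

theorem sum_mul_translate {χ : G → ℂ} (hχ : IsIrrCharacter G χ) {f : G → ℂ} (hf : IsClassFunction G f) (y : G) :
    ∑ g : G, f g * χ (g * y) = omega χ f * χ y := by
  obtain ⟨n, ρ, hρ, rfl⟩ := hχ
  have h1 : ∑ g : G, f g * ρ.character (g * y) = LinearMap.trace ℂ _ (repSum ρ f * ρ y) := by
    unfold repSum
    rw [Finset.sum_mul, map_sum]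
    refine Finset.sum_congr rfl fun g _ => ?_
    rw [smul_mul_assoc, map_smul, smul_eq_mul, ← map_mul]
    rfl
  rw [h1, repSum_eq_smul ρ hρ hf, smul_mul_assoc, one_mul, map_smul, smul_eq_mul]
  rfl

/-- indicator function of odd order elements -/
noncomputable def oddF (G : Type u) [Group G] : G → ℂ := fun g => by
  classical exact if Odd (orderOf g) then 1 else 0

theorem oddF_class : IsClassFunction G (oddF G) := by
  intro g x
  unfold oddF
  rw [orderOf_conj_eq]

theorem oddF_int (g : G) : IsIntegral ℤ (oddF G g) := by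
  unfold oddF
  split_ifs
  · exact isIntegral_one
  · exact isIntegral_zero

end omega

section main

variable {G : Type u} [Group G] [Fintype G] {k : ℕ}

theorem two_iff (g : G) : Two g ↔ ∃ j : ℕ, orderOf g = 2 ^ j := by
  constructor
  · rintro ⟨j, hj⟩
    obtain ⟨i, -, hi⟩ := (Nat.dvd_prime_pow Nat.prime_two).mp (orderOf_dvd_of_pow_eq_one hj)
    exact ⟨i, hi⟩
  · rintro ⟨j, hj⟩
    exact ⟨j, by rw [← hj]; exact pow_orderOf_eq_one g⟩

theorem coprime_k (hk₁ : ∀ g : G, (∃ j : ℕ, orderOf g = 2 ^ j) → g ^ k = g)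
    (hk₂ : ∀ g : G, Odd (orderOf g) → g ^ k = g⁻¹) : k.Coprime (Nat.card G) := by
  by_contra hcon
  obtain ⟨q, hq, hqk, hqG⟩ := Nat.Prime.not_coprime_iff_dvd.mp hcon
  have : Fact q.Prime := ⟨hq⟩
  obtain ⟨g, hg⟩ := exists_prime_orderOf_dvd_card' q hqG
  have h1 : g ^ k = 1 := orderOf_dvd_iff_pow_eq_one.mp (by rw [hg]; exact hqk)
  have h2 : g ≠ 1 := by
    rintro rfl
    rw [orderOf_one] at hg
    exact hq.one_lt.ne hg
  rcases hq.eq_two_or_odd' with h | h
  · have h3 := hk₁ g ⟨1, by rw [hg, h, pow_one]⟩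
    exact h2 (h3.symm.trans h1)
  · have h3 := hk₂ g (by rw [hg]; exact h)
    rw [h1, eq_comm, inv_eq_one] at h3
    exact h2 h3

theorem pow_k_k (hk₁ : ∀ g : G, (∃ j : ℕ, orderOf g = 2 ^ j) → g ^ k = g)
    (hk₂ : ∀ g : G, Odd (orderOf g) → g ^ k = g⁻¹) (g : G) : (g ^ k) ^ k = g := by
  obtain ⟨a, b, hab, hc, ha, hb, -⟩ := exists_parts g
  have ha' := hk₁ a ((two_iff a).mp ha)
  have hb' := hk₂ b hb
  have hc' : Commute a b⁻¹ := hc.inv_right
  rw [← hab, hc.mul_pow, ha', hb', hc'.mul_pow, ha', inv_pow, hb', inv_inv]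

/-- the twisted character -/
noncomputable def tw (hkc : k.Coprime (Nat.card G)) (χ : IrrCharacter G) : IrrCharacter G :=
  ⟨fun g => (χ : G → ℂ) (g ^ k), isIrrCharacter_pow χ.2 hkc⟩

theorem odd_not_mem {M : Ideal AlgInt} (hM : IsPModular 2 M) {n : ℕ} (hn : Odd n) : (n : AlgInt) ∉ M := by
  intro h
  obtain ⟨m, rfl⟩ := hn
  apply hM.2.1.ne_top
  rw [Ideal.eq_top_iff_one]
  have h2 : ((2 * m : ℕ) : AlgInt) ∈ M := by
    push_cast
    exact M.mul_mem_right _ (by exact_mod_cast hM.2.2)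
  have h3 := M.sub_mem h h2
  have h4 : ((2 * m + 1 : ℕ) : AlgInt) - ((2 * m : ℕ) : AlgInt) = 1 := by push_cast; ring
  rwa [h4] at h3

/-- `A_χ - 1 ∈ M` for fixed characters of odd degree -/
theorem omega_sub_one_mem {M : Ideal AlgInt} (hM : IsPModular 2 M)
    (hk₂ : ∀ g : G, Odd (orderOf g) → g ^ k = g⁻¹) (χ : IrrCharacter G)
    (hχ : ∀ g : G, (χ : G → ℂ) (g ^ k) = (χ : G → ℂ) g) (hodd : Odd (charDegree (χ : G → ℂ)))
    (hint : IsIntegral ℤ (omega (χ : G → ℂ) (oddF G))) : (⟨omega (χ : G → ℂ) (oddF G), hint⟩ : AlgInt) - 1 ∈ M := by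
  classical
  obtain ⟨n, hn⟩ := exists_nat_degree (irr_isCharacter χ)
  have hdeg : charDegree (χ : G → ℂ) = n := by
    unfold charDegree
    rw [hn]; simp
  rw [hdeg] at hodd
  have hn0 : (χ : G → ℂ) 1 ≠ 0 := irr_one_ne_zero χ.2
  -- the sum over the nontrivial elements of odd order
  let v : G → AlgInt := fun g => ⟨(χ : G → ℂ) g, irr_isIntegral χ g⟩
  let S : Finset G := Finset.univ.filter (fun g => Odd (orderOf g) ∧ g ≠ 1)
  have hS : ∑ g ∈ S, Ideal.Quotient.mk M (v g) = 0 := by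
    apply Finset.sum_involution (fun g _ => g⁻¹)
    · intro g hg
      have hgo : Odd (orderOf g) := (Finset.mem_filter.mp hg).2.1
      have hv : v g⁻¹ = v g := by
        apply Subtype.ext
        show (χ : G → ℂ) g⁻¹ = (χ : G → ℂ) g
        rw [← hk₂ g hgo, hχ]
      rw [hv, ← map_add, ← two_mul, Ideal.Quotient.eq_zero_iff_mem]
      exact M.mul_mem_right _ (by exact_mod_cast hM.2.2)
    · intro g hg _ h
      have h1 := (Finset.mem_filter.mp hg).2
      apply h1.2
      apply eq_one_of_two_odd _ h1.1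
      refine ⟨1, ?_⟩
      rw [pow_one, pow_two]
      nth_rw 1 [← h]
      group
    · intro g hg
      exact inv_inv g
    · intro g hg
      have h1 := (Finset.mem_filter.mp hg).2
      exact Finset.mem_filter.mpr ⟨Finset.mem_univ _, by rw [orderOf_inv]; exact h1.1, inv_ne_one.mpr h1.2⟩
  have hsum : ∑ g ∈ S, v g ∈ M := by
    rw [← Ideal.Quotient.eq_zero_iff_mem, map_sum]; exact hS
  have hkey : (n : AlgInt) * ((⟨omega (χ : G → ℂ) (oddF G), hint⟩ : AlgInt) - 1) = ∑ g ∈ S, v g := by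
    apply Subtype.ext
    push_cast
    show (n : ℂ) * (omega (χ : G → ℂ) (oddF G) - 1) = ∑ g ∈ S, (χ : G → ℂ) g
    rw [← hn, mul_sub, mul_one]
    have h1 : (χ : G → ℂ) 1 * omega (χ : G → ℂ) (oddF G) = ∑ g : G, oddF G g * (χ : G → ℂ) g := by
      unfold omega
      rw [mul_div_cancel₀ _ hn0]
    rw [h1]
    have h2 : ∑ g : G, oddF G g * (χ : G → ℂ) g = ∑ g ∈ Finset.univ.filter (fun g : G => Odd (orderOf g)), (χ : G → ℂ) g := by
      rw [Finset.sum_filter]
      refine Finset.sum_congr rfl fun g _ => ?_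
      unfold oddF
      split_ifs <;> simp
    rw [h2]
    have h3 : S = (Finset.univ.filter (fun g : G => Odd (orderOf g))).erase 1 := by
      ext g
      simp only [S, Finset.mem_filter, Finset.mem_univ, true_and, Finset.mem_erase]
      tauto
    rw [h3, eq_comm, eq_sub_iff_add_eq, Finset.sum_erase_add]
    rw [Finset.mem_filter]
    exact ⟨Finset.mem_univ _, by rw [orderOf_one]; exact odd_one⟩
  rw [← hkey] at hsum
  have hMp : M.IsPrime := hM.2.1.isPrime
  rcases hMp.mem_or_mem hsum with h | h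
  · exact absurd h (odd_not_mem hM hodd)
  · exact h

theorem odd_card_fixedBy (P : Sylow 2 G) {u : G} (hu : Two u) :
    Odd (Nat.card (MulAction.fixedBy (G ⧸ (P : Subgroup G)) u)) := by
  classical
  have : Fact (Nat.Prime 2) := ⟨Nat.prime_two⟩
  have h1 := (isPGroup_zpowers hu).card_modEq_card_fixedPoints (G ⧸ (P : Subgroup G))
  have h2 : Odd (Nat.card (G ⧸ (P : Subgroup G))) := by
    have := P.not_dvd_index
    rw [Subgroup.index] at this
    rw [← Nat.not_even_iff_odd, even_iff_two_dvd]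
    exact this
  have h3 : Nat.card (MulAction.fixedPoints (Subgroup.zpowers u) (G ⧸ (P : Subgroup G))) =
      Nat.card (MulAction.fixedBy (G ⧸ (P : Subgroup G)) u) := by
    congr 1
    have : MulAction.fixedPoints (Subgroup.zpowers u) (G ⧸ (P : Subgroup G)) =
        MulAction.fixedBy (G ⧸ (P : Subgroup G)) u := by
      ext y
      constructor
      · intro hy
        exact hy ⟨u, Subgroup.mem_zpowers u⟩
      · intro hy
        rintro ⟨_, ⟨j, rfl⟩⟩
        have h4 : u ∈ MulAction.stabilizer G y := hy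
        exact zpow_mem h4 j
    rw [this]
  rw [h3] at h1
  rw [Nat.odd_iff] at h2 ⊢
  rw [← h2]
  exact h1.symm

theorem two_of_fixedBy (P : Sylow 2 G) {u : G} (hu : Nat.card (MulAction.fixedBy (G ⧸ (P : Subgroup G)) u) ≠ 0) :
    Two u := by
  have h1 : Nonempty (MulAction.fixedBy (G ⧸ (P : Subgroup G)) u) := (Nat.card_ne_zero.mp hu).1
  obtain ⟨⟨y, hy⟩⟩ := h1
  obtain ⟨g, rfl⟩ := QuotientGroup.mk_surjective y
  have h2 : (QuotientGroup.mk (u * g) : G ⧸ (P : Subgroup G)) = QuotientGroup.mk g := hy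
  rw [eq_comm, QuotientGroup.eq] at h2
  have h3 := two_of_mem P.isPGroup' h2
  have h4 := h3.conj g
  have h5 : g * (g⁻¹ * (u * g)) * g⁻¹ = u := by group
  rwa [h5] at h4

theorem even_count {M : Ideal AlgInt} (hM : IsPModular 2 M)
    (hk₁ : ∀ g : G, (∃ j : ℕ, orderOf g = 2 ^ j) → g ^ k = g)
    (hk₂ : ∀ g : G, Odd (orderOf g) → g ^ k = g⁻¹)
    (H : ∀ χ : IrrCharacter G, (∀ g : G, (χ : G → ℂ) (g ^ k) = (χ : G → ℂ) g) → Odd (charDegree (χ : G → ℂ)))
    (P : Sylow 2 G) {x t : G} (hx1 : x ≠ 1) (hxo : Odd (orderOf x)) (ht : t⁻¹ * x * t = x⁻¹) :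
    Even (Nat.card (U x)) := by
  classical
  have hkc := coprime_k hk₁ hk₂
  let _ : Fintype (IrrCharacter G) := Fintype.ofFinite _
  let π : G → ℂ := fun g => (Nat.card (MulAction.fixedBy (G ⧸ (P : Subgroup G)) g) : ℂ)
  have hπ : IsCharacter G π := Reg.isCharacter_fixedBy
  obtain ⟨m, hm1, hm2⟩ := exists_mult_of_isCharacter hπ
  have hm3 : ∀ g, π g = ∑ ψ : IrrCharacter G, (m ψ : ℂ) * (ψ : G → ℂ) g := by
    intro g
    have := congrFun hm2 g
    rw [this, Finset.sum_apply]
    refine Finset.sum_congr rfl fun ψ _ => ?_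
    simp
  have hint : ∀ χ : IrrCharacter G, IsIntegral ℤ (omega (χ : G → ℂ) (oddF G)) :=
    fun χ => isIntegral_omega χ.2 oddF_class oddF_int
  -- the natural number
  let N : ℕ := ∑ u : G, if Odd (orderOf (u * x)) then Nat.card (MulAction.fixedBy (G ⧸ (P : Subgroup G)) u) else 0
  have hN1 : (N : ℂ) = ∑ g : G, oddF G g * π (g * x⁻¹) := by
    have h1 : ∑ g : G, oddF G g * π (g * x⁻¹) = ∑ u : G, oddF G (u * x) * π u := by
      refine (Fintype.sum_equiv (Equiv.mulRight x) _ _ fun u => ?_).symm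
      simp
    rw [h1]
    push_cast [N]
    refine Finset.sum_congr rfl fun u _ => ?_
    unfold oddF
    split_ifs <;> simp [π]
  have hxx : π x⁻¹ = 0 := by
    by_contra h
    have h1 : Two x⁻¹ := two_of_fixedBy P (by
      intro h0; apply h
      show (Nat.card (MulAction.fixedBy (G ⧸ (P : Subgroup G)) x⁻¹) : ℂ) = 0
      rw [h0]; simp)
    have h2 := eq_one_of_two_odd h1 (by rw [orderOf_inv]; exact hxo)
    exact hx1 (inv_eq_one.mp h2)
  have hN2 : (N : ℂ) = ∑ ψ : IrrCharacter G, (m ψ : ℂ) * (omega (ψ : G → ℂ) (oddF G) - 1) * (ψ : G → ℂ) x⁻¹ := by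
    have h1 : ∑ g : G, oddF G g * π (g * x⁻¹) =
        ∑ ψ : IrrCharacter G, (m ψ : ℂ) * (omega (ψ : G → ℂ) (oddF G) * (ψ : G → ℂ) x⁻¹) := by
      have h2 : ∀ g : G, oddF G g * π (g * x⁻¹) =
          ∑ ψ : IrrCharacter G, (m ψ : ℂ) * (oddF G g * (ψ : G → ℂ) (g * x⁻¹)) := by
        intro g
        rw [hm3, Finset.mul_sum]
        refine Finset.sum_congr rfl fun ψ _ => ?_
        ring
      rw [Finset.sum_congr rfl fun g _ => h2 g, Finset.sum_comm]
      refine Finset.sum_congr rfl fun ψ _ => ?_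
      rw [← Finset.mul_sum, sum_mul_translate ψ.2 oddF_class]
    rw [hN1, h1, ← sub_zero (∑ ψ : IrrCharacter G, _), ← hxx, hm3, ← Finset.sum_sub_distrib]
    refine Finset.sum_congr rfl fun ψ _ => ?_
    ring
  -- the terms
  let T : IrrCharacter G → AlgInt := fun ψ => (m ψ : AlgInt) * ((⟨omega (ψ : G → ℂ) (oddF G), hint ψ⟩ : AlgInt) - 1) *
    ⟨(ψ : G → ℂ) x⁻¹, irr_isIntegral ψ _⟩
  have hNT : (N : AlgInt) = ∑ ψ, T ψ := by
    apply Subtype.ext
    push_cast
    rw [hN2]
    refine Finset.sum_congr rfl fun ψ _ => ?_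
    simp [T]
  let s : IrrCharacter G → IrrCharacter G := tw hkc
  have hs : ∀ (χ : IrrCharacter G) (g : G), (s χ : G → ℂ) g = (χ : G → ℂ) (g ^ k) := fun χ g => rfl
  have hss : ∀ χ, s (s χ) = χ := by
    intro χ
    apply Subtype.ext
    funext g
    rw [hs, hs, pow_k_k hk₁ hk₂]
  have hms : ∀ χ, m (s χ) = m χ := by
    intro χ
    have h1 := hm1 (s χ)
    have h2 := hm1 χ
    have h3 : classInner π (s χ : G → ℂ) = classInner π (χ : G → ℂ) := by
      unfold classInner
      congr 1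
      refine Finset.sum_congr rfl fun g _ => ?_
      by_cases hg : Nat.card (MulAction.fixedBy (G ⧸ (P : Subgroup G)) g) = 0
      · have : π g = 0 := by
          show (Nat.card (MulAction.fixedBy (G ⧸ (P : Subgroup G)) g) : ℂ) = 0
          rw [hg]; simp
        rw [this]; simp
      · rw [hs, hk₁ g ((two_iff g).mp (two_of_fixedBy P hg))]
    rw [h1, h2] at h3
    exact_mod_cast h3
  have hos : ∀ χ : IrrCharacter G, omega (s χ : G → ℂ) (oddF G) = omega (χ : G → ℂ) (oddF G) := by
    intro χ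
    unfold omega
    rw [hs χ 1, one_pow]
    congr 1
    rw [← sum_inv_eq]
    refine Finset.sum_congr rfl fun g _ => ?_
    unfold oddF
    rw [orderOf_inv]
    split_ifs with ho
    · rw [hs, inv_pow, hk₂ g ho, inv_inv]
    · simp
  have hxs : ∀ χ : IrrCharacter G, (s χ : G → ℂ) x⁻¹ = (χ : G → ℂ) x⁻¹ := by
    intro χ
    rw [hs, inv_pow, hk₂ x hxo, inv_inv, ← ht]
    have := irr_isClassFunction χ x t⁻¹
    rw [inv_inv] at this
    exact this.symm
  have hTs : ∀ χ, T (s χ) = T χ := by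
    intro χ
    apply Subtype.ext
    simp only [T]
    push_cast
    rw [hms, hos, hxs]
  have hmem : (N : AlgInt) ∈ M := by
    rw [hNT, ← Ideal.Quotient.eq_zero_iff_mem, map_sum]
    apply Finset.sum_involution (fun χ _ => s χ)
    · intro χ _
      rw [hTs, ← map_add, ← two_mul, Ideal.Quotient.eq_zero_iff_mem]
      exact M.mul_mem_right _ (by exact_mod_cast hM.2.2)
    · intro χ _ h0 h1
      apply h0
      rw [Ideal.Quotient.eq_zero_iff_mem]
      have hfix : ∀ g : G, (χ : G → ℂ) (g ^ k) = (χ : G → ℂ) g := by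
        intro g
        have := congrArg (fun ψ : IrrCharacter G => (ψ : G → ℂ) g) h1
        exact this
      have h2 := omega_sub_one_mem hM hk₂ χ hfix (H χ hfix) (hint χ)
      exact M.mul_mem_right _ (M.mul_mem_left _ h2)
    · intro χ _
      exact Finset.mem_univ _
    · intro χ _
      exact hss χ
  have hNe : Even N := by
    rw [← Nat.not_odd_iff_even]
    exact fun h => odd_not_mem hM h hmem
  -- compare with the count
  have hcmp : N ≡ Nat.card (U x) [MOD 2] := by
    have h1 : Nat.card (U x) = ∑ u : G, if Odd (orderOf (u * x)) ∧ Two u then 1 else 0 := by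
      have h2 : Fintype.card {u : G // u ∈ U x} = _ :=
        Fintype.card_of_subtype (Finset.univ.filter fun u : G => Odd (orderOf (u * x)) ∧ Two u)
          (by intro u; simp [U, and_comm])
      rw [Nat.card_eq_fintype_card]
      refine (Eq.trans ?_ h2).trans ?_
      · exact Fintype.card_congr (Equiv.refl _)
      · rw [Finset.card_filter]
    rw [h1]
    show (∑ u : G, if Odd (orderOf (u * x)) then Nat.card (MulAction.fixedBy (G ⧸ (P : Subgroup G)) u) else 0) ≡ _ [MOD 2]
    rw [← ZMod.natCast_eq_natCast_iff]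
    push_cast
    refine Finset.sum_congr rfl fun u _ => ?_
    by_cases ho : Odd (orderOf (u * x))
    · by_cases h2 : Two u
      · rw [if_pos ho, if_pos ⟨ho, h2⟩]
        have := odd_card_fixedBy P h2
        exact ZMod.natCast_eq_one_iff_odd.mpr this
      · rw [if_pos ho, if_neg (fun h => h2 h.2)]
        have : Nat.card (MulAction.fixedBy (G ⧸ (P : Subgroup G)) u) = 0 := by
          by_contra h3
          exact h2 (two_of_fixedBy P h3)
        rw [this]; simp
    · rw [if_neg ho, if_neg (fun h => ho h.1)]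
  rw [Nat.even_iff] at hNe ⊢
  rw [← hNe]
  exact hcmp.symm

end main

end Cfsg.Agent.H73.SigFix
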