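import Cfsg.Agent.H73.SigFix
import Cfsg.Agent.BlkInd.GalTwo

/-!
A nonprincipal fixed character in the principal 2-block.
-/

set_option autoImplicit false
set_option linter.unusedSectionVars false

namespace Cfsg.Agent.H73.SigFix

open Cfsg Cfsg.Agent.CharBase Cfsg.Agent.Char Cfsg.Agent.H73.AbSyl2
open scoped ComplexConjugate

universe u

variable {G : Type u} [Group G] [Fintype G] {k : ℕ}

theorem tw_mem_principal {M : Ideal AlgInt}
    (hk₁ : ∀ g : G, (∃ j : ℕ, orderOf g = 2 ^ j) → g ^ k = g)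
    (hk₂ : ∀ g : G, Odd (orderOf g) → g ^ k = g⁻¹) {χ : IrrCharacter G} (hχ : χ ∈ principalBlock M G) :
    tw (coprime_k hk₁ hk₂) χ ∈ principalBlock M G := by
  intro g
  have h1 := hχ (g ^ k)
  have hc : Subgroup.centralizer ({g ^ k} : Set G) = Subgroup.centralizer ({g} : Set G) := by
    ext y
    rw [Subgroup.mem_centralizer_singleton_iff, Subgroup.mem_centralizer_singleton_iff]
    constructor
    · intro h
      have h2 : Commute y (g ^ k) := h
      have h3 := h2.pow_right k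
      rw [pow_k_k hk₁ hk₂] at h3
      exact h3
    · intro h
      have h2 : Commute y g := h
      exact h2.pow_right k
  have e1 : centralChar (fun _ : G => (1 : ℂ)) (g ^ k) = centralChar (fun _ : G => (1 : ℂ)) g := by
    unfold centralChar
    rw [hc]
  have e2 : centralChar (χ : G → ℂ) (g ^ k) = centralChar (tw (coprime_k hk₁ hk₂) χ : G → ℂ) g := by
    unfold centralChar tw
    rw [hc]
    simp
  rw [e1, e2] at h1
  exact h1

theorem exists_fixed_principal {M : Ideal AlgInt} (hM : IsPModular 2 M) (heven : 2 ∣ Nat.card G)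
    (hk₁ : ∀ g : G, (∃ j : ℕ, orderOf g = 2 ^ j) → g ^ k = g)
    (hk₂ : ∀ g : G, Odd (orderOf g) → g ^ k = g⁻¹) :
    ∃ χ ∈ principalBlock M G, (χ : G → ℂ) ≠ (fun _ => 1) ∧ ∀ g : G, (χ : G → ℂ) (g ^ k) = (χ : G → ℂ) g := by
  classical
  have hMp : M.IsPrime := hM.2.1.isPrime
  by_contra hcon
  push Not at hcon
  have h1 := BlkInd.even_sum_sq (M := M) hM (N := G) heven
  let B := BlkC.Bfin (principalBlock M G)
  have hB : ∀ χ, χ ∈ B ↔ χ ∈ principalBlock M G := fun χ => BlkC.mem_Bfin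
  have h2 : ∑ χ ∈ B, ((charDegree (χ : G → ℂ) : ZMod 2)) ^ 2 = 0 := by
    have := (ZMod.natCast_eq_zero_iff _ 2).mpr h1
    push_cast at this
    exact this
  have hone : oneIrr G ∈ B := (hB _).mpr Cfsg.Agent.Blk.oneIrr_mem_principalBlock
  rw [← Finset.add_sum_erase B _ hone] at h2
  have h3 : ∑ χ ∈ B.erase (oneIrr G), ((charDegree (χ : G → ℂ) : ZMod 2)) ^ 2 = 0 := by
    apply Finset.sum_involution (fun χ _ => tw (coprime_k hk₁ hk₂) χ)
    · intro χ _
      have : charDegree (tw (coprime_k hk₁ hk₂) χ : G → ℂ) = charDegree (χ : G → ℂ) := by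
        unfold charDegree tw
        simp
      rw [this, CharTwo.add_self_eq_zero]
    · intro χ hχ _ h
      obtain ⟨h4, h5⟩ := Finset.mem_erase.mp hχ
      obtain ⟨g, hg⟩ := hcon χ ((hB χ).mp h5) (fun h6 => h4 (Subtype.ext h6))
      apply hg
      exact congrArg (fun ψ : IrrCharacter G => (ψ : G → ℂ) g) h
    · intro χ hχ
      obtain ⟨h4, h5⟩ := Finset.mem_erase.mp hχ
      refine Finset.mem_erase.mpr ⟨fun h6 => h4 ?_, (hB _).mpr (tw_mem_principal hk₁ hk₂ ((hB χ).mp h5))⟩
      apply Subtype.ext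
      funext g
      have h7 := congrArg (fun ψ : IrrCharacter G => (ψ : G → ℂ) (g ^ k)) h6
      have h8 : (χ : G → ℂ) ((g ^ k) ^ k) = 1 := h7
      rw [pow_k_k hk₁ hk₂] at h8
      exact h8
    · intro χ _
      apply Subtype.ext
      funext g
      show (χ : G → ℂ) ((g ^ k) ^ k) = (χ : G → ℂ) g
      rw [pow_k_k hk₁ hk₂]
  rw [h3, add_zero] at h2
  have h4 : charDegree (oneIrr G : G → ℂ) = 1 := by
    unfold charDegree
    simp
  rw [h4] at h2
  simp at h2

/-- **Main theorem**: if all fixed characters have odd degree and the Sylow 2-subgroup is abelian, it is normal -/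
theorem normal_of_fixed_odd {M : Ideal AlgInt} (hM : IsPModular 2 M)
    (hk₁ : ∀ g : G, (∃ j : ℕ, orderOf g = 2 ^ j) → g ^ k = g)
    (hk₂ : ∀ g : G, Odd (orderOf g) → g ^ k = g⁻¹)
    (H : ∀ χ : IrrCharacter G, (∀ g : G, (χ : G → ℂ) (g ^ k) = (χ : G → ℂ) g) → Odd (charDegree (χ : G → ℂ)))
    (P : Sylow 2 G) (hab : ∀ a ∈ (P : Subgroup G), ∀ b ∈ (P : Subgroup G), a * b = b * a) :
    (P : Subgroup G).Normal := by
  by_contra hn
  obtain ⟨x, t, hx1, hxo, ht, hodd⟩ := exists_odd_count P hab hn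
  have heven := even_count hM hk₁ hk₂ H P hx1 hxo ht
  exact (Nat.not_even_iff_odd.mpr hodd) heven

end Cfsg.Agent.H73.SigFix
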