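import Mathlib
import Cfsg.Agent.Cop.MinAct
import Cfsg.Agent.H93.ThOne.Outer

set_option autoImplicit false
set_option linter.style.haveILetI false
set_option linter.unusedSectionVars false

namespace Cfsg.Agent.H73
open Subgroup

section
variable {G : Type*} [Group G] [Finite G]

/-- no noncyclic abelian subgroup of order `8`. -/
def Thin (R : Subgroup G) : Prop :=
  ∀ A : Subgroup G, A ≤ R → IsMulCommutative ↥A → Nat.card A = 8 → IsCyclic ↥A

theorem Thin.mono {R T : Subgroup G} (h : Thin T) (hle : R ≤ T) : Thin R := fun A hA => h A (hA.trans hle)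

theorem not_cyclic_of_exp {A : Subgroup G} (h8 : Nat.card A = 8) (h4 : ∀ a ∈ A, a ^ 4 = 1) : ¬ IsCyclic A := by
  intro hc
  obtain ⟨g, hg⟩ := IsCyclic.exists_ofOrder_eq_natCard (α := A)
  have h1 : g ^ 4 = 1 := Subtype.ext (by simpa using h4 g g.2)
  have h2 := orderOf_dvd_of_pow_eq_one h1
  rw [hg, h8] at h2
  omega

theorem Thin.card_lt {R W : Subgroup G} (hR : Thin R) (hW : W ≤ R) (hc : ∀ x ∈ W, ∀ y ∈ W, x * y = y * x)
    (h4 : ∀ w ∈ W, w ^ 4 = 1) : Nat.card W < 8 := by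
  haveI : Fact (Nat.Prime 2) := ⟨Nat.prime_two⟩
  by_contra hcon
  push Not at hcon
  have hp : IsPGroup 2 W := fun w => ⟨2, Subtype.ext (by simpa using h4 w w.2)⟩
  obtain ⟨n, hn⟩ := IsPGroup.iff_card.mp hp
  have h3 : 3 ≤ n := by
    by_contra h
    push Not at h
    have : 2 ^ n ≤ 2 ^ 2 := Nat.pow_le_pow_right (by norm_num) (by omega)
    omega
  obtain ⟨H, hH⟩ := Sylow.exists_subgroup_card_pow_prime (G := W) 2 (n := 3) (by rw [hn]; exact pow_dvd_pow 2 h3)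
  have hle : H.map W.subtype ≤ W := map_subtype_le H
  have hcard : Nat.card (H.map W.subtype) = 8 := by
    rw [Cop.card_map_subtype, hH]; norm_num
  have hcomm : IsMulCommutative ↥(H.map W.subtype) :=
    ⟨⟨fun a b => Subtype.ext (hc a (hle a.2) b (hle b.2))⟩⟩
  exact not_cyclic_of_exp hcard (fun a ha => h4 a (hle ha)) (hR _ (hle.trans hW) hcomm hcard)

theorem Thin.ext {R E : Subgroup G} (hR : Thin R) (hE : E ≤ R) (hc : ∀ x ∈ E, ∀ y ∈ E, x * y = y * x)
    (h4 : ∀ w ∈ E, w ^ 4 = 1) (hcard : 4 ≤ Nat.card E) {c : G} (hcR : c ∈ R) (hcE : ∀ x ∈ E, x * c = c * x)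
    (hc4 : c ^ 4 = 1) : c ∈ E := by
  by_contra hcon
  set W := E ⊔ zpowers c with hW
  have h1 : W ≤ centralizer (E : Set G) := by
    rw [hW, sup_le_iff, zpowers_le]
    refine ⟨fun x hx => ?_, ?_⟩
    · rw [mem_centralizer_iff]; exact fun y hy => hc y hy x hx
    · rw [mem_centralizer_iff]; exact fun y hy => hcE y hy
  have h2 : W ≤ centralizer ({c} : Set G) := by
    rw [hW, sup_le_iff, zpowers_le]
    refine ⟨fun x hx => ?_, ?_⟩
    · rw [mem_centralizer_singleton_iff]; exact hcE x hx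
    · rw [mem_centralizer_singleton_iff]
  have h3 : W ≤ centralizer (W : Set G) := by
    rw [le_centralizer_iff]
    conv_lhs => rw [hW]
    rw [sup_le_iff, zpowers_le, le_centralizer_iff]
    refine ⟨h1, ?_⟩
    rw [mem_centralizer_iff]
    intro x hx
    exact mem_centralizer_singleton_iff.mp (h2 hx)
  have hcW : ∀ x ∈ W, ∀ y ∈ W, x * y = y * x := fun x hx y hy => (mem_centralizer_iff.mp (h3 hy)) x hx
  let V : Subgroup G :=
    { carrier := {w | w ∈ W ∧ w ^ 4 = 1}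
      mul_mem' := by
        rintro a b ⟨ha, ha4⟩ ⟨hb, hb4⟩
        refine ⟨mul_mem ha hb, ?_⟩
        rw [(show Commute a b from hcW a ha b hb).mul_pow, ha4, hb4, one_mul]
      one_mem' := ⟨one_mem _, one_pow _⟩
      inv_mem' := by
        rintro a ⟨ha, ha4⟩
        exact ⟨inv_mem ha, by rw [inv_pow, ha4, inv_one]⟩ }
  have hV : W ≤ V := by
    rw [hW, sup_le_iff, zpowers_le]
    exact ⟨fun x hx => ⟨le_sup_left (a := E) hx, h4 x hx⟩, ⟨(le_sup_right (a := E)) (mem_zpowers c), hc4⟩⟩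
  have h5 := hR.card_lt (W := W) (by rw [hW, sup_le_iff, zpowers_le]; exact ⟨hE, hcR⟩) hcW (fun w hw => (hV hw).2)
  have h6 : E ≤ W := le_sup_left
  have h7 : Nat.card E ∣ Nat.card W := card_dvd_of_le h6
  have h8 : Nat.card E ≠ Nat.card W := by
    intro h
    have : E = W := eq_of_le_of_card_ge h6 h.ge
    exact hcon (this ▸ (le_sup_right (a := E)) (mem_zpowers c))
  obtain ⟨k, hk⟩ := h7
  have h9 : k ≠ 0 := by rintro rfl; rw [mul_zero] at hk; exact Nat.card_pos.ne' hk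
  have h10 : k ≠ 1 := by rintro rfl; rw [mul_one] at hk; exact h8 hk.symm
  have h11 : 2 ≤ k := by omega
  have : 4 * 2 ≤ Nat.card E * k := Nat.mul_le_mul hcard h11
  omega

/-- a power of `c` outside `N` with square in `N`. -/
theorem exists_pow_sq {T N : Subgroup G} (hT : IsPGroup 2 T) {c : G} (hc : c ∈ T) (hcN : c ∉ N) :
    ∃ m : ℕ, c ^ m ∉ N ∧ c ^ m * c ^ m ∈ N := by
  obtain ⟨k, hk⟩ := hT ⟨c, hc⟩
  have hk' : c ^ 2 ^ k = 1 := by simpa using congrArg Subtype.val hk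
  have hex : ∃ m, c ^ (2 ^ m) ∈ N := ⟨k, by rw [hk']; exact N.one_mem⟩
  classical
  have h0 : Nat.find hex ≠ 0 := by
    intro h
    have := Nat.find_spec hex
    rw [h, pow_zero, pow_one] at this
    exact hcN this
  refine ⟨2 ^ (Nat.find hex - 1), Nat.find_min hex (by omega), ?_⟩
  rw [← pow_add, ← two_mul, ← pow_succ', Nat.sub_add_cancel (Nat.one_le_iff_ne_zero.mpr h0)]
  exact Nat.find_spec hex

/-- the structure of a thin group with a nontrivial odd action. -/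
structure Irr (K R Z : Subgroup G) : Prop where
  norm : K ≤ normalizer (R : Set G)
  normZ : normalizer (R : Set G) ≤ normalizer (Z : Set G)
  ZR : Z ≤ R
  Zc : ∀ z ∈ Z, ∀ r ∈ R, z * r = r * z
  ZK : ∀ z ∈ Z, ∀ k ∈ K, z * k = k * z
  sq : ∀ x ∈ R, x * x ∈ Z
  irr : ∀ U : Subgroup G, Z ≤ U → U ≤ R → K ≤ normalizer (U : Set G) → U = Z ∨ U = R
  comm : ⁅R, K⁆ = R
  der : ∀ x ∈ R, ∀ y ∈ R, x * y * x⁻¹ * y⁻¹ ∈ Z
  alt : (Z = ⊥ ∧ Nat.card R = 4) ∨
    (Nat.card Z = 2 ∧ Nat.card R = 8 ∧ (∀ x ∈ R, x ∉ Z → x * x ≠ 1) ∧ ∀ x ∈ R, x ∉ Z → ∃ y ∈ R, x * y ≠ y * x)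

end

end Cfsg.Agent.H73
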