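import Cfsg.Agent.H73.Thin
import Cfsg.Agent.Extra.Basic

set_option autoImplicit false
set_option linter.style.haveILetI false
set_option linter.unusedSectionVars false

namespace Cfsg.Agent.H73
open Subgroup
open scoped commutatorElement

section
variable {G : Type*} [Group G] [Finite G]

theorem conj_of_card_two {Z : Subgroup G} (h2 : Nat.card Z = 2) {k z : G} (hk : k ∈ normalizer (Z : Set G)) (hz : z ∈ Z) :
    z * k = k * z := by
  by_cases hz1 : z = 1
  · rw [hz1, one_mul, mul_one]
  have h1 : k * z * k⁻¹ ∈ Z := (mem_normalizer_iff.mp hk z).mp hz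
  have h3 : k * z * k⁻¹ ≠ 1 := by
    intro h
    apply hz1
    have : z = k⁻¹ * (k * z * k⁻¹) * k := by group
    rw [this, h]; group
  have h4 : k * z * k⁻¹ = z := by
    by_contra hne
    have h5 : ({1, z, k * z * k⁻¹} : Set G) ⊆ (Z : Set G) := by
      rintro x (rfl | rfl | rfl)
      · exact one_mem _
      · exact hz
      · exact h1
    have h6 : ({1, z, k * z * k⁻¹} : Set G).ncard = 3 := by
      rw [Set.ncard_eq_three]
      exact ⟨1, z, k * z * k⁻¹, fun h => hz1 h.symm, fun h => h3 h.symm, fun h => hne h.symm, rfl⟩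
    have h7 := Set.ncard_le_ncard h5 (Set.toFinite _)
    rw [h6] at h7
    have h8 : (Z : Set G).ncard = 2 := by rw [← h2]; rfl
    omega
  have : k * z = z * k := by
    calc k * z = (k * z * k⁻¹) * k := by group
      _ = z * k := by rw [h4]
  exact this.symm

theorem eq_of_card_two {Z : Subgroup G} (h2 : Nat.card Z = 2) {a b : G} (ha : a ∈ Z) (hb : b ∈ Z) (ha1 : a ≠ 1) (hb1 : b ≠ 1) :
    a = b := by
  by_contra hne
  have h5 : ({1, a, b} : Set G) ⊆ (Z : Set G) := by
    rintro x (rfl | rfl | rfl)
    · exact one_mem _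
    · exact ha
    · exact hb
  have h6 : ({1, a, b} : Set G).ncard = 3 := by
    rw [Set.ncard_eq_three]
    exact ⟨1, a, b, fun h => ha1 h.symm, fun h => hb1 h.symm, hne, rfl⟩
  have h7 := Set.ncard_le_ncard h5 (Set.toFinite _)
  rw [h6] at h7
  have h8 : (Z : Set G).ncard = 2 := by rw [← h2]; rfl
  omega

theorem mem_center_map {Q : Subgroup G} {x : G} :
    x ∈ (center Q).map Q.subtype ↔ x ∈ Q ∧ ∀ y ∈ Q, y * x = x * y := by
  constructor
  · rintro ⟨z, hz, rfl⟩
    refine ⟨z.2, fun y hy => ?_⟩
    exact congrArg Subtype.val ((mem_center_iff.mp hz) ⟨y, hy⟩)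
  · rintro ⟨hx, h⟩
    refine ⟨⟨x, hx⟩, ?_, rfl⟩
    rw [SetLike.mem_coe, mem_center_iff]
    intro y
    exact Subtype.ext (h y y.2)

theorem irr_of_min {K Q : Subgroup G} (hQ : IsPGroup 2 Q) (hKQ : K ≤ normalizer (Q : Set G))
    (hK : (Nat.card K).Coprime 2) (hnt : ⁅Q, K⁆ ≠ ⊥)
    (hmin : ∀ U : Subgroup G, U < Q → K ≤ normalizer (U : Set G) → ⁅U, K⁆ = ⊥) (hthin : Thin Q) :
    ∃ Z, Irr K Q Z := by
  haveI : Fact (Nat.Prime 2) := ⟨Nat.prime_two⟩
  have hcm := Cop.min_commutator_eq hQ hKQ le_rfl le_normalizer hK hnt hmin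
  have hir := Cop.min_irreducible hQ hKQ le_rfl le_normalizer hK hnt hmin
  obtain ⟨n, hn⟩ := IsPGroup.iff_card.mp hQ
  have hKQs : K ≤ normalizer (Q : Set G) := hKQ
  rcases Cop.min_structure hQ hKQ le_rfl le_normalizer hK hnt hmin with ⟨h, hC⟩ | ⟨h, hnc, hC⟩
  · have hfr := Cop.frattini_map_eq_bot_of_elem Q h
    rw [hfr] at hir
    have hab : ∀ x ∈ Q, ∀ y ∈ Q, x * y = y * x := fun x hx y hy =>
      congrArg Subtype.val (h.1.1.1 ⟨x, hx⟩ ⟨y, hy⟩)
    have hsq : ∀ x ∈ Q, x * x = 1 := fun x hx => by rw [← pow_two]; exact h.2 x hx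
    have hlt := hthin.card_lt le_rfl hab (fun w hw => by
      rw [show (4 : ℕ) = 2 * 2 from rfl, pow_mul, h.2 w hw, one_pow])
    have h1 : Nat.card Q ≠ 1 := by
      intro h1
      rw [Subgroup.card_eq_one] at h1
      apply hnt
      rw [h1, commutator_bot_left]
    have h2 : Nat.card Q ≠ 2 := by
      intro h2
      have : Q ≤ Q ⊓ centralizer (K : Set G) := by
        intro x hx
        exact ⟨hx, mem_centralizer_iff.mpr fun k hk => (conj_of_card_two h2 (hKQ hk) hx).symm⟩
      rw [hC, le_bot_iff] at this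
      rw [this, card_bot] at h2
      omega
    have h4 : Nat.card Q = 4 := by
      have : n < 3 := by
        by_contra hcon
        push Not at hcon
        have : 2 ^ 3 ≤ 2 ^ n := Nat.pow_le_pow_right (by norm_num) hcon
        omega
      interval_cases n
      · exact absurd hn (by simpa using h1)
      · exact absurd hn (by simpa using h2)
      · rw [hn]; norm_num
    refine ⟨⊥, hKQ, ?_, bot_le, ?_, ?_, ?_, ?_, hcm, ?_, Or.inl ⟨rfl, h4⟩⟩
    · exact le_top.trans (normalizer_eq_top (H := (⊥ : Subgroup G))).ge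
    · intro z hz r _
      rw [mem_bot.mp hz, one_mul, mul_one]
    · intro z hz r _
      rw [mem_bot.mp hz, one_mul, mul_one]
    · intro x hx
      rw [mem_bot]; exact hsq x hx
    · exact hir
    · intro x hx y hy
      rw [mem_bot, hab x hx y hy]; group
  · set Z := (center Q).map Q.subtype with hZ
    have hfr : (frattini ↥Q).map Q.subtype = Z := by rw [h.2.1]
    rw [hfr] at hir
    have hmem : ∀ {x : G}, x ∈ Z ↔ x ∈ Q ∧ ∀ y ∈ Q, y * x = x * y := mem_center_map
    have hZQ : Z ≤ Q := map_subtype_le _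
    have hZ2 : ∀ z ∈ Z, z * z = 1 := by
      rintro _ ⟨z, hz, rfl⟩
      have := Extra.center_pow_eq_one_of_isSpecial h z hz
      rw [pow_two] at this
      exact congrArg Subtype.val this
    have hsq : ∀ x ∈ Q, x * x ∈ Z := by
      intro x hx
      have := Extra.pow_mem_center_of_isSpecial h ⟨x, hx⟩
      rw [pow_two] at this
      exact ⟨_, this, rfl⟩
    have hx4 : ∀ x ∈ Q, x ^ 4 = 1 := by
      intro x hx
      have := hZ2 _ (hsq x hx)
      rw [show (4 : ℕ) = 2 * 2 from rfl, pow_mul, pow_two, pow_two]; exact this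
    have hder : ∀ x ∈ Q, ∀ y ∈ Q, x * y * x⁻¹ * y⁻¹ ∈ Z := by
      intro x hx y hy
      have := (Extra.classTwo_of_isSpecial h).mem ⟨x, hx⟩ ⟨y, hy⟩
      exact ⟨_, this, rfl⟩
    have hexx : ∃ x ∈ Q, x ∉ Z := by
      by_contra hcon
      push Not at hcon
      apply hnc
      exact ⟨⟨fun a b => Subtype.ext ((hmem.mp (hcon b b.2)).2 a a.2)⟩⟩
    obtain ⟨x, hxQ, hxZ⟩ := hexx
    have hnex : ∀ x ∈ Q, x ∉ Z → ∃ y ∈ Q, x * y ≠ y * x := by
      intro x hxQ hxZ
      by_contra hcon
      push Not at hcon
      exact hxZ (hmem.mpr ⟨hxQ, fun y hy => (hcon y hy).symm⟩)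
    -- order of `Z`
    have hZp : IsPGroup 2 Z := hQ.to_le hZQ
    obtain ⟨m, hm⟩ := IsPGroup.iff_card.mp hZp
    have hZlt : Nat.card Z < 4 := by
      by_contra hcon
      push Not at hcon
      exact hxZ (hthin.ext hZQ (fun a ha b hb => ((hmem.mp hb).2 a (hZQ ha)))
        (fun w hw => hx4 w (hZQ hw)) hcon hxQ (fun z hz => ((hmem.mp hz).2 x hxQ).symm) (hx4 x hxQ))
    have hZne : Nat.card Z ≠ 1 := by
      intro h1
      rw [Subgroup.card_eq_one] at h1
      obtain ⟨y, hyQ, hxy⟩ := hnex x hxQ hxZ
      have := hder x hxQ y hyQ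
      rw [h1, mem_bot] at this
      apply hxy
      have h2 : x * y = (x * y * x⁻¹ * y⁻¹) * (y * x) := by group
      rw [h2, this, one_mul]
    have hZ2c : Nat.card Z = 2 := by
      have : m < 2 := by
        by_contra hcon
        push Not at hcon
        have : 2 ^ 2 ≤ 2 ^ m := Nat.pow_le_pow_right (by norm_num) hcon
        omega
      interval_cases m
      · exact absurd hm (by simpa using hZne)
      · rw [hm]; norm_num
    have hcenter : Nat.card (center Q) = 2 := by rw [← hZ2c, hZ, Cop.card_map_subtype]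
    have hex : Cfsg.IsExtraspecial 2 Q := ⟨h, hcenter⟩
    have hges := Extra.ges_of_isExtraspecial hex
    -- centralizers are small
    have hKZ : ∀ z ∈ Z, ∀ k ∈ K, z * k = k * z := by
      intro z hz k hk
      rw [hC] at hz
      exact (mem_centralizer_iff.mp hz.2 k hk).symm
    -- `E x = Z ∪ x Z`
    have hcent : ∀ x ∈ Q, x ∉ Z → ∀ c ∈ Q, x * c = c * x → c ∈ Z ∨ x⁻¹ * c ∈ Z := by
      intro x hxQ hxZ c hcQ hxc
      let E : Subgroup G :=
        { carrier := {w | w ∈ Z ∨ x⁻¹ * w ∈ Z}
          mul_mem' := by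
            rintro a b (ha | ha) (hb | hb)
            · exact Or.inl (mul_mem ha hb)
            · right
              have : x⁻¹ * (a * b) = a * (x⁻¹ * b) := by
                have h1 : x⁻¹ * a = a * x⁻¹ := (hmem.mp ha).2 _ (inv_mem hxQ)
                rw [← mul_assoc, h1, mul_assoc]
              rw [this]; exact mul_mem ha hb
            · right
              rw [← mul_assoc]; exact mul_mem ha hb
            · left
              have : a * b = (x * x) * ((x⁻¹ * a) * (x⁻¹ * b)) := by
                have h1 : x⁻¹ * a * x⁻¹ = x⁻¹ * (x⁻¹ * a) := ((hmem.mp ha).2 _ (inv_mem hxQ)).symm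
                calc a * b = x * (x⁻¹ * a) * (x⁻¹⁻¹ * (x⁻¹ * b)) := by group
                  _ = x * ((x⁻¹ * a) * x) * (x⁻¹ * b) := by group
                  _ = x * (x * (x⁻¹ * a)) * (x⁻¹ * b) := by rw [(hmem.mp ha).2 x hxQ]
                  _ = _ := by group
              rw [this]
              exact mul_mem (hsq x hxQ) (mul_mem ha hb)
          one_mem' := Or.inl (one_mem _)
          inv_mem' := by
            rintro a (ha | ha)
            · exact Or.inl (inv_mem ha)
            · right
              have : x⁻¹ * a⁻¹ = (x * x)⁻¹ * (x⁻¹ * a)⁻¹ := by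
                have h1 : x * (x⁻¹ * a)⁻¹ = (x⁻¹ * a)⁻¹ * x := (hmem.mp (inv_mem ha)).2 x hxQ
                calc x⁻¹ * a⁻¹ = x⁻¹ * ((x⁻¹ * a)⁻¹ * x) * (x⁻¹ * x⁻¹) := by group
                  _ = x⁻¹ * (x * (x⁻¹ * a)⁻¹) * (x⁻¹ * x⁻¹) := by rw [h1]
                  _ = (x⁻¹ * a)⁻¹ * (x⁻¹ * x⁻¹) := by group
                  _ = (x⁻¹ * x⁻¹) * (x⁻¹ * a)⁻¹ := ((hmem.mp (inv_mem ha)).2 _ (mul_mem (inv_mem hxQ) (inv_mem hxQ))).symm
                  _ = _ := by group
              rw [this]
              exact mul_mem (inv_mem (hsq x hxQ)) (inv_mem ha) }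
      have hZE : Z ≤ E := fun z hz => Or.inl hz
      have hxE : x ∈ E := Or.inr (by show x⁻¹ * x ∈ Z; rw [inv_mul_cancel]; exact one_mem _)
      have hEQ : E ≤ Q := by
        rintro w (hw | hw)
        · exact hZQ hw
        · have : w = x * (x⁻¹ * w) := by group
          rw [this]; exact mul_mem hxQ (hZQ hw)
      have hE4 : 4 ≤ Nat.card E := by
        have h7 : Nat.card Z ∣ Nat.card E := card_dvd_of_le hZE
        have h8 : Nat.card Z ≠ Nat.card E := by
          intro h
          have : Z = E := eq_of_le_of_card_ge hZE h.ge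
          exact hxZ (this ▸ hxE)
        obtain ⟨k, hk⟩ := h7
        have h9 : k ≠ 0 := by rintro rfl; rw [mul_zero] at hk; exact Nat.card_pos.ne' hk
        have h10 : k ≠ 1 := by rintro rfl; rw [mul_one] at hk; exact h8 hk.symm
        rw [hZ2c] at hk
        omega
      have hxcomm : ∀ w ∈ E, x * w = w * x := by
        rintro w (hw | hw)
        · exact (hmem.mp hw).2 x hxQ
        · calc x * w = x * (x * (x⁻¹ * w)) := by group
            _ = x * ((x⁻¹ * w) * x) := by rw [(hmem.mp hw).2 x hxQ]
            _ = w * x := by group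
      have hEc : ∀ a ∈ E, ∀ b ∈ E, a * b = b * a := by
        rintro a ha b (hb | hb)
        · exact (hmem.mp hb).2 a (hEQ ha)
        · calc a * b = (a * x) * (x⁻¹ * b) := by group
            _ = (x * a) * (x⁻¹ * b) := by rw [hxcomm a ha]
            _ = x * (a * (x⁻¹ * b)) := by group
            _ = x * ((x⁻¹ * b) * a) := by rw [(hmem.mp hb).2 a (hEQ ha)]
            _ = b * a := by group
      exact hthin.ext hEQ hEc (fun w hw => hx4 w (hEQ hw)) hE4 hcQ (by
        rintro w (hw | hw)
        · exact ((hmem.mp hw).2 c hcQ).symm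
        · calc w * c = x * ((x⁻¹ * w) * c) := by group
            _ = x * (c * (x⁻¹ * w)) := by rw [(hmem.mp hw).2 c hcQ]
            _ = (x * c) * (x⁻¹ * w) := by group
            _ = (c * x) * (x⁻¹ * w) := by rw [hxc]
            _ = c * w := by group) (hx4 c hcQ)
    refine ⟨Z, hKQ, ?_, hZQ, fun z hz r hr => ((hmem.mp hz).2 r hr).symm, hKZ, hsq, hir, hcm, hder, Or.inr ⟨hZ2c, ?_, ?_, hnex⟩⟩
    · intro g hg
      rw [mem_normalizer_iff] at hg ⊢
      intro z
      rw [hmem, hmem, ← hg z]
      refine and_congr_right fun _ => ?_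
      constructor
      · intro hz y hy
        have h1 := hz (g⁻¹ * y * g) (by
          rw [hg]; have : g * (g⁻¹ * y * g) * g⁻¹ = y := by group
          rw [this]; exact hy)
        calc y * (g * z * g⁻¹) = g * ((g⁻¹ * y * g) * z) * g⁻¹ := by group
          _ = g * (z * (g⁻¹ * y * g)) * g⁻¹ := by rw [h1]
          _ = _ := by group
      · intro hz y hy
        have h1 := hz (g * y * g⁻¹) ((hg y).mp hy)
        calc y * z = g⁻¹ * ((g * y * g⁻¹) * (g * z * g⁻¹)) * g := by group
          _ = g⁻¹ * ((g * z * g⁻¹) * (g * y * g⁻¹)) * g := by rw [h1]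
          _ = _ := by group
    · -- order `8`
      obtain ⟨y, hyQ, hxy⟩ := hnex x hxQ hxZ
      have hne : ⁅(⟨x, hxQ⟩ : Q), (⟨y, hyQ⟩ : Q)⁆ ≠ 1 := by
        intro h1
        rw [commutatorElement_eq_one_iff_mul_comm] at h1
        exact hxy (congrArg Subtype.val h1)
      have h1 := hges.card_eq hne
      set C := centralizer ({(⟨x, hxQ⟩ : Q)} : Set Q) ⊓ centralizer ({(⟨y, hyQ⟩ : Q)} : Set Q) with hCdef
      have h2 : Nat.card C ≤ 2 := by
        rw [← hcenter]
        apply Nat.card_mono (Set.toFinite _)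
        rintro ⟨c, hcQ⟩ ⟨hc1, hc2⟩
        have hc1' : c * x = x * c := congrArg Subtype.val (mem_centralizer_singleton_iff.mp hc1)
        have hc2' : c * y = y * c := congrArg Subtype.val (mem_centralizer_singleton_iff.mp hc2)
        have h3 : c ∈ Z := by
          rcases hcent x hxQ hxZ c hcQ hc1'.symm with h | h
          · exact h
          · exfalso
            apply hxy
            have h4 := (hmem.mp h).2 y hyQ
            calc x * y = x * (y * (x⁻¹ * c)) * (x⁻¹ * c)⁻¹ := by group
              _ = x * ((x⁻¹ * c) * y) * (x⁻¹ * c)⁻¹ := by rw [h4]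
              _ = (c * y) * (c⁻¹ * x) := by group
              _ = (y * c) * (c⁻¹ * x) := by rw [hc2']
              _ = y * x := by group
        rw [hmem] at h3
        rw [SetLike.mem_coe, mem_center_iff]
        intro w
        exact Subtype.ext (h3.2 w w.2)
      have h3 : 2 ≤ Nat.card C := by
        rw [← hcenter]
        apply Nat.card_mono (Set.toFinite _)
        intro c hc
        rw [SetLike.mem_coe, mem_center_iff] at hc
        exact ⟨mem_centralizer_singleton_iff.mpr (hc _).symm, mem_centralizer_singleton_iff.mpr (hc _).symm⟩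
      have h4 : Nat.card C = 2 := by omega
      rw [h1, h4]
      norm_num
    · -- no noncentral involutions
      intro x hxQ hxZ hx1
      -- a `K`-conjugate outside `Z ∪ xZ`
      obtain ⟨k, hk, hkx⟩ : ∃ k ∈ K, x⁻¹ * (k * x * k⁻¹) ∉ Z := by
        by_contra hcon
        push Not at hcon
        have hcomm2 := hcm
        let E : Subgroup G := Z ⊔ zpowers x
        have hEK : K ≤ normalizer (E : Set G) := by
          have hconj : ∀ k ∈ K, ∀ w ∈ E, k * w * k⁻¹ ∈ E := by
            intro k hk w hw
            have h1 : E ≤ E.comap (MulAut.conj k).toMonoidHom := by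
              show Z ⊔ zpowers x ≤ _
              rw [sup_le_iff, zpowers_le]
              refine ⟨fun z hz => ?_, ?_⟩
              · show k * z * k⁻¹ ∈ E
                rw [← hKZ z hz k hk, mul_inv_cancel_right]
                exact le_sup_left (a := Z) hz
              · show k * x * k⁻¹ ∈ E
                have h2 : k * x * k⁻¹ = x * (x⁻¹ * (k * x * k⁻¹)) := by group
                rw [h2]
                exact mul_mem ((le_sup_right (a := Z)) (mem_zpowers x)) ((le_sup_left (a := Z)) (hcon k hk))
            exact h1 hw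
          intro k hk
          rw [mem_normalizer_iff]
          intro w
          refine ⟨hconj k hk w, fun h => ?_⟩
          have := hconj k⁻¹ (inv_mem hk) _ h
          have h2 : k⁻¹ * (k * w * k⁻¹) * k⁻¹⁻¹ = w := by group
          rwa [h2] at this
        rcases hir E le_sup_left (by show Z ⊔ zpowers x ≤ Q; rw [sup_le_iff, zpowers_le]; exact ⟨hZQ, hxQ⟩) hEK with h | h
        · exact hxZ (h ▸ (le_sup_right (a := Z)) (mem_zpowers x))
        · obtain ⟨y, hyQ, hxy⟩ := hnex x hxQ hxZ
          have h1 : E ≤ centralizer ({x} : Set G) := by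
            show Z ⊔ zpowers x ≤ _
            rw [sup_le_iff, zpowers_le]
            refine ⟨fun z hz => ?_, ?_⟩
            · rw [mem_centralizer_singleton_iff]
              exact ((hmem.mp hz).2 x hxQ).symm
            · rw [mem_centralizer_singleton_iff]
          rw [h] at h1
          have := h1 hyQ
          rw [mem_centralizer_singleton_iff] at this
          exact hxy this.symm
      set y := k * x * k⁻¹ with hy
      set w := k * y * k⁻¹ with hw
      have hyQ : y ∈ Q := (mem_normalizer_iff.mp (hKQ hk) x).mp hxQ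
      have hwQ : w ∈ Q := (mem_normalizer_iff.mp (hKQ hk) y).mp hyQ
      have hy1 : y * y = 1 := by
        have : y * y = k * (x * x) * k⁻¹ := by rw [hy]; group
        rw [this, hx1]; group
      have hw1 : w * w = 1 := by
        have : w * w = k * (y * y) * k⁻¹ := by rw [hw]; group
        rw [this, hy1]; group
      have hkZ : ∀ z ∈ Z, k⁻¹ * z * k = z := fun z hz => by
        rw [mul_assoc, hKZ z hz k hk, inv_mul_cancel_left]
      have hyZ : y ∉ Z := by
        intro h
        apply hxZ
        have h1 : x = k⁻¹ * y * k := by rw [hy]; group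
        rw [h1, hkZ y h]; exact h
      have hyx : y * x ≠ x * y := by
        intro h
        rcases hcent x hxQ hxZ y hyQ h.symm with h1 | h1
        · exact hyZ h1
        · exact hkx h1
      have hyw : y⁻¹ * w ∉ Z := by
        intro h
        apply hkx
        have h1 : x⁻¹ * y = k⁻¹ * (y⁻¹ * w) * k := by rw [hw, hy]; group
        rw [h1, hkZ _ h]; exact h
      have hwZ : w ∉ Z := by
        intro h
        apply hyZ
        have h1 : y = k⁻¹ * w * k := by rw [hw]; group
        rw [h1, hkZ w h]; exact h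
      have hxw : x⁻¹ * w ∉ Z := by
        intro h
        apply hkx
        let Sx : Subgroup G :=
          { carrier := {g | g ∈ K ∧ x⁻¹ * (g * x * g⁻¹) ∈ Z}
            mul_mem' := by
              rintro g h ⟨hg, hgx⟩ ⟨hh, hhx⟩
              refine ⟨mul_mem hg hh, ?_⟩
              have h1 : x⁻¹ * (g * h * x * (g * h)⁻¹) = (x⁻¹ * (g * x * g⁻¹)) * (g * (x⁻¹ * (h * x * h⁻¹)) * g⁻¹) := by group
              rw [h1, ← hKZ _ hhx g hg, mul_inv_cancel_right]
              exact mul_mem hgx hhx
            one_mem' := ⟨one_mem _, by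
              have : x⁻¹ * (1 * x * 1⁻¹) = 1 := by group
              rw [this]; exact one_mem _⟩
            inv_mem' := by
              rintro g ⟨hg, hgx⟩
              refine ⟨inv_mem hg, ?_⟩
              have h1 : x⁻¹ * (g⁻¹ * x * g⁻¹⁻¹) = g⁻¹ * (g * x⁻¹ * g⁻¹ * x) * g := by group
              have h2 : g * x⁻¹ * g⁻¹ * x = x⁻¹ * (x * (x⁻¹ * (g * x * g⁻¹))⁻¹) := by group
              have h3 : g * x⁻¹ * g⁻¹ * x ∈ Z := by
                rw [h2, inv_mul_cancel_left]; exact inv_mem hgx
              rw [h1, mul_assoc, hKZ _ h3 g hg, inv_mul_cancel_left]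
              exact h3 }
        have h1 : k * k ∈ Sx := ⟨mul_mem hk hk, by
          have : x⁻¹ * (k * k * x * (k * k)⁻¹) = x⁻¹ * w := by rw [hw, hy]; group
          rw [this]; exact h⟩
        have h2 : k ∈ Sx := by
          have hodd : Odd (Nat.card K) := Nat.coprime_two_right.mp hK
          obtain ⟨m, hm⟩ := hodd
          have h3 : k ^ Nat.card K = 1 := by
            have h5 := pow_card_eq_one' (G := K) (x := ⟨k, hk⟩)
            have h6 := congrArg Subtype.val h5
            rwa [SubmonoidClass.coe_pow] at h6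
          have h4 : k = (k * k) ^ (m + 1) := by
            rw [← pow_two, ← pow_mul]
            have : 2 * (m + 1) = Nat.card K + 1 := by omega
            rw [this, pow_succ, h3, one_mul]
          rw [h4]; exact pow_mem h1 _
        exact h2.2
      have hwx : w * x ≠ x * w := by
        intro h
        rcases hcent x hxQ hxZ w hwQ h.symm with h1 | h1
        · exact hwZ h1
        · exact hxw h1
      have hd1 := hder y hyQ x hxQ
      have hd2 := hder w hwQ x hxQ
      have heq : y * x * y⁻¹ * x⁻¹ = w * x * w⁻¹ * x⁻¹ := by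
        apply eq_of_card_two hZ2c hd1 hd2
        · intro h; apply hyx
          have : y * x = (y * x * y⁻¹ * x⁻¹) * (x * y) := by group
          rw [this, h, one_mul]
        · intro h; apply hwx
          have : w * x = (w * x * w⁻¹ * x⁻¹) * (x * w) := by group
          rw [this, h, one_mul]
      have hcom : x * (y⁻¹ * w) = (y⁻¹ * w) * x := by
        have h1 : y * x * y⁻¹ = w * x * w⁻¹ := mul_right_cancel heq
        calc x * (y⁻¹ * w) = y⁻¹ * (y * x * y⁻¹) * w := by group
          _ = y⁻¹ * (w * x * w⁻¹) * w := by rw [h1]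
          _ = _ := by group
      rcases hcent x hxQ hxZ _ (mul_mem (inv_mem hyQ) hwQ) hcom with h1 | h1
      · exact hyw h1
      · set ζ := x⁻¹ * (y⁻¹ * w) with hζ
        have hwz : w = y * x * ζ := by rw [hζ]; group
        have hζc : (y * x) * ζ = ζ * (y * x) := (hmem.mp h1).2 _ (mul_mem hyQ hxQ)
        have h2 : (y * x) * (y * x) = 1 := by
          have h3 : w * w = ((y * x) * (y * x)) * (ζ * ζ) := by
            calc w * w = (y * x * ζ) * (y * x * ζ) := by rw [← hwz]
              _ = (y * x) * (ζ * (y * x)) * ζ := by group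
              _ = (y * x) * ((y * x) * ζ) * ζ := by rw [hζc]
              _ = _ := by group
          rw [hw1, hZ2 ζ h1, mul_one] at h3
          exact h3.symm
        apply hyx
        have hxi : x⁻¹ = x := inv_eq_of_mul_eq_one_left hx1
        have hyi : y⁻¹ = y := inv_eq_of_mul_eq_one_left hy1
        calc y * x = (y * x)⁻¹ := (inv_eq_of_mul_eq_one_left h2).symm
          _ = x⁻¹ * y⁻¹ := by group
          _ = x * y := by rw [hxi, hyi]

end

end Cfsg.Agent.H73
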