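import Cfsg.Agent.H73.Thin2
import Cfsg.Agent.Transfer.Frobenius

set_option autoImplicit false
set_option linter.style.haveILetI false
set_option linter.unusedSectionVars false

namespace Cfsg.Agent.H73
open Subgroup
open scoped commutatorElement

section
variable {G : Type*} [Group G] [Finite G]

theorem comm_of_card_le {C : Subgroup G} (h : Nat.card C = 1 ∨ Nat.card C = 2 ∨ Nat.card C = 4) {x y : G} (hx : x ∈ C)
    (hy : y ∈ C) : x * y = y * x := by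
  haveI : Fact (Nat.Prime 2) := ⟨Nat.prime_two⟩
  rcases h with h | h | h
  · rw [Subgroup.card_eq_one] at h
    rw [h, mem_bot] at hx hy
    rw [hx, hy]
  · haveI := isCyclic_of_prime_card h
    exact congrArg Subtype.val ((IsCyclic.isMulCommutative (α := C)).is_comm.comm ⟨x, hx⟩ ⟨y, hy⟩)
  · exact congrArg Subtype.val ((IsPGroup.isMulCommutative_of_card_eq_prime_sq (p := 2) (G := C) (by rw [h]; norm_num)).is_comm.comm ⟨x, hx⟩ ⟨y, hy⟩)

theorem eq_of_noncomm {Q C : Subgroup G} (hQ : Nat.card Q = 8) (hCQ : C ≤ Q) {x y : G} (hx : x ∈ C) (hy : y ∈ C)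
    (hxy : x * y ≠ y * x) : C = Q := by
  have h1 : Nat.card C ∣ 2 ^ 3 := by
    have := card_dvd_of_le hCQ
    rwa [hQ] at this
  obtain ⟨n, hn, hc⟩ := (Nat.dvd_prime_pow Nat.prime_two).mp h1
  apply eq_of_le_of_card_ge hCQ
  rw [hQ, hc]
  interval_cases n
  · exact absurd (comm_of_card_le (Or.inl (by rw [hc]; norm_num)) hx hy) hxy
  · exact absurd (comm_of_card_le (Or.inr (Or.inl (by rw [hc]; norm_num))) hx hy) hxy
  · exact absurd (comm_of_card_le (Or.inr (Or.inr (by rw [hc]; norm_num))) hx hy) hxy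
  · norm_num

/-- an element commuting with two noncommuting elements of `Q` commutes with `Q`. -/
theorem comm_of_two {Q : Subgroup G} (hQ : Nat.card Q = 8) {x y : G} (hx : x ∈ Q) (hy : y ∈ Q)
    (hxy : x * y ≠ y * x) {s : G} (hsx : s * x = x * s) (hsy : s * y = y * s) : ∀ q ∈ Q, s * q = q * s := by
  have h1 : Q ⊓ centralizer ({s} : Set G) = Q := by
    apply eq_of_noncomm hQ inf_le_left (x := x) (y := y) ⟨hx, ?_⟩ ⟨hy, ?_⟩ hxy
    · exact mem_centralizer_singleton_iff.mpr hsx.symm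
    · exact mem_centralizer_singleton_iff.mpr hsy.symm
  intro q hq
  rw [← h1] at hq
  exact (mem_centralizer_singleton_iff.mp hq.2).symm

/-- an element acting trivially mod `Z` is in `Q C(Q)`. -/
theorem Irr.decomp {K Q Z : Subgroup G} (h : Irr K Q Z) {t : G} (ht : ∀ q ∈ Q, q * t * q⁻¹ * t⁻¹ ∈ Z) :
    ∃ w ∈ Q, ∀ q ∈ Q, (w⁻¹ * t) * q = q * (w⁻¹ * t) := by
  rcases h.alt with ⟨hZ, _⟩ | ⟨hZ2, hQ8, _, hnc⟩
  · refine ⟨1, one_mem _, fun q hq => ?_⟩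
    have := ht q hq
    rw [hZ, mem_bot] at this
    rw [inv_one, one_mul]
    have h2 : q * t = (q * t * q⁻¹ * t⁻¹) * (t * q) := by group
    rw [h2, this, one_mul]
  · obtain ⟨x, hxQ, hxZ⟩ : ∃ x ∈ Q, x ∉ Z := by
      by_contra hcon
      push Not at hcon
      have : Q = Z := le_antisymm hcon h.ZR
      rw [this, hZ2] at hQ8
      omega
    obtain ⟨y, hyQ, hxy⟩ := hnc x hxQ hxZ
    have hcx := ht x hxQ
    have hcy := ht y hyQ
    have hdxy := h.der x hxQ y hyQ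
    have hne : x * y * x⁻¹ * y⁻¹ ≠ 1 := by
      intro h1
      apply hxy
      have : x * y = (x * y * x⁻¹ * y⁻¹) * (y * x) := by group
      rw [this, h1, one_mul]
    have hdyx := h.der y hyQ x hxQ
    have hne' : y * x * y⁻¹ * x⁻¹ ≠ 1 := by
      intro h1
      apply hxy
      have : y * x = (y * x * y⁻¹ * x⁻¹) * (x * y) := by group
      rw [this, h1, one_mul]
    -- reformulate as: `q s q⁻¹ = s`
    have key : ∀ (q w : G), q * w * q⁻¹ * w⁻¹ = q * t * q⁻¹ * t⁻¹ → (w⁻¹ * t) * q = q * (w⁻¹ * t) := by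
      intro q w he
      set ζ := q * t * q⁻¹ * t⁻¹ with hζ
      have h1 : q * t * q⁻¹ = ζ * t := by rw [hζ]; group
      have h2 : q * w * q⁻¹ = ζ * w := by rw [← he]; group
      have h4 : q * (w⁻¹ * t) * q⁻¹ = w⁻¹ * t := by
        calc q * (w⁻¹ * t) * q⁻¹ = (q * w * q⁻¹)⁻¹ * (q * t * q⁻¹) := by group
          _ = (ζ * w)⁻¹ * (ζ * t) := by rw [h1, h2]
          _ = _ := by group
      calc (w⁻¹ * t) * q = (q * (w⁻¹ * t) * q⁻¹) * q := by rw [h4]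
        _ = _ := by group
    have fin : ∀ w ∈ Q, x * w * x⁻¹ * w⁻¹ = x * t * x⁻¹ * t⁻¹ → y * w * y⁻¹ * w⁻¹ = y * t * y⁻¹ * t⁻¹ →
        ∀ q ∈ Q, (w⁻¹ * t) * q = q * (w⁻¹ * t) := by
      intro w hw h1 h2
      exact comm_of_two hQ8 hxQ hyQ hxy (key x w h1) (key y w h2)
    by_cases h1 : x * t * x⁻¹ * t⁻¹ = 1
    · by_cases h2 : y * t * y⁻¹ * t⁻¹ = 1
      · exact ⟨1, one_mem _, fin 1 (one_mem _) (by rw [h1]; group) (by rw [h2]; group)⟩
      · refine ⟨x, hxQ, fin x hxQ (by rw [h1]; group) ?_⟩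
        exact eq_of_card_two hZ2 hdyx hcy hne' h2
    · by_cases h2 : y * t * y⁻¹ * t⁻¹ = 1
      · refine ⟨y, hyQ, fin y hyQ ?_ (by rw [h2]; group)⟩
        exact eq_of_card_two hZ2 hdxy hcx hne h1
      · refine ⟨x * y, mul_mem hxQ hyQ, fin _ (mul_mem hxQ hyQ) ?_ ?_⟩
        · have h3 : x * (x * y) * x⁻¹ * (x * y)⁻¹ = x * (x * y * x⁻¹ * y⁻¹) * x⁻¹ := by group
          rw [h3, ← h.Zc _ hdxy x hxQ, mul_inv_cancel_right]
          exact eq_of_card_two hZ2 hdxy hcx hne h1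
        · have h3 : y * (x * y) * y⁻¹ * (x * y)⁻¹ = y * x * y⁻¹ * x⁻¹ := by group
          rw [h3]
          exact eq_of_card_two hZ2 hdyx hcy hne' h2

/-- a `2`-group acting on `Q/Z` has a fixed point. -/
theorem exists_fixed_mod {Z Q T : Subgroup G} (hZQ : Z ≤ Q) (hne : Z ≠ Q) (hQ : IsPGroup 2 Q) (hT : IsPGroup 2 T)
    (hTQ : T ≤ normalizer (Q : Set G)) (hTZ : T ≤ normalizer (Z : Set G)) (hQZ : Q ≤ normalizer (Z : Set G)) :
    ∃ v ∈ Q, v ∉ Z ∧ ∀ t ∈ T, v * t * v⁻¹ * t⁻¹ ∈ Z := by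
  set M := normalizer (Z : Set G) with hM
  haveI hn : (Z.subgroupOf M).Normal := Subgroup.normal_in_normalizer
  set π := QuotientGroup.mk' (Z.subgroupOf M) with hπ
  set Q' := (Q.subgroupOf M).map π with hQ'
  set T' := (T.subgroupOf M).map π with hT'
  have hQp : IsPGroup 2 Q' := (hQ.comap_subtype).map π
  have hTp : IsPGroup 2 T' := (hT.comap_subtype).map π
  have hTQ' : T' ≤ normalizer (Q' : Set _) := by
    rintro _ ⟨⟨t, htM⟩, ht, rfl⟩
    have ht' : t ∈ T := ht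
    rw [mem_normalizer_iff]
    have hone : ∀ (t : G) (htM : t ∈ M), t ∈ T → ∀ h, h ∈ Q' → π ⟨t, htM⟩ * h * (π ⟨t, htM⟩)⁻¹ ∈ Q' := by
      rintro t htM ht h ⟨⟨q, hqM⟩, hq, rfl⟩
      have hq' : q ∈ Q := hq
      refine ⟨⟨t * q * t⁻¹, ?_⟩, ?_, rfl⟩
      · exact mul_mem (mul_mem htM hqM) (inv_mem htM)
      · exact (mem_normalizer_iff.mp (hTQ ht) q).mp hq'
    intro h
    refine ⟨hone t htM ht' h, fun hh => ?_⟩
    have h1 := hone t⁻¹ (inv_mem htM) (inv_mem ht') _ hh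
    have h2 : π ⟨t⁻¹, inv_mem htM⟩ = (π ⟨t, htM⟩)⁻¹ := rfl
    rw [h2] at h1
    have h3 : (π ⟨t, htM⟩)⁻¹ * (π ⟨t, htM⟩ * h * (π ⟨t, htM⟩)⁻¹) * (π ⟨t, htM⟩)⁻¹⁻¹ = h := by group
    rwa [h3] at h1
  have hQ'ne : Q' ≠ ⊥ := by
    intro hbot
    apply hne
    apply le_antisymm hZQ
    intro q hq
    have h1 : π ⟨q, hQZ hq⟩ ∈ Q' := ⟨⟨q, hQZ hq⟩, hq, rfl⟩
    rw [hbot, mem_bot, hπ, QuotientGroup.mk'_apply, QuotientGroup.eq_one_iff] at h1
    exact h1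
  obtain ⟨v', hv', hv1, hvc⟩ := H93.ThOne.exists_fixed hTp hTQ' hQp hQ'ne
  obtain ⟨⟨v, hvM⟩, hv, rfl⟩ := hv'
  refine ⟨v, hv, ?_, ?_⟩
  · intro hvZ
    apply hv1
    rw [hπ, QuotientGroup.mk'_apply, QuotientGroup.eq_one_iff]
    exact hvZ
  · intro t ht
    have h1 := hvc (π ⟨t, hTZ ht⟩) ⟨⟨t, hTZ ht⟩, ht, rfl⟩
    have h2 : π (⟨v, hvM⟩ * ⟨t, hTZ ht⟩ * ⟨v, hvM⟩⁻¹ * ⟨t, hTZ ht⟩⁻¹) = 1 := by
      rw [map_mul, map_mul, map_mul, map_inv, map_inv, ← h1]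
      group
    rw [hπ, QuotientGroup.mk'_apply, QuotientGroup.eq_one_iff] at h2
    exact h2

end

end Cfsg.Agent.H73
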