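import Cfsg.Agent.H73.Thin3

set_option autoImplicit false
set_option linter.style.haveILetI false
set_option linter.unusedSectionVars false

namespace Cfsg.Agent.H73
open Subgroup
open scoped commutatorElement

section
variable {G : Type*} [Group G] [Finite G]

/-- elements of `Q` centralizing `T` mod `Z`. -/
def fixSub (Z Q : Subgroup G) (T : Set G) (hc : ∀ z ∈ Z, ∀ r ∈ Q, z * r = r * z) : Subgroup G where
  carrier := {q | q ∈ Q ∧ ∀ t ∈ T, q * t * q⁻¹ * t⁻¹ ∈ Z}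
  mul_mem' := by
    rintro a b ⟨ha, ha'⟩ ⟨hb, hb'⟩
    refine ⟨mul_mem ha hb, fun t ht => ?_⟩
    have h1 : a * b * t * (a * b)⁻¹ * t⁻¹ = a * (b * t * b⁻¹ * t⁻¹) * a⁻¹ * (a * t * a⁻¹ * t⁻¹) := by group
    rw [h1, ← hc _ (hb' t ht) a ha, mul_inv_cancel_right]
    exact mul_mem (hb' t ht) (ha' t ht)
  one_mem' := ⟨one_mem _, fun t _ => by
    have : 1 * t * 1⁻¹ * t⁻¹ = 1 := by group
    rw [this]; exact one_mem _⟩
  inv_mem' := by
    rintro a ⟨ha, ha'⟩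
    refine ⟨inv_mem ha, fun t ht => ?_⟩
    have h1 : a⁻¹ * t * a⁻¹⁻¹ * t⁻¹ = a⁻¹ * (a * t * a⁻¹ * t⁻¹)⁻¹ * a := by group
    rw [h1, mul_assoc, hc _ (inv_mem (ha' t ht)) a ha, inv_mul_cancel_left]
    exact inv_mem (ha' t ht)

theorem mem_fixSub {Z Q : Subgroup G} {T : Set G} {hc : ∀ z ∈ Z, ∀ r ∈ Q, z * r = r * z} {q : G} :
    q ∈ fixSub Z Q T hc ↔ q ∈ Q ∧ ∀ t ∈ T, q * t * q⁻¹ * t⁻¹ ∈ Z := Iff.rfl

/-- `Z ∪ xZ`. -/
def dbl (Z : Subgroup G) (x : G) (hx : x * x ∈ Z) (hc : ∀ z ∈ Z, z * x = x * z) : Subgroup G where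
  carrier := {w | w ∈ Z ∨ x⁻¹ * w ∈ Z}
  mul_mem' := by
    have hci : ∀ z ∈ Z, x⁻¹ * z = z * x⁻¹ := fun z hz => by
      rw [eq_mul_inv_iff_mul_eq, mul_assoc, hc z hz, inv_mul_cancel_left]
    rintro a b (ha | ha) (hb | hb)
    · exact Or.inl (mul_mem ha hb)
    · right
      rw [← mul_assoc, hci a ha, mul_assoc]; exact mul_mem ha hb
    · right
      rw [← mul_assoc]; exact mul_mem ha hb
    · left
      have : a * b = (x * x) * ((x⁻¹ * a) * (x⁻¹ * b)) := by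
        calc a * b = x * ((x⁻¹ * a) * x) * (x⁻¹ * b) := by group
          _ = x * (x * (x⁻¹ * a)) * (x⁻¹ * b) := by rw [hc _ ha]
          _ = _ := by group
      rw [this]
      exact mul_mem hx (mul_mem ha hb)
  one_mem' := Or.inl (one_mem _)
  inv_mem' := by
    rintro a (ha | ha)
    · exact Or.inl (inv_mem ha)
    · right
      have : x⁻¹ * a⁻¹ = (x⁻¹ * a)⁻¹ * (x * x)⁻¹ := by
        have h1 : (x⁻¹ * a)⁻¹ * x = x * (x⁻¹ * a)⁻¹ := hc _ (inv_mem ha)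
        calc x⁻¹ * a⁻¹ = x⁻¹ * ((x⁻¹ * a)⁻¹ * x) * (x * x)⁻¹ := by group
          _ = x⁻¹ * (x * (x⁻¹ * a)⁻¹) * (x * x)⁻¹ := by rw [h1]
          _ = _ := by group
      rw [this]
      exact mul_mem (inv_mem ha) (inv_mem hx)

theorem mem_dbl {Z : Subgroup G} {x : G} {hx : x * x ∈ Z} {hc : ∀ z ∈ Z, z * x = x * z} {w : G} :
    w ∈ dbl Z x hx hc ↔ w ∈ Z ∨ x⁻¹ * w ∈ Z := Iff.rfl

theorem card_of_relIndex {H K : Subgroup G} (h : H ≤ K) {n : ℕ} (hn : H.relIndex K = n) :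
    Nat.card K = n * Nat.card H := by
  have h1 := (H.subgroupOf K).index_mul_card
  rw [← h1]
  have h2 : Nat.card (H.subgroupOf K) = Nat.card H := Nat.card_congr (subgroupOfEquivOfLe h).toEquiv
  rw [h2]
  have : (H.subgroupOf K).index = n := hn
  rw [this]

theorem relIndex_eq_two {H K : Subgroup G} {a : G} (haK : a ∈ K) (haH : a ∉ H) (h : ∀ b ∈ K, b ∉ H → b * a ∈ H) :
    H.relIndex K = 2 := by
  show (H.subgroupOf K).index = 2
  rw [Subgroup.index_eq_two_iff]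
  refine ⟨⟨a, haK⟩, fun b => ?_⟩
  by_cases hb : (b : G) ∈ H
  · right
    refine ⟨hb, fun h1 => haH ?_⟩
    have h2 : (b : G) * a ∈ H := h1
    exact (mul_mem_cancel_left hb).mp h2
  · left
    exact ⟨h b b.2 hb, hb⟩

theorem relIndex_dbl {Z : Subgroup G} {x : G} (hx : x * x ∈ Z) (hc : ∀ z ∈ Z, z * x = x * z) (hxZ : x ∉ Z) :
    Z.relIndex (dbl Z x hx hc) = 2 := by
  apply relIndex_eq_two (a := x)
  · exact Or.inr (by rw [inv_mul_cancel]; exact one_mem _)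
  · exact hxZ
  · rintro b (hb | hb) hbZ
    · exact absurd hb hbZ
    · have : b * x = (x * x) * (x⁻¹ * b) := by
        calc b * x = x * ((x⁻¹ * b) * x) := by group
          _ = x * (x * (x⁻¹ * b)) := by rw [hc _ hb]
          _ = _ := by group
      rw [this]; exact mul_mem hx hb

theorem mul_mem_of_relIndex_two {H K : Subgroup G} (h2 : H.relIndex K = 2) {a b : G} (ha : a ∈ K)
    (hb : b ∈ K) (haH : a ∉ H) (hbH : b ∉ H) : a * b ∈ H := by
  have h3 : (H.subgroupOf K).index = 2 := h2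
  have := Subgroup.mul_mem_iff_of_index_two h3 (a := ⟨a, ha⟩) (b := ⟨b, hb⟩)
  have h4 : ((⟨a, ha⟩ : K) ∈ H.subgroupOf K) ↔ a ∈ H := Iff.rfl
  have h5 : ((⟨b, hb⟩ : K) ∈ H.subgroupOf K) ↔ b ∈ H := Iff.rfl
  rw [h4, h5] at this
  exact this.mpr (iff_of_false haH hbH)

theorem Irr.ne {K Q Z : Subgroup G} (h : Irr K Q Z) : Z ≠ Q := by
  intro he
  rcases h.alt with ⟨h1, h2⟩ | ⟨h1, h2, _⟩
  · rw [← he, h1, card_bot] at h2; omega
  · rw [he, h2] at h1; omega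

theorem Irr.card_eq {K Q Z : Subgroup G} (h : Irr K Q Z) : Nat.card Q = 4 * Nat.card Z := by
  rcases h.alt with ⟨h1, h2⟩ | ⟨h1, h2, _⟩
  · rw [h1, card_bot, h2]
  · rw [h1, h2]

theorem Irr.isPGroup {K Q Z : Subgroup G} (h : Irr K Q Z) : IsPGroup 2 Q := by
  rcases h.alt with ⟨_, h2⟩ | ⟨_, h2, _⟩
  · exact IsPGroup.of_card (n := 2) (by rw [h2]; norm_num)
  · exact IsPGroup.of_card (n := 3) (by rw [h2]; norm_num)

theorem Irr.isPGroupZ {K Q Z : Subgroup G} (h : Irr K Q Z) : ∀ z ∈ Z, z * z = 1 := by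
  intro z hz
  rcases h.alt with ⟨h1, _⟩ | ⟨h1, _, _⟩
  · rw [h1, mem_bot] at hz
    rw [hz, one_mul]
  · by_cases hz1 : z = 1
    · rw [hz1, one_mul]
    · by_contra hne
      have := eq_of_card_two h1 hz (mul_mem hz hz) hz1 hne
      exact hz1 (by simpa using this)

theorem Irr.trivial_mod {K Q Z T : Subgroup G} (h : Irr K Q Z) (hT : IsPGroup 2 T) (hTQ : T ≤ normalizer (Q : Set G))
    (hKT : ∀ k ∈ K, ∀ t ∈ T, k⁻¹ * t * k ∈ T) : ∀ q ∈ Q, ∀ t ∈ T, q * t * q⁻¹ * t⁻¹ ∈ Z := by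
  have hTZ : T ≤ normalizer (Z : Set G) := hTQ.trans h.normZ
  obtain ⟨v, hvQ, hvZ, hv⟩ := exists_fixed_mod h.ZR h.ne h.isPGroup hT hTQ hTZ
    ((le_normalizer).trans h.normZ)
  set Y := fixSub Z Q (T : Set G) h.Zc with hY
  have hZY : Z ≤ Y := by
    intro z hz
    refine ⟨h.ZR hz, fun t ht => ?_⟩
    have h1 : t * z⁻¹ * t⁻¹ ∈ Z := (mem_normalizer_iff.mp (hTZ ht) z⁻¹).mp (inv_mem hz)
    have h2 : z * t * z⁻¹ * t⁻¹ = z * (t * z⁻¹ * t⁻¹) := by group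
    rw [h2]; exact mul_mem hz h1
  have hYQ : Y ≤ Q := fun q hq => hq.1
  have hYK : K ≤ normalizer (Y : Set G) := by
    apply Cop.normalizer_le_of_forall
    rintro k hk q ⟨hq, hq'⟩
    refine ⟨(mem_normalizer_iff.mp (h.norm hk) q).mp hq, fun t ht => ?_⟩
    have h1 := hq' _ (hKT k hk t ht)
    have h2 : k * q * k⁻¹ * t * (k * q * k⁻¹)⁻¹ * t⁻¹ = k * (q * (k⁻¹ * t * k) * q⁻¹ * (k⁻¹ * t * k)⁻¹) * k⁻¹ := by group
    rw [h2, ← h.ZK _ h1 k hk, mul_inv_cancel_right]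
    exact h1
  rcases h.irr Y hZY hYQ hYK with h1 | h1
  · exfalso
    apply hvZ
    rw [← h1]
    exact ⟨hvQ, hv⟩
  · intro q hq t ht
    have h2 : q ∈ Y := by rw [h1]; exact hq
    exact h2.2 t ht

theorem Irr.cent {K Q Z R : Subgroup G} (h : Irr K Q Z) (hthin : Thin R) (hR : IsPGroup 2 R) (hQR : Q ≤ R)
    {c : G} (hcR : c ∈ R) (hc : ∀ q ∈ Q, c * q = q * c) : c ∈ Q := by
  by_contra hcQ
  obtain ⟨m, hm1, hm2⟩ := exists_pow_sq hR hcR hcQ
  set d := c ^ m with hd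
  have hdR : d ∈ R := pow_mem hcR m
  have hdc : ∀ q ∈ Q, d * q = q * d := fun q hq => by
    have : Commute c q := hc q hq
    exact (this.pow_left m).eq
  rcases h.alt with ⟨h1, h2⟩ | ⟨h1, h2, h3, h4⟩
  · have hsq : ∀ x ∈ Q, x * x = 1 := fun x hx => by
      have := h.sq x hx
      rwa [h1, mem_bot] at this
    apply hm1
    refine hthin.ext hQR ?_ ?_ h2.ge hdR (fun x hx => (hdc x hx).symm) ?_
    · intro x hx y hy
      have := h.der x hx y hy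
      rw [h1, mem_bot] at this
      have h5 : x * y = (x * y * x⁻¹ * y⁻¹) * (y * x) := by group
      rw [h5, this, one_mul]
    · intro w hw
      rw [show (4 : ℕ) = 2 * 2 from rfl, pow_mul, pow_two w, hsq w hw, one_pow]
    · rw [show (4 : ℕ) = 2 * 2 from rfl, pow_mul, pow_two d, pow_two]
      exact hsq _ hm2
  · have hddZ : d * d ∈ Z := by
      by_contra hcon
      obtain ⟨y, hy, hne⟩ := h4 _ hm2 hcon
      apply hne
      rw [mul_assoc, hdc y hy, ← mul_assoc, hdc y hy, mul_assoc]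
    have hd4 : d ^ 4 = 1 := by
      rw [show (4 : ℕ) = 2 * 2 from rfl, pow_mul, pow_two d, pow_two]
      exact h.isPGroupZ _ hddZ
    obtain ⟨x, hxQ, hxZ⟩ : ∃ x ∈ Q, x ∉ Z := by
      by_contra hcon
      push Not at hcon
      exact h.ne (le_antisymm h.ZR hcon)
    have hx4 : x ^ 4 = 1 := by
      rw [show (4 : ℕ) = 2 * 2 from rfl, pow_mul, pow_two x, pow_two]
      exact h.isPGroupZ _ (h.sq x hxQ)
    have hord : orderOf x = 2 ^ 2 := by
      apply orderOf_eq_prime_pow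
      · rw [pow_one, pow_two]; exact h3 x hxQ hxZ
      · exact hx4
    have hzQ : zpowers x ≤ Q := by rw [zpowers_le]; exact hxQ
    apply hm1
    apply hzQ
    refine hthin.ext (hzQ.trans hQR) ?_ ?_ ?_ hdR (fun w hw => (hdc w (hzQ hw)).symm) hd4
    · rintro a ⟨i, rfl⟩ b ⟨j, rfl⟩
      exact (Commute.refl x).zpow_zpow i j
    · rintro w ⟨i, rfl⟩
      show (x ^ i) ^ 4 = 1
      rw [← zpow_natCast, ← zpow_mul, mul_comm, zpow_mul, zpow_natCast, hx4, one_zpow]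
    · rw [Nat.card_zpowers, hord]; norm_num

/-- a thin `2`-group with a nontrivial odd action is `V₄` or `Q₈`. -/
theorem irr_of_thin {K R : Subgroup G} (hR : IsPGroup 2 R) (hKR : K ≤ normalizer (R : Set G))
    (hK : (Nat.card K).Coprime 2) (hnt : ⁅R, K⁆ ≠ ⊥) (hthin : Thin R) : ∃ Z, Irr K R Z := by
  haveI : Fact (Nat.Prime 2) := ⟨Nat.prime_two⟩
  obtain ⟨Q, hQR, hKQ, hntQ, hmin⟩ := Cop.exists_min hKR hnt
  have hQp : IsPGroup 2 Q := hR.to_le hQR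
  obtain ⟨Z, hZ⟩ := irr_of_min hQp hKQ hK hntQ hmin (hthin.mono hQR)
  have hQeq : Q = R := by
    by_contra hne
    have hlt := Transfer.lt_normalizer_inf_of_isPGroup hR (lt_of_le_of_ne hQR hne)
    apply hlt.not_ge
    rintro t ⟨htN, htR⟩
    have h1 := hZ.trivial_mod (T := normalizer (Q : Set G) ⊓ R) (hR.to_le inf_le_right) inf_le_left (by
      rintro k hk s ⟨hs1, hs2⟩
      have a1 : k⁻¹ * s * k ∈ normalizer (Q : Set G) := mul_mem (mul_mem (inv_mem (hKQ hk)) hs1) (hKQ hk)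
      refine ⟨a1, ?_⟩
      have := (mem_normalizer_iff.mp (hKR (inv_mem hk)) s).mp hs2
      rwa [inv_inv] at this)
    obtain ⟨w, hw, hwc⟩ := hZ.decomp (fun q hq => h1 q hq t ⟨htN, htR⟩)
    have h2 := hZ.cent hthin hR hQR (mul_mem (inv_mem (hQR hw)) htR) hwc
    have h3 : t = w * (w⁻¹ * t) := by group
    rw [h3]; exact mul_mem hw h2
  exact ⟨Z, hQeq ▸ hZ⟩

end

end Cfsg.Agent.H73
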