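import Cfsg.Agent.H73.Thin4

set_option autoImplicit false
set_option linter.style.haveILetI false
set_option linter.unusedSectionVars false

namespace Cfsg.Agent.H73
open Subgroup
open scoped commutatorElement

section
variable {G : Type*} [Group G] [Finite G]

theorem mem_fix1 {Z Q : Subgroup G} {t : G} {hc : ∀ z ∈ Z, ∀ r ∈ Q, z * r = r * z} {q : G} :
    q ∈ fixSub Z Q {t} hc ↔ q ∈ Q ∧ q * t * q⁻¹ * t⁻¹ ∈ Z := by
  rw [mem_fixSub]
  refine and_congr_right fun _ => ?_
  constructor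
  · intro h; exact h t rfl
  · intro h s hs
    rw [Set.mem_singleton_iff.mp hs]; exact h

theorem Irr.index_two {K Q Z X : Subgroup G} (h : Irr K Q Z) (hX : IsPGroup 2 X) (hXQ : X ≤ normalizer (Q : Set G))
    (hQX : Q ≤ X) (hC : ∀ c ∈ X, (∀ q ∈ Q, c * q = q * c) → c ∈ Q) : ∀ a ∈ X, ∀ b ∈ X, a ∉ Q → b ∉ Q → a * b ∈ Q := by
  have hXZ : X ≤ normalizer (Z : Set G) := hXQ.trans h.normZ
  obtain ⟨v, hvQ, hvZ, hv⟩ := exists_fixed_mod h.ZR h.ne h.isPGroup hX hXQ hXZ
    ((le_normalizer).trans h.normZ)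
  set V := dbl Z v (h.sq v hvQ) (fun z hz => h.Zc z hz v hvQ) with hV
  have hVZ : Z.relIndex V = 2 := relIndex_dbl _ _ hvZ
  have hZV : Z ≤ V := fun z hz => Or.inl hz
  have hvV : v ∈ V := Or.inr (by rw [inv_mul_cancel]; exact one_mem _)
  have hVQ : V ≤ Q := by
    rintro w (hw | hw)
    · exact h.ZR hw
    · have : w = v * (v⁻¹ * w) := by group
      rw [this]; exact mul_mem hvQ (h.ZR hw)
  have hVcard := card_of_relIndex hZV hVZ
  have hQcard := h.card_eq
  have hVQ2 : V.relIndex Q = 2 := by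
    have h1 := card_of_relIndex hVQ rfl
    have h2 : 0 < Nat.card Z := Nat.card_pos
    rw [hVcard, hQcard] at h1
    have h3 : (V.relIndex Q * 2) * Nat.card Z = 4 * Nat.card Z := by rw [h1]; ring
    have := Nat.eq_of_mul_eq_mul_right h2 h3
    omega
  obtain ⟨u, huQ, huV⟩ : ∃ u ∈ Q, u ∉ V := by
    by_contra hcon
    push Not at hcon
    have : Q = V := le_antisymm hcon hVQ
    rw [this] at hVQ2
    rw [relIndex_self] at hVQ2
    omega
  -- the subgroup of `Q` centralizing `t` mod `Z`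
  have hY : ∀ t ∈ X, u * t * u⁻¹ * t⁻¹ ∈ Z → t ∈ Q := by
    intro t ht hut
    set Y := fixSub Z Q {t} h.Zc with hYd
    have hVY : V ≤ Y := by
      intro w hw
      rw [hYd, mem_fix1]
      refine ⟨hVQ hw, ?_⟩
      have hz : ∀ z ∈ Z, z * t * z⁻¹ * t⁻¹ ∈ Z := by
        intro z hz
        have h1 : t * z⁻¹ * t⁻¹ ∈ Z := (mem_normalizer_iff.mp (hXZ ht) z⁻¹).mp (inv_mem hz)
        have h2 : z * t * z⁻¹ * t⁻¹ = z * (t * z⁻¹ * t⁻¹) := by group
        rw [h2]; exact mul_mem hz h1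
      rcases hw with hw | hw
      · exact hz w hw
      · have h1 : v ∈ Y := mem_fix1.mpr ⟨hvQ, hv _ ht⟩
        have h2 : v⁻¹ * w ∈ Y := mem_fix1.mpr ⟨h.ZR hw, hz _ hw⟩
        have h3 : w = v * (v⁻¹ * w) := by group
        have h4 : w ∈ Y := by rw [h3]; exact mul_mem h1 h2
        exact (mem_fix1.mp h4).2
    have huY : u ∈ Y := mem_fix1.mpr ⟨huQ, hut⟩
    have hall : ∀ q ∈ Q, q ∈ Y := by
      intro q hq
      by_cases hqV : q ∈ V
      · exact hVY hqV
      · have h1 : q * u⁻¹ ∈ V := mul_mem_of_relIndex_two hVQ2 hq (inv_mem huQ) hqV (fun h => huV (by simpa using inv_mem h))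
        have h2 : q = (q * u⁻¹) * u := by group
        rw [h2]; exact mul_mem (hVY h1) huY
    obtain ⟨w, hw, hwc⟩ := h.decomp (fun q hq => (hall q hq).2 t rfl)
    have h2 := hC _ (mul_mem (inv_mem (hQX hw)) ht) hwc
    have h3 : t = w * (w⁻¹ * t) := by group
    rw [h3]; exact mul_mem hw h2
  have hVnorm : ∀ t ∈ X, ∀ w ∈ V, t * w * t⁻¹ ∈ V := by
    rintro t ht w (hw | hw)
    · exact Or.inl ((mem_normalizer_iff.mp (hXZ ht) w).mp hw)
    · have h1 : t * (v⁻¹ * w) * t⁻¹ ∈ Z := (mem_normalizer_iff.mp (hXZ ht) _).mp hw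
      have h2 : t * v * t⁻¹ ∈ V := by
        right
        have h3 : v⁻¹ * (t * v * t⁻¹) = v⁻¹ * (v * t * v⁻¹ * t⁻¹)⁻¹ * v := by group
        rw [h3, mul_assoc, h.Zc _ (inv_mem (hv t ht)) v hvQ, inv_mul_cancel_left]
        exact inv_mem (hv t ht)
      have h3 : t * w * t⁻¹ = (t * v * t⁻¹) * (t * (v⁻¹ * w) * t⁻¹) := by group
      rw [h3]
      exact mul_mem h2 (Or.inl h1)
  have hcV : ∀ t ∈ X, t ∉ Q → v⁻¹ * (u * t * u⁻¹ * t⁻¹) ∈ Z := by
    intro t ht htQ
    have h1 : u * t * u⁻¹ * t⁻¹ ∈ V := by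
      have h2 : u * t * u⁻¹ * t⁻¹ = u * (t * u⁻¹ * t⁻¹) := by group
      rw [h2]
      apply mul_mem_of_relIndex_two hVQ2 huQ ((mem_normalizer_iff.mp (hXQ ht) _).mp (inv_mem huQ)) huV
      intro h3
      apply huV
      have h4 := hVnorm t⁻¹ (inv_mem ht) _ h3
      have h5 : t⁻¹ * (t * u⁻¹ * t⁻¹) * t⁻¹⁻¹ = u⁻¹ := by group
      rw [h5] at h4
      simpa using inv_mem h4
    rcases h1 with h1 | h1
    · exact absurd (hY t ht h1) htQ
    · exact h1
  intro a ha b hb haQ hbQ
  apply hY _ (mul_mem ha hb)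
  have h1 := hcV a ha haQ
  have h2 := hcV b hb hbQ
  set α := v⁻¹ * (u * a * u⁻¹ * a⁻¹) with hα
  set β := v⁻¹ * (u * b * u⁻¹ * b⁻¹) with hβ
  have h3 : u * a * u⁻¹ * a⁻¹ = v * α := by rw [hα]; group
  have h4 : u * b * u⁻¹ * b⁻¹ = v * β := by rw [hβ]; group
  have h5 : u * (a * b) * u⁻¹ * (a * b)⁻¹ = (u * a * u⁻¹ * a⁻¹) * (a * (u * b * u⁻¹ * b⁻¹) * a⁻¹) := by group
  have h6 : a * β * a⁻¹ ∈ Z := (mem_normalizer_iff.mp (hXZ ha) β).mp h2
  have h7 := hv a ha
  set γ := v * a * v⁻¹ * a⁻¹ with hγ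
  have h8 : a * v * a⁻¹ = γ⁻¹ * v := by rw [hγ]; group
  have h9 : u * (a * b) * u⁻¹ * (a * b)⁻¹ = (v * v) * (α * γ⁻¹) * (a * β * a⁻¹) := by
    rw [h5, h3, h4]
    calc v * α * (a * (v * β) * a⁻¹) = v * α * (a * v * a⁻¹) * (a * β * a⁻¹) := by group
      _ = v * (α * γ⁻¹ * v) * (a * β * a⁻¹) := by rw [h8]; group
      _ = v * (v * (α * γ⁻¹)) * (a * β * a⁻¹) := by rw [h.Zc _ (mul_mem h1 (inv_mem h7)) v hvQ]
      _ = _ := by group
  rw [h9]
  exact mul_mem (mul_mem (h.sq v hvQ) (mul_mem h1 (inv_mem h7))) h6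

/-- the configuration with `O₂(S)` proper in a Sylow group is impossible. -/
theorem Irr.contra {K Q Z X A : Subgroup G} (h : Irr K Q Z) (hX : IsPGroup 2 X) (hXQ : X ≤ normalizer (Q : Set G))
    (hQX : Q < X) (hC : ∀ c ∈ X, (∀ q ∈ Q, c * q = q * c) → c ∈ Q) (hAX : A ≤ X) (hA : IsMulCommutative A)
    (hAc : ¬ IsCyclic A) (hA8 : Nat.card A = 8) : False := by
  have h2 := h.index_two hX hXQ hQX.le hC
  obtain ⟨x0, hx0, hx0Q⟩ := SetLike.exists_of_lt hQX
  have hidx : Q.relIndex X = 2 := relIndex_eq_two hx0 hx0Q (fun b hb hbQ => h2 b hb x0 hx0 hbQ hx0Q)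
  have hXcard := card_of_relIndex hQX.le hidx
  have hAcomm : ∀ a ∈ A, ∀ b ∈ A, a * b = b * a := fun a ha b hb =>
    congrArg Subtype.val (hA.is_comm.comm ⟨a, ha⟩ ⟨b, hb⟩)
  rcases h.alt with ⟨h1, h4⟩ | ⟨h1, h8, hsq, hnc⟩
  · have hAX' : A = X := eq_of_le_of_card_ge hAX (by rw [hXcard, h4, hA8])
    apply hx0Q
    exact hC x0 hx0 (fun q hq => hAcomm x0 (hAX' ▸ hx0) q (hAX' ▸ hQX.le hq))
  · have hAQ : ¬ A ≤ Q := by
      intro hle
      have : A = Q := eq_of_le_of_card_ge hle (by rw [h8, hA8])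
      obtain ⟨x, hxQ, hxZ⟩ : ∃ x ∈ Q, x ∉ Z := by
        by_contra hcon
        push Not at hcon
        exact h.ne (le_antisymm h.ZR hcon)
      obtain ⟨y, hyQ, hxy⟩ := hnc x hxQ hxZ
      exact hxy (hAcomm x (this ▸ hxQ) y (this ▸ hyQ))
    obtain ⟨a, haA, haQ⟩ := SetLike.not_le_iff_exists.mp hAQ
    -- `A ⊓ Q` has order `4`
    have hAQ2 : (A ⊓ Q).relIndex A = 2 :=
      relIndex_eq_two haA (fun h => haQ h.2) (fun b hb hbQ => ⟨mul_mem hb haA, h2 b (hAX hb) a (hAX haA)
        (fun h => hbQ ⟨hb, h⟩) haQ⟩)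
    have hAQc := card_of_relIndex (inf_le_left : A ⊓ Q ≤ A) hAQ2
    have hAQ4 : Nat.card (A ⊓ Q : Subgroup G) = 4 := by omega
    obtain ⟨i, hiA, hiZ⟩ : ∃ i ∈ A ⊓ Q, i ∉ Z := by
      by_contra hcon
      push Not at hcon
      have := card_le_of_le (show A ⊓ Q ≤ Z from hcon)
      omega
    have hiQ : i ∈ Q := hiA.2
    have hai : a * i = i * a := hAcomm a haA i hiA.1
    have hi2 := h.sq i hiQ
    have hi2' := hsq i hiQ hiZ
    obtain ⟨j, hjQ, hij⟩ := hnc i hiQ hiZ
    set V := dbl Z i hi2 (fun z hz => h.Zc z hz i hiQ) with hV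
    have hVZ : Z.relIndex V = 2 := relIndex_dbl _ _ hiZ
    have hZV : Z ≤ V := fun z hz => Or.inl hz
    have hiV : i ∈ V := Or.inr (by rw [inv_mul_cancel]; exact one_mem _)
    have hVQ : V ≤ Q := by
      rintro w (hw | hw)
      · exact h.ZR hw
      · have : w = i * (i⁻¹ * w) := by group
        rw [this]; exact mul_mem hiQ (h.ZR hw)
    have hVi : ∀ w ∈ V, i * w = w * i := by
      rintro w (hw | hw)
      · exact (h.Zc w hw i hiQ).symm
      · calc i * w = i * (i * (i⁻¹ * w)) := by group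
          _ = i * ((i⁻¹ * w) * i) := by rw [h.Zc _ hw i hiQ]
          _ = w * i := by group
    have hjV : j ∉ V := fun hj => hij (hVi j hj)
    have hVQ2 : V.relIndex Q = 2 := by
      have e1 := card_of_relIndex hVQ rfl
      have e2 := card_of_relIndex hZV hVZ
      rw [e2, h1, h8] at e1
      omega
    have haX : a ∈ X := hAX haA
    have haZ : ∀ z ∈ Z, a * z = z * a := fun z hz => (conj_of_card_two h1 (h.normZ (hXQ haX)) hz).symm
    have haVn : ∀ w, a * w * a⁻¹ ∈ V → w ∈ V := by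
      intro w hw
      have hgen : ∀ w ∈ V, a⁻¹ * w * a = w := by
        have hc1 : ∀ w ∈ V, a * w = w * a := by
          rintro w (hw | hw)
          · exact haZ w hw
          · calc a * w = (a * i) * (i⁻¹ * w) := by group
              _ = i * (a * (i⁻¹ * w)) := by rw [hai]; group
              _ = i * ((i⁻¹ * w) * a) := by rw [haZ _ hw]
              _ = w * a := by group
        intro w hw
        rw [mul_assoc, ← hc1 w hw, inv_mul_cancel_left]
      have := hgen _ hw
      have e : a⁻¹ * (a * w * a⁻¹) * a = w := by group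
      rw [e] at this
      rw [this]; exact hw
    have haj : a * j * a⁻¹ ∈ Q := (mem_normalizer_iff.mp (hXQ haX) j).mp hjQ
    have h5 : j⁻¹ * (a * j * a⁻¹) ∈ V := by
      apply mul_mem_of_relIndex_two hVQ2 (inv_mem hjQ) haj
      · intro h; exact hjV (by simpa using inv_mem h)
      · intro h; exact hjV (haVn j h)
    set μ := j⁻¹ * (a * j * a⁻¹) with hμ
    have haja : a * j * a⁻¹ = j * μ := by rw [hμ]; group
    rcases h5 with h5 | h5
    · -- `a` acts trivially mod `Z`
      apply haQ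
      have hjj : j * a * j⁻¹ * a⁻¹ ∈ Z := by
        have e : j * a * j⁻¹ * a⁻¹ = j * (j * μ)⁻¹ := by rw [← haja]; group
        rw [e]
        have e2 : j * (j * μ)⁻¹ = j * (μ⁻¹ * j⁻¹) := by group
        rw [e2, h.Zc _ (inv_mem h5) _ (inv_mem hjQ), mul_inv_cancel_left]
        exact inv_mem h5
      have hall : ∀ q ∈ Q, q * a * q⁻¹ * a⁻¹ ∈ Z := by
        set Y := fixSub Z Q {a} h.Zc with hYd
        have hVY : V ≤ Y := by
          intro w hw
          rw [hYd, mem_fix1]
          refine ⟨hVQ hw, ?_⟩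
          have hc1 : a * w = w * a := by
            rcases hw with hw | hw
            · exact haZ w hw
            · calc a * w = (a * i) * (i⁻¹ * w) := by group
                _ = i * (a * (i⁻¹ * w)) := by rw [hai]; group
                _ = i * ((i⁻¹ * w) * a) := by rw [haZ _ hw]
                _ = w * a := by group
          rw [← hc1]
          have : a * w * w⁻¹ * a⁻¹ = 1 := by group
          rw [this]; exact one_mem _
        have hjY : j ∈ Y := mem_fix1.mpr ⟨hjQ, hjj⟩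
        intro q hq
        have hqY : q ∈ Y := by
          by_cases hqV : q ∈ V
          · exact hVY hqV
          · have e1 : q * j⁻¹ ∈ V := mul_mem_of_relIndex_two hVQ2 hq (inv_mem hjQ) hqV (fun h => hjV (by simpa using inv_mem h))
            have e2 : q = (q * j⁻¹) * j := by group
            rw [e2]; exact mul_mem (hVY e1) hjY
        exact hqY.2 a rfl
      obtain ⟨w, hw, hwc⟩ := h.decomp hall
      have e2 := hC _ (mul_mem (inv_mem (hQX.le hw)) haX) hwc
      have e3 : a = w * (w⁻¹ * a) := by group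
      rw [e3]; exact mul_mem hw e2
    · -- `a` swaps: `a j a⁻¹ = j i ζ`
      set ζ := i⁻¹ * μ with hζ
      have hμi : μ = i * ζ := by rw [hζ]; group
      have hζ2 := h.isPGroupZ ζ h5
      have e1 : a * j * a⁻¹ = j * i * ζ := by rw [haja, hμi]; group
      have e2 : a * a * j * (a * a)⁻¹ = j * (i * i) := by
        calc a * a * j * (a * a)⁻¹ = a * (a * j * a⁻¹) * a⁻¹ := by group
          _ = a * (j * i * ζ) * a⁻¹ := by rw [e1]
          _ = (a * j * a⁻¹) * (a * i * a⁻¹) * (a * ζ * a⁻¹) := by group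
          _ = (j * i * ζ) * i * ζ := by rw [e1, hai, mul_inv_cancel_right, haZ ζ h5, mul_inv_cancel_right]
          _ = j * i * (i * ζ) * ζ := by rw [mul_assoc (j * i) ζ i, h.Zc ζ h5 i hiQ]
          _ = j * (i * i) * (ζ * ζ) := by group
          _ = _ := by rw [hζ2, mul_one]
      have e3 : i * j * i⁻¹ = j * (i * i) := by
        have d1 := h.der i hiQ j hjQ
        have d2 : i * j * i⁻¹ * j⁻¹ ≠ 1 := by
          intro he; apply hij
          have : i * j = (i * j * i⁻¹ * j⁻¹) * (j * i) := by group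
          rw [this, he, one_mul]
        have d3 := eq_of_card_two h1 d1 hi2 d2 hi2'
        have d4 : i * j * i⁻¹ = (i * j * i⁻¹ * j⁻¹) * j := by group
        rw [d4, d3, h.Zc _ hi2 j hjQ]
      set s := i⁻¹ * (a * a) with hs
      have hsi : s * i = i * s := by
        rw [hs]
        have haai : a * a * i = i * (a * a) := by rw [mul_assoc, hai, ← mul_assoc, hai, mul_assoc]
        calc i⁻¹ * (a * a) * i = i⁻¹ * (a * a * i) := by group
          _ = i⁻¹ * (i * (a * a)) := by rw [haai]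
          _ = _ := by group
      have hsj : s * j = j * s := by
        have d1 : a * a * j = j * (i * i) * (a * a) := by rw [← e2]; group
        have d2 : i⁻¹ * (j * (i * i)) = j * i⁻¹ := by rw [← e3]; group
        calc s * j = i⁻¹ * (a * a * j) := by rw [hs]; group
          _ = (i⁻¹ * (j * (i * i))) * i⁻¹⁻¹⁻¹ * i * (a * a) := by rw [d1]; group
          _ = j * s := by rw [d2, hs]; group
      have hsc := comm_of_two h8 hiQ hjQ hij hsi hsj
      have hsX : s ∈ X := mul_mem (inv_mem (hQX.le hiQ)) (mul_mem haX haX)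
      have hsQ := hC s hsX hsc
      have hsZ : s ∈ Z := by
        by_contra hcon
        obtain ⟨y, hy, hne⟩ := hnc s hsQ hcon
        exact hne (hsc y hy)
      have haa : a * a = i * s := by rw [hs]; group
      have ha4 : a ^ 4 = i * i := by
        rw [show (4 : ℕ) = 2 * 2 from rfl, pow_mul, pow_two a, pow_two, haa]
        calc i * s * (i * s) = i * (s * i) * s := by group
          _ = i * i * (s * s) := by rw [hsi]; group
          _ = i * i := by rw [h.isPGroupZ s hsZ, mul_one]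
      apply hAc
      have hord : orderOf (⟨a, haA⟩ : A) = Nat.card A := by
        rw [hA8, show (8 : ℕ) = 2 ^ (2 + 1) from by norm_num]
        apply orderOf_eq_prime_pow
        · intro he
          have := congrArg Subtype.val he
          rw [SubmonoidClass.coe_pow] at this
          have h9 : a ^ 4 = 1 := by simpa using this
          rw [ha4] at h9
          exact hi2' h9
        · have := pow_card_eq_one' (G := A) (x := ⟨a, haA⟩)
          rwa [hA8] at this
      exact isCyclic_of_orderOf_eq_card _ hord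

end

end Cfsg.Agent.H73
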