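import Cfsg.Agent.H73.Thin5
import Cfsg.Agent.MaxClass.UniqueOrderP

set_option autoImplicit false
set_option linter.style.haveILetI false
set_option linter.unusedSectionVars false

namespace Cfsg.Agent.H73
open Subgroup
open scoped commutatorElement

section
variable {G : Type*} [Group G] [Finite G]

theorem Irr.quat {K R Z : Subgroup G} (h : Irr K R Z) (h2 : Nat.card Z = 2) :
    Nonempty (R ≃* QuaternionGroup (2 ^ (0 + 1))) := by
  haveI : Fact (Nat.Prime 2) := ⟨Nat.prime_two⟩
  rcases h.alt with ⟨h1, _⟩ | ⟨_, h8, hsq, hnc⟩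
  · rw [h1, card_bot] at h2; omega
  have hsub : ∀ H : Subgroup R, Nat.card H = 2 → H = Z.subgroupOf R := by
    intro H hH
    have hle : H ≤ Z.subgroupOf R := by
      intro x hx
      rw [mem_subgroupOf]
      by_contra hxZ
      apply hsq x x.2 hxZ
      have h3 : (⟨x, hx⟩ : H) ^ Nat.card H = 1 := pow_card_eq_one'
      rw [hH, pow_two] at h3
      have h4 : x * x = 1 := congrArg Subtype.val h3
      exact congrArg Subtype.val h4
    apply eq_of_le_of_card_ge hle
    have : Nat.card (Z.subgroupOf R) = Nat.card Z := Nat.card_congr (subgroupOfEquivOfLe h.ZR).toEquiv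
    rw [this, h2, hH]
  rcases MaxClass.cyclic_or_quaternion (p := 2) h.isPGroup (fun H K hH hK => (hsub H hH).trans (hsub K hK).symm) with hc | ⟨_, n, ⟨e⟩⟩
  · exfalso
    obtain ⟨x, hxQ, hxZ⟩ : ∃ x ∈ R, x ∉ Z := by
      by_contra hcon
      push Not at hcon
      exact h.ne (le_antisymm h.ZR hcon)
    obtain ⟨y, hyQ, hxy⟩ := hnc x hxQ hxZ
    exact hxy (congrArg Subtype.val ((IsCyclic.isMulCommutative (α := R)).is_comm.comm ⟨x, hxQ⟩ ⟨y, hyQ⟩))
  · have h3 := Nat.card_congr e.toEquiv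
    haveI : NeZero (2 ^ n) := ⟨by positivity⟩
    rw [h8, Nat.card_eq_fintype_card, QuaternionGroup.card] at h3
    have h4 : 2 ^ n = 2 ^ 1 := by omega
    have h5 : n = 0 + 1 := Nat.pow_right_injective le_rfl h4
    rw [h5] at e
    exact ⟨e⟩

/-- fixed points lie in every normal subgroup with abelian quotient, if `[P,K] = P`. -/
theorem fixed_le {P K N : Subgroup G} (hN : N.Normal) (hPK : ⁅P, K⁆ = P) (hP : K ≤ normalizer (P : Set G))
    (hcop : (Nat.card K).Coprime (Nat.card P)) (hder : ∀ x ∈ P, ∀ y ∈ P, x * y * x⁻¹ * y⁻¹ ∈ N) :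
    P ⊓ centralizer (K : Set G) ≤ N := by
  set π := QuotientGroup.mk' N with hπ
  have h1 : IsMulCommutative ↥(P.map π) := by
    refine ⟨⟨?_⟩⟩
    rintro ⟨_, ⟨x, hx, rfl⟩⟩ ⟨_, ⟨y, hy, rfl⟩⟩
    apply Subtype.ext
    show π x * π y = π y * π x
    have h2 : π (x * y * x⁻¹ * y⁻¹) = 1 := by
      rw [hπ, QuotientGroup.mk'_apply, QuotientGroup.eq_one_iff]
      exact hder x hx y hy
    rw [map_mul, map_mul, map_mul, map_inv, map_inv] at h2
    have h3 : π x * π y = (π x * π y * (π x)⁻¹ * (π y)⁻¹) * (π y * π x) := by group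
    rw [h3, h2, one_mul]
  have h2 : K.map π ≤ normalizer ((P.map π : Subgroup _) : Set _) := by
    apply Cop.normalizer_le_of_forall
    rintro _ ⟨k, hk, rfl⟩ _ ⟨x, hx, rfl⟩
    exact ⟨k * x * k⁻¹, (mem_normalizer_iff.mp (hP hk) x).mp hx, by rw [map_mul, map_mul, map_inv]⟩
  have h3 : (Nat.card (K.map π)).Coprime (Nat.card (P.map π)) :=
    Nat.Coprime.coprime_dvd_left (card_map_dvd _ π) (Nat.Coprime.coprime_dvd_right (card_map_dvd _ π) hcop)
  have h4 : ⁅P.map π, K.map π⁆ = P.map π := by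
    rw [← map_commutator, hPK]
  have h5 := Cop.inf_centralizer_eq_bot_of_abelian h1 h2 h3 h4
  rintro x ⟨hx, hxc⟩
  have h6 : π x ∈ P.map π ⊓ centralizer ((K.map π : Subgroup _) : Set _) := by
    refine ⟨⟨x, hx, rfl⟩, mem_centralizer_iff.mpr ?_⟩
    rintro _ ⟨k, hk, rfl⟩
    rw [← map_mul, ← map_mul, mem_centralizer_iff.mp hxc k hk]
  rw [h5, mem_bot, hπ, QuotientGroup.mk'_apply, QuotientGroup.eq_one_iff] at h6
  exact h6

theorem left_le_norm (P K : Subgroup G) : P ≤ normalizer ((⁅P, K⁆ : Subgroup G) : Set G) := by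
  apply Cop.normalizer_le_of_forall
  intro p hp w hw
  have h1 : ⁅P, K⁆ ≤ (⁅P, K⁆ : Subgroup G).comap (MulAut.conj p).toMonoidHom := by
    rw [commutator_le]
    intro x hx k hk
    show p * ⁅x, k⁆ * p⁻¹ ∈ ⁅P, K⁆
    have h2 : p * ⁅x, k⁆ * p⁻¹ = ⁅p * x, k⁆ * ⁅p, k⁆⁻¹ := by
      simp only [commutatorElement_def]; group
    rw [h2]
    exact mul_mem (commutator_mem_commutator (mul_mem hp hx) hk) (inv_mem (commutator_mem_commutator hp hk))
  exact h1 hw

/-- the case `[P,K] < P`. -/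
theorem caseA {P K : Subgroup G} (hPn : P.Normal) (hP : IsPGroup 2 P) (hK : (Nat.card K).Coprime 2)
    (hthin : ∀ U : Subgroup G, U < P → K ≤ normalizer (U : Set G) → Thin U)
    (hne : ⁅P, K⁆ ≠ P) (hbot : ⁅P, K⁆ ≠ ⊥) :
    IsMulCommutative P ∨
    ∃ X₀ : Subgroup G, X₀ ≤ P ∧ X₀.relIndex P = 2 ∧ Nonempty (X₀ ≃* QuaternionGroup (2 ^ (0 + 1))) ∧
      X₀ ⊔ (P ⊓ centralizer (X₀ : Set G)) = P := by
  haveI : Fact (Nat.Prime 2) := ⟨Nat.prime_two⟩
  have hKP : K ≤ normalizer (P : Set G) := le_top.trans (normalizer_eq_top (H := P)).ge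
  have hcop : (Nat.card K).Coprime (Nat.card P) := Cop.coprime_card_of_isPGroup hP hK
  have hsolv : Group.IsSolvable P := by
    haveI := hP.isNilpotent
    infer_instance
  set R := ⁅P, K⁆ with hR
  have hRP : R ≤ P := le_normalizer_iff_commutator_le_left.1 hKP
  have hRlt : R < P := lt_of_le_of_ne hRP hne
  have hKR : K ≤ normalizer (R : Set G) := fun k hk =>
    H49.mem_normalizer_commutator (hKP hk) (le_normalizer hk)
  have hPR : P ≤ normalizer (R : Set G) := by
    rw [hR]
    exact left_le_norm P K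
  have hRK : ⁅R, K⁆ = R := Cop.commutator_commutator_eq hKP hcop (Or.inr hsolv)
  have hRt := hthin R hRlt hKR
  obtain ⟨Z, hZ⟩ := irr_of_thin (hP.to_le hRP) hKR hK (by rw [hRK]; exact hbot) hRt
  have htr := hZ.trivial_mod hP hPR (by
    intro k _ t ht
    have := hPn.conj_mem t ht k⁻¹
    rwa [inv_inv] at this)
  set C := P ⊓ centralizer (K : Set G) with hC
  have hRC : ⁅R, C⁆ = ⊥ := by
    have h1 : ⁅⁅K, C⁆, R⁆ = ⊥ := by
      have : ⁅K, C⁆ = ⊥ := by
        rw [commutator_eq_bot_iff_le_centralizer, le_centralizer_iff]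
        exact inf_le_right
      rw [this, commutator_bot_left]
    have h2 : ⁅⁅C, R⁆, K⁆ = ⊥ := by
      rw [eq_bot_iff]
      have h3 : ⁅C, R⁆ ≤ Z := by
        rw [commutator_le]
        intro c hc r hr
        have h4 := inv_mem (htr r hr c hc.1)
        have h5 : (r * c * r⁻¹ * c⁻¹)⁻¹ = c * r * c⁻¹ * r⁻¹ := by group
        rw [h5] at h4
        exact h4
      refine (commutator_mono h3 le_rfl).trans ?_
      rw [commutator_le]
      intro z hz k hk
      rw [mem_bot, commutatorElement_eq_one_iff_mul_comm]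
      exact hZ.ZK z hz k hk
    have := commutator_commutator_eq_bot_of_rotate h1 h2
    rwa [hRK] at this
  have hsup : R ⊔ C = P := Cop.commutator_sup_centralizer hKP hcop (Or.inr hsolv)
  obtain ⟨c, hcC, hcR⟩ : ∃ c ∈ C, c ∉ R := by
    by_contra hcon
    push Not at hcon
    apply hne
    rw [← hsup]
    exact (sup_eq_left.mpr hcon).symm
  obtain ⟨m, hm1, hm2⟩ := exists_pow_sq hP hcC.1 hcR
  set d := c ^ m with hd
  have hdC : d ∈ C := pow_mem hcC m
  have hdR : ∀ r ∈ R, r * d = d * r := by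
    intro r hr
    have : ⁅r, d⁆ ∈ ⁅R, C⁆ := commutator_mem_commutator hr hdC
    rw [hRC, mem_bot, commutatorElement_eq_one_iff_mul_comm] at this
    exact this
  set W := dbl R d hm2 hdR with hW
  have hRW : R ≤ W := fun r hr => Or.inl hr
  have hdW : d ∈ W := Or.inr (by rw [inv_mul_cancel]; exact one_mem _)
  have hWP : W ≤ P := by
    rintro w (hw | hw)
    · exact hRP hw
    · have : w = d * (d⁻¹ * w) := by group
      rw [this]; exact mul_mem hdC.1 (hRP hw)
  have hKW : K ≤ normalizer (W : Set G) := by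
    apply Cop.normalizer_le_of_forall
    rintro k hk w (hw | hw)
    · exact Or.inl ((mem_normalizer_iff.mp (hKR hk) w).mp hw)
    · right
      have h1 : k * d = d * k := mem_centralizer_iff.mp hdC.2 k hk
      have h2 : d⁻¹ * (k * w * k⁻¹) = k * (d⁻¹ * w) * k⁻¹ := by
        have h3 : d⁻¹ * k = k * d⁻¹ := by
          rw [eq_mul_inv_iff_mul_eq, mul_assoc, h1, inv_mul_cancel_left]
        calc d⁻¹ * (k * w * k⁻¹) = (d⁻¹ * k) * w * k⁻¹ := by group
          _ = _ := by rw [h3]; group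
      rw [h2]
      exact (mem_normalizer_iff.mp (hKR hk) _).mp hw
  have hWeq : W = P := by
    by_contra hWne
    have hWt := hthin W (lt_of_le_of_ne hWP hWne) hKW
    exact hm1 (hZ.cent hWt (hP.to_le hWP) hRW hdW (fun q hq => (hdR q hq).symm))
  rcases hZ.alt with ⟨h1, h4⟩ | ⟨h1, h8, hsq, hnc⟩
  · left
    have hRc : ∀ x ∈ R, ∀ y ∈ R, x * y = y * x := by
      intro x hx y hy
      have := hZ.der x hx y hy
      rw [h1, mem_bot] at this
      have h5 : x * y = (x * y * x⁻¹ * y⁻¹) * (y * x) := by group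
      rw [h5, this, one_mul]
    have hdc : ∀ w ∈ W, d * w = w * d := by
      rintro w (hw | hw)
      · exact (hdR w hw).symm
      · calc d * w = d * (d * (d⁻¹ * w)) := by group
          _ = d * ((d⁻¹ * w) * d) := by rw [hdR _ hw]
          _ = w * d := by group
    have hrc : ∀ r ∈ R, ∀ w ∈ W, r * w = w * r := by
      rintro r hr w (hw | hw)
      · exact hRc r hr w hw
      · calc r * w = (r * d) * (d⁻¹ * w) := by group
          _ = d * (r * (d⁻¹ * w)) := by rw [hdR r hr]; group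
          _ = d * ((d⁻¹ * w) * r) := by rw [hRc r hr _ hw]
          _ = w * r := by group
    have hWc : ∀ x ∈ W, ∀ y ∈ W, x * y = y * x := by
      rintro x (hx | hx) y hy
      · exact hrc x hx y hy
      · calc x * y = d * ((d⁻¹ * x) * y) := by group
          _ = d * (y * (d⁻¹ * x)) := by rw [hrc _ hx y hy]
          _ = (d * y) * (d⁻¹ * x) := by group
          _ = y * x := by rw [hdc y hy]; group
    rw [hWeq] at hWc
    exact ⟨⟨fun a b => Subtype.ext (hWc a a.2 b b.2)⟩⟩
  · right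
    refine ⟨R, hRP, ?_, hZ.quat h1, ?_⟩
    · have := relIndex_dbl hm2 hdR hm1
      rw [← hWeq]; exact this
    · apply le_antisymm (sup_le hRP inf_le_left)
      have hdX : d ∈ P ⊓ centralizer (R : Set G) := ⟨hdC.1, mem_centralizer_iff.mpr hdR⟩
      conv_lhs => rw [← hWeq]
      rintro w (hw | hw)
      · exact le_sup_left (a := R) hw
      · have : w = d * (d⁻¹ * w) := by group
        rw [this]
        exact mul_mem ((le_sup_right (a := R)) hdX) ((le_sup_left (a := R)) hw)

end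

end Cfsg.Agent.H73
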