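import Cfsg.Agent.H73.Thin6

set_option autoImplicit false
set_option linter.style.haveILetI false
set_option linter.unusedSectionVars false

namespace Cfsg.Agent.H73
open Subgroup
open scoped commutatorElement

section
variable {G : Type*} [Group G] [Finite G]

/-- `Q₈` cannot be the Frattini subgroup. -/
theorem Irr.frattini_comm {K P Z : Subgroup G} (hPn : P.Normal) (hP : IsPGroup 2 P)
    (h : Irr K ((frattini P).map P.subtype) Z) : Z = ⊥ := by
  haveI : Fact (Nat.Prime 2) := ⟨Nat.prime_two⟩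
  set F := (frattini P).map P.subtype with hF
  haveI hFn : F.Normal := by rw [hF]; infer_instance
  have hFP : F ≤ P := map_subtype_le _
  have htr := h.trivial_mod (T := P) hP (le_top.trans (normalizer_eq_top (H := F)).ge) (by
    intro k _ t ht
    have := hPn.conj_mem t ht k⁻¹
    rwa [inv_inv] at this)
  rcases h.alt with ⟨h1, _⟩ | ⟨h2, h8, hsq, hnc⟩
  · exact h1
  exfalso
  have hZc : ∀ z ∈ Z, ∀ t : G, z * t = t * z := by
    intro z hz t
    refine conj_of_card_two h2 ?_ hz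
    exact h.normZ ((normalizer_eq_top (H := F)).symm ▸ mem_top t)
  set N := (centralizer (F : Set G)).subgroupOf P with hN
  haveI hNn : N.Normal := by rw [hN]; infer_instance
  have hle : frattini P ≤ N := by
    apply Solv.frattini_le_of_elementary_quotient (p := 2) N
    · rw [_root_.commutator_def, commutator_le]
      intro t _ u _
      rw [hN, mem_subgroupOf, mem_centralizer_iff]
      intro q hq
      have e1 := htr q hq t t.2
      have e2 := htr q hq u u.2
      set ζ := q * t * q⁻¹ * (t : G)⁻¹ with hζ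
      set ξ := q * u * q⁻¹ * (u : G)⁻¹ with hξ
      have e3 : q * t * q⁻¹ = ζ * t := by rw [hζ]; group
      have e4 : q * u * q⁻¹ = ξ * u := by rw [hξ]; group
      have e5 : q * ((⁅t, u⁆ : P) : G) * q⁻¹ = ((⁅t, u⁆ : P) : G) := by
        have e6 : ((⁅t, u⁆ : P) : G) = t * u * (t : G)⁻¹ * (u : G)⁻¹ := rfl
        rw [e6]
        calc q * (t * u * (t : G)⁻¹ * (u : G)⁻¹) * q⁻¹
            = (q * t * q⁻¹) * (q * u * q⁻¹) * (q * t * q⁻¹)⁻¹ * (q * u * q⁻¹)⁻¹ := by group
          _ = (ζ * t) * (ξ * u) * (ζ * t)⁻¹ * (ξ * u)⁻¹ := by rw [e3, e4]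
          _ = ζ * (t * ξ) * u * (t : G)⁻¹ * (ζ⁻¹ * (u : G)⁻¹) * ξ⁻¹ := by group
          _ = ζ * (ξ * t) * u * (t : G)⁻¹ * ((u : G)⁻¹ * ζ⁻¹) * ξ⁻¹ := by
              rw [hZc ξ e2 t, hZc _ (inv_mem e1) (u : G)⁻¹]
          _ = (ζ * ξ) * (t * u * (t : G)⁻¹ * (u : G)⁻¹) * (ζ⁻¹ * ξ⁻¹) := by group
          _ = (t * u * (t : G)⁻¹ * (u : G)⁻¹) * (ζ * ξ) * (ζ⁻¹ * ξ⁻¹) := by
              rw [hZc _ (mul_mem e1 e2)]
          _ = (t * u * (t : G)⁻¹ * (u : G)⁻¹) * ((ζ * ξ) * ζ⁻¹) * ξ⁻¹ := by group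
          _ = _ := by rw [hZc ζ e1 ξ]; group
      calc q * ((⁅t, u⁆ : P) : G) = (q * ((⁅t, u⁆ : P) : G) * q⁻¹) * q := by group
        _ = _ := by rw [e5]
    · intro t
      rw [hN, mem_subgroupOf, mem_centralizer_iff]
      intro q hq
      have e1 := htr q hq t t.2
      set ζ := q * t * q⁻¹ * (t : G)⁻¹ with hζ
      have e3 : q * t * q⁻¹ = ζ * t := by rw [hζ]; group
      have e4 : q * (t * t) * q⁻¹ = t * t := by
        calc q * (t * t) * q⁻¹ = (q * t * q⁻¹) * (q * t * q⁻¹) := by group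
          _ = (ζ * t) * (ζ * t) := by rw [e3]
          _ = ζ * (t * ζ) * t := by group
          _ = ζ * (ζ * t) * t := by rw [hZc ζ e1 t]
          _ = (ζ * ζ) * (t * t) := by group
          _ = _ := by rw [h.isPGroupZ ζ e1, one_mul]
      have e5 : ((t ^ 2 : P) : G) = (t : G) * t := by rw [pow_two]; rfl
      rw [e5]
      calc q * ((t : G) * t) = (q * (t * t) * q⁻¹) * q := by group
        _ = _ := by rw [e4]
  obtain ⟨x, hxQ, hxZ⟩ : ∃ x ∈ F, x ∉ Z := by
    by_contra hcon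
    push Not at hcon
    exact h.ne (le_antisymm h.ZR hcon)
  obtain ⟨y, hyQ, hxy⟩ := hnc x hxQ hxZ
  obtain ⟨y', hy', rfl⟩ := hyQ
  have h3 := hle hy'
  rw [hN, mem_subgroupOf, mem_centralizer_iff] at h3
  exact hxy (h3 x hxQ)

/-- the case `[P,K] = P`. -/
theorem caseB {P K : Subgroup G} (hPn : P.Normal) (hP : IsPGroup 2 P) (hK : (Nat.card K).Coprime 2)
    (hthin : ∀ U : Subgroup G, U < P → K ≤ normalizer (U : Set G) → Thin U)
    (hPK : ⁅P, K⁆ = P) (hPc : ¬ IsMulCommutative P) (h8 : 8 ≤ Nat.card P)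
    (hne8 : Nat.card P ≠ 8) :
    (Cfsg.IsExtraspecial 2 P ∧ 32 ≤ Nat.card P) ∨ (Cfsg.IsSpecial 2 P ∧ Nat.card (center P) = 4) := by
  haveI : Fact (Nat.Prime 2) := ⟨Nat.prime_two⟩
  have hKP : K ≤ normalizer (P : Set G) := le_top.trans (normalizer_eq_top (H := P)).ge
  have hcop : (Nat.card K).Coprime (Nat.card P) := Cop.coprime_card_of_isPGroup hP hK
  have hconj : ∀ k ∈ K, ∀ t ∈ P, k⁻¹ * t * k ∈ P := by
    intro k _ t ht
    have := hPn.conj_mem t ht k⁻¹
    rwa [inv_inv] at this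
  have hnorm : ∀ (U : Subgroup G), U.Normal → ∀ T : Subgroup G, T ≤ normalizer (U : Set G) :=
    fun U hU T => le_top.trans (normalizer_eq_top (H := U)).ge
  set F := (frattini P).map P.subtype with hF
  haveI hFn : F.Normal := by rw [hF]; infer_instance
  have hFP : F ≤ P := map_subtype_le _
  have hFlt : F < P := by
    refine lt_of_le_of_ne hFP fun he => ?_
    have h1 : 2 ∣ Nat.card P := by
      obtain ⟨n, hn⟩ := IsPGroup.iff_card.mp hP
      rw [hn]
      apply dvd_pow_self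
      rintro rfl
      rw [hn, pow_zero] at h8; omega
    have h2 := Solv.prime_dvd_index_frattini 2 Nat.prime_two h1
    have h3 : frattini P = ⊤ := by
      apply map_injective P.subtype_injective
      rw [← MonoidHom.range_eq_map, range_subtype]
      exact he
    rw [h3, index_top] at h2
    omega
  have hZdef := @mem_center_map G _ _ P
  set Z1 := (center P).map P.subtype with hZ1
  haveI hZ1n : Z1.Normal := by rw [hZ1]; infer_instance
  have hZ1P : Z1 ≤ P := map_subtype_le _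
  have hZ1lt : Z1 < P := by
    refine lt_of_le_of_ne hZ1P fun he => hPc ?_
    refine ⟨⟨fun a b => Subtype.ext ?_⟩⟩
    have hb : (b : G) ∈ Z1 := by rw [he]; exact b.2
    exact (hZdef.mp hb).2 a a.2
  set D := (commutator P).map P.subtype with hD
  haveI hDn : D.Normal := by rw [hD]; infer_instance
  have hDF : D ≤ F := map_mono (Solv.commutator_le_frattini_of_pGroup hP)
  have hder : ∀ x ∈ P, ∀ y ∈ P, x * y * x⁻¹ * y⁻¹ ∈ D := by
    intro x hx y hy
    exact ⟨⁅(⟨x, hx⟩ : P), ⟨y, hy⟩⁆, commutator_mem_commutator (mem_top _) (mem_top _), rfl⟩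
  have hDne : D ≠ ⊥ := by
    intro hbot
    apply hPc
    refine ⟨⟨fun a b => Subtype.ext ?_⟩⟩
    have h1 := hder a a.2 b b.2
    rw [hbot, mem_bot] at h1
    show (a : G) * b = b * a
    have h2 : (a : G) * b = (a * b * (a : G)⁻¹ * (b : G)⁻¹) * (b * a) := by group
    rw [h2, h1, one_mul]
  have hthinF := hthin F hFlt (hnorm F hFn K)
  -- `F` is central
  have hFZ : F ≤ Z1 := by
    have key : ∀ q ∈ F, ∀ t ∈ P, t * q = q * t := by
      by_cases hc : ⁅F, K⁆ = ⊥
      · have h1 : ⁅⁅K, F⁆, P⁆ = ⊥ := by rw [commutator_comm K F, hc, commutator_bot_left]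
        have h2 : ⁅⁅F, P⁆, K⁆ = ⊥ := by
          rw [eq_bot_iff, ← hc]
          exact commutator_mono (commutator_le_left F P) le_rfl
        have h3 := commutator_commutator_eq_bot_of_rotate h1 h2
        rw [hPK] at h3
        intro q hq t ht
        have : ⁅t, q⁆ ∈ ⁅P, F⁆ := commutator_mem_commutator ht hq
        rw [h3, mem_bot, commutatorElement_eq_one_iff_mul_comm] at this
        exact this
      · obtain ⟨Z, hZ⟩ := irr_of_thin (hP.to_le hFP) (hnorm F hFn K) hK hc hthinF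
        have htr := hZ.trivial_mod (T := P) hP (hnorm F hFn P) hconj
        have hbot := Irr.frattini_comm hPn hP hZ
        intro q hq t ht
        have h1 := htr q hq t ht
        rw [hbot, mem_bot] at h1
        have h2 : q * t = (q * t * q⁻¹ * t⁻¹) * (t * q) := by group
        rw [h2, h1, one_mul]
    intro q hq
    exact hZdef.mpr ⟨hFP hq, fun y hy => key q hq y hy⟩
  -- `Z1 = F`
  have hFne : F ≠ ⊥ := fun h => hDne (le_bot_iff.mp (h ▸ hDF))
  have hZF : Z1 = F := by
    by_cases hc : ⁅Z1, K⁆ = ⊥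
    · apply le_antisymm _ hFZ
      have h1 : Z1 ≤ P ⊓ centralizer (K : Set G) := le_inf hZ1P (commutator_eq_bot_iff_le_centralizer.mp hc)
      exact h1.trans (fixed_le hFn hPK hKP hcop (fun x hx y hy => hDF (hder x hx y hy)))
    · obtain ⟨Z, hZ⟩ := irr_of_thin (hP.to_le hZ1P) (hnorm Z1 hZ1n K) hK hc (hthin Z1 hZ1lt (hnorm Z1 hZ1n K))
      rcases hZ.alt with ⟨h1, h4⟩ | ⟨_, _, _, hnc⟩
      · rcases hZ.irr F (by rw [h1]; exact bot_le) hFZ (hnorm F hFn K) with h | h
        · exact absurd (h.trans h1) hFne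
        · exact h.symm
      · exfalso
        obtain ⟨x, hxQ, hxZ⟩ : ∃ x ∈ Z1, x ∉ Z := by
          by_contra hcon
          push Not at hcon
          exact hZ.ne (le_antisymm hZ.ZR hcon)
        obtain ⟨y, hyQ, hxy⟩ := hnc x hxQ hxZ
        exact hxy ((hZdef.mp hyQ).2 x (hZ1P hxQ))
  -- `D = F`
  have hDFeq : D = F := by
    by_cases hc : ⁅F, K⁆ = ⊥
    · apply le_antisymm hDF
      have h1 : F ≤ P ⊓ centralizer (K : Set G) := le_inf hFP (commutator_eq_bot_iff_le_centralizer.mp hc)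
      exact h1.trans (fixed_le hDn hPK hKP hcop hder)
    · obtain ⟨Z, hZ⟩ := irr_of_thin (hP.to_le hFP) (hnorm F hFn K) hK hc hthinF
      rcases hZ.alt with ⟨h1, h4⟩ | ⟨_, _, _, hnc⟩
      · rcases hZ.irr D (by rw [h1]; exact bot_le) hDF (hnorm D hDn K) with h | h
        · exact absurd (h.trans h1) hDne
        · exact h
      · exfalso
        obtain ⟨x, hxQ, hxZ⟩ : ∃ x ∈ F, x ∉ Z := by
          by_contra hcon
          push Not at hcon
          exact hZ.ne (le_antisymm hZ.ZR hcon)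
        obtain ⟨y, hyQ, hxy⟩ := hnc x hxQ hxZ
        exact hxy ((hZdef.mp (hFZ hyQ)).2 x (hFP hxQ))
  have hinj := map_injective P.subtype_injective
  have hsp : Cfsg.IsSpecial 2 P := ⟨hP, hinj (hZF.symm), hinj (hDFeq.trans hZF.symm)⟩
  have hcc : Nat.card Z1 = Nat.card (center P) := Cop.card_map_subtype _
  have hlt := (hthin Z1 hZ1lt (hnorm Z1 hZ1n K)).card_lt le_rfl
    (fun x hx y hy => (hZdef.mp hy).2 x (hZ1P hx)) (by
      rintro _ ⟨z, hz, rfl⟩
      have h1 := Extra.center_pow_eq_one_of_isSpecial hsp z hz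
      have h2 : z ^ 4 = 1 := by rw [show (4 : ℕ) = 2 * 2 from rfl, pow_mul, h1, one_pow]
      exact congrArg Subtype.val h2)
  obtain ⟨n, hn⟩ := IsPGroup.iff_card.mp (hP.to_le hZ1P)
  have hn3 : n < 3 := by
    by_contra hcon
    push Not at hcon
    have : 2 ^ 3 ≤ 2 ^ n := Nat.pow_le_pow_right (by norm_num) hcon
    omega
  interval_cases n
  · exfalso
    rw [pow_zero, Subgroup.card_eq_one, hZF] at hn
    exact hFne hn
  · left
    have hc2 : Nat.card (center P) = 2 := by rw [← hcc, hn, pow_one]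
    have hex : Cfsg.IsExtraspecial 2 P := ⟨hsp, hc2⟩
    refine ⟨hex, ?_⟩
    obtain ⟨m, hm1, hm⟩ := Extra.card_of_isExtraspecial hex
    rw [hm]
    have hm2 : 2 ≤ m := by
      by_contra hcon
      have : m = 1 := by omega
      rw [this] at hm
      exact hne8 (by rw [hm]; norm_num)
    calc 32 = 2 ^ (2 * 2 + 1) := by norm_num
      _ ≤ _ := Nat.pow_le_pow_right (by norm_num) (by omega)
  · right
    exact ⟨hsp, by rw [← hcc, hn]; norm_num⟩

end

end Cfsg.Agent.H73
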