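import Mathlib

/-!
Weights of a normal abelian odd order subgroup on a module in characteristic two.
-/

set_option autoImplicit false
set_option linter.unusedSectionVars false
set_option linter.unusedVariables false

namespace Cfsg.Agent.H73.Wt
open Subgroup

instance : Fact (Nat.Prime 2) := ⟨Nat.prime_two⟩

section fix
variable {S M K : Type*} [Group S] [Finite S] [Field K] [AddCommGroup M] [Module K M]

/-- a `2`-group acting on an additive set in characteristic `2` fixes a nonzero vector. -/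
theorem exists_fixed (τ : Representation K S M) (h2 : ∀ v : M, v + v = 0) (T : Set M)
    (hadd : ∀ v ∈ T, ∀ w ∈ T, v + w ∈ T) (hne : ∃ v ∈ T, v ≠ 0) :
    ∀ (n : ℕ) (G : Subgroup S), Nat.card G = 2 ^ n → (∀ g ∈ G, ∀ v ∈ T, τ g v ∈ T) →
      ∃ v ∈ T, v ≠ 0 ∧ ∀ g ∈ G, τ g v = v := by
  intro n
  induction n with
  | zero =>
    intro G hG hT
    obtain ⟨v, hv, hv0⟩ := hne
    refine ⟨v, hv, hv0, fun g hg => ?_⟩
    rw [pow_zero, Subgroup.card_eq_one] at hG
    rw [hG, mem_bot] at hg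
    rw [hg, map_one]; rfl
  | succ n ih =>
    intro G hG hT
    obtain ⟨H, hH⟩ := Sylow.exists_subgroup_card_pow_prime (G := G) 2 (n := n)
      (by rw [hG]; exact Dvd.intro _ (pow_succ 2 n).symm)
    have hidx : H.index = 2 := by
      have h1 := H.card_mul_index
      rw [hH, hG, pow_succ] at h1
      exact Nat.eq_of_mul_eq_mul_left (by positivity) h1
    have hHn : H.Normal := normal_of_index_eq_two hidx
    set H' := H.map G.subtype with hH'
    have hH'G : H' ≤ G := by rw [hH']; exact map_subtype_le H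
    have hH'c : Nat.card H' = 2 ^ n := by
      rw [hH', ← hH]
      exact (Nat.card_congr (H.equivMapOfInjective _ G.subtype_injective).toEquiv).symm
    obtain ⟨v, hv, hv0, hvf⟩ := ih H' hH'c (fun g hg => hT g (hH'G hg))
    have hmul : ∀ (a b : S) (w : M), τ (a * b) w = τ a (τ b w) := fun a b w => by
      rw [map_mul]; rfl
    obtain ⟨⟨g, hgG⟩, hgH⟩ : ∃ g : G, g ∉ H := by
      by_contra hcon
      push Not at hcon
      have : H = ⊤ := eq_top_iff.mpr fun x _ => hcon x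
      rw [this, index_top] at hidx
      exact absurd hidx (by norm_num)
    have hcos : ∀ x ∈ G, x ∈ H' ∨ g⁻¹ * x ∈ H' := by
      intro x hx
      by_cases hxH : (⟨x, hx⟩ : G) ∈ H
      · left; exact ⟨⟨x, hx⟩, hxH, rfl⟩
      · right
        refine ⟨(⟨g, hgG⟩ : G)⁻¹ * ⟨x, hx⟩, ?_, rfl⟩
        rw [SetLike.mem_coe, mul_mem_iff_of_index_two hidx]
        simp only [inv_mem_iff]
        exact iff_of_false hgH hxH
    have hnorm : ∀ x ∈ H', g⁻¹ * x * g ∈ H' := by
      rintro _ ⟨x, hx, rfl⟩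
      refine ⟨(⟨g, hgG⟩ : G)⁻¹ * x * ⟨g, hgG⟩, ?_, rfl⟩
      simpa using hHn.conj_mem x hx (⟨g, hgG⟩ : G)⁻¹
    have hg2 : g * g ∈ H' := by
      refine ⟨(⟨g, hgG⟩ : G) * ⟨g, hgG⟩, ?_, rfl⟩
      rw [SetLike.mem_coe, mul_mem_iff_of_index_two hidx]
    by_cases hgv : τ g v = v
    · refine ⟨v, hv, hv0, fun x hx => ?_⟩
      rcases hcos x hx with h | h
      · exact hvf x h
      · have : x = g * (g⁻¹ * x) := by group
        rw [this, hmul, hvf _ h, hgv]
    · refine ⟨v + τ g v, hadd v hv _ (hT g hgG v hv), ?_, ?_⟩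
      · intro h0
        apply hgv
        have h1 := h2 (τ g v)
        rw [← h0] at h1
        exact add_right_cancel h1
      · have hgvf : ∀ x ∈ H', τ x (τ g v) = τ g v := by
          intro x hx
          have : x * g = g * (g⁻¹ * x * g) := by group
          rw [← hmul, this, hmul, hvf _ (hnorm x hx)]
        have hgg : τ g (τ g v) = v := by rw [← hmul, hvf _ hg2]
        intro x hx
        rcases hcos x hx with h | h
        · rw [map_add, hvf x h, hgvf x h]
        · have : x = g * (g⁻¹ * x) := by group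
          rw [this, hmul, map_add, hvf _ h, hgvf _ h, map_add, hgg, add_comm]

end fix

section wt
variable {S M K : Type*} [Group S] [Finite S] [Field K] [AddCommGroup M] [Module K M]
variable (τ : Representation K S M) (P : Subgroup S) [hPn : P.Normal]

/-- the conjugation action on linear characters. -/
def cj (g : S) (μ : ↥P →* Kˣ) : ↥P →* Kˣ := μ.comp (MulAut.conjNormal g⁻¹).toMonoidHom

theorem cj_apply (g : S) (μ : ↥P →* Kˣ) (x : ↥P) : cj P g μ x = μ (MulAut.conjNormal g⁻¹ x) := rfl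

theorem cj_mul (g h : S) (μ : ↥P →* Kˣ) : cj P (g * h) μ = cj P g (cj P h μ) := by
  ext x
  rw [cj_apply, cj_apply, cj_apply]
  congr 2
  apply Subtype.ext
  simp only [MulAut.conjNormal_apply]
  group

theorem cj_one (μ : ↥P →* Kˣ) : cj P 1 μ = μ := by
  ext x
  rw [cj_apply]
  congr 2
  apply Subtype.ext
  simp

theorem cj_inv_cj (g : S) (μ : ↥P →* Kˣ) : cj P g⁻¹ (cj P g μ) = μ := by
  rw [← cj_mul, inv_mul_cancel, cj_one]

variable [Fintype ↥P]

/-- the (unnormalized) projector. -/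
def e (μ : ↥P →* Kˣ) : M →ₗ[K] M := ∑ x : ↥P, ((μ x⁻¹ : Kˣ) : K) • τ (x : S)

theorem e_apply (μ : ↥P →* Kˣ) (v : M) : e τ P μ v = ∑ x : ↥P, ((μ x⁻¹ : Kˣ) : K) • τ (x : S) v := by
  simp [e]

theorem e_cj (g : S) (μ : ↥P →* Kˣ) (v : M) : e τ P (cj P g μ) (τ g v) = τ g (e τ P μ v) := by
  rw [e_apply, e_apply, map_sum]
  apply Fintype.sum_equiv (MulAut.conjNormal (H := P) g⁻¹).toEquiv
  intro x
  rw [map_smul]
  have h1 : cj P g μ x⁻¹ = μ ((MulAut.conjNormal (H := P) g⁻¹).toEquiv x)⁻¹ := by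
    rw [cj_apply, map_inv]; rfl
  rw [h1]
  congr 1
  have h2 : ((MulAut.conjNormal (H := P) g⁻¹).toEquiv x : S) = g⁻¹ * x * g := by
    show ((MulAut.conjNormal (H := P) g⁻¹ x : ↥P) : S) = _
    rw [MulAut.conjNormal_apply, inv_inv]
  show (τ (x : S) * τ g) v = (τ g * τ ((MulAut.conjNormal (H := P) g⁻¹).toEquiv x : S)) v
  rw [← map_mul, ← map_mul, h2]
  congr 2
  group

theorem tau_e (y : ↥P) (μ : ↥P →* Kˣ) (v : M) : τ (y : S) (e τ P μ v) = ((μ y : Kˣ) : K) • e τ P μ v := by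
  rw [e_apply, map_sum, Finset.smul_sum]
  apply Fintype.sum_equiv (Equiv.mulLeft y)
  intro x
  rw [map_smul, smul_smul]
  congr 1
  · rw [← Units.val_mul, ← map_mul]
    simp
  · show (τ (y : S) * τ (x : S)) v = τ ((y * x : ↥P) : S) v
    rw [← map_mul]; rfl

/-- `e_μ` kills vectors of another weight. -/
theorem e_of_weight {μ ν : ↥P →* Kˣ} (hne : μ ≠ ν) {v : M} (hv : ∀ y : ↥P, τ (y : S) v = ((ν y : Kˣ) : K) • v) :
    e τ P μ v = 0 := by
  obtain ⟨y, hy⟩ : ∃ y, μ y ≠ ν y := by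
    by_contra h
    push Not at h
    exact hne (MonoidHom.ext h)
  have h1 := tau_e τ P y μ v
  have h2 : τ (y : S) (e τ P μ v) = ((ν y : Kˣ) : K) • e τ P μ v := by
    rw [e_apply, map_sum, Finset.smul_sum]
    refine Finset.sum_congr rfl fun x _ => ?_
    have hx : τ (x : S) v = ((ν x : Kˣ) : K) • v := hv x
    have h5 : τ (y : S) (((μ x⁻¹ : Kˣ) : K) • τ (x : S) v) = (((μ x⁻¹ : Kˣ) : K) * (((ν x : Kˣ) : K) * ((ν y : Kˣ) : K))) • v := by
      rw [hx, map_smul, map_smul, hv y, smul_smul, smul_smul, mul_assoc]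
    have h6 : ((ν y : Kˣ) : K) • (((μ x⁻¹ : Kˣ) : K) • τ (x : S) v) = (((μ x⁻¹ : Kˣ) : K) * (((ν x : Kˣ) : K) * ((ν y : Kˣ) : K))) • v := by
      rw [hx, smul_smul, smul_smul]
      congr 1
      ring
    rw [h5, h6]
  rw [h1] at h2
  have h3 : (((μ y : Kˣ) : K) - ((ν y : Kˣ) : K)) • e τ P μ v = 0 := by
    rw [sub_smul, h2, sub_self]
  rcases smul_eq_zero.mp h3 with h | h
  · exact absurd (Units.ext (sub_eq_zero.mp h)) hy
  · exact h

theorem e_of_weight_self {μ : ↥P →* Kˣ} {v : M} (hv : ∀ y : ↥P, τ (y : S) v = ((μ y : Kˣ) : K) • v) :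
    e τ P μ v = (Fintype.card ↥P : K) • v := by
  rw [e_apply]
  have : ∀ x ∈ (Finset.univ : Finset ↥P), ((μ x⁻¹ : Kˣ) : K) • τ (x : S) v = v := by
    intro x _
    rw [hv x, smul_smul, ← Units.val_mul, ← map_mul, inv_mul_cancel, map_one, Units.val_one, one_smul]
  rw [Finset.sum_congr rfl this, Finset.sum_const, Finset.card_univ, Nat.cast_smul_eq_nsmul]

end wt

section orth
variable {G K : Type*} [CommGroup G] [Finite G] [Field K]

/-- column orthogonality. -/
theorem sum_char (hroots : HasEnoughRootsOfUnity K (Monoid.exponent G)) [Fintype (G →* Kˣ)] (x : G) (hx : x ≠ 1) :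
    ∑ μ : G →* Kˣ, ((μ x : Kˣ) : K) = 0 := by
  obtain ⟨ν, hν⟩ := CommGroup.exists_apply_ne_one_of_hasEnoughRootsOfUnity G K hx
  have h1 : ∑ μ : G →* Kˣ, ((μ x : Kˣ) : K) = ((ν x : Kˣ) : K) * ∑ μ : G →* Kˣ, ((μ x : Kˣ) : K) := by
    rw [Finset.mul_sum]
    symm
    apply Fintype.sum_equiv (Equiv.mulLeft ν)
    intro μ
    simp
  have h2 : (1 - ((ν x : Kˣ) : K)) * ∑ μ : G →* Kˣ, ((μ x : Kˣ) : K) = 0 := by
    rw [sub_mul, one_mul, ← h1, sub_self]
  rcases mul_eq_zero.mp h2 with h | h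
  · exact absurd (Units.ext (sub_eq_zero.mp h)).symm hν
  · exact h

end orth

end Cfsg.Agent.H73.Wt
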