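import Cfsg.Agent.H73.Wt

set_option autoImplicit false
set_option linter.unusedSectionVars false
set_option linter.unusedVariables false
set_option linter.style.haveILetI false

namespace Cfsg.Agent.H73.Wt
open Subgroup

section orth2
variable {G K : Type*} [Group G] [Finite G] [Field K] [IsAlgClosed K] [CharP K 2]

theorem neZero_of_odd (n : ℕ) (hn : Odd n) : NeZero (n : K) := by
  refine ⟨fun h => ?_⟩
  have := (CharP.cast_eq_zero_iff K 2 n).mp h
  rcases hn with ⟨k, hk⟩
  omega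

theorem roots (hodd : Odd (Nat.card G)) : HasEnoughRootsOfUnity K (Monoid.exponent G) := by
  have h1 : Odd (Monoid.exponent G) := Odd.of_dvd_nat hodd Group.exponent_dvd_nat_card
  haveI := neZero_of_odd (K := K) _ h1
  infer_instance

theorem finite_char (hc : ∀ a b : G, a * b = b * a) (hodd : Odd (Nat.card G)) : Finite (G →* Kˣ) ∧
    Nat.card (G →* Kˣ) = Nat.card G := by
  letI : CommGroup G := { ‹Group G› with mul_comm := hc }
  haveI : HasEnoughRootsOfUnity K (Monoid.exponent G) := roots hodd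
  obtain ⟨e⟩ := CommGroup.monoidHom_mulEquiv_of_hasEnoughRootsOfUnity G K
  exact ⟨Finite.of_equiv G e.symm.toEquiv, Nat.card_congr e.toEquiv⟩

theorem sum_char' (hc : ∀ a b : G, a * b = b * a) (hodd : Odd (Nat.card G)) [Fintype (G →* Kˣ)] (x : G) (hx : x ≠ 1) :
    ∑ μ : G →* Kˣ, ((μ x : Kˣ) : K) = 0 := by
  letI : CommGroup G := { ‹Group G› with mul_comm := hc }
  exact sum_char (roots hodd) x hx

end orth2

section supp
variable {S M K : Type*} [Group S] [Finite S] [Field K] [IsAlgClosed K] [CharP K 2] [AddCommGroup M] [Module K M]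
variable (τ : Representation K S M) (P : Subgroup S) [hPn : P.Normal] [Fintype ↥P]

theorem e_e_ne {μ ν : ↥P →* Kˣ} (hne : μ ≠ ν) (v : M) : e τ P μ (e τ P ν v) = 0 :=
  e_of_weight τ P hne fun y => tau_e τ P y ν v

theorem e_e (hodd : Odd (Nat.card ↥P)) {μ : ↥P →* Kˣ} (v : M) : e τ P μ (e τ P μ v) = e τ P μ v := by
  rw [e_of_weight_self τ P fun y => tau_e τ P y μ v]
  have : ((Fintype.card ↥P : ℕ) : K) = 1 := by
    rw [← Nat.card_eq_fintype_card]
    obtain ⟨k, hk⟩ := hodd
    rw [hk]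
    have h2 : ((2 : ℕ) : K) = 0 := CharP.cast_eq_zero K 2
    push_cast at h2 ⊢
    rw [h2]; ring
  rw [this, one_smul]

theorem sum_e (hc : ∀ a b : ↥P, a * b = b * a) (hodd : Odd (Nat.card ↥P)) [Fintype (↥P →* Kˣ)] (v : M) :
    ∑ μ : ↥P →* Kˣ, e τ P μ v = v := by
  simp_rw [e_apply]
  rw [Finset.sum_comm]
  rw [Finset.sum_eq_single (1 : ↥P)]
  · have h1 : ∀ μ ∈ (Finset.univ : Finset (↥P →* Kˣ)), ((μ (1 : ↥P)⁻¹ : Kˣ) : K) • τ ((1 : ↥P) : S) v = v := by
      intro μ _
      simp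
    rw [Finset.sum_congr rfl h1, Finset.sum_const, Finset.card_univ, ← Nat.card_eq_fintype_card,
      (finite_char (K := K) hc hodd).2]
    obtain ⟨k, hk⟩ := hodd
    rw [hk, add_smul, mul_smul, one_smul]
    have : (2 : ℕ) • (k • v) = 0 := by
      rw [← Nat.cast_smul_eq_nsmul K, CharP.cast_eq_zero K 2, zero_smul]
    rw [this, zero_add]
  · intro x _ hx
    rw [← Finset.sum_smul, sum_char' hc hodd x⁻¹ (inv_ne_one.mpr hx), zero_smul]
  · intro h; exact absurd (Finset.mem_univ _) h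

/-- the support. -/
def supp (v : M) : Set (↥P →* Kˣ) := {μ | e τ P μ v ≠ 0}

theorem supp_nonempty (hc : ∀ a b : ↥P, a * b = b * a) (hodd : Odd (Nat.card ↥P)) {v : M} (hv : v ≠ 0) :
    (supp τ P v).Nonempty := by
  haveI := (finite_char (K := K) hc hodd).1
  haveI := Fintype.ofFinite (↥P →* Kˣ)
  by_contra h
  rw [Set.not_nonempty_iff_eq_empty] at h
  apply hv
  rw [← sum_e τ P hc hodd v]
  refine Finset.sum_eq_zero fun μ _ => ?_
  by_contra h2
  have : μ ∈ supp τ P v := h2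
  rw [h] at this
  exact this

theorem mem_supp_cj (g : S) (μ : ↥P →* Kˣ) (v : M) : cj P g μ ∈ supp τ P (τ g v) ↔ μ ∈ supp τ P v := by
  show e τ P (cj P g μ) (τ g v) ≠ 0 ↔ e τ P μ v ≠ 0
  rw [e_cj, not_iff_not]
  constructor
  · intro h
    have : τ g⁻¹ (τ g (e τ P μ v)) = 0 := by rw [h, map_zero]
    have h2 : τ g⁻¹ (τ g (e τ P μ v)) = (τ g⁻¹ * τ g) (e τ P μ v) := rfl
    rw [h2, ← map_mul, inv_mul_cancel, map_one] at this
    exact this
  · intro h; rw [h, map_zero]

end supp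

/-- the action on characters. -/
@[reducible] def act {S : Type*} [Group S] [Finite S] (K : Type*) [Field K] (P : Subgroup S) [P.Normal] : MulAction S (↥P →* Kˣ) where
  smul g μ := cj P g μ
  one_smul μ := cj_one P μ
  mul_smul g h μ := cj_mul P g h μ

end Cfsg.Agent.H73.Wt
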