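import Cfsg.Agent.H73.Wt2

set_option autoImplicit false
set_option linter.unusedSectionVars false
set_option linter.unusedVariables false
set_option linter.style.haveILetI false

namespace Cfsg.Agent.H73.Wt
open Subgroup

theorem two_zero {M : Type*} (K : Type*) [Field K] [CharP K 2] [AddCommGroup M] [Module K M] (v : M) : v + v = 0 := by
  rw [← two_smul K v]
  have : (2 : K) = 0 := by
    have := CharP.cast_eq_zero K 2
    exact_mod_cast this
  rw [this, zero_smul]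

section main
variable {S M K : Type*} [Group S] [Finite S] [Field K] [IsAlgClosed K] [CharP K 2] [AddCommGroup M] [Module K M]
variable (τ : Representation K S M) (P : Subgroup S) [hPn : P.Normal] [Fintype ↥P]


/-- a vector of support exactly a given orbit of a `2`-subgroup. -/
theorem exists_supp (hc : ∀ a b : ↥P, a * b = b * a) (hodd : Odd (Nat.card ↥P)) (A : Subgroup S) (n : ℕ)
    (hA : Nat.card A = 2 ^ n) (μ : ↥P →* Kˣ) (w : M) (hw : e τ P μ w ≠ 0) :
    ∃ v : M, (∀ a ∈ A, τ a v = v) ∧ supp τ P v = {ν | ∃ a ∈ A, ν = cj P a μ} := by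
  set Δ : Set (↥P →* Kˣ) := {ν | ∃ a ∈ A, ν = cj P a μ} with hΔ
  set T : Set M := {v | ∀ ν, ν ∉ Δ → e τ P ν v = 0} with hT
  have hΔinv : ∀ a ∈ A, ∀ ν, cj P a ν ∈ Δ → ν ∈ Δ := by
    rintro a ha ν ⟨b, hb, h⟩
    refine ⟨a⁻¹ * b, mul_mem (inv_mem ha) hb, ?_⟩
    rw [cj_mul, ← h, cj_inv_cj]
  obtain ⟨v, hv, hv0, hfix⟩ := exists_fixed τ (two_zero K) T
    (fun v hv w hw ν hν => by rw [map_add, hv ν hν, hw ν hν, add_zero])
    ⟨e τ P μ w, fun ν hν => e_e_ne τ P (fun h => hν (by rw [h]; exact ⟨1, one_mem _, (cj_one P μ).symm⟩)) w, hw⟩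
    n A hA (by
      intro g hg v hv ν hν
      have h1 : ν = cj P g (cj P g⁻¹ ν) := by rw [← cj_mul, mul_inv_cancel, cj_one]
      rw [h1, e_cj]
      have h2 : cj P g⁻¹ ν ∉ Δ := fun h => hν (by
        have := hΔinv g⁻¹ (inv_mem hg) (cj P g⁻¹⁻¹ (cj P g⁻¹ ν))
        rw [cj_inv_cj] at this
        exact this h)
      rw [hv _ h2, map_zero])
  refine ⟨v, hfix, ?_⟩
  have hinv : ∀ a ∈ A, ∀ ν, cj P a ν ∈ supp τ P v ↔ ν ∈ supp τ P v := by
    intro a ha ν
    have := mem_supp_cj τ P a ν v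
    rwa [hfix a ha] at this
  obtain ⟨ν, hν⟩ := supp_nonempty τ P hc hodd hv0
  have hνΔ : ν ∈ Δ := by
    by_contra h
    exact hν (hv ν h)
  obtain ⟨b, hb, hbν⟩ := hνΔ
  have hμ : μ ∈ supp τ P v := by
    rw [hbν] at hν
    exact (hinv b hb μ).mp hν
  ext κ
  constructor
  · intro hκ
    by_contra h
    exact hκ (hv κ h)
  · rintro ⟨a, ha, rfl⟩
    exact (hinv a ha μ).mpr hμ

theorem lambda_ne (hc : ∀ a b : ↥P, a * b = b * a) (hodd : Odd (Nat.card ↥P)) (hne : ∃ x : ↥P, τ (x : S) ≠ 1) :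
    ∃ (μ : ↥P →* Kˣ) (w : M), μ ≠ 1 ∧ e τ P μ w ≠ 0 := by
  haveI := (finite_char (K := K) hc hodd).1
  haveI := Fintype.ofFinite (↥P →* Kˣ)
  by_contra hcon
  push Not at hcon
  obtain ⟨x, hx⟩ := hne
  apply hx
  ext v
  have h1 := sum_e τ P hc hodd v
  rw [Finset.sum_eq_single (1 : ↥P →* Kˣ) (fun μ _ hμ => hcon μ v hμ) (fun h => absurd (Finset.mem_univ _) h)] at h1
  have h2 := tau_e τ P x 1 v
  rw [h1] at h2
  rw [h2]
  simp

end main

section orb
variable {S K : Type*} [Group S] [Finite S] [Field K] (P : Subgroup S) [hPn : P.Normal]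

/-- `Q` of prime order `q` fixes no character, `A` is a `2`-group: `A` is not transitive on the orbit. -/
theorem exists_not_orbit (hfin : Finite (↥P →* Kˣ)) (A Q : Subgroup S) (n q : ℕ) (hq : q.Prime) (hq2 : q ≠ 2)
    (hA : Nat.card A = 2 ^ n) (hQ : Nat.card Q = q) (μ : ↥P →* Kˣ)
    (hfix : ∀ g : S, ¬ ∀ x ∈ Q, cj P x (cj P g μ) = cj P g μ) :
    ∃ g : S, ∀ a ∈ A, cj P g μ ≠ cj P a μ := by
  by_contra hcon
  push Not at hcon
  letI := act K P
  haveI : Fact q.Prime := ⟨hq⟩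
  have h1 : MulAction.orbit S μ = MulAction.orbit ↥A μ := by
    ext ν
    constructor
    · rintro ⟨g, rfl⟩
      obtain ⟨a, ha, h⟩ := hcon g
      exact ⟨⟨a, ha⟩, h.symm⟩
    · rintro ⟨a, rfl⟩
      exact ⟨(a : S), rfl⟩
  have h2 : Nat.card (MulAction.orbit ↥A μ) ∣ 2 ^ n := by
    rw [← hA]
    have := MulAction.index_stabilizer (G := ↥A) (x := μ)
    rw [Nat.card_coe_set_eq, ← this]
    exact Subgroup.index_dvd_card _
  have h3 : q ∣ Nat.card (MulAction.orbit S μ) := by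
    have h4 : IsPGroup q ↥Q := IsPGroup.of_card (n := 1) (by rw [hQ, pow_one])
    have h5 := h4.card_modEq_card_fixedPoints (MulAction.orbit S μ)
    have h6 : Nat.card (MulAction.fixedPoints ↥Q (MulAction.orbit S μ)) = 0 := by
      haveI : IsEmpty (MulAction.fixedPoints ↥Q (MulAction.orbit S μ)) := by
        refine ⟨fun ⟨⟨ν, g, hg⟩, hν⟩ => hfix g fun x hx => ?_⟩
        have := congrArg Subtype.val (hν ⟨x, hx⟩)
        have h7 : ν = cj P g μ := hg.symm
        rw [← h7]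
        exact this
      exact Nat.card_of_isEmpty
    rw [h6] at h5
    exact (Nat.modEq_zero_iff_dvd).mp h5
  rw [h1] at h3
  have h8 := (h3.trans h2)
  have h9 := (Nat.prime_dvd_prime_iff_eq hq Nat.prime_two).mp (hq.dvd_of_dvd_pow h8)
  exact hq2 h9

theorem cj_of_mem (hc : ∀ a b : ↥P, a * b = b * a) {x : S} (hx : x ∈ P) (ν : ↥P →* Kˣ) : cj P x ν = ν := by
  ext y
  rw [cj_apply]
  congr 2
  apply Subtype.ext
  rw [MulAut.conjNormal_apply, inv_inv]
  have := congrArg Subtype.val (hc ⟨x, hx⟩ y)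
  simp only [Subgroup.coe_mul] at this
  rw [mul_assoc, ← this, inv_mul_cancel_left]

theorem not_fix (Q : Subgroup S) (hcomm : ⁅P, Q⁆ = P) (ν : ↥P →* Kˣ) (hfix : ∀ x ∈ Q, cj P x ν = ν) : ν = 1 := by
  have h1 : ⁅P, Q⁆ ≤ ν.ker.map P.subtype := by
    rw [commutator_le]
    intro a ha g hg
    have h2 : ν (MulAut.conjNormal (H := P) g (⟨a, ha⟩ : ↥P)⁻¹) = ν (⟨a, ha⟩ : ↥P)⁻¹ := by
      have := DFunLike.congr_fun (hfix g⁻¹ (inv_mem hg)) (⟨a, ha⟩ : ↥P)⁻¹
      rwa [cj_apply, inv_inv] at this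
    refine ⟨(⟨a, ha⟩ : ↥P) * MulAut.conjNormal (H := P) g (⟨a, ha⟩ : ↥P)⁻¹, ?_, ?_⟩
    · show ν _ = 1
      rw [map_mul, h2, map_inv, mul_inv_cancel]
    · simp only [Subgroup.subtype_apply, Subgroup.coe_mul, MulAut.conjNormal_apply, Subgroup.coe_inv]
      rw [commutatorElement_def]
      group
  rw [hcomm] at h1
  ext y
  obtain ⟨z, hz, hzy⟩ := h1 y.2
  have : z = y := Subtype.ext hzy
  rw [← this]
  have h3 : ν z = 1 := hz
  rw [h3]; rfl

end orb

section key
variable {S M K : Type*} [Group S] [Finite S] [Field K] [IsAlgClosed K] [CharP K 2] [AddCommGroup M] [Module K M]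
variable (τ : Representation K S M) (P : Subgroup S) [hPn : P.Normal] [Fintype ↥P]

theorem key (hc : ∀ a b : ↥P, a * b = b * a) (hodd : Odd (Nat.card ↥P)) (A Q : Subgroup S) (n q : ℕ) (hq : q.Prime) (hq2 : q ≠ 2)
    (hA : Nat.card A = 2 ^ n) (hQ : Nat.card Q = q) (htop : A ⊔ P ⊔ Q = ⊤) (hcomm : ⁅P, Q⁆ = P)
    (hne : ∃ x : ↥P, τ (x : S) ≠ 1) :
    ∃ v1 v2 : M, (∀ a ∈ A, τ a v1 = v1) ∧ (∀ a ∈ A, τ a v2 = v2) ∧ LinearIndependent K ![v1, v2] ∧
      ∃ g ∈ Q, τ g v1 ∉ Submodule.span K {v1, v2} := by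
  have hfin : Finite (↥P →* Kˣ) := (finite_char (K := K) hc hodd).1
  obtain ⟨μ, w, hμ, hw⟩ := lambda_ne τ P hc hodd hne
  obtain ⟨g, hg⟩ := exists_not_orbit P hfin A Q n q hq hq2 hA hQ μ (by
    intro g hfix
    have h1 := not_fix P Q hcomm (cj P g μ) hfix
    apply hμ
    rw [← cj_inv_cj P g μ, h1]
    ext y
    rfl)
  have hw2 : e τ P (cj P g μ) (τ g w) ≠ 0 := (mem_supp_cj τ P g μ w).mpr hw
  obtain ⟨v1, hv1, hs1⟩ := exists_supp τ P hc hodd A n hA μ w hw
  obtain ⟨v2, hv2, hs2⟩ := exists_supp τ P hc hodd A n hA (cj P g μ) (τ g w) hw2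
  set Δ1 : Set (↥P →* Kˣ) := {ν | ∃ a ∈ A, ν = cj P a μ} with hΔ1
  set Δ2 : Set (↥P →* Kˣ) := {ν | ∃ a ∈ A, ν = cj P a (cj P g μ)} with hΔ2
  have hdisj : ∀ ν, ν ∈ Δ1 → ν ∉ Δ2 := by
    rintro ν ⟨a, ha, rfl⟩ ⟨b, hb, h⟩
    apply hg (b⁻¹ * a) (mul_mem (inv_mem hb) ha)
    rw [cj_mul, h, cj_inv_cj]
  have hμ1 : μ ∈ Δ1 := ⟨1, one_mem _, (cj_one P μ).symm⟩
  have hgμ2 : cj P g μ ∈ Δ2 := ⟨1, one_mem _, (cj_one P _).symm⟩
  have hm1 : ∀ ν, e τ P ν v1 ≠ 0 ↔ ν ∈ Δ1 := fun ν => by rw [← hs1]; rfl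
  have hm2 : ∀ ν, e τ P ν v2 ≠ 0 ↔ ν ∈ Δ2 := fun ν => by rw [← hs2]; rfl
  have hsum : ∀ (a b : K) (ν : ↥P →* Kˣ), e τ P ν (a • v1 + b • v2) ≠ 0 ↔ (a ≠ 0 ∧ ν ∈ Δ1) ∨ (b ≠ 0 ∧ ν ∈ Δ2) := by
    intro a b ν
    rw [map_add, map_smul, map_smul]
    by_cases h1 : ν ∈ Δ1
    · have h2 : ν ∉ Δ2 := hdisj ν h1
      have h3 : e τ P ν v2 = 0 := by
        by_contra h; exact h2 ((hm2 ν).mp h)
      rw [h3, smul_zero, add_zero]
      have h4 := (hm1 ν).mpr h1
      simp [h1, h2, h4]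
    · have h3 : e τ P ν v1 = 0 := by
        by_contra h; exact h1 ((hm1 ν).mp h)
      rw [h3, smul_zero, zero_add]
      by_cases h2 : ν ∈ Δ2
      · have h4 := (hm2 ν).mpr h2
        simp [h1, h2, h4]
      · have h4 : e τ P ν v2 = 0 := by
          by_contra h; exact h2 ((hm2 ν).mp h)
        simp [h1, h2, h4]
  refine ⟨v1, v2, hv1, hv2, ?_, ?_⟩
  · rw [LinearIndependent.pair_iff]
    intro a b hab
    constructor
    · by_contra ha
      exact (hsum a b μ).mpr (Or.inl ⟨ha, hμ1⟩) (by rw [hab, map_zero])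
    · by_contra hb
      exact (hsum a b (cj P g μ)).mpr (Or.inr ⟨hb, hgμ2⟩) (by rw [hab, map_zero])
  · by_contra hcon
    push Not at hcon
    have hcase : ∀ x ∈ Q, (∀ ν, ν ∈ Δ1 ↔ cj P x ν ∈ Δ1) ∨ (∀ ν, ν ∈ Δ1 ↔ cj P x ν ∈ Δ2) := by
      intro x hx
      obtain ⟨a, b, hab⟩ := Submodule.mem_span_pair.mp (hcon x hx)
      have h1 : ∀ ν, ν ∈ Δ1 ↔ (a ≠ 0 ∧ cj P x ν ∈ Δ1) ∨ (b ≠ 0 ∧ cj P x ν ∈ Δ2) := by
        intro ν
        rw [← hsum, hab]
        rw [← hm1]
        exact (mem_supp_cj τ P x ν v1).symm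
      by_cases ha : a = 0
      · by_cases hb : b = 0
        · have := (h1 μ).mp hμ1
          simp [ha, hb] at this
        · right
          intro ν
          rw [h1 ν]; simp [ha, hb]
      · by_cases hb : b = 0
        · left
          intro ν
          rw [h1 ν]; simp [ha, hb]
        · exfalso
          have h2 : (cj P x) '' Δ1 = Δ1 ∪ Δ2 := by
            ext κ
            constructor
            · rintro ⟨ν, hν, rfl⟩
              have := (h1 ν).mp hν
              simpa [ha, hb] using this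
            · intro hκ
              refine ⟨cj P x⁻¹ κ, ?_, ?_⟩
              · rw [h1]
                have h3 : cj P x (cj P x⁻¹ κ) = κ := by rw [← cj_mul, mul_inv_cancel, cj_one]
                rw [h3]
                simpa [ha, hb] using hκ
              · rw [← cj_mul, mul_inv_cancel, cj_one]
          have hinj : Function.Injective (cj P x : (↥P →* Kˣ) → _) := by
            intro ν κ h
            rw [← cj_inv_cj P x ν, h, cj_inv_cj]
          have h3 : (Δ1 ∪ Δ2).ncard = Δ1.ncard := by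
            rw [← h2, Set.ncard_image_of_injective _ hinj]
          have h4 : Δ1 = Δ1 ∪ Δ2 := Set.eq_of_subset_of_ncard_le Set.subset_union_left h3.le (Set.toFinite _)
          have h5 : cj P g μ ∈ Δ1 := by rw [h4]; exact Or.inr hgμ2
          exact hdisj _ h5 hgμ2
    let St : Subgroup S :=
      { carrier := {x | ∀ ν, ν ∈ Δ1 ↔ cj P x ν ∈ Δ1}
        mul_mem' := by
          intro x y hx hy ν
          rw [cj_mul]
          exact (hy ν).trans (hx _)
        one_mem' := by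
          intro ν; rw [cj_one]
        inv_mem' := by
          intro x hx ν
          have := hx (cj P x⁻¹ ν)
          rw [← cj_mul, mul_inv_cancel, cj_one] at this
          exact this.symm }
    have hASt : A ≤ St := by
      intro x hx ν
      constructor
      · rintro ⟨a, ha, rfl⟩
        exact ⟨x * a, mul_mem hx ha, by rw [cj_mul]⟩
      · rintro ⟨a, ha, h⟩
        exact ⟨x⁻¹ * a, mul_mem (inv_mem hx) ha, by rw [cj_mul, ← h, cj_inv_cj]⟩
    have hPSt : P ≤ St := by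
      intro x hx ν
      rw [cj_of_mem P hc hx]
    have hQSt : Q ≤ St := by
      intro x hx
      have hxx : x * x ∈ Q := mul_mem hx hx
      rcases hcase x hx with h | h
      · exact h
      · rcases hcase (x * x) hxx with h' | h'
        · have h2 : x * x ∈ St := h'
          have h3 : x ^ q = 1 := by
            have := pow_card_eq_one' (G := Q) (x := ⟨x, hx⟩)
            rw [hQ] at this
            simpa using congrArg Subtype.val this
          obtain ⟨k, hk⟩ := hq.odd_of_ne_two hq2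
          have h4 : x = (x * x) ^ (k + 1) := by
            rw [← pow_two, ← pow_mul]
            have : 2 * (k + 1) = q + 1 := by omega
            rw [this, pow_succ, h3, one_mul]
          rw [h4]
          exact pow_mem h2 _
        · intro ν
          rw [h' ν, cj_mul, ← h]
    have hall : g ∈ St := by
      have : A ⊔ P ⊔ Q ≤ St := sup_le (sup_le hASt hPSt) hQSt
      rw [htop] at this
      exact this (mem_top g)
    exact hdisj _ ((hall μ).mp hμ1) hgμ2

end key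

end Cfsg.Agent.H73.Wt
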