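import Cfsg.Agent.H73.Wt3

set_option autoImplicit false
set_option linter.unusedSectionVars false
set_option linter.unusedVariables false
set_option linter.style.haveILetI false

namespace Cfsg.Agent.H73.Wt
open Subgroup TensorProduct

section bc
variable {S E k K : Type*} [Group S] [Field k] [Field K] [Algebra k K] [AddCommGroup E] [Module k E]

/-- base change of a representation. -/
noncomputable def bc (K : Type*) [Field K] [Algebra k K] (ρ : Representation k S E) : Representation K S (K ⊗[k] E) where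
  toFun s := (ρ s).baseChange K
  map_one' := by
    refine LinearMap.ext fun v => ?_
    induction v using TensorProduct.induction_on with
    | zero => rw [map_zero, map_zero]
    | tmul a x => rw [LinearMap.baseChange_tmul, map_one]; rfl
    | add x y hx hy => rw [map_add, map_add, hx, hy]
  map_mul' s t := by
    refine LinearMap.ext fun v => ?_
    induction v using TensorProduct.induction_on with
    | zero => rw [map_zero, map_zero]
    | tmul a x => rw [LinearMap.baseChange_tmul, map_mul]; rfl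
    | add x y hx hy => rw [map_add, map_add, hx, hy]

theorem bc_tmul (ρ : Representation k S E) (s : S) (a : K) (x : E) : bc K ρ s (a ⊗ₜ[k] x) = a ⊗ₜ[k] ρ s x := rfl

variable {ι : Type*} [DecidableEq ι] (b : Module.Basis ι k K)

theorem coord_bc (ρ : Representation k S E) (s : S) (v : K ⊗[k] E) (i : ι) :
    TensorProduct.equivFinsuppOfBasisLeft b (bc K ρ s v) i = ρ s (TensorProduct.equivFinsuppOfBasisLeft b v i) := by
  induction v using TensorProduct.induction_on with
  | zero => simp
  | tmul a x =>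
    rw [bc_tmul, TensorProduct.equivFinsuppOfBasisLeft_apply_tmul_apply,
      TensorProduct.equivFinsuppOfBasisLeft_apply_tmul_apply, map_smul]
  | add x y hx hy =>
    simp only [map_add, Finsupp.add_apply, hx, hy]

theorem mem_span_of_coord (T : Submodule k E) (v : K ⊗[k] E)
    (hv : ∀ i, TensorProduct.equivFinsuppOfBasisLeft b v i ∈ T) :
    v ∈ Submodule.span K ((fun x : E => (1 : K) ⊗ₜ[k] x) '' (T : Set E)) := by
  have h1 := TensorProduct.equivFinsuppOfBasisLeft_symm_apply b (TensorProduct.equivFinsuppOfBasisLeft b v)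
  rw [LinearEquiv.symm_apply_apply] at h1
  rw [h1]
  refine Submodule.sum_mem _ fun i _ => ?_
  show b i ⊗ₜ[k] (TensorProduct.equivFinsuppOfBasisLeft b v i) ∈ _
  have h2 : b i ⊗ₜ[k] (TensorProduct.equivFinsuppOfBasisLeft b v i) =
      b i • ((1 : K) ⊗ₜ[k] (TensorProduct.equivFinsuppOfBasisLeft b v i)) := by
    rw [TensorProduct.smul_tmul', smul_eq_mul, mul_one]
  rw [h2]
  exact Submodule.smul_mem _ _ (Submodule.subset_span ⟨_, hv i, rfl⟩)

include b in
theorem one_tmul_inj {x y : E} (h : (1 : K) ⊗ₜ[k] x = (1 : K) ⊗ₜ[k] y) : x = y := by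
  obtain ⟨i, hi⟩ : ∃ i, b.repr (1 : K) i ≠ 0 := by
    by_contra hcon
    push Not at hcon
    have : b.repr (1 : K) = 0 := Finsupp.ext hcon
    rw [LinearEquiv.map_eq_zero_iff] at this
    exact one_ne_zero this
  have h2 := congrArg (fun w => TensorProduct.equivFinsuppOfBasisLeft b w i) h
  simp only [TensorProduct.equivFinsuppOfBasisLeft_apply_tmul_apply] at h2
  have h3 := congrArg (fun w => (b.repr (1 : K) i)⁻¹ • w) h2
  simpa [smul_smul, inv_mul_cancel₀ hi] using h3

theorem span_le_basis [FiniteDimensional k E] (T : Submodule k E) :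
    Submodule.span K ((fun x : E => (1 : K) ⊗ₜ[k] x) '' (T : Set E)) ≤
      Submodule.span K (Set.range fun i : Fin (Module.finrank k T) => (1 : K) ⊗ₜ[k] ((Module.finBasis k T i : T) : E)) := by
  rw [Submodule.span_le]
  rintro _ ⟨x, hx, rfl⟩
  have h1 := (Module.finBasis k T).sum_repr ⟨x, hx⟩
  have h2 : x = ∑ i, (Module.finBasis k T).repr ⟨x, hx⟩ i • ((Module.finBasis k T i : T) : E) := by
    have h3 := congrArg T.subtype h1
    rw [map_sum] at h3
    refine Eq.trans ?_ (h3.symm.trans ?_)
    · rfl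
    · refine Finset.sum_congr rfl fun i _ => ?_
      rw [map_smul]; rfl
  show (1 : K) ⊗ₜ[k] x ∈ _
  rw [h2, TensorProduct.tmul_sum]
  refine Submodule.sum_mem _ fun i _ => ?_
  rw [TensorProduct.tmul_smul, ← algebraMap_smul K]
  exact Submodule.smul_mem _ _ (Submodule.subset_span ⟨i, rfl⟩)

end bc

section fin
variable {S E : Type*} [Group S] [Finite S] [AddCommGroup E] [Module (ZMod 2) E] [Finite E]
variable (ρ : Representation (ZMod 2) S E)

/-- the fixed points. -/
def fx (A : Subgroup S) : Submodule (ZMod 2) E where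
  carrier := {v | ∀ s ∈ A, ρ s v = v}
  add_mem' := by
    intro a b ha hb s hs
    rw [map_add, ha s hs, hb s hs]
  zero_mem' := fun s _ => map_zero _
  smul_mem' := by
    intro c v hv s hs
    rw [map_smul, hv s hs]

theorem final (P A Q : Subgroup S) [P.Normal] (hc : ∀ a b : ↥P, a * b = b * a) (hodd : Odd (Nat.card ↥P)) (n q : ℕ)
    (hq : q.Prime) (hq2 : q ≠ 2) (hA : Nat.card A = 2 ^ n) (hQ : Nat.card Q = q) (htop : A ⊔ P ⊔ Q = ⊤)
    (hcomm : ⁅P, Q⁆ = P) (hne : ∃ x : ↥P, ρ (x : S) ≠ 1) :
    8 ≤ Nat.card (fx ρ A) ∨ (Nat.card (fx ρ A) = 4 ∧ ∃ x ∈ Q, ∃ v ∈ fx ρ A, ρ x v ∉ fx ρ A) := by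
  classical
  let K := AlgebraicClosure (ZMod 2)
  haveI : CharP K 2 := inferInstance
  haveI := Fintype.ofFinite ↥P
  haveI : FiniteDimensional (ZMod 2) E := Module.Finite.of_finite
  let τ := bc K ρ
  have hne' : ∃ x : ↥P, τ (x : S) ≠ 1 := by
    obtain ⟨x, hx⟩ := hne
    refine ⟨x, fun h => hx ?_⟩
    ext v
    have h1 : τ (x : S) ((1 : K) ⊗ₜ[ZMod 2] v) = (1 : K) ⊗ₜ[ZMod 2] v := by rw [h]; rfl
    have h2 : (1 : K) ⊗ₜ[ZMod 2] ρ (x : S) v = (1 : K) ⊗ₜ[ZMod 2] v := h1
    exact one_tmul_inj (Module.Basis.ofVectorSpace (ZMod 2) K) h2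
  obtain ⟨v1, v2, hv1, hv2, hli, g, hg, hgv⟩ := key τ P hc hodd A Q n q hq hq2 hA hQ htop hcomm hne'
  set T := fx ρ A with hT
  let b := Module.Basis.ofVectorSpace (ZMod 2) K
  have hF : ∀ v, (∀ a ∈ A, τ a v = v) → v ∈ Submodule.span K ((fun x : E => (1 : K) ⊗ₜ[ZMod 2] x) '' (T : Set E)) := by
    intro v hv
    apply mem_span_of_coord b
    intro i a ha
    rw [← coord_bc b ρ a v i]
    exact congrArg (fun w => TensorProduct.equivFinsuppOfBasisLeft b w i) (hv a ha)
  set F := Submodule.span K (Set.range fun i : Fin (Module.finrank (ZMod 2) T) =>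
    (1 : K) ⊗ₜ[ZMod 2] ((Module.finBasis (ZMod 2) T i : T) : E)) with hFdef
  have h1 : v1 ∈ F := span_le_basis T (hF v1 hv1)
  have h2 : v2 ∈ F := span_le_basis T (hF v2 hv2)
  have hle : Submodule.span K {v1, v2} ≤ F := by
    rw [Submodule.span_le]
    rintro _ (rfl | rfl)
    · exact h1
    · exact h2
  have hFfin : Module.finrank K F ≤ Module.finrank (ZMod 2) T := by
    have := finrank_range_le_card (R := K) (fun i : Fin (Module.finrank (ZMod 2) T) =>
      (1 : K) ⊗ₜ[ZMod 2] ((Module.finBasis (ZMod 2) T i : T) : E))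
    rw [Fintype.card_fin] at this
    exact this
  have hspan2 : Module.finrank K (Submodule.span K {v1, v2}) = 2 := by
    have h5 := finrank_span_eq_card hli
    rw [Fintype.card_fin, Matrix.range_cons, Matrix.range_cons, Matrix.range_empty, Set.union_empty,
      Set.singleton_union] at h5
    exact h5
  haveI : FiniteDimensional K F := by
    rw [hFdef]
    exact FiniteDimensional.span_of_finite K (Set.finite_range _)
  have h2r : 2 ≤ Module.finrank (ZMod 2) T := by
    exact hspan2.symm.le.trans ((Submodule.finrank_mono hle).trans hFfin)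
  have hcard : Nat.card T = 2 ^ Module.finrank (ZMod 2) T := by
    have := Module.natCard_eq_pow_finrank (K := ZMod 2) (V := T)
    rwa [Nat.card_zmod] at this
  rcases Nat.lt_or_ge 2 (Module.finrank (ZMod 2) T) with h | h
  · left
    rw [hcard]
    calc 8 = 2 ^ 3 := by norm_num
      _ ≤ _ := Nat.pow_le_pow_right (by norm_num) h
  · right
    have hr : Module.finrank (ZMod 2) T = 2 := le_antisymm h h2r
    refine ⟨by rw [hcard, hr]; norm_num, ?_⟩
    by_contra hcon
    push Not at hcon
    have hFe : Submodule.span K {v1, v2} = F := by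
      apply Submodule.eq_of_le_of_finrank_le hle
      rw [hspan2]
      exact hFfin.trans h
    apply hgv
    rw [hFe]
    have hmap : F ≤ F.comap (τ g) := by
      rw [hFdef, Submodule.span_le]
      rintro _ ⟨i, rfl⟩
      show τ g ((1 : K) ⊗ₜ[ZMod 2] ((Module.finBasis (ZMod 2) T i : T) : E)) ∈ F
      have h3 : τ g ((1 : K) ⊗ₜ[ZMod 2] ((Module.finBasis (ZMod 2) T i : T) : E)) =
        (1 : K) ⊗ₜ[ZMod 2] ρ g ((Module.finBasis (ZMod 2) T i : T) : E) := rfl
      rw [h3]
      exact span_le_basis T (Submodule.subset_span ⟨_, hcon g hg _ (Module.finBasis (ZMod 2) T i).2, rfl⟩)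
    exact hmap h1

end fin

end Cfsg.Agent.H73.Wt
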